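import Cfsg.Agent.H578.RC.Lin_m3
import Cfsg.Agent.H916.RG.Pair_m3
import Cfsg.Agent.GenOrth.Normal
import Cfsg.Agent.H236.RC.Ident
import Cfsg.Agent.H31.RC.Spor.Gen
import Cfsg.Agent.H955.QSpace
import Cfsg.Agent.J3.Fix
import Cfsg.Agent.LieClassical.OrthFinite
import Cfsg.Agent.H233.RC.RedA
import Cfsg.Agent.H510.CS.Irr_m3
import Cfsg.Agent.LieClassical.HermSimple
import Cfsg.Agent.H520.RC.MHom
import Mathlib
import Cfsg.Agent.LieClassical.HermBasic
import Cfsg.Agent.H384.RC.Lin
import Cfsg.Agent.FastGrp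
import Cfsg.Agent.Prune
set_option linter.all false

section
prune_inst 0x7ffeeffcabb8b9dedfff7e7fa7dccdfc39919fffa4dff94bbfe02bcf5b9f030009e523ad09e080fe4ee3623410a87843f9ffeebfe26bd87ffffd1df41ffbee4ff5f7b50851d488340fbc0ff603f0778e7f3fffffffffffffffffffffffffffbeffbfffffffff

-- part: H188/RC/ThmA
section
prune_inst 0x1003444204002000818058221201c66c6000522004b44000c430a060ec1ee612d852e61b3f0011148908cd56039006001040010426800000e208c000119008004835202b348a10426009e000804000000000000000000000000000000000000000000000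
set_option linter.all false
open scoped Cfsg.Agent.FastGrp

/-!
# S3510, row F, box F2 (Theorem A) (helper188)

`W` a proper good subspace invariant under the lifts `M i` of the members `x i` of a cover, not all of them scalar on
`W`. The long root elements of `W` together with the `x i` which are scalar on `W` form a cover.
-/

set_option autoImplicit false
open Cfsg

namespace Cfsg.Agent.H188.RC

open QuadraticMap MulAction
open Cfsg.Agent.LieClassical.OrthCore Cfsg.Agent.LieClassical.OrthTrans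
open Cfsg.Agent.LieClassical.OrthSimple Cfsg.Agent.ClassicalGeometry.OrthSemi
open Cfsg.Agent.ClassicalGeometry.OrthAut1 Cfsg.Agent.H106.RC Cfsg.Agent.H93.RC
open Cfsg.Agent.GenOrth

section lin

variable {F V : Type*} [Field F] [AddCommGroup V] [Module F V] {Q : QuadraticForm F V} {W : Submodule F V}

/-- restriction of a semisimilitude to an invariant subspace -/
theorem exists_restr [Finite V] {M : Equiv.Perm V} {σ : F ≃+* F} {c : F} (hM : IsSS Q σ c M)
    (h : ∀ v ∈ W, M v ∈ W) :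
    ∃ N : Equiv.Perm W, IsSS (Q.comp W.subtype) σ c N ∧ ∀ w : W, ((N w : W) : V) = M w := by
  have hinj : Function.Injective (fun w : W => (⟨M w, h w w.2⟩ : W)) := by
    intro a b hab
    exact Subtype.ext (M.injective (congrArg Subtype.val hab))
  refine ⟨Equiv.ofBijective _ (Finite.injective_iff_bijective.mp hinj), ⟨hM.ne, ?_, ?_, ?_⟩, fun w => rfl⟩
  · intro u v
    exact Subtype.ext (hM.add u v)
  · intro a v
    exact Subtype.ext (hM.smul a v)
  · intro v
    exact hM.form v

/-- central elements are scalars -/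
theorem scal_of_center (hG : Good Q) {g : ↥(E Q)} (hg : g ∈ Subgroup.center ↥(E Q)) :
    ∃ a : F, a ≠ 0 ∧ ∀ v, (g : V ≃ₗ[F] V) v = a • v := by
  have h1 : conjE Q (tg Q g) = 1 := by
    ext t : 1
    rw [conjE_tg, MulAut.one_apply, ← Subgroup.mem_center_iff.mp hg t, mul_inv_cancel_right]
  exact exists_scalar_of_conjE hG (tg Q g) h1

/-- `P Q` is not commutative -/
theorem not_comm_P (hG : Good Q) : ¬ IsMulCommutative (P Q) := by
  intro hc
  have hs : IsSimpleGroup (P Q) := good_isSimpleGroup hG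
  have h1 : commutator (P Q) = ⊤ := by
    have h2 : (commutator ↥(E Q)).map (QuotientGroup.mk' (Subgroup.center ↥(E Q))) = ⊤ := by
      rw [commutator_E hG, ← MonoidHom.range_eq_map]
      exact MonoidHom.range_eq_top.mpr (QuotientGroup.mk'_surjective _)
    rw [eq_top_iff, ← h2, commutator_def, Subgroup.map_commutator]
    exact Subgroup.commutator_mono le_top le_top
  have h3 : commutator (P Q) = ⊥ := by
    rw [commutator_def, Subgroup.commutator_eq_bot_iff_le_centralizer]
    intro x _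
    rw [Subgroup.mem_centralizer_iff]
    intro y _
    exact hc.is_comm.comm y x
  rw [h1] at h3
  have := hs.toNontrivial
  exact top_ne_bot h3

/-- two independent orthogonal singular vectors -/
theorem exists_plane (hG : Good Q) : ∃ u w : V, Q u = 0 ∧ Q w = 0 ∧ polar Q u w = 0 ∧ u ≠ 0 ∧ ∀ a : F, w ≠ a • u := by
  obtain ⟨x, y, hxy⟩ := hG.exists_hyp
  obtain ⟨z, w, hz, hz1, hz2, hz3, hz4⟩ := hG.exists_hyp2 hxy
  refine ⟨x, z, hxy.left, hz.left, hz1, hxy.left_ne, ?_⟩
  rintro a rfl
  have := hz.pair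
  rw [polar_smul_left, hz2, smul_zero] at this
  exact zero_ne_one this

section fd

variable [FiniteDimensional F V]

/-- the embedding of a nondegenerate subspace -/
noncomputable def embW (hW : Nondeg (Q.comp W.subtype)) : Emb Q (Q.comp W.subtype) :=
  ofLin W.subtype 1 one_ne_zero (fun x => by rw [one_mul]; rfl) hW

theorem embW_j (hW : Nondeg (Q.comp W.subtype)) (x : W) : (embW hW).j x = (x : V) := rfl

theorem embW_c (hW : Nondeg (Q.comp W.subtype)) : (embW hW).c = 1 := rfl

/-- the projection commutes with the restriction -/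
theorem π_restr (hW : Nondeg (Q.comp W.subtype)) {M : Equiv.Perm V} {σ : F ≃+* F} {c : F}
    (hM : IsSS Q σ c M) {N : Equiv.Perm W} (hN : IsSS (Q.comp W.subtype) σ c N)
    (hNM : ∀ w : W, ((N w : W) : V) = M w) (v : V) : (embW hW).π (M v) = N ((embW hW).π v) := by
  rw [← sub_eq_zero]
  apply hW
  intro y
  obtain ⟨x, rfl⟩ := N.surjective y
  have h1 := (embW hW).adj (N x) (M v)
  have h2 := (embW hW).adj x v
  rw [embW_j, embW_c, one_mul] at h1 h2
  rw [hNM, hM.polar, h2, ← hN.polar] at h1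
  rw [polar_comm, polar_sub_right, ← h1, sub_self]

/-- conjugation of the extensions -/
theorem conjE_extE (hW : Nondeg (Q.comp W.subtype)) (M : Gam Q) (N : Gam (Q.comp W.subtype))
    (hNM : ∀ w : W, ((N.1 w : W) : V) = M.1 w) (hπ : ∀ v, (embW hW).π (M.1 v) = N.1 ((embW hW).π v))
    (g : ↥(E (Q.comp W.subtype))) :
    conjE Q M ((embW hW).extE g) = (embW hW).extE (conjE (Q.comp W.subtype) N g) := by
  apply Subtype.ext
  rw [coe_conjE, Emb.extE_coe, Emb.extE_coe, coe_conjE]
  apply LinearEquiv.ext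
  intro v
  obtain ⟨v, rfl⟩ := M.1.surjective v
  rw [conjLin_apply', Emb.ext_apply, Emb.ext_apply, hπ, conjLin_apply', add_of_mem M.2]
  congr 1
  rw [embW_j, embW_j, ← hNM]
  congr 1
  obtain ⟨σ, c, hN⟩ := N.2
  exact hN.sub _ _

/-- a nonzero vector orthogonal to a proper nondegenerate subspace -/
theorem exists_perp (hW : Nondeg (Q.comp W.subtype)) (hWt : W ≠ ⊤) :
    ∃ v : V, v ≠ 0 ∧ (embW hW).π v = 0 := by
  obtain ⟨v, hv⟩ : ∃ v : V, v ∉ W := by
    by_contra hno
    push Not at hno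
    exact hWt (eq_top_iff.mpr fun v _ => hno v)
  refine ⟨v - (embW hW).j ((embW hW).π v), ?_, ?_⟩
  · intro h
    apply hv
    rw [sub_eq_zero.mp h, embW_j]
    exact Subtype.mem _
  · rw [map_sub, Emb.π_j, sub_self]

/-- extensions of elements are central only if they are trivial -/
theorem eq_one_of_extE_center (hG : Good Q) (hW : Nondeg (Q.comp W.subtype)) (hWt : W ≠ ⊤)
    {g : ↥(E (Q.comp W.subtype))} (hg : (embW hW).extE g ∈ Subgroup.center ↥(E Q)) : g = 1 := by
  obtain ⟨a, ha, h⟩ := scal_of_center hG hg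
  obtain ⟨v, hv0, hv⟩ := exists_perp hW hWt
  have h1 := h v
  rw [Emb.extE_coe, Emb.ext_of_π_eq_zero _ _ hv] at h1
  have ha1 : a = 1 := by
    have h2 : (1 - a) • v = 0 := by rw [sub_smul, one_smul, ← h1, sub_self]
    rcases smul_eq_zero.mp h2 with h3 | h3
    · exact (sub_eq_zero.mp h3).symm
    · exact (hv0 h3).elim
  apply (embW hW).extE_injective
  rw [map_one]
  apply Subtype.ext
  apply LinearEquiv.ext
  intro w
  rw [h w, ha1, one_smul]
  rfl

/-- Siegel elements of `W` -/
theorem extE_sg (hW : Nondeg (Q.comp W.subtype)) {u w : W} (hu : Q.comp W.subtype u = 0)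
    (huw : polar (Q.comp W.subtype) u w = 0) (hu' : Q (u : V) = 0) (huw' : polar Q (u : V) w = 0) :
    (embW hW).extE (AutOrth.SemiSim.sg (Q.comp W.subtype) u w hu huw) = AutOrth.SemiSim.sg Q (u : V) w hu' huw' := by
  apply Subtype.ext
  rw [Emb.extE_coe]
  have h1 : polar Q ((embW hW).j u) ((embW hW).c⁻¹ • (embW hW).j w) = 0 := by
    rw [embW_c, inv_one, one_smul]; exact huw'
  refine ((embW hW).ext_siegel hu huw hu' h1).trans ?_
  exact siegel_congr hu' h1 hu' huw' rfl (by rw [embW_c, inv_one, one_smul]; rfl)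

end fd

end lin

section main

variable {F V : Type*} [Field F] [Finite F] [AddCommGroup V] [Module F V] [FiniteDimensional F V]
  {Q : QuadraticForm F V} {G Ω : Type*} [Group G] [MulAction G Ω]
  {N : Subgroup G} {ρ : ↥(E Q) →* G} {W : Submodule F V}

/-- the homomorphism `E (Q|W) →* G` -/
noncomputable def phi (ρ : ↥(E Q) →* G) (hW : Nondeg (Q.comp W.subtype)) : ↥(E (Q.comp W.subtype)) →* G :=
  ρ.comp (embW hW).extE

theorem phi_apply (hW : Nondeg (Q.comp W.subtype)) (g : ↥(E (Q.comp W.subtype))) :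
    phi ρ hW g = ρ ((embW hW).extE g) := rfl

theorem phi_injective (hG : Good Q) (hρ : Rep Q N ρ) (hW : Nondeg (Q.comp W.subtype)) (hWt : W ≠ ⊤) :
    Function.Injective (phi ρ hW) := by
  rw [injective_iff_map_eq_one]
  intro g hg
  apply eq_one_of_extE_center hG hW hWt
  rw [← hρ.ker, MonoidHom.mem_ker]
  exact hg

/-- conjugation in `M` -/
theorem phi_conj (hW : Nondeg (Q.comp W.subtype)) {x : G} {M : Gam Q} (hl : Lf ρ x M)
    (hinv : ∀ v ∈ W, M.1 v ∈ W) :
    ∃ L : Gam (Q.comp W.subtype), (∀ w : W, ((L.1 w : W) : V) = M.1 w) ∧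
      ∀ g, x * phi ρ hW g * x⁻¹ = phi ρ hW (conjE (Q.comp W.subtype) L g) := by
  have hfin : Finite V := Module.finite_of_finite F
  obtain ⟨σ, c, hM⟩ := M.2
  obtain ⟨L, hL, hLM⟩ := exists_restr hM hinv
  refine ⟨⟨L, σ, c, hL⟩, hLM, fun g => ?_⟩
  rw [phi_apply, hl, phi_apply, conjE_extE hW M ⟨L, σ, c, hL⟩ hLM (π_restr hW hM hL hLM)]

/-- an element centralises `M` iff its lift is scalar on `W` -/
theorem cent_iff (hG : Good Q) (hρ : Rep Q N ρ) (hW : Good (Q.comp W.subtype)) (hWt : W ≠ ⊤) {x : G} {M : Gam Q}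
    (hl : Lf ρ x M) (hinv : ∀ v ∈ W, M.1 v ∈ W) :
    (∀ m ∈ (phi ρ hW.nondeg).range, x * m = m * x) ↔ ScalOn M W := by
  obtain ⟨L, hLM, hL⟩ := phi_conj hW.nondeg hl hinv
  constructor
  · intro h
    have h1 : conjE (Q.comp W.subtype) L = 1 := by
      ext g : 1
      apply phi_injective hG hρ hW.nondeg hWt
      rw [← hL, h _ ⟨g, rfl⟩, mul_inv_cancel_right, MulAut.one_apply]
    obtain ⟨a, ha, h2⟩ := exists_scalar_of_conjE hW L h1
    refine ⟨a, ha, fun v hv => ?_⟩
    have h3 := congrArg Subtype.val (h2 ⟨v, hv⟩)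
    rw [hLM] at h3
    exact h3
  · rintro ⟨a, ha, h⟩ _ ⟨g, rfl⟩
    have h1 : conjE (Q.comp W.subtype) L = 1 :=
      conjE_of_scal ⟨a, ha, fun v => Subtype.ext (by rw [hLM, h v v.2]; rfl)⟩
    have h2 := hL g
    rw [h1, MulAut.one_apply, mul_inv_eq_iff_eq_mul] at h2
    exact h2

/-- **The M-rule for `W`.** -/
theorem mrule_W [Finite G] (hG : Good Q) (hρ : Rep Q N ρ)
    {ι : Type*} [Finite ι] {x : ι → G} {M : ι → Gam Q} {r : ι → ℕ} (hl : ∀ i, Lf ρ (x i) (M i))
    (hr : ∀ i, (r i).Prime) (hx : ∀ i, x i ^ r i = 1)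
    (hc : ∀ i j, x i * x j = x j * x i) (hcov : Cov Ω x)
    (hW : Good (Q.comp W.subtype)) (hWt : W ≠ ⊤)
    (hinv : ∀ i, ∀ v ∈ W, (M i).1 v ∈ W) (hne : ∃ i, ¬ ScalOn (M i) W)
    (hinj : Set.InjOn r {i | ¬ ScalOn (M i) W})
    (hRC : RC (P (Q.comp W.subtype)) ∨ {i | ¬ ScalOn (M i) W}.Subsingleton) (ω : Ω) :
    (phi ρ hW.nondeg).range ≤ stabilizer G ω ∨ ∃ j, ScalOn (M j) W ∧ x j • ω = ω := by
  classical
  by_cases hω : ∃ j, ScalOn (M j) W ∧ x j • ω = ω
  · exact Or.inr hω
  left
  push Not at hω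
  have hφ := phi_injective (ρ := ρ) hG hρ hW.nondeg hWt
  set φ := phi ρ hW.nondeg with hφdef
  have hperf : ⁅φ.range, φ.range⁆ = φ.range := by
    have h1 : commutator ↥(E (Q.comp W.subtype)) = ⊤ := commutator_E hW
    rw [commutator_def] at h1
    rw [MonoidHom.range_eq_map φ, ← Subgroup.map_commutator, h1]
  let π : ↥φ.range →* P (Q.comp W.subtype) :=
    (QuotientGroup.mk' (Subgroup.center ↥(E (Q.comp W.subtype)))).comp (MonoidHom.ofInjective hφ).symm.toMonoidHom
  have hπ : Function.Surjective π :=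
    (QuotientGroup.mk'_surjective _).comp (MonoidHom.ofInjective hφ).symm.surjective
  have hker : π.ker ≤ Subgroup.center ↥φ.range := by
    intro m hm
    rw [MonoidHom.mem_ker] at hm
    have h1 : (MonoidHom.ofInjective hφ).symm m ∈ Subgroup.center ↥(E (Q.comp W.subtype)) :=
      (QuotientGroup.eq_one_iff _).mp hm
    rw [Subgroup.mem_center_iff]
    intro n
    apply (MonoidHom.ofInjective hφ).symm.injective
    rw [map_mul, map_mul]
    exact Subgroup.mem_center_iff.mp h1 _
  -- the subfamily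
  let K : Set ι := {i | ¬ ScalOn (M i) W}
  have hnorm : ∀ i, x i ∈ Subgroup.normalizer ((φ.range : Subgroup G) : Set G) := by
    intro i
    obtain ⟨L, -, hL⟩ := phi_conj hW.nondeg (hl i) (hinv i)
    rw [Subgroup.mem_normalizer_iff]
    intro m
    constructor
    · rintro ⟨g, rfl⟩
      exact ⟨_, (hL g).symm⟩
    · rintro ⟨g, hg⟩
      refine ⟨(conjE (Q.comp W.subtype) L)⁻¹ g, ?_⟩
      have h2 := hL ((conjE (Q.comp W.subtype) L)⁻¹ g)
      rw [MulAut.apply_inv_self] at h2
      have h3 : x i * φ ((conjE (Q.comp W.subtype) L)⁻¹ g) * (x i)⁻¹ = x i * m * (x i)⁻¹ := h2.trans hg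
      exact mul_left_cancel (mul_right_cancel h3)
  have hcent : ∀ i, (∀ m ∈ φ.range, x i * m = m * x i) ↔ ScalOn (M i) W := fun i =>
    cent_iff hG hρ hW hWt (hl i) (hinv i)
  have hcovK : ∀ m ∈ φ.range, ∃ i : K, x i • m • ω = m • ω := by
    intro m hm
    obtain ⟨i, hi⟩ := hcov (m • ω)
    by_cases hs : ScalOn (M i) W
    · exfalso
      apply hω i hs
      rw [← mul_smul, (hcent i).mpr hs m hm, mul_smul] at hi
      exact smul_left_cancel m hi
    · exact ⟨⟨i, hs⟩, hi⟩
  have hrule : φ.range ≤ stabilizer G ω ∨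
      ∃ j : K, (∀ m ∈ φ.range, x j * m = m * x j) ∧ x j • ω = ω := by
    rcases hRC with h | h
    · exact mrule_RC (good_isSimpleGroup hW) (not_comm_P hW) (fun i : K => x i) (fun i : K => r i)
        (fun i => hr i) (fun i j hij => Subtype.ext (hinj i.2 j.2 hij)) (fun i => hx i) (fun i j => hc i j)
        φ.range hperf π hπ hker (fun i => hnorm i) h ω hcovK
    · obtain ⟨i₀, hi₀⟩ := hne
      exact mrule_one (good_isSimpleGroup hW) (not_comm_P hW) (fun i : K => x i) (fun i : K => r i)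
        (fun i => hr i) (fun i j hij => Subtype.ext (hinj i.2 j.2 hij)) (fun i => hx i) (fun i j => hc i j)
        φ.range hperf π hπ hker ⟨i₀, hi₀⟩ (hnorm i₀) (fun i hi => (hi (Subtype.ext (h i.2 hi₀))).elim) ω hcovK
  rcases hrule with h | ⟨j, hj, -⟩
  · exact h
  · exact (j.2 ((hcent j).mp hj)).elim

end main

section boxA

universe u v w z

variable {F : Type u} {V : Type v} {G : Type w} {Ω : Type*} {ι : Type z} [Field F] [Finite F] [AddCommGroup V]
  [Module F V] [FiniteDimensional F V] {Q : QuadraticForm F V} [Group G] [Finite G] [MulAction G Ω] [Nonempty Ω]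
  {N : Subgroup G} {ρ : ↥(E Q) →* G}

/-- **BOX F2 (Theorem A)** from box F1 (the hypothesis `hLR`). -/
theorem box_A_of (hG : Good Q) (hρ : Rep Q N ρ) {p : ℕ}
    (hLR : ∀ (κ : Type z) [Finite κ] {y : κ → G} {L : κ → Gam Q} {s : κ → ℕ}, (∀ i, Lf ρ (y i) (L i)) →
      (∀ i, (s i).Prime) → (∀ i, s i ≠ p) → (∀ i, y i ^ s i = 1) → (∀ i, y i ≠ 1) →
      (∀ i j, y i * y j = y j * y i) → ∀ {u w : V} (hu : Q u = 0) (_ : Q w = 0) (huw : polar Q u w = 0),
      u ≠ 0 → (∀ a : F, w ≠ a • u) →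
      (∀ i, ∀ v ∈ Submodule.span F {u, w}, (L i).1 v ∈ Submodule.span F {u, w}) →
      (∀ ω : Ω, ρ (AutOrth.SemiSim.sg Q u w hu huw) • ω = ω ∨ ∃ i, y i • ω = ω) → False)
    [Finite ι] {x : ι → G} {M : ι → Gam Q} {r : ι → ℕ} (hl : ∀ i, Lf ρ (x i) (M i))
    (hr : ∀ i, (r i).Prime) (hx : ∀ i, x i ^ r i = 1) (hx1 : ∀ i, x i ≠ 1)
    (hc : ∀ i j, x i * x j = x j * x i) (hcov : Cov Ω x)
    (W : Submodule F V) (hW : Good (Q.comp W.subtype)) (hWt : W ≠ ⊤)
    (hinv : ∀ i, ∀ v ∈ W, (M i).1 v ∈ W) (hne : ∃ i, ¬ ScalOn (M i) W)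
    (hinj : Set.InjOn r {i | ¬ ScalOn (M i) W}) (hp : ∀ i, ScalOn (M i) W → r i ≠ p)
    (hRC : RC (P (Q.comp W.subtype)) ∨ {i | ¬ ScalOn (M i) W}.Subsingleton) : False := by
  obtain ⟨u, w, hu, hw, huw, hu0, hind⟩ := exists_plane hW
  have hu' : Q (u : V) = 0 := hu
  have hw' : Q (w : V) = 0 := hw
  have huw' : polar Q (u : V) w = 0 := huw
  refine hLR {i : ι // ScalOn (M i) W} (y := fun i => x i) (L := fun i => M i) (s := fun i => r i)
    (fun i => hl i) (fun i => hr i) (fun i => hp i i.2) (fun i => hx i) (fun i => hx1 i) (fun i j => hc i j)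
    hu' hw' huw' (fun h => hu0 (Subtype.ext h)) (fun a h => hind a (Subtype.ext h)) ?_ ?_
  · rintro ⟨i, a, ha, hi⟩ v hv
    have hvW : v ∈ W := by
      have h1 : Submodule.span F {(u : V), (w : V)} ≤ W := by
        rw [Submodule.span_le]
        rintro z (rfl | rfl)
        · exact u.2
        · exact w.2
      exact h1 hv
    show (M i).1 v ∈ _
    rw [hi v hvW]
    exact Submodule.smul_mem _ _ hv
  · intro ω
    rcases mrule_W hG hρ hl hr hx hc hcov hW hWt hinv hne hinj hRC ω with h | ⟨j, hj, hjω⟩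
    · left
      have h1 : ρ (AutOrth.SemiSim.sg Q (u : V) w hu' huw') ∈ (phi ρ hW.nondeg).range :=
        ⟨AutOrth.SemiSim.sg (Q.comp W.subtype) u w hu huw, by rw [phi_apply, extE_sg hW.nondeg hu huw hu' huw']⟩
      exact h h1
    · exact Or.inr ⟨⟨j, hj⟩, hjω⟩

end boxA

end Cfsg.Agent.H188.RC
end

-- part: H138/RC/Base
section
set_option linter.all false
open scoped Cfsg.Agent.FastGrp

/-!
# S3510, row F, even dimension: the environment of the linear part

* `LR` : the statement of box F1;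
* `CV` : a cover by commuting elements of prime order with linear lifts `X i` (similitudes with multiplier `c i`);
* `CV.no_plane`, `CV.box_A` : the two rules.
-/

set_option autoImplicit false
open Cfsg

namespace Cfsg.Agent.H138.RC

open QuadraticMap MulAction
open Cfsg.Agent.LieClassical.OrthCore Cfsg.Agent.LieClassical.OrthTrans
open Cfsg.Agent.LieClassical.OrthSimple Cfsg.Agent.ClassicalGeometry.OrthSemi
open Cfsg.Agent.ClassicalGeometry.OrthAut1 Cfsg.Agent.H106.RC Cfsg.Agent.H93.RC Cfsg.Agent.H188.RC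

variable {F V G Ω : Type} [Field F] [AddCommGroup V] [Module F V] [Group G] [MulAction G Ω]

/-- the statement of box F1 (long root rule) -/
def LR (Q : QuadraticForm F V) (Ω : Type) [MulAction G Ω] (ρ : ↥(E Q) →* G) (p : ℕ) : Prop :=
  ∀ (κ : Type) [Finite κ] {y : κ → G} {L : κ → Gam Q} {s : κ → ℕ}, (∀ i, Lf ρ (y i) (L i)) →
    (∀ i, (s i).Prime) → (∀ i, s i ≠ p) → (∀ i, y i ^ s i = 1) → (∀ i, y i ≠ 1) →
    (∀ i j, y i * y j = y j * y i) → ∀ {u w : V} (hu : Q u = 0) (_ : Q w = 0) (huw : polar Q u w = 0),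
    u ≠ 0 → (∀ a : F, w ≠ a • u) →
    (∀ i, ∀ v ∈ Submodule.span F {u, w}, (L i).1 v ∈ Submodule.span F {u, w}) →
    (∀ ω : Ω, ρ (AutOrth.SemiSim.sg Q u w hu huw) • ω = ω ∨ ∃ i, y i • ω = ω) → False

/-- a cover by commuting elements of prime order with linear lifts -/
structure CV (Q : QuadraticForm F V) (Ω : Type) [MulAction G Ω] (N : Subgroup G) (ρ : ↥(E Q) →* G) (p : ℕ)
    {ι : Type} (x : ι → G) (M : ι → Gam Q) (X : ι → V ≃ₗ[F] V) (c : ι → F) (r : ι → ℕ) : Prop where
  good : Good Q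
  env : Env G Ω N
  rep : Rep Q N ρ
  lr : LR Q Ω ρ p
  ih : IH (Nat.card N)
  prime : ∀ i, (r i).Prime
  pow : ∀ i, x i ^ r i = 1
  ne : ∀ i, x i ≠ 1
  comm : ∀ i j, x i * x j = x j * x i
  cov : Cov Ω x
  lf : ∀ i, Lf ρ (x i) (M i)
  lin : ∀ i v, (M i).1 v = X i v
  sim : ∀ i v, Q (X i v) = c i * Q v
  commX : ∀ i j, X i * X j = X j * X i

variable {Q : QuadraticForm F V} {N : Subgroup G} {ρ : ↥(E Q) →* G} {p : ℕ} {ι : Type} {x : ι → G}
  {M : ι → Gam Q} {X : ι → V ≃ₗ[F] V} {c : ι → F} {r : ι → ℕ}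

namespace CV

theorem nt (h : CV Q Ω N ρ p x M X c r) : Nontrivial V := by
  have := h.good.dim
  exact Module.nontrivial_of_finrank_pos (R := F) (by omega)

theorem polar_X (h : CV Q Ω N ρ p x M X c r) (i : ι) (v w : V) :
    polar Q (X i v) (X i w) = c i * polar Q v w := by
  rw [polar, polar, ← map_add, h.sim, h.sim, h.sim]; ring

/-- scalar on `W` -/
theorem scalOn_iff (h : CV Q Ω N ρ p x M X c r) (i : ι) (W : Submodule F V) :
    ScalOn (M i) W ↔ ∃ a : F, a ≠ 0 ∧ ∀ v ∈ W, X i v = a • v := by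
  unfold ScalOn
  simp only [h.lin]

/-- the lifts are not scalars -/
theorem not_scal [Nonempty Ω] (h : CV Q Ω N ρ p x M X c r) (i : ι) (a : F) : ¬ ∀ v, X i v = a • v := by
  intro hs
  apply h.ne i
  rw [(h.lf i).eq_one_iff h.good h.env h.rep]
  have ha : a ≠ 0 := by
    rintro rfl
    have := h.nt
    obtain ⟨v, hv⟩ := exists_ne (0 : V)
    have h1 := hs v
    rw [zero_smul, LinearEquiv.map_eq_zero_iff] at h1
    exact hv h1
  exact ⟨a, ha, fun v => by rw [h.lin, hs]⟩

/-- the powers of the lifts are scalars -/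
theorem pow_scal (h : CV Q Ω N ρ p x M X c r) (i : ι) : ∃ a : F, a ≠ 0 ∧ ∀ v, (X i ^ r i) v = a • v := by
  obtain ⟨a, ha, h1⟩ := (h.lf i).pow_scal h.good h.rep (h.pow i)
  refine ⟨a, ha, fun v => ?_⟩
  rw [← h1 v]
  have : ∀ n : ℕ, ∀ v, (M i ^ n).1 v = (X i ^ n) v := by
    intro n
    induction n with
    | zero => intro v; rfl
    | succ n ih =>
      intro v
      rw [pow_succ, pow_succ]
      change (M i ^ n).1 ((M i).1 v) = (X i ^ n) (X i v)
      rw [h.lin, ih]
  exact (this _ v).symm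

theorem inv_M (h : CV Q Ω N ρ p x M X c r) (i : ι) {W : Submodule F V} (hW : ∀ v ∈ W, X i v ∈ W) :
    ∀ v ∈ W, (M i).1 v ∈ W := by
  intro v hv
  rw [h.lin]
  exact hW v hv

/-- **Rule (P2)**: no common invariant totally singular plane for a family of `p'`-elements -/
theorem no_plane [Finite ι] (h : CV Q Ω N ρ p x M X c r) (hp : ∀ i, r i ≠ p) {u w : V} (hu : Q u = 0)
    (hw : Q w = 0) (huw : polar Q u w = 0) (hu0 : u ≠ 0) (hind : ∀ a : F, w ≠ a • u)
    (hL : ∀ i, ∀ v ∈ Submodule.span F {u, w}, X i v ∈ Submodule.span F {u, w}) : False :=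
  h.lr ι h.lf h.prime hp h.pow h.ne h.comm hu hw huw hu0 hind (fun i => h.inv_M i (hL i))
    (fun ω => Or.inr (h.cov ω))

/-- **Rule (LR)**: `p'`-elements `x i`, `i ∈ J`, together with a long root element. -/
theorem no_lr [Finite ι] (h : CV Q Ω N ρ p x M X c r) (J : Set ι) (hp : ∀ i ∈ J, r i ≠ p) {u w : V}
    (hu : Q u = 0) (hw : Q w = 0) (huw : polar Q u w = 0) (hu0 : u ≠ 0) (hind : ∀ a : F, w ≠ a • u)
    (hL : ∀ i ∈ J, ∀ v ∈ Submodule.span F {u, w}, X i v ∈ Submodule.span F {u, w})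
    (hcov : ∀ ω : Ω, ρ (AutOrth.SemiSim.sg Q u w hu huw) • ω = ω ∨ ∃ i ∈ J, x i • ω = ω) : False :=
  h.lr J (y := fun i => x i) (L := fun i => M i) (s := fun i => r i) (fun i => h.lf i) (fun i => h.prime i)
    (fun i => hp i i.2) (fun i => h.pow i) (fun i => h.ne i) (fun i j => h.comm i j) hu hw huw hu0 hind
    (fun i => h.inv_M i (hL i i.2)) (fun ω => by
      rcases hcov ω with h1 | ⟨i, hi, h1⟩
      · exact Or.inl h1
      · exact Or.inr ⟨⟨i, hi⟩, h1⟩)

/-- the members of `N` -/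
theorem card_P [Finite F] [FiniteDimensional F V] (h : CV Q Ω N ρ p x M X c r) : Nat.card (P Q) = Nat.card N := by
  have h1 : Nonempty (P Q ≃* N) := by
    rw [← h.rep.range]
    exact ⟨(QuotientGroup.quotientMulEquivOfEq h.rep.ker.symm).trans (QuotientGroup.quotientKerEquivRange ρ)⟩
  obtain ⟨e⟩ := h1
  exact Nat.card_congr e.toEquiv

/-- induction hypothesis for subspaces -/
theorem rc_sub [Finite F] [FiniteDimensional F V] (h : CV Q Ω N ρ p x M X c r) {W : Submodule F V}
    (hW : Good (Q.comp W.subtype)) (hWt : W ≠ ⊤)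
    (hex : ¬ (Nat.card F = 2 ∧ Module.finrank F W = 6 ∧ ∃ U : Submodule F W, (∀ v ∈ U, Q (v : V) = 0) ∧
      Module.finrank F U = 3)) : RC (P (Q.comp W.subtype)) := by
  have := Cfsg.Agent.H236.RC.finite_P (Q := Q.comp W.subtype)
  obtain ⟨h1, h2, h3, h4⟩ := Cfsg.Agent.H236.RC.box_id hW
  refine h.ih _ h1 h2 h3 (h4.resolve_left ?_) ?_
  · rintro ⟨a, b, U, hU, hU3⟩
    exact hex ⟨a, b, U, fun v hv => hU v hv, hU3⟩
  · rw [← h.card_P]
    exact Cfsg.Agent.H236.RC.box_card h.good W hW hWt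

/-- **Rule (A)** -/
theorem box_A [Finite F] [FiniteDimensional F V] [Finite ι] [Finite G] [Nonempty Ω] (h : CV Q Ω N ρ p x M X c r)
    (W : Submodule F V) (hW : Good (Q.comp W.subtype)) (hWt : W ≠ ⊤)
    (hinv : ∀ i, ∀ v ∈ W, X i v ∈ W) (hne : ∃ i, ∀ a : F, ¬ ∀ v ∈ W, X i v = a • v)
    (hinj : Set.InjOn r {i | ∀ a : F, ¬ ∀ v ∈ W, X i v = a • v})
    (hp : ∀ i, (∃ a : F, ∀ v ∈ W, X i v = a • v) → r i ≠ p)
    (hRC : ¬ (Nat.card F = 2 ∧ Module.finrank F W = 6 ∧ ∃ U : Submodule F W, (∀ v ∈ U, Q (v : V) = 0) ∧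
      Module.finrank F U = 3) ∨ {i | ∀ a : F, ¬ ∀ v ∈ W, X i v = a • v}.Subsingleton) : False := by
  have hs : ∀ i, (∃ a : F, ∀ v ∈ W, X i v = a • v) ↔ ScalOn (M i) W := by
    intro i
    rw [h.scalOn_iff]
    constructor
    · rintro ⟨a, ha⟩
      refine ⟨a, ?_, ha⟩
      rintro rfl
      have h5 := hW.dim
      have : Nontrivial W := Module.nontrivial_of_finrank_pos (R := F) (by omega)
      obtain ⟨v, hv⟩ := exists_ne (0 : W)
      have h1 := ha v v.2
      rw [zero_smul, LinearEquiv.map_eq_zero_iff] at h1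
      exact hv (Subtype.ext h1)
    · rintro ⟨a, -, ha⟩
      exact ⟨a, ha⟩
  have hset : {i | ∀ a : F, ¬ ∀ v ∈ W, X i v = a • v} = {i | ¬ ScalOn (M i) W} := by
    ext i
    simp only [Set.mem_setOf_eq, ← hs]
    push Not
    rfl
  rw [hset] at hinj hRC
  refine box_A_of h.good h.rep h.lr h.lf h.prime h.pow h.ne h.comm h.cov W hW hWt (fun i => h.inv_M i (hinv i))
    ?_ hinj (fun i hi => hp i ((hs i).2 hi)) ?_
  · obtain ⟨i, hi⟩ := hne
    refine ⟨i, fun h1 => ?_⟩
    obtain ⟨a, ha⟩ := (hs i).2 h1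
    exact hi a ha
  · rcases hRC with h1 | h1
    · exact Or.inl (h.rc_sub hW hWt h1)
    · exact Or.inr h1

end CV

end Cfsg.Agent.H138.RC
end

-- part: H236/RC/FA3
section
prune_inst 0x100340440621000001800002020002000000422004004000c0302000a088440048008410120011140100c010001006001040010424000000e200000000000000000100030400000020010000080000000000000000000000000000000000000000000000
set_option linter.all false
open scoped Cfsg.Agent.FastGrp

-- part: H236/RC/FA2
section
/-!
# S3510, row F, box FA2 (helper236): the embedding of the orthogonal group over a subfield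

`semJ φ b : (Fin n → F₀) → V`, `v ↦ ∑ φ(v i) b i`; `Q (semJ v) = d φ(Q₀ v)`.

* `nondeg0`, `good0` : `Q₀` is nondegenerate (good);
* `extS` : `GL(F₀ⁿ) →* GL(V)`, `extS g (semJ v) = semJ (g v)`; `psiE` : `E Q₀ →* E Q`.
-/

set_option autoImplicit false
set_option linter.unusedSectionVars false

open Cfsg

namespace Cfsg.Agent.H236.RC

open QuadraticMap MulAction
open Cfsg.Agent.LieClassical.OrthCore Cfsg.Agent.LieClassical.OrthTrans
open Cfsg.Agent.LieClassical.OrthSimple Cfsg.Agent.ClassicalGeometry.OrthSemi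
open Cfsg.Agent.ClassicalGeometry.OrthAut1 Cfsg.Agent.H106.RC
open Cfsg.Agent.AutOrth.SemiSim

section semJ

variable {F F0 V : Type*} [Field F] [Field F0] [AddCommGroup V] [Module F V] {n : ℕ}
  (φ : F0 →+* F) (b : Module.Basis (Fin n) F V)

/-- the semilinear embedding `F₀ⁿ → V` -/
noncomputable def semJ (v : Fin n → F0) : V := ∑ i, φ (v i) • b i

theorem semJ_add (u v : Fin n → F0) : semJ φ b (u + v) = semJ φ b u + semJ φ b v := by
  simp only [semJ, Pi.add_apply, map_add, add_smul, Finset.sum_add_distrib]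

theorem semJ_smul (a : F0) (v : Fin n → F0) : semJ φ b (a • v) = φ a • semJ φ b v := by
  simp only [semJ, Pi.smul_apply, smul_eq_mul, map_mul, mul_smul, Finset.smul_sum]

theorem semJ_zero : semJ φ b 0 = 0 := by
  simp only [semJ, _root_.Pi.zero_apply, _root_.map_zero, _root_.zero_smul, _root_.Finset.sum_const_zero]

theorem semJ_neg (v : Fin n → F0) : semJ φ b (-v) = -semJ φ b v := by
  simp only [semJ, Pi.neg_apply, map_neg, neg_smul, Finset.sum_neg_distrib]

theorem semJ_sub (u v : Fin n → F0) : semJ φ b (u - v) = semJ φ b u - semJ φ b v := by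
  rw [sub_eq_add_neg, semJ_add, semJ_neg, sub_eq_add_neg]

theorem semJ_sum {κ : Type*} (s : Finset κ) (f : κ → Fin n → F0) :
    semJ φ b (∑ i ∈ s, f i) = ∑ i ∈ s, semJ φ b (f i) := by
  classical
  induction s using Finset.induction_on with
  | empty => simp [semJ_zero]
  | insert a s ha ih => rw [Finset.sum_insert ha, Finset.sum_insert ha, semJ_add, ih]

theorem semJ_single (i : Fin n) : semJ φ b (Pi.single i 1) = b i := by
  classical
  rw [semJ, Finset.sum_eq_single i]
  · rw [Pi.single_eq_same, map_one, one_smul]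
  · intro j _ hj
    rw [Pi.single_eq_of_ne hj, map_zero, zero_smul]
  · intro h
    exact absurd (Finset.mem_univ i) h

theorem semJ_injective : Function.Injective (semJ φ b) := by
  intro u v h
  have h1 : ∀ i, φ (u i) = φ (v i) := by
    intro i
    have h1 : ∀ w : Fin n → F0, ⇑(b.repr (semJ φ b w)) = fun i => φ (w i) := fun w =>
      b.repr_sum_self fun i => φ (w i)
    have h2 := congrFun (h1 u) i
    rw [h, h1 v] at h2
    exact h2.symm
  funext i
  exact φ.injective (h1 i)

/-- linear maps which agree on the image of `semJ` -/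
theorem lin_ext {V' : Type*} [AddCommGroup V'] [Module F V'] {f g : V →ₗ[F] V'}
    (h : ∀ v, f (semJ φ b v) = g (semJ φ b v)) : f = g := by
  apply b.ext
  intro i
  rw [← semJ_single φ b i]
  exact h _

/-- the linear extension of a linear map of `F₀ⁿ` -/
noncomputable def extL (g : (Fin n → F0) ≃ₗ[F0] (Fin n → F0)) : V →ₗ[F] V :=
  b.constr F fun i => semJ φ b (g (Pi.single i 1))

theorem extL_semJ (g : (Fin n → F0) ≃ₗ[F0] (Fin n → F0)) (v : Fin n → F0) :
    extL φ b g (semJ φ b v) = semJ φ b (g v) := by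
  classical
  have h1 : v = ∑ i, v i • (Pi.single i 1 : Fin n → F0) := by
    funext j
    rw [Finset.sum_apply, Finset.sum_eq_single j]
    · simp
    · intro i _ hi
      rw [Pi.smul_apply, Pi.single_eq_of_ne hi.symm, smul_zero]
    · intro h
      exact absurd (Finset.mem_univ j) h
  have h2 : g v = ∑ i, v i • g (Pi.single i 1) := by
    conv_lhs => rw [h1]
    rw [map_sum]
    exact Finset.sum_congr rfl fun i _ => map_smul g _ _
  rw [h2, semJ_sum]
  unfold extL
  rw [semJ, map_sum]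
  refine Finset.sum_congr rfl fun i _ => ?_
  rw [map_smul, Module.Basis.constr_basis, semJ_smul]

/-- `GL(F₀ⁿ) →* GL(V)` -/
noncomputable def extS : ((Fin n → F0) ≃ₗ[F0] (Fin n → F0)) →* (V ≃ₗ[F] V) :=
  (LinearMap.GeneralLinearGroup.generalLinearEquiv F V).toMonoidHom.comp
    (MonoidHom.toHomUnits
      { toFun := extL φ b
        map_one' := by
          refine lin_ext φ b fun v => ?_
          rw [extL_semJ]
          rfl
        map_mul' := fun g h => by
          refine lin_ext φ b fun v => ?_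
          rw [extL_semJ]
          show _ = extL φ b g (extL φ b h (semJ φ b v))
          rw [extL_semJ, extL_semJ]
          rfl })

theorem extS_semJ (g : (Fin n → F0) ≃ₗ[F0] (Fin n → F0)) (v : Fin n → F0) :
    extS φ b g (semJ φ b v) = semJ φ b (g v) := extL_semJ φ b g v

theorem equiv_ext {f g : V ≃ₗ[F] V} (h : ∀ v, f (semJ φ b v) = g (semJ φ b v)) : f = g := by
  apply LinearEquiv.toLinearMap_injective
  exact lin_ext φ b h

theorem extS_injective : Function.Injective (extS (F0 := F0) φ b) := by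
  intro g h hgh
  ext1 v
  apply semJ_injective φ b
  rw [← extS_semJ, hgh, extS_semJ]

end semJ

section form

variable {F F0 V : Type*} [Field F] [Field F0] [AddCommGroup V] [Module F V] {n : ℕ}
  {φ : F0 →+* F} {b : Module.Basis (Fin n) F V} {Q : QuadraticForm F V} {Q0 : QuadraticForm F0 (Fin n → F0)}
  {d : F}

theorem polar_semJ (hQ : ∀ v, Q (semJ φ b v) = d * φ (Q0 v)) (u v : Fin n → F0) :
    polar Q (semJ φ b u) (semJ φ b v) = d * φ (polar Q0 u v) := by
  simp only [polar, ← semJ_add, hQ, map_sub]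
  ring

theorem nondeg0 (hG : Nondeg Q) (hQ : ∀ v, Q (semJ φ b v) = d * φ (Q0 v)) : Nondeg Q0 := by
  intro u hu
  apply semJ_injective φ b
  rw [semJ_zero]
  apply hG
  intro v
  have h1 : (polarBilin Q (semJ φ b u)) = 0 := by
    refine lin_ext φ b fun v => ?_
    show polar Q (semJ φ b u) (semJ φ b v) = 0
    rw [polar_semJ hQ, hu, map_zero, mul_zero]
  exact LinearMap.congr_fun h1 v

theorem good0 [Finite F] (hG : Good Q) (hQ : ∀ v, Q (semJ φ b v) = d * φ (Q0 v)) : Good Q0 := by
  have hf : Finite F0 := Finite.of_injective φ φ.injective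
  refine LieClassical.OrthFinite.good_of_finite (nondeg0 hG.nondeg hQ) ?_
  rw [Module.finrank_fin_fun]
  have := hG.dim
  rwa [Module.finrank_eq_card_basis b, Fintype.card_fin] at this

theorem extS_siegel (hd : d ≠ 0) (hQ : ∀ v, Q (semJ φ b v) = d * φ (Q0 v)) {u w : Fin n → F0} (hu : Q0 u = 0)
    (hw : polar Q0 u w = 0) (hu' : Q (semJ φ b u) = 0) (hw' : polar Q (semJ φ b u) (d⁻¹ • semJ φ b w) = 0) :
    extS φ b (siegel Q0 u w hu hw) = siegel Q (semJ φ b u) (d⁻¹ • semJ φ b w) hu' hw' := by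
  refine equiv_ext φ b fun v => ?_
  rw [extS_semJ, siegel_apply, siegel_apply, semJ_sub, semJ_sub, semJ_add, semJ_smul, semJ_smul, semJ_smul,
    polar_smul_left, polar_semJ hQ, polar_semJ hQ, QuadraticMap.map_smul, hQ, map_mul, smul_smul]
  simp only [smul_eq_mul]
  match_scalars
  · ring
  · field_simp
  · field_simp

theorem extS_mem_E (hd : d ≠ 0) (hQ : ∀ v, Q (semJ φ b v) = d * φ (Q0 v))
    {g : (Fin n → F0) ≃ₗ[F0] (Fin n → F0)} (hg : g ∈ E Q0) : extS φ b g ∈ E Q := by
  have h1 : E Q0 ≤ (E Q).comap (extS φ b) := by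
    rw [E, Subgroup.closure_le]
    rintro _ ⟨u, w, hu, hw, rfl⟩
    have hu' : Q (semJ φ b u) = 0 := by rw [hQ, hu, map_zero, mul_zero]
    have hw' : polar Q (semJ φ b u) (d⁻¹ • semJ φ b w) = 0 := by
      rw [polar_smul_right, polar_semJ hQ, hw, map_zero, mul_zero, smul_zero]
    show extS φ b (siegel Q0 u w hu hw) ∈ E Q
    rw [extS_siegel hd hQ hu hw hu' hw']
    exact siegel_mem_E _ _
  exact h1 hg

/-- **FA2**: the embedding `E Q₀ →* E Q` -/
noncomputable def psiE (hd : d ≠ 0) (hQ : ∀ v, Q (semJ φ b v) = d * φ (Q0 v)) : ↥(E Q0) →* ↥(E Q) :=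
  ((extS φ b).comp (E Q0).subtype).codRestrict (E Q) fun g => extS_mem_E hd hQ g.2

theorem psiE_coe (hd : d ≠ 0) (hQ : ∀ v, Q (semJ φ b v) = d * φ (Q0 v)) (g : ↥(E Q0)) :
    (psiE hd hQ g : V ≃ₗ[F] V) = extS φ b (g : (Fin n → F0) ≃ₗ[F0] (Fin n → F0)) := rfl

theorem psiE_semJ (hd : d ≠ 0) (hQ : ∀ v, Q (semJ φ b v) = d * φ (Q0 v)) (g : ↥(E Q0)) (v : Fin n → F0) :
    (psiE hd hQ g : V ≃ₗ[F] V) (semJ φ b v) = semJ φ b ((g : (Fin n → F0) ≃ₗ[F0] (Fin n → F0)) v) :=
  extS_semJ φ b _ v

theorem psiE_injective (hd : d ≠ 0) (hQ : ∀ v, Q (semJ φ b v) = d * φ (Q0 v)) : Function.Injective (psiE hd hQ) := by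
  intro g h hgh
  apply Subtype.ext
  apply extS_injective φ b
  rw [← psiE_coe hd hQ, hgh, psiE_coe]

/-- the extension of `g` is central only if `g` is -/
theorem mem_center_of_psiE (hd : d ≠ 0) (hQ : ∀ v, Q (semJ φ b v) = d * φ (Q0 v)) {g : ↥(E Q0)}
    (hg : psiE hd hQ g ∈ Subgroup.center ↥(E Q)) : g ∈ Subgroup.center ↥(E Q0) := by
  rw [Subgroup.mem_center_iff] at hg ⊢
  intro h
  apply psiE_injective hd hQ
  rw [map_mul, map_mul]
  exact hg _

end form

end Cfsg.Agent.H236.RC
end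

-- part: H236/RC/FA3
section
/-!
# S3510, row F, box FA3 (helper236): field automorphisms
-/

set_option autoImplicit false
set_option linter.unusedSectionVars false

open Cfsg

namespace Cfsg.Agent.H236.RC

open QuadraticMap MulAction
open Cfsg.Agent.LieClassical Cfsg.Agent.LieClassical.OrthCore Cfsg.Agent.LieClassical.OrthTrans
open Cfsg.Agent.LieClassical.OrthSimple Cfsg.Agent.ClassicalGeometry.OrthSemi
open Cfsg.Agent.ClassicalGeometry.OrthAut1 Cfsg.Agent.H106.RC Cfsg.Agent.H93.RC Cfsg.Agent.H188.RC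
open Cfsg.Agent.AutOrth.SemiSim Cfsg.Agent.GenOrth Cfsg.Agent.H380.RC

section notcov

variable {F V : Type*} [Field F] [Finite F] [AddCommGroup V] [Module F V] [FiniteDimensional F V]
  {Q : QuadraticForm F V} {G Ω : Type*} [Group G] [MulAction G Ω] [Nonempty Ω]
  {N : Subgroup G} {ρ : ↥(E Q) →* G}

theorem polar_E (g : ↥(E Q)) (u v : V) : polar Q ((g : V ≃ₗ[F] V) u) ((g : V ≃ₗ[F] V) v) = polar Q u v := by
  have h : ∀ x, Q ((g : V ≃ₗ[F] V) x) = Q x := fun x => E_le_O g.2 x
  simp only [polar, ← map_add, h]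

/-- the same vector -/
theorem sg_comm_same {u w w' : V} (hu : Q u = 0) (hw : polar Q u w = 0) (hw' : polar Q u w' = 0) :
    sg Q u w hu hw * sg Q u w' hu hw' = sg Q u w' hu hw' * sg Q u w hu hw := by
  have h1 : polar Q u (w + w') = 0 := by rw [polar_add_right, hw, hw', add_zero]
  have h2 : polar Q u (w' + w) = 0 := by rw [polar_add_right, hw, hw', add_zero]
  rw [sg_mul hu hw hw' h1, sg_mul hu hw' hw h2]
  exact sg_congr _ _ _ _ rfl (add_comm _ _)

/-- `sg u w = sg w (-u)` for a totally singular pair -/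
theorem sg_swap {u w : V} (hu : Q u = 0) (hw : Q w = 0) (huw : polar Q u w = 0) (hwu : polar Q w (-u) = 0) :
    sg Q u w hu huw = sg Q w (-u) hw hwu := by
  refine ext_E fun v => ?_
  rw [sg_apply, sg_apply, hw, QuadraticMap.map_neg, hu, polar_neg_left]
  module

/-- **`g` is trivial on the good subspace `W`; a long root element of `W`.** -/
theorem not_cov_W (hG : Good Q) (hE : Env G Ω N) (hρ : _root_.Cfsg.Agent.H93.RC.Rep Q N ρ) {W : Submodule F V}
    (hW : Nondeg (Q.comp W.subtype)) {g : ↥(E Q)} (hg : ∀ v ∈ W, (g : V ≃ₗ[F] V) v = v) (hg1 : g ≠ 1)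
    {e w : V} (heW : e ∈ W) (hwW : w ∈ W) (he : Q e = 0) (hw : Q w = 0) (hew : polar Q e w = 0) (he0 : e ≠ 0)
    (hind : ∀ a : F, w ≠ a • e)
    (hcov : ∀ ω : Ω, ρ g • ω = ω ∨ ρ (sg Q e w he hew) • ω = ω) : False := by
  have hperp : ∀ v : V, ∀ x ∈ W, polar Q x (v - (embW hW).j ((embW hW).π v)) = 0 := by
    intro v x hx
    have h1 := (embW hW).adj ⟨x, hx⟩ v
    have h2 := (embW hW).adj ⟨x, hx⟩ ((embW hW).j ((embW hW).π v))
    rw [Emb.π_j] at h2
    rw [polar_sub_right]
    rw [embW_j] at h1 h2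
    rw [h1, h2, sub_self]
  -- a vector of `W^⊥` moved by `g`
  obtain ⟨z, hzW, hz⟩ : ∃ z : V, (∀ x ∈ W, polar Q x z = 0) ∧ (g : V ≃ₗ[F] V) z ≠ z := by
    obtain ⟨v, hv⟩ : ∃ v, (g : V ≃ₗ[F] V) v ≠ v := by
      by_contra hcon
      push Not at hcon
      exact hg1 (ext_E hcon)
    refine ⟨v - (embW hW).j ((embW hW).π v), hperp v, ?_⟩
    have h0 : (g : V ≃ₗ[F] V) ((embW hW).j ((embW hW).π v)) = (embW hW).j ((embW hW).π v) :=
      hg _ ((embW hW).π v).2
    rw [map_sub, h0]
    intro h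
    exact hv (sub_left_injective h)
  set k : V := z - (g : V ≃ₗ[F] V) z with hk
  have hk0 : k ≠ 0 := fun h => hz (sub_eq_zero.1 h).symm
  have hgz : ∀ x ∈ W, polar Q x ((g : V ≃ₗ[F] V) z) = 0 := by
    intro x hx
    have h1 := polar_E g x z
    rw [hg x hx] at h1
    rw [h1, hzW x hx]
  have hkW : ∀ x ∈ W, polar Q x k = 0 := by
    intro x hx
    rw [hk, polar_sub_right, hzW x hx, hgz x hx, sub_self]
  obtain ⟨z', hz'W, hkz'⟩ : ∃ z' : V, (∀ x ∈ W, polar Q x z' = 0) ∧ polar Q k z' = 1 := by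
    obtain ⟨v, hv⟩ := hG.nondeg.exists_polar_eq hk0 1
    refine ⟨v - (embW hW).j ((embW hW).π v), hperp v, ?_⟩
    rw [polar_sub_right, hv, polar_comm Q k, hkW _ (show (embW hW).j ((embW hW).π v) ∈ W from ((embW hW).π v).2), sub_zero]
  -- the subgroup `U`
  let X : Set ↥(E Q) := {s | (∃ v, ∃ h : polar Q e v = 0, (∀ x ∈ W, polar Q x v = 0) ∧ s = sg Q e v he h) ∨
    ∃ v, ∃ h : polar Q w v = 0, (∀ x ∈ W, polar Q x v = 0) ∧ s = sg Q w v hw h}
  let U : Subgroup G := (Subgroup.closure X).map ρ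
  set t := sg Q e w he hew with ht
  have hwe : polar Q w (-e) = 0 := by rw [polar_neg_right, polar_comm, hew, neg_zero]
  have hcomm : ∀ s ∈ Subgroup.closure X, s * t = t * s := by
    intro s hs
    have h1 : Subgroup.closure X ≤ Subgroup.centralizer ({t} : Set ↥(E Q)) := by
      rw [Subgroup.closure_le]
      rintro s (⟨v, h, -, rfl⟩ | ⟨v, h, -, rfl⟩)
      · rw [SetLike.mem_coe, Subgroup.mem_centralizer_singleton_iff]
        exact sg_comm_same he h hew
      · rw [SetLike.mem_coe, Subgroup.mem_centralizer_singleton_iff, ht, sg_swap he hw hew hwe]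
        exact sg_comm_same hw h hwe
    exact Subgroup.mem_centralizer_singleton_iff.1 (h1 hs)
  refine not_cov_one hE (x := ρ g) (y := ρ t) (U := U) (fun ω => (hcov ω).symm) ?_ ?_ ?_
  · rintro _ ⟨s, hs, rfl⟩
    rw [← map_mul, ← map_mul, hcomm s hs]
  · intro h
    have h1 : t ∈ Subgroup.center ↥(E Q) := by rw [← hρ.ker, MonoidHom.mem_ker]; exact h
    obtain ⟨a, -, ha⟩ := scal_of_center hG h1
    obtain ⟨c, hc⟩ := mem_line_of_scalar hG.nondeg he he0 hew ha
    exact hind c hc
  · -- `t` is in the commutator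
    have hez : polar Q e z = 0 := hzW e heW
    have hek : polar Q e k = 0 := hkW e heW
    have hwz' : polar Q w z' = 0 := hz'W w hwW
    have m1 : ρ (sg Q e z he hez) ∈ U := ⟨_, Subgroup.subset_closure (Or.inl ⟨z, hez, hzW, rfl⟩), rfl⟩
    have m2 : ρ (sg Q w z' hw hwz') ∈ U := ⟨_, Subgroup.subset_closure (Or.inr ⟨z', hwz', hz'W, rfl⟩), rfl⟩
    have c1 := mem_cmm (x := ρ g) m1
    have e1 : sg Q e z he hez * g * (sg Q e z he hez)⁻¹ * g⁻¹ = sg Q e k he hek := by
      have hge : (g : V ≃ₗ[F] V) e = e := hg e heW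
      have hz1 : polar Q e (-z) = 0 := by rw [polar_neg_right, hez, neg_zero]
      have hz2 : polar Q e (-(g : V ≃ₗ[F] V) z) = 0 := by rw [polar_neg_right, hgz e heW, neg_zero]
      have h3 : g * (sg Q e z he hez)⁻¹ * g⁻¹ = sg Q e (-(g : V ≃ₗ[F] V) z) he hz2 := by
        rw [sg_inv he hez hz1, conj_sg g he hz1 (by rw [hge]; exact he)
          (by rw [polar_E]; exact hz1)]
        exact sg_congr _ _ _ _ hge (by rw [map_neg])
      rw [mul_assoc, mul_assoc, ← mul_assoc g, h3, sg_mul he hez hz2 (by rw [← sub_eq_add_neg]; exact hek)]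
      exact sg_congr _ _ _ _ rfl (by rw [hk, sub_eq_add_neg])
    rw [← map_inv, ← map_inv, ← map_mul, ← map_mul, ← map_mul, e1] at c1
    have c2 := cmm_comm m2 c1
    have e2 : sg Q w z' hw hwz' * sg Q e k he hek * (sg Q w z' hw hwz')⁻¹ * (sg Q e k he hek)⁻¹ = t⁻¹ := by
      have hwe' : polar Q w e = 0 := by rw [polar_comm, hew]
      have hz'e : polar Q z' e = 0 := by rw [polar_comm, hz'W e heW]
      have a1 : ((sg Q w z' hw hwz' : ↥(E Q)) : V ≃ₗ[F] V) e = e := by
        rw [sg_apply, hwe', hz'e]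
        simp
      have a2 : ((sg Q w z' hw hwz' : ↥(E Q)) : V ≃ₗ[F] V) k = k - w := by
        rw [sg_apply, hkW w hwW, polar_comm Q z' k, hkz']
        simp
      have hkw : polar Q e (k - w) = 0 := by rw [polar_sub_right, hek, hew, sub_zero]
      have hnk : polar Q e (-k) = 0 := by rw [polar_neg_right, hek, neg_zero]
      have hnw : polar Q e (-w) = 0 := by rw [polar_neg_right, hew, neg_zero]
      rw [conj_sg _ he hek (by rw [a1]; exact he) (by rw [polar_E]; exact hek), sg_inv he hek hnk,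
        sg_congr _ _ he hkw a1 a2, sg_mul he hkw hnk (by rw [polar_add_right, hkw, hnk, add_zero]), ht,
        sg_inv he hew hnw]
      exact sg_congr _ _ _ _ rfl (by abel)
    rw [← map_inv, ← map_inv, ← map_mul, ← map_mul, ← map_mul, e2, map_inv] at c2
    exact (Subgroup.inv_mem_iff _).1 c2

end notcov

section plane

variable {F V : Type*} [Field F] [AddCommGroup V] [Module F V] {Q : QuadraticForm F V}

/-- splitting off a nondegenerate plane -/
theorem split_of_det {x y : V} (h : 4 * Q x * Q y - polar Q x y * polar Q x y ≠ 0) :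
    ∃ α β : V →ₗ[F] F, Split Q x y α β ∧ (∀ v, α v = 0 → β v = 0 → polar Q x v = 0 ∧ polar Q y v = 0) ∧
      ∀ v, polar Q x v = 0 → polar Q y v = 0 → α v = 0 ∧ β v = 0 := by
  set D := 4 * Q x * Q y - polar Q x y * polar Q x y with hD
  have hxx : polar Q x x = 2 * Q x := OrthCore.polar_self' x
  have hyy : polar Q y y = 2 * Q y := OrthCore.polar_self' y
  have hyx : polar Q y x = polar Q x y := polar_comm Q y x
  let α : V →ₗ[F] F := D⁻¹ • ((2 * Q y) • polarBilin Q x - (polar Q x y) • polarBilin Q y)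
  let β : V →ₗ[F] F := D⁻¹ • ((2 * Q x) • polarBilin Q y - (polar Q x y) • polarBilin Q x)
  have hα : ∀ v, α v = D⁻¹ * ((2 * Q y) * polar Q x v - polar Q x y * polar Q y v) := fun v => rfl
  have hβ : ∀ v, β v = D⁻¹ * ((2 * Q x) * polar Q y v - polar Q x y * polar Q x v) := fun v => rfl
  have hrx : ∀ v, polar Q x v = (2 * Q x) * α v + polar Q x y * β v := by
    intro v
    rw [hα, hβ]
    have : (2 * Q x) * (D⁻¹ * ((2 * Q y) * polar Q x v - polar Q x y * polar Q y v)) +
        polar Q x y * (D⁻¹ * ((2 * Q x) * polar Q y v - polar Q x y * polar Q x v)) = D⁻¹ * D * polar Q x v := by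
      rw [hD]; ring
    rw [this, inv_mul_cancel₀ h, one_mul]
  have hry : ∀ v, polar Q y v = polar Q x y * α v + (2 * Q y) * β v := by
    intro v
    rw [hα, hβ]
    have : polar Q x y * (D⁻¹ * ((2 * Q y) * polar Q x v - polar Q x y * polar Q y v)) +
        (2 * Q y) * (D⁻¹ * ((2 * Q x) * polar Q y v - polar Q x y * polar Q x v)) = D⁻¹ * D * polar Q y v := by
      rw [hD]; ring
    rw [this, inv_mul_cancel₀ h, one_mul]
  have key : ∀ v, α v = 0 → β v = 0 → polar Q x v = 0 ∧ polar Q y v = 0 := by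
    intro v h1 h2
    rw [hrx, hry, h1, h2]
    simp
  refine ⟨α, β, ⟨?_, ?_, ?_, ?_, fun v h1 h2 => (key v h1 h2).1, fun v h1 h2 => (key v h1 h2).2⟩, key, ?_⟩
  · rw [hα, hxx, hyx]
    rw [show (2 * Q y) * (2 * Q x) - polar Q x y * polar Q x y = D by rw [hD]; ring, inv_mul_cancel₀ h]
  · rw [hα, hyy]; ring
  · rw [hβ, hxx, hyx]; ring
  · rw [hβ, hyy]
    rw [show (2 * Q x) * (2 * Q y) - polar Q x y * polar Q x y = D by rw [hD]; ring, inv_mul_cancel₀ h]
  · intro v h1 h2
    rw [hα, hβ, h1, h2]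
    simp

theorem exists_sign {F0 : Type*} [Field F0] : ∃ s : F0, s * s = 1 ∧ 4 * s - 1 ≠ 0 := by
  by_cases h3 : (3 : F0) = 0
  · refine ⟨-1, by ring, fun h => ?_⟩
    have : (1 : F0) = 0 := by linear_combination h + 2 * h3
    exact one_ne_zero this
  · exact ⟨1, by ring, fun h => h3 (by linear_combination h)⟩

/-- an element of `E` acting only on a nondegenerate plane -/
theorem exists_m0 [FiniteDimensional F V] (hG : Good Q) :
    ∃ (a c : V) (m : ↥(E Q)), m ≠ 1 ∧ (∀ v, polar Q a v = 0 → polar Q c v = 0 → (m : V ≃ₗ[F] V) v = v) ∧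
      4 * Q a * Q c - polar Q a c * polar Q a c ≠ 0 := by
  obtain ⟨e1, f1, h1⟩ := hG.exists_hyp
  obtain ⟨e2, f2, h2, h3, h4, h5, h6⟩ := hG.exists_hyp2 h1
  obtain ⟨s, hs, hs4⟩ := exists_sign (F0 := F)
  have e1e1 : polar Q e1 e1 = 0 := polar_self_of_sing h1.left
  have f1e1 : polar Q f1 e1 = 1 := by rw [polar_comm]; exact h1.pair
  set a := e1 + f1 with ha
  set c := e1 + (e2 + s • f2) with hc
  have hQa : Q a = 1 := by
    rw [ha, Q_add, h1.left, h1.right, h1.pair]; ring
  have hQc : Q c = s := by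
    rw [hc, Q_add, Q_add, h1.left, h2.left, QuadraticMap.map_smul, h2.right, polar_smul_right, h2.pair,
      polar_add_right, polar_smul_right, h3, h4]
    simp
  have hac : polar Q a c = 1 := by
    rw [ha, hc, polar_add_left, polar_add_right, polar_add_right, polar_add_right, polar_add_right, e1e1, f1e1,
      polar_smul_right, polar_smul_right, h3, h4, h5, h6]
    simp
  have hs0 : s ≠ 0 := by rintro rfl; simp at hs
  have hsi : s⁻¹ = s := inv_eq_of_mul_eq_one_left hs
  have ha0 : Q a ≠ 0 := by rw [hQa]; exact one_ne_zero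
  have hc0 : Q c ≠ 0 := by rw [hQc]; exact hs0
  let g : V ≃ₗ[F] V := refl Q a ha0 * refl Q c hc0
  have hg : g * g ∈ E Q := by
    rw [← hG.commutator_eq_E]
    have h1 : (refl Q a ha0)⁻¹ = refl Q a ha0 := inv_eq_of_mul_eq_one_left (refl_mul_self ha0)
    have h2 : (refl Q c hc0)⁻¹ = refl Q c hc0 := inv_eq_of_mul_eq_one_left (refl_mul_self hc0)
    have h3 : g * g = refl Q a ha0 * refl Q c hc0 * (refl Q a ha0)⁻¹ * (refl Q c hc0)⁻¹ := by
      rw [h1, h2]
      exact (mul_assoc _ _ _).symm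
    rw [h3]
    exact Subgroup.commutator_mem_commutator (refl_mem_O ha0) (refl_mem_O hc0)
  have hgv : ∀ v, g v = refl Q a ha0 (refl Q c hc0 v) := fun v => rfl
  have hra : ∀ v, refl Q a ha0 v = v - polar Q a v • a := by
    intro v
    rw [refl_apply, hQa, inv_one, one_mul]
  have hrc : ∀ v, refl Q c hc0 v = v - (s * polar Q c v) • c := by
    intro v
    rw [refl_apply, hQc, hsi]
  refine ⟨a, c, ⟨g * g, hg⟩, ?_, ?_, ?_⟩
  · intro h
    have hgg : ∀ v, g (g v) = v := fun v => LinearEquiv.congr_fun (congrArg Subtype.val h) v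
    have haa : polar Q a a = 2 := by rw [OrthCore.polar_self', hQa, mul_one]
    have hcc : polar Q c c = 2 * s := by rw [OrthCore.polar_self', hQc]
    have hca : polar Q c a = 1 := by rw [polar_comm]; exact hac
    have ga : g a = (s - 1) • a - s • c := by
      rw [hgv, hrc, hra, hca, polar_sub_right, polar_smul_right, haa, hac]
      simp only [smul_eq_mul, mul_one]
      module
    have gc : g c = a - c := by
      rw [hgv, hrc, hra, hcc]
      have : s * (2 * s) = 2 := by linear_combination 2 * hs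
      rw [this, polar_sub_right, polar_smul_right, hac]
      simp only [smul_eq_mul, mul_one]
      module
    have h7 := hgg a
    rw [ga, map_sub, map_smul, map_smul, ga, gc] at h7
    have h8 : (1 - 3 * s) • a + (2 * s - 1) • c = 0 := by
      have h9 : (s - 1) • ((s - 1) • a - s • c) - s • (a - c) - a =
          (1 - 3 * s) • a + (2 * s - 1) • c + (s * s - 1) • (a - c) := by module
      rw [h7, sub_self, hs, sub_self, zero_smul, add_zero] at h9
      exact h9.symm
    have h9 := congrArg (polar Q a) h8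
    rw [polar_add_right, polar_smul_right, polar_smul_right, haa, hac, polar_zero_right] at h9
    simp only [smul_eq_mul] at h9
    exact hs4 (by linear_combination -h9)
  · intro v h7 h8
    have h9 : g v = v := by
      rw [hgv, hrc, h8, mul_zero, zero_smul, sub_zero, hra, h7, zero_smul, sub_zero]
    show g (g v) = v
    rw [h9, h9]
  · rw [hQa, hQc, hac]
    intro h7
    exact hs4 (by linear_combination h7)

end plane

section semi

variable {F F0 V : Type*} [Field F] [Field F0] [AddCommGroup V] [Module F V] {n : ℕ}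
  {φ : F0 →+* F} {b : Module.Basis (Fin n) F V} {Q : QuadraticForm F V} {Q0 : QuadraticForm F0 (Fin n → F0)}
  {d : F}

/-- conjugation of the extensions -/
theorem conjE_psiE (hd : d ≠ 0) (hQ : ∀ v, Q (semJ φ b v) = d * φ (Q0 v)) {M : Gam Q} {s : F} (hs : s ≠ 0)
    {T : Gam Q0} (hT : ∀ v, M.1 (semJ φ b v) = s • semJ φ b (T.1 v)) (g : ↥(E Q0)) :
    _root_.Cfsg.Agent.ClassicalGeometry.OrthSemi.conjE Q M (psiE hd hQ g) = psiE hd hQ (_root_.Cfsg.Agent.ClassicalGeometry.OrthSemi.conjE Q0 T g) := by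
  apply Subtype.ext
  refine equiv_ext φ b fun v => ?_
  obtain ⟨u, rfl⟩ := T.1.surjective v
  rw [psiE_semJ, coe_conjE, coe_conjE, conjLin_apply']
  have h1 : semJ φ b (T.1 u) = s⁻¹ • M.1 (semJ φ b u) := by rw [hT, inv_smul_smul₀ hs]
  rw [h1, map_smul, conjLin_apply', psiE_semJ, hT, inv_smul_smul₀ hs]

/-- the restriction of a linear similitude is a similitude -/
theorem exists_T [Nontrivial V] (hG0 : ∃ x y, Hyp Q0 x y) (hd : d ≠ 0) (hQ : ∀ v, Q (semJ φ b v) = d * φ (Q0 v)) {M : Gam Q}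
    (hM : IsLin M) {s : F} (hs : s ≠ 0) {T : (Fin n → F0) ≃ₗ[F0] (Fin n → F0)}
    (hT : ∀ v, M.1 (semJ φ b v) = s • semJ φ b (T v)) :
    ∃ T' : Gam Q0, ∀ v, T'.1 v = T v := by
  obtain ⟨σ, c, hS⟩ := M.2
  have hσ : ∀ a, σ a = a := by
    intro a
    obtain ⟨v, hv⟩ := exists_ne (0 : V)
    have h1 := hM a v
    rw [hS.smul] at h1
    have h2 : (σ a - a) • M.1 v = 0 := by rw [sub_smul, h1, sub_self]
    have h3 : M.1 v ≠ 0 := fun h => hv (M.1.injective (by rw [h, hS.map_zero]))
    exact sub_eq_zero.1 ((smul_eq_zero.1 h2).resolve_right h3)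
  have key : ∀ v, s * s * φ (Q0 (T v)) = c * φ (Q0 v) := by
    intro v
    have h1 := hS.form (semJ φ b v)
    rw [hT, QuadraticMap.map_smul, hQ, hQ, hσ] at h1
    simp only [smul_eq_mul] at h1
    have h2 : d * (s * s * φ (Q0 (T v)) - c * φ (Q0 v)) = 0 := by linear_combination h1
    exact sub_eq_zero.1 ((mul_eq_zero.1 h2).resolve_left hd)
  obtain ⟨x, y, hxy⟩ := hG0
  have h1 : Q0 (x + y) = 1 := by rw [Q_add, hxy.left, hxy.right, hxy.pair]; ring
  set c0 := Q0 (T (x + y)) with hc0
  have h2 : c = s * s * φ c0 := by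
    have := key (x + y)
    rw [h1, map_one, mul_one] at this
    exact this.symm
  have h3 : ∀ v, Q0 (T v) = c0 * Q0 v := by
    intro v
    apply φ.injective
    have h4 := key v
    rw [h2] at h4
    have h5 : s * s * (φ (Q0 (T v)) - φ (c0 * Q0 v)) = 0 := by rw [map_mul]; linear_combination h4
    exact sub_eq_zero.1 ((mul_eq_zero.1 h5).resolve_left (mul_ne_zero hs hs))
  have h0 : c0 ≠ 0 := by
    intro h
    rw [h, map_zero, mul_zero] at h2
    exact hS.ne h2
  exact ⟨⟨T.toEquiv, RingEquiv.refl F0, c0, h0, fun u v => map_add T u v, fun a v => map_smul T a v, h3⟩,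
    fun v => rfl⟩

end semi

/-! ### The main theorem -/

/-- **BOX FA3**: some `M i` is not linear. -/
theorem box_FA3 {F F0 V G Ω S ι : Type} [Field F] [Finite F] [Field F0] [AddCommGroup V] [Module F V]
    [FiniteDimensional F V] {Q : QuadraticForm F V} [Group G] [Finite G] [MulAction G Ω] [Nonempty Ω]
    [Group S] [Finite S] {N : Subgroup G} {ρ : ↥(E Q) →* G}
    (hG : Good Q) (h7 : 7 ≤ Module.finrank F V) (hE : Env G Ω N) (hρ : _root_.Cfsg.Agent.H93.RC.Rep Q N ρ)
    (e : N ≃* S) (hIH : IH (Nat.card S)) [Finite ι] {x : ι → G} {M : ι → Gam Q} {r : ι → ℕ} (hx : PF x r)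
    (hl : ∀ i, Lf ρ (x i) (M i)) (hcov : Cov Ω x)
    {n : ℕ} {φ : F0 →+* F} (hφ : ¬ Function.Surjective φ) {b : Module.Basis (Fin n) F V}
    {Q0 : QuadraticForm F0 (Fin n → F0)} {d : F} (hd : d ≠ 0) (hQ : ∀ v, Q (semJ φ b v) = d * φ (Q0 v))
    (hnl : ∀ i, ¬ IsLin (M i) → ∃ s : F, s ≠ 0 ∧ ∀ v, (M i).1 (semJ φ b v) = s • semJ φ b v)
    (hlin : ∀ i, IsLin (M i) → ∃ (s : F) (T : (Fin n → F0) ≃ₗ[F0] (Fin n → F0)), s ≠ 0 ∧
      ∀ v, (M i).1 (semJ φ b v) = s • semJ φ b (T v))
    (hex : ∃ i, ¬ IsLin (M i)) : False := by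
  classical
  have hfV : Finite V := Module.finite_of_finite F
  have hf0 : Finite F0 := Finite.of_injective φ φ.injective
  have hG0 : Good Q0 := good0 hG hQ
  have hn : 7 ≤ Module.finrank F0 (Fin n → F0) := by
    rw [Module.finrank_fin_fun]
    rwa [Module.finrank_eq_card_basis b, Fintype.card_fin] at h7
  have hnt : Nontrivial V := Module.nontrivial_of_finrank_pos (R := F) (by omega)
  -- the similitudes `T i`
  have hT : ∀ i, ∃ (s : F) (T : Gam Q0), s ≠ 0 ∧ (∀ v, (M i).1 (semJ φ b v) = s • semJ φ b (T.1 v)) ∧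
      (¬ IsLin (M i) → T = 1) := by
    intro i
    by_cases hi : IsLin (M i)
    · obtain ⟨s, T, hs, hT⟩ := hlin i hi
      obtain ⟨T', hT'⟩ := exists_T hG0.exists_hyp hd hQ hi hs hT
      exact ⟨s, T', hs, fun v => by rw [hT, hT'], fun h => absurd hi h⟩
    · obtain ⟨s, hs, h⟩ := hnl i hi
      exact ⟨s, 1, hs, h, fun _ => rfl⟩
  choose s T hs hT hT1 using hT
  let θ : ↥(E Q0) →* G := ρ.comp (psiE hd hQ)
  have hθ : ∀ g, θ g = ρ (psiE hd hQ g) := fun g => rfl
  have hker : θ.ker ≤ Subgroup.center ↥(E Q0) := by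
    intro g hg
    apply mem_center_of_psiE hd hQ
    rw [← hρ.ker, MonoidHom.mem_ker]
    exact hg
  have hconj : ∀ i g, x i * θ g * (x i)⁻¹ = θ (_root_.Cfsg.Agent.ClassicalGeometry.OrthSemi.conjE Q0 (T i) g) := by
    intro i g
    rw [hθ, hl i, conjE_psiE hd hQ (hs i) (hT i)]
    rfl
  have hcentn : ∀ i, ¬ IsLin (M i) → ∀ m ∈ θ.range, x i * m = m * x i := by
    rintro i hi _ ⟨g, rfl⟩
    have h1 := hconj i g
    rw [hT1 i hi, map_one, MulAut.one_apply] at h1
    exact mul_inv_eq_iff_eq_mul.1 h1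
  have hcentl : ∀ i, (∀ m ∈ θ.range, x i * m = m * x i) → ¬ IsLin (M i) := by
    intro i hi hlin'
    have h1 : ∀ g, θ (_root_.Cfsg.Agent.ClassicalGeometry.OrthSemi.conjE Q0 (T i) g) = θ g := by
      intro g
      rw [← hconj, hi _ ⟨g, rfl⟩, mul_inv_cancel_right]
    have h2 : Psi Q0 (T i) = 1 := by
      ext t
      obtain ⟨t, rfl⟩ := QuotientGroup.mk_surjective t
      rw [Psi_mk]
      show (QuotientGroup.mk (_root_.Cfsg.Agent.ClassicalGeometry.OrthSemi.conjE Q0 (T i) t) : P Q0) = QuotientGroup.mk t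
      rw [eq_comm, QuotientGroup.eq]
      apply hker
      rw [MonoidHom.mem_ker, map_mul, map_inv, h1]
      group
    have h3 : _root_.Cfsg.Agent.ClassicalGeometry.OrthSemi.conjE Q0 (T i) = 1 := eq_one_of_quotAut (commutator_E hG0) _ h2
    obtain ⟨a, ha, h4⟩ := exists_scalar_of_conjE hG0 (T i) h3
    have h5 : IsScal (M i) := by
      refine ⟨s i * φ a, mul_ne_zero (hs i) ((map_ne_zero φ).2 ha), fun v => ?_⟩
      let f : V →ₗ[F] V :=
        { toFun := (M i).1
          map_add' := add_of_mem (M i).2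
          map_smul' := hlin' }
      have h6 : f = (s i * φ a) • LinearMap.id := by
        refine lin_ext φ b fun v => ?_
        show (M i).1 (semJ φ b v) = (s i * φ a) • semJ φ b v
        rw [hT, h4, semJ_smul, smul_smul]
      exact LinearMap.congr_fun h6 v
    exact hx.ne i ((hl i).eq_one_iff hG hE hρ |>.2 h5)
  -- the group `MM`
  have hMN : θ.range ≤ N := by
    rintro _ ⟨g, rfl⟩
    rw [← hρ.range]
    exact ⟨_, rfl⟩
  have hMne : θ.range ≠ N := by
    intro h
    obtain ⟨i, hi⟩ := hex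
    apply hx.ne i
    have h1 : x i ∈ Subgroup.centralizer (N : Set G) := by
      rw [Subgroup.mem_centralizer_iff]
      intro m hm
      exact (hcentn i hi m (by rw [h]; exact hm)).symm
    rw [hE.cent] at h1
    exact Subgroup.mem_bot.1 h1
  have hperf : ⁅θ.range, θ.range⁆ = θ.range := by
    have h1 : commutator ↥(E Q0) = ⊤ := commutator_E hG0
    rw [commutator_def] at h1
    rw [MonoidHom.range_eq_map θ, ← Subgroup.map_commutator, h1]
  let πL : ↥(E Q0) ⧸ θ.ker →* P Q0 :=
    QuotientGroup.lift θ.ker (QuotientGroup.mk' (Subgroup.center ↥(E Q0))) (fun g hg =>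
      (QuotientGroup.eq_one_iff g).2 (hker hg))
  let π : ↥θ.range →* P Q0 := πL.comp (QuotientGroup.quotientKerEquivRange θ).symm.toMonoidHom
  have hπθ : ∀ g, π ⟨θ g, ⟨g, rfl⟩⟩ = QuotientGroup.mk g := by
    intro g
    have h1 : (QuotientGroup.quotientKerEquivRange θ).symm ⟨θ g, ⟨g, rfl⟩⟩ = QuotientGroup.mk g := by
      rw [MulEquiv.symm_apply_eq]
      rfl
    show πL ((QuotientGroup.quotientKerEquivRange θ).symm ⟨θ g, ⟨g, rfl⟩⟩) = _
    rw [h1]
    rfl
  have hπs : Function.Surjective π := by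
    intro y
    obtain ⟨g, rfl⟩ := QuotientGroup.mk_surjective y
    exact ⟨_, hπθ g⟩
  have hπk : π.ker ≤ Subgroup.center ↥θ.range := by
    rintro ⟨_, g, rfl⟩ hm
    rw [MonoidHom.mem_ker, hπθ] at hm
    have h1 : g ∈ Subgroup.center ↥(E Q0) := (QuotientGroup.eq_one_iff g).1 hm
    rw [Subgroup.mem_center_iff]
    rintro ⟨_, k, rfl⟩
    apply Subtype.ext
    show θ k * θ g = θ g * θ k
    rw [← map_mul, ← map_mul, Subgroup.mem_center_iff.1 h1 k]
  have hnorm : ∀ i, x i ∈ Subgroup.normalizer ((θ.range : Subgroup G) : Set G) := by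
    intro i
    rw [Subgroup.mem_normalizer_iff]
    intro m
    constructor
    · rintro ⟨g, rfl⟩
      exact ⟨_, (hconj i g).symm⟩
    · rintro ⟨g, hg⟩
      refine ⟨(_root_.Cfsg.Agent.ClassicalGeometry.OrthSemi.conjE Q0 (T i))⁻¹ g, ?_⟩
      have h2 := hconj i ((_root_.Cfsg.Agent.ClassicalGeometry.OrthSemi.conjE Q0 (T i))⁻¹ g)
      rw [MulAut.apply_inv_self] at h2
      exact mul_left_cancel (mul_right_cancel (h2.trans hg))
  have hfP := finite_P (Q := Q0)
  obtain ⟨hs1, hs2, hs3, hs4⟩ := box_id hG0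
  have hs4' : ¬ Exc (P Q0) := by
    rcases hs4 with ⟨-, h, -⟩ | h
    · omega
    · exact h
  have hrule := mrule_IH hIH e hMN hMne hperf π hπs hπk hs1 hs2 hs3 hs4' hx hcov hnorm
  -- the element `m0`
  obtain ⟨a0, c0, m0, hm01, hm0, hdet⟩ := exists_m0 hG0
  have hdet' : 4 * Q (semJ φ b a0) * Q (semJ φ b c0) -
      polar Q (semJ φ b a0) (semJ φ b c0) * polar Q (semJ φ b a0) (semJ φ b c0) ≠ 0 := by
    have h1 : 4 * Q (semJ φ b a0) * Q (semJ φ b c0) -
        polar Q (semJ φ b a0) (semJ φ b c0) * polar Q (semJ φ b a0) (semJ φ b c0) =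
        d * d * φ (4 * Q0 a0 * Q0 c0 - polar Q0 a0 c0 * polar Q0 a0 c0) := by
      rw [hQ, hQ, polar_semJ hQ, map_sub, map_mul, map_mul, map_mul, map_ofNat]
      ring
    rw [h1]
    exact mul_ne_zero (mul_ne_zero hd hd) ((map_ne_zero φ).2 hdet)
  obtain ⟨α, β, hsp, hW1, hW2⟩ := split_of_det hdet'
  set W : Submodule F V := Comp α β with hWdef
  have hWmem : ∀ v, v ∈ W ↔ polar Q (semJ φ b a0) v = 0 ∧ polar Q (semJ φ b c0) v = 0 := by
    intro v
    rw [hWdef, mem_Comp]
    exact ⟨fun h => hW1 v h.1 h.2, fun h => hW2 v h.1 h.2⟩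
  have hWnd : Nondeg (Q.comp W.subtype) := nondeg_restr hG.nondeg hsp
  have hWd : Module.finrank F W + 2 = Module.finrank F V := finrank_Comp hsp
  have hWG : Good (Q.comp W.subtype) := OrthFinite.good_of_finite hWnd (by omega)
  have hWt : W ≠ ⊤ := by
    intro h
    rw [h, finrank_top] at hWd
    omega
  -- `psiE m0` is trivial on `W`
  set g1 : ↥(E Q) := psiE hd hQ m0 with hg1
  have hJ : ∀ u, (g1 : V ≃ₗ[F] V) (semJ φ b u) = semJ φ b ((m0 : (Fin n → F0) ≃ₗ[F0] (Fin n → F0)) u) :=
    fun u => psiE_semJ hd hQ m0 u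
  obtain ⟨α0, β0, hsp0, hW01, hW02⟩ := split_of_det hdet
  have hmW : ∀ v ∈ W, (g1 : V ≃ₗ[F] V) v = v := by
    have hf : ((g1 : V ≃ₗ[F] V).toLinearMap - LinearMap.id : V →ₗ[F] V) =
        α.smulRight ((g1 : V ≃ₗ[F] V) (semJ φ b a0) - semJ φ b a0) +
        β.smulRight ((g1 : V ≃ₗ[F] V) (semJ φ b c0) - semJ φ b c0) := by
      refine lin_ext φ b fun u => ?_
      show (g1 : V ≃ₗ[F] V) (semJ φ b u) - semJ φ b u =
        α (semJ φ b u) • ((g1 : V ≃ₗ[F] V) (semJ φ b a0) - semJ φ b a0) +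
        β (semJ φ b u) • ((g1 : V ≃ₗ[F] V) (semJ φ b c0) - semJ φ b c0)
      set u' := u - α0 u • a0 - β0 u • c0 with hu'
      have h1 : α0 u' = 0 := by
        rw [hu', map_sub, map_sub, map_smul, map_smul, hsp0.ax, hsp0.ay]
        simp
      have h2 : β0 u' = 0 := by
        rw [hu', map_sub, map_sub, map_smul, map_smul, hsp0.bx, hsp0.bY]
        simp
      obtain ⟨h3, h4⟩ := hW01 u' h1 h2
      have h5 : (m0 : (Fin n → F0) ≃ₗ[F0] (Fin n → F0)) u' = u' := hm0 u' h3 h4
      have h6 : semJ φ b u' ∈ W := by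
        rw [hWmem, polar_semJ hQ, polar_semJ hQ, h3, h4, map_zero, mul_zero]
        exact ⟨rfl, rfl⟩
      obtain ⟨h7, h8⟩ := mem_Comp.1 h6
      have hu : u = u' + α0 u • a0 + β0 u • c0 := by rw [hu']; abel
      have h9 : semJ φ b u = semJ φ b u' + φ (α0 u) • semJ φ b a0 + φ (β0 u) • semJ φ b c0 := by
        conv_lhs => rw [hu]
        rw [semJ_add, semJ_add, semJ_smul, semJ_smul]
      have h10 : α (semJ φ b u) = φ (α0 u) := by
        rw [h9, map_add, map_add, map_smul, map_smul, h7, hsp.ax, hsp.ay]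
        simp
      have h11 : β (semJ φ b u) = φ (β0 u) := by
        rw [h9, map_add, map_add, map_smul, map_smul, h8, hsp.bx, hsp.bY]
        simp
      rw [h10, h11, h9, map_add, map_add, map_smul, map_smul, hJ u', h5]
      module
    intro v hv
    obtain ⟨h1, h2⟩ := mem_Comp.1 hv
    have h3 := LinearMap.congr_fun hf v
    have h4 : (g1 : V ≃ₗ[F] V) v - v = α v • ((g1 : V ≃ₗ[F] V) (semJ φ b a0) - semJ φ b a0) +
        β v • ((g1 : V ≃ₗ[F] V) (semJ φ b c0) - semJ φ b c0) := h3
    rw [h1, h2, zero_smul, zero_smul, add_zero] at h4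
    exact sub_eq_zero.1 h4
  -- a nonzero vector of `W`
  have hWnt : Nontrivial W := Module.nontrivial_of_finrank_pos (R := F) (by omega)
  obtain ⟨w0, hw0⟩ := exists_ne (0 : W)
  have hw0' : (w0 : V) ≠ 0 := fun h => hw0 (Subtype.ext h)
  have hρg : ρ g1 ≠ 1 := by
    intro h
    have h1 : g1 ∈ Subgroup.center ↥(E Q) := by rw [← hρ.ker, MonoidHom.mem_ker]; exact h
    obtain ⟨a, -, ha⟩ := scal_of_center hG h1
    have h2 : a = 1 := by
      have h3 := ha w0
      rw [hmW w0 w0.2] at h3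
      have h4 : (1 - a) • (w0 : V) = 0 := by rw [sub_smul, one_smul, ← h3, sub_self]
      exact (sub_eq_zero.1 ((smul_eq_zero.1 h4).resolve_right hw0')).symm
    apply hm01
    apply psiE_injective hd hQ
    rw [map_one]
    refine ext_E fun v => ?_
    rw [← hg1, ha v, h2, one_smul]
    rfl
  -- the element `y` of prime order
  have ho1 : orderOf (ρ g1) ≠ 1 := fun h => hρg (orderOf_eq_one_iff.1 h)
  set p1 := (orderOf (ρ g1)).minFac with hp1
  have hp1p : p1.Prime := Nat.minFac_prime ho1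
  obtain ⟨k, hk⟩ : p1 ∣ orderOf (ρ g1) := Nat.minFac_dvd _
  set g2 : ↥(E Q) := g1 ^ k with hg2
  have hρg2 : ρ g2 = ρ g1 ^ k := by rw [hg2, map_pow]
  have hy1 : ρ g2 ^ p1 = 1 := by
    rw [hρg2, ← pow_mul, mul_comm, ← hk, pow_orderOf_eq_one]
  have hy0 : ρ g2 ≠ 1 := by
    intro h
    rw [hρg2] at h
    have h1 := orderOf_dvd_of_pow_eq_one h
    have hk0 : 0 < k := by
      rcases Nat.eq_zero_or_pos k with h2 | h2
      · rw [h2, mul_zero] at hk
        exact absurd hk (orderOf_pos _).ne'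
      · exact h2
    have h2 := Nat.le_of_dvd hk0 h1
    rw [hk] at h2
    have h3 := hp1p.two_le
    nlinarith only [hk0, h2, h3]
  have hg2W : ∀ v ∈ W, (g2 : V ≃ₗ[F] V) v = v := by
    have h1 : ∀ j : ℕ, ∀ v ∈ W, ((g1 ^ j : ↥(E Q)) : V ≃ₗ[F] V) v = v := by
      intro j
      induction j with
      | zero => intro v _; rfl
      | succ j ih =>
        intro v hv
        rw [pow_succ]
        show ((g1 ^ j : ↥(E Q)) : V ≃ₗ[F] V) ((g1 : V ≃ₗ[F] V) v) = v
        rw [hmW v hv, ih v hv]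
    exact h1 k
  have hyM : ρ g2 ∈ θ.range := ⟨m0 ^ k, by rw [hθ, map_pow]⟩
  -- nonlinear lifts are not scalar on `W`
  have hnsc : ∀ i, ¬ IsLin (M i) → ¬ ScalOn (M i) W := by
    rintro i hi ⟨a, ha, h⟩
    apply hi
    obtain ⟨σ, c, hM⟩ := (M i).2
    have hσ : ∀ t, σ t = t := by
      intro t
      have h1 := h (t • (w0 : V)) (W.smul_mem t w0.2)
      rw [hM.smul, h w0 w0.2, smul_smul, smul_smul] at h1
      have h2 : (a * (σ t - t)) • (w0 : V) = 0 := by
        have h3 : (a * (σ t - t)) • (w0 : V) = (σ t * a) • (w0 : V) - (a * t) • (w0 : V) := by module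
        rw [h3, h1, sub_self]
      exact sub_eq_zero.1 ((mul_eq_zero.1 ((smul_eq_zero.1 h2).resolve_right hw0')).resolve_left ha)
    intro t v
    rw [hM.smul, hσ]
  have hWinv : ∀ i, ¬ IsLin (M i) → ∀ v ∈ W, (M i).1 v ∈ W := by
    intro i hi v hv
    obtain ⟨σ, c, hM⟩ := (M i).2
    obtain ⟨t, ht, h⟩ := hnl i hi
    obtain ⟨h1, h2⟩ := (hWmem v).1 hv
    have h3 := hM.polar (semJ φ b a0) v
    have h4 := hM.polar (semJ φ b c0) v
    rw [h, h1, map_zero, mul_zero, polar_smul_left, smul_eq_mul] at h3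
    rw [h, h2, map_zero, mul_zero, polar_smul_left, smul_eq_mul] at h4
    exact (hWmem _).2 ⟨(mul_eq_zero.1 h3).resolve_left ht, (mul_eq_zero.1 h4).resolve_left ht⟩
  -- the new cover
  let J := {i : ι // ¬ IsLin (M i)}
  let x' : Option J → G := fun o => o.elim (ρ g2) fun i => x i
  let M' : Option J → Gam Q := fun o => o.elim (tg Q g2) fun i => M i
  let r' : Option J → ℕ := fun o => o.elim p1 fun i => r i
  have hscn : ScalOn (M' none) W := ⟨1, one_ne_zero, fun v hv => by
    rw [one_smul]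
    exact hg2W v hv⟩
  have hcard : Nat.card (P (Q.comp W.subtype)) < Nat.card S := by
    have h1 := box_card hG W hWG hWt
    have h2 : Nat.card (P Q) = Nat.card N := by
      let ρN : ↥(E Q) →* N := ρ.codRestrict N fun t => by rw [← hρ.range]; exact ⟨t, rfl⟩
      have h3 : Function.Surjective ρN := by
        rintro ⟨m, hm⟩
        have hm' := hm
        rw [← hρ.range] at hm'
        obtain ⟨t, ht⟩ := hm'
        exact ⟨t, Subtype.ext ht⟩
      have h4 : ρN.ker = Subgroup.center ↥(E Q) := by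
        rw [← hρ.ker]
        ext t
        rw [MonoidHom.mem_ker, MonoidHom.mem_ker]
        exact ⟨fun h => congrArg Subtype.val h, fun h => Subtype.ext h⟩
      exact Nat.card_congr ((QuotientGroup.quotientMulEquivOfEq h4.symm).trans
        (QuotientGroup.quotientKerEquivOfSurjective ρN h3)).toEquiv
    rw [h2, Nat.card_congr e.toEquiv] at h1
    exact h1
  have hRC : RC (P (Q.comp W.subtype)) := by
    have hfPW := finite_P (Q := Q.comp W.subtype)
    obtain ⟨k1, k2, k3, k4⟩ := box_id hWG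
    refine hIH _ k1 k2 k3 ?_ hcard
    rcases k4 with ⟨h1, -, -⟩ | h1
    · exfalso
      have h2 : Nat.card F0 < Nat.card F := by
        rcases lt_or_eq_of_le (Nat.card_le_card_of_injective φ φ.injective) with h | h
        · exact h
        · exact absurd ((Nat.bijective_iff_injective_and_card φ).2 ⟨φ.injective, h⟩).2 hφ
      have h3 : 1 < Nat.card F0 := Finite.one_lt_card
      omega
    · exact h1
  obtain ⟨u, w, hu, hw, huw, hu0, hind⟩ := exists_plane hWG
  have hu' : Q (u : V) = 0 := hu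
  have hw' : Q (w : V) = 0 := hw
  have huw' : polar Q (u : V) w = 0 := huw
  refine not_cov_W hG hE hρ hWnd (g := g2) hg2W (fun h => hy0 (by rw [h, map_one])) u.2 w.2 hu' hw' huw'
    (fun h => hu0 (Subtype.ext h)) (fun a h => hind a (Subtype.ext h)) fun ω => ?_
  have hfin := mrule_W (x := x') (M := M') (r := r') (Ω := Ω) hG hρ ?_ ?_ ?_ ?_ ?_ hWG hWt ?_ ?_ ?_ (Or.inl hRC) ω
  rcases hfin with
    h | ⟨j, hj, hjω⟩
  · right
    have h1 : ρ (AutOrth.SemiSim.sg Q (u : V) w hu' huw') ∈ (phi ρ hWG.nondeg).range :=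
      ⟨AutOrth.SemiSim.sg (Q.comp W.subtype) u w hu huw, by rw [phi_apply, extE_sg hWG.nondeg hu huw hu' huw']⟩
    exact h h1
  · left
    rcases j with _ | j
    · exact hjω
    · exact absurd hj (hnsc j j.2)
  · rintro (_ | i)
    · exact Lf.tg g2
    · exact hl i
  · rintro (_ | i)
    · exact hp1p
    · exact hx.prime i
  · rintro (_ | i)
    · exact hy1
    · exact hx.pow i
  · rintro (_ | i) (_ | j)
    · rfl
    · exact (hcentn j j.2 _ hyM).symm
    · exact hcentn i i.2 _ hyM
    · exact hx.comm i j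
  · intro ω
    rcases hrule ω with h | ⟨j, hj, hjω⟩
    · exact ⟨none, h hyM⟩
    · exact ⟨some ⟨j, hcentl j hj⟩, hjω⟩
  · rintro (_ | i) v hv
    · show (g2 : V ≃ₗ[F] V) v ∈ W
      rw [hg2W v hv]
      exact hv
    · exact hWinv i i.2 v hv
  · obtain ⟨i, hi⟩ := hex
    exact ⟨some ⟨i, hi⟩, hnsc i hi⟩
  · rintro (_ | i) hi (_ | j) hj hij
    · rfl
    · exact absurd hscn hi
    · exact absurd hscn hj
    · exact congrArg some (Subtype.ext (hx.inj hij))

end Cfsg.Agent.H236.RC
end

private theorem dce_7b6e76a6db3d : _root_.True := by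
  try have : _root_.True := by simp only [_root_.Cfsg.Agent.H236.RC.semJ.eq_1]
  exact _root_.True.intro
end

-- part: H93/RC/BoxB3
section
prune_inst 0x11003544746210000018000020201c66e2000522004804000c030a4606896e602d842861a3b0011148800c452031006001140010424000000e200000011800800000100031400000000090000080000000000000000000000000000000000000000000000
set_option linter.all false
open scoped Cfsg.Agent.FastGrp

/-!
# S3510, row F: replacing a member of a cover (`CV.update`), and the three-dimensional box `B3`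

`CV.box_B3`: `p` odd; the `p`-element acts on a nondegenerate 3-space `⟨e, f, b⟩` as a Siegel element and
the other members act as scalars on it. All dimensions `≥ 7`.
-/

set_option autoImplicit false
open Cfsg

namespace Cfsg.Agent.H93.RC

open QuadraticMap MulAction
open Cfsg.Agent.LieClassical.OrthCore Cfsg.Agent.LieClassical.OrthTrans
open Cfsg.Agent.LieClassical.OrthSimple Cfsg.Agent.ClassicalGeometry.OrthSemi
open Cfsg.Agent.ClassicalGeometry.OrthAut1 Cfsg.Agent.H106.RC Cfsg.Agent.H138.RC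

variable {F V G Ω : Type} [Field F] [AddCommGroup V] [Module F V] [Group G] [MulAction G Ω]
  {Q : QuadraticForm F V} {N : Subgroup G} {ρ : ↥(E Q) →* G} {p : ℕ} {ι : Type} {x : ι → G}
  {M : ι → Gam Q} {X : ι → V ≃ₗ[F] V} {c : ι → F} {r : ι → ℕ}

/-- replacing the member `i₀` of a cover by an element of the group generated by its conjugates under the
centraliser of the other members -/
theorem cv_update [DecidableEq ι] (h : CV Q Ω N ρ p x M X c r) (i₀ : ι) {y : G} {M' : Gam Q}
    {X' : V ≃ₗ[F] V} {s : ℕ} (hs : s.Prime) (hys : y ^ s = 1) (hy1 : y ≠ 1)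
    (hcl : y ∈ Subgroup.closure {z | ∃ g : G, (∀ j, j ≠ i₀ → g * x j = x j * g) ∧ z = g * x i₀ * g⁻¹})
    (hlf : Lf ρ y M') (hlin : ∀ v, M'.1 v = X' v) (hO : ∀ v, Q (X' v) = Q v)
    (hcX : ∀ j, j ≠ i₀ → X' * X j = X j * X') :
    CV Q Ω N ρ p (Function.update x i₀ y) (Function.update M i₀ M') (Function.update X i₀ X')
      (Function.update c i₀ 1) (Function.update r i₀ s) := by
  have hyc : ∀ j, j ≠ i₀ → y * x j = x j * y := by
    intro j hj
    have h1 : Subgroup.closure {z | ∃ g : G, (∀ j, j ≠ i₀ → g * x j = x j * g) ∧ z = g * x i₀ * g⁻¹} ≤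
        Subgroup.centralizer {x j} := by
      rw [Subgroup.closure_le]
      rintro _ ⟨g, hg, rfl⟩
      have hgj : Commute g (x j) := hg j hj
      have hij : Commute (x i₀) (x j) := h.comm i₀ j
      show g * x i₀ * g⁻¹ ∈ Subgroup.centralizer {x j}
      rw [Subgroup.mem_centralizer_singleton_iff]
      exact ((hgj.mul_left hij).mul_left hgj.inv_left).eq
    exact Subgroup.mem_centralizer_singleton_iff.1 (h1 hcl)
  refine ⟨h.good, h.env, h.rep, h.lr, h.ih, ?_, ?_, ?_, ?_, h.cov.mv i₀ hcl, ?_, ?_, ?_, ?_⟩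
  · intro i
    by_cases hi : i = i₀
    · subst hi; rwa [Function.update_self]
    · rw [Function.update_of_ne hi]; exact h.prime i
  · intro i
    by_cases hi : i = i₀
    · subst hi; rwa [Function.update_self, Function.update_self]
    · rw [Function.update_of_ne hi, Function.update_of_ne hi]; exact h.pow i
  · intro i
    by_cases hi : i = i₀
    · subst hi; rwa [Function.update_self]
    · rw [Function.update_of_ne hi]; exact h.ne i
  · intro i j
    by_cases hi : i = i₀
    · subst hi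
      by_cases hj : j = i
      · subst hj; rfl
      · rw [Function.update_self, Function.update_of_ne hj]; exact hyc j hj
    · by_cases hj : j = i₀
      · subst hj
        rw [Function.update_self, Function.update_of_ne hi]; exact (hyc i hi).symm
      · rw [Function.update_of_ne hi, Function.update_of_ne hj]; exact h.comm i j
  · intro i
    by_cases hi : i = i₀
    · subst hi; rwa [Function.update_self, Function.update_self]
    · rw [Function.update_of_ne hi, Function.update_of_ne hi]; exact h.lf i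
  · intro i v
    by_cases hi : i = i₀
    · subst hi; rw [Function.update_self, Function.update_self]; exact hlin v
    · rw [Function.update_of_ne hi, Function.update_of_ne hi]; exact h.lin i v
  · intro i v
    by_cases hi : i = i₀
    · subst hi; rw [Function.update_self, Function.update_self, one_mul]; exact hO v
    · rw [Function.update_of_ne hi, Function.update_of_ne hi]; exact h.sim i v
  · intro i j
    by_cases hi : i = i₀
    · subst hi
      by_cases hj : j = i
      · subst hj; rfl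
      · rw [Function.update_self, Function.update_of_ne hj]; exact hcX j hj
    · by_cases hj : j = i₀
      · subst hj
        rw [Function.update_self, Function.update_of_ne hi]; exact (hcX i hi).symm
      · rw [Function.update_of_ne hi, Function.update_of_ne hj]; exact h.commX i j

/-- an element of `E Q` commuting with the linear lift of `x` commutes with `x` -/
theorem comm_of_lin {y : G} {L : Gam Q} {Y : V ≃ₗ[F] V} (hl : Lf ρ y L)
    (hY : ∀ v, L.1 v = Y v) {g : V ≃ₗ[F] V} (hg : g ∈ E Q) (hgY : g * Y = Y * g) :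
    ρ ⟨g, hg⟩ * y = y * ρ ⟨g, hg⟩ := by
  have h1 := hl ⟨g, hg⟩
  have h2 : conjE Q L ⟨g, hg⟩ = ⟨g, hg⟩ := by
    apply Subtype.ext
    rw [coe_conjE]
    ext v
    obtain ⟨v, rfl⟩ := L.1.surjective v
    rw [conjLin_apply', hY, hY]
    exact (congrArg (fun f : V ≃ₗ[F] V => f v) hgY).symm
  rw [h2] at h1
  exact (mul_inv_eq_iff_eq_mul.1 h1).symm

section three

variable {e f b : V}

/-- the Weyl element of the 3-space -/
noncomputable def wl (Q : QuadraticForm F V) (e f b : V) (h : Hyp Q e f) (heb : polar Q e b = 0)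
    (hfb : polar Q f b = 0) : V ≃ₗ[F] V :=
  siegel Q e b h.left heb *
    siegel Q f ((Q b)⁻¹ • b) h.right (by rw [polar_smul_right, hfb, smul_zero]) * siegel Q e b h.left heb

variable (h : Hyp Q e f) (heb : polar Q e b = 0) (hfb : polar Q f b = 0)

theorem wl_mem : wl Q e f b h heb hfb ∈ E Q :=
  Subgroup.mul_mem _ (Subgroup.mul_mem _ (siegel_mem_E _ _) (siegel_mem_E _ _)) (siegel_mem_E _ _)

theorem wl_apply (v : V) : wl Q e f b h heb hfb v =
    siegelLin Q e b (siegelLin Q f ((Q b)⁻¹ • b) (siegelLin Q e b v)) := rfl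

theorem wl_e (hb : Q b ≠ 0) : wl Q e f b h heb hfb e = -((Q b)⁻¹ • f) := by
  have he := h.left
  have hf := h.right
  have h1 : polar Q e e = 0 := polar_self_of_sing he
  have h2 : polar Q f f = 0 := polar_self_of_sing hf
  have h3 : polar Q e f = 1 := h.pair
  have h4 : polar Q f e = 1 := h.symm.pair
  have h5 : polar Q b e = 0 := by rw [polar_comm, heb]
  have h6 : polar Q b f = 0 := by rw [polar_comm, hfb]
  have h7 : polar Q b b = 2 * Q b := by rw [polar_self, two_smul, two_mul]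
  rw [wl_apply]
  simp only [siegelLin_apply, polar_add_right, polar_sub_right, polar_smul_right, polar_smul_left,
    QuadraticMap.map_smul, h1, h3, h4, h5, h6, h7, heb, hfb, smul_eq_mul]
  match_scalars <;> field_simp <;> ring

theorem wl_f (hb : Q b ≠ 0) : wl Q e f b h heb hfb f = -(Q b • e) := by
  have he := h.left
  have hf := h.right
  have h1 : polar Q e e = 0 := polar_self_of_sing he
  have h2 : polar Q f f = 0 := polar_self_of_sing hf
  have h3 : polar Q e f = 1 := h.pair
  have h4 : polar Q f e = 1 := h.symm.pair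
  have h5 : polar Q b e = 0 := by rw [polar_comm, heb]
  have h6 : polar Q b f = 0 := by rw [polar_comm, hfb]
  have h7 : polar Q b b = 2 * Q b := by rw [polar_self, two_smul, two_mul]
  rw [wl_apply]
  simp only [siegelLin_apply, polar_add_right, polar_sub_right, polar_smul_right, polar_smul_left,
    QuadraticMap.map_smul, h1, h2, h3, h4, h5, h6, h7, heb, hfb, smul_eq_mul]
  match_scalars <;> field_simp <;> ring

theorem wl_b (hb : Q b ≠ 0) : wl Q e f b h heb hfb b = -b := by
  have he := h.left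
  have hf := h.right
  have h1 : polar Q e e = 0 := polar_self_of_sing he
  have h2 : polar Q f f = 0 := polar_self_of_sing hf
  have h3 : polar Q e f = 1 := h.pair
  have h4 : polar Q f e = 1 := h.symm.pair
  have h5 : polar Q b e = 0 := by rw [polar_comm, heb]
  have h6 : polar Q b f = 0 := by rw [polar_comm, hfb]
  have h7 : polar Q b b = 2 * Q b := by rw [polar_self, two_smul, two_mul]
  rw [wl_apply]
  simp only [siegelLin_apply, polar_add_right, polar_sub_right, polar_smul_right, polar_smul_left,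
    QuadraticMap.map_smul, h1, h3, h4, h5, h6, h7, heb, hfb, smul_eq_mul]
  match_scalars <;> field_simp <;> ring

theorem wl_perp {v : V} (h1 : polar Q e v = 0) (h2 : polar Q f v = 0) (h3 : polar Q b v = 0) :
    wl Q e f b h heb hfb v = v := by
  have h4 : siegelLin Q e b v = v := by rw [siegelLin_apply, h1, h3]; simp
  have h5 : siegelLin Q f ((Q b)⁻¹ • b) v = v := by rw [siegelLin_apply, h2, polar_smul_left, h3]; simp
  rw [wl_apply, h4, h5, h4]

include h heb hfb in
/-- decomposition along the 3-space -/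
theorem exists_dec (h2 : (2 : F) ≠ 0) (hb : Q b ≠ 0) (v : V) :
    ∃ (a₁ a₂ a₃ : F) (v' : V), v = a₁ • e + a₂ • f + a₃ • b + v' ∧ polar Q e v' = 0 ∧
      polar Q f v' = 0 ∧ polar Q b v' = 0 := by
  have he := h.left
  have hf := h.right
  have h1 : polar Q e e = 0 := polar_self_of_sing he
  have h2' : polar Q f f = 0 := polar_self_of_sing hf
  have h3 : polar Q e f = 1 := h.pair
  have h4 : polar Q f e = 1 := h.symm.pair
  have h5 : polar Q b e = 0 := by rw [polar_comm, heb]
  have h6 : polar Q b f = 0 := by rw [polar_comm, hfb]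
  have h7 : polar Q b b = 2 * Q b := by rw [polar_self, two_smul, two_mul]
  refine ⟨polar Q f v, polar Q e v, polar Q b v / (2 * Q b),
    v - (polar Q f v • e + polar Q e v • f + (polar Q b v / (2 * Q b)) • b), by abel, ?_, ?_, ?_⟩
  · simp only [polar_sub_right, polar_add_right, polar_smul_right, h1, h3, heb, smul_eq_mul]
    ring
  · simp only [polar_sub_right, polar_add_right, polar_smul_right, h2', h4, hfb, smul_eq_mul]
    ring
  · simp only [polar_sub_right, polar_add_right, polar_smul_right, h5, h6, h7, smul_eq_mul]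
    field_simp
    ring

theorem wl_sq (h2 : (2 : F) ≠ 0) (hb : Q b ≠ 0) : wl Q e f b h heb hfb * wl Q e f b h heb hfb = 1 := by
  ext v
  obtain ⟨a₁, a₂, a₃, v', rfl, hv1, hv2, hv3⟩ := exists_dec h heb hfb h2 hb v
  show wl Q e f b h heb hfb (wl Q e f b h heb hfb _) = _
  simp only [map_add, map_smul, map_neg, wl_e h heb hfb hb, wl_f h heb hfb hb, wl_b h heb hfb hb,
    wl_perp h heb hfb hv1 hv2 hv3]
  show _ = a₁ • e + a₂ • f + a₃ • b + v'
  match_scalars <;> field_simp

theorem mem_span3 {v : V} (hv : v ∈ Submodule.span F {e, f, b}) :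
    ∃ a₁ a₂ a₃ : F, v = a₁ • e + a₂ • f + a₃ • b := by
  rw [Submodule.mem_span_triple] at hv
  obtain ⟨a₁, a₂, a₃, hv⟩ := hv
  exact ⟨a₁, a₂, a₃, hv.symm⟩

end three

/-- the lift of a product -/
theorem gam_mul_apply (M L : Gam Q) (v : V) : (M * L).1 v = M.1 (L.1 v) := rfl

theorem gam_pow_apply {L : Gam Q} {Y : V ≃ₗ[F] V} (hY : ∀ v, L.1 v = Y v) (n : ℕ) (v : V) :
    (L ^ n).1 v = (Y ^ n) v := by
  induction n generalizing v with
  | zero => rfl
  | succ n ih =>
    rw [pow_succ, pow_succ, gam_mul_apply, hY, ih]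
    rfl

/-- **Box B3**: `p` odd, the `p`-element acts on the nondegenerate 3-space `⟨e, f, b⟩` as the Siegel
element of `(e, b)`, the other members are scalars on this space. -/
theorem box_B3 [Finite F] [FiniteDimensional F V] [Finite ι] [Finite G] [Nonempty Ω] [CharP F p]
    (hC : CV Q Ω N ρ p x M X c r) (hp2 : p ≠ 2) (hinj : Function.Injective r)
    (h7 : 7 ≤ Module.finrank F V) (i₀ : ι) (hi₀ : r i₀ = p) (hXO : X i₀ ∈ O Q) (hXp : X i₀ ^ p = 1)
    {e f b : V} (h : Hyp Q e f) (heb : polar Q e b = 0) (hfb : polar Q f b = 0) (hb : Q b ≠ 0)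
    (hsc : ∀ i, i ≠ i₀ → ∃ a : F, ∀ v ∈ Submodule.span F {e, f, b}, X i v = a • v)
    (hu : ∀ v ∈ Submodule.span F {e, f, b}, X i₀ v = siegel Q e b h.left heb v) : False := by
  classical
  have hpp : p.Prime := hi₀ ▸ hC.prime i₀
  have hodd : Odd p := hpp.odd_of_ne_two hp2
  have h2 : (2 : F) ≠ 0 := by
    intro h0
    have h1 : ((2 : ℕ) : F) = 0 := by exact_mod_cast h0
    rw [CharP.cast_eq_zero_iff F p] at h1
    exact hp2 ((Nat.prime_dvd_prime_iff_eq hpp Nat.prime_two).1 h1)
  set D := Submodule.span F {e, f, b} with hD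
  have heD : e ∈ D := Submodule.subset_span (by simp)
  have hfD : f ∈ D := Submodule.subset_span (by simp)
  have hbD : b ∈ D := Submodule.subset_span (by simp)
  set w := wl Q e f b h heb hfb with hw
  have hwE : w ∈ E Q := wl_mem h heb hfb
  have hwO : w ∈ O Q := E_le_O hwE
  have hw2 : w * w = 1 := wl_sq h heb hfb h2 hb
  have hwe := wl_e h heb hfb hb
  have hwf := wl_f h heb hfb hb
  have hwb := wl_b h heb hfb hb
  have hwp : ∀ v, polar Q e v = 0 → polar Q f v = 0 → polar Q b v = 0 → w v = v :=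
    fun v h1 h2 h3 => wl_perp h heb hfb h1 h2 h3
  -- `w` preserves `D`
  have hwD : ∀ v ∈ D, w v ∈ D := by
    intro v hv
    obtain ⟨a₁, a₂, a₃, rfl⟩ := mem_span3 hv
    rw [map_add, map_add, map_smul, map_smul, map_smul, hwe, hwf, hwb]
    exact D.add_mem (D.add_mem (D.smul_mem _ (D.neg_mem (D.smul_mem _ hfD)))
      (D.smul_mem _ (D.neg_mem (D.smul_mem _ heD)))) (D.smul_mem _ (D.neg_mem hbD))
  have hsD : ∀ v ∈ D, siegel Q e b h.left heb v ∈ D := by
    intro v hv
    rw [siegel_apply]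
    exact D.sub_mem (D.sub_mem (D.add_mem hv (D.smul_mem _ hbD)) (D.smul_mem _ heD))
      (D.smul_mem _ heD)
  have hww : ∀ v, w (w v) = v := fun v => congrArg (fun g : V ≃ₗ[F] V => g v) hw2
  set u := X i₀ with hudef
  have hpu : ∀ a b, polar Q (u a) (u b) = polar Q a b := by
    intro a b
    rw [polar, polar, ← map_add, hXO, hXO, hXO]
  have huD : ∀ v ∈ D, u v ∈ D := fun v hv => by rw [hu v hv]; exact hsD v hv
  -- `u` is onto on `D`
  have huD' : ∀ v ∈ D, ∃ v' ∈ D, u v' = v := by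
    intro v hv
    refine ⟨(siegel Q e (-b) h.left (by rw [polar_neg_right, heb, neg_zero])) v, ?_, ?_⟩
    · rw [siegel_apply]
      exact D.sub_mem (D.sub_mem (D.add_mem hv (D.smul_mem _ (D.neg_mem hbD))) (D.smul_mem _ heD))
        (D.smul_mem _ heD)
    · rw [hu _ (by
        rw [siegel_apply]
        exact D.sub_mem (D.sub_mem (D.add_mem hv (D.smul_mem _ (D.neg_mem hbD)))
          (D.smul_mem _ heD)) (D.smul_mem _ heD))]
      have h1 := siegelLin_comp (w := b) (w' := -b) h.left heb (by rw [polar_neg_right, heb, neg_zero]) v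
      rw [add_neg_cancel] at h1
      refine h1.trans ?_
      rw [siegelLin_apply]
      simp
  have hup : ∀ v, (∀ d ∈ D, polar Q d v = 0) → ∀ d ∈ D, polar Q d (u v) = 0 := by
    intro v hv d hd
    obtain ⟨d', hd', rfl⟩ := huD' d hd
    rw [hpu]
    exact hv d' hd'
  -- the word
  set T : V ≃ₗ[F] V := u * (w * u * w) * u with hT
  have hTD : ∀ v ∈ D, T v = w v := by
    intro v hv
    have hse : ∀ v, siegel Q e b h.left heb v = siegelLin Q e b v := fun v => rfl
    have h1 : ∀ v ∈ D, w (u (w v)) = siegelLin Q f ((Q b)⁻¹ • b) v := by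
      intro v hv
      rw [hu _ (hwD v hv)]
      have h3 : w * siegel Q e b h.left heb * w⁻¹ = siegel Q (w e) (w b)
          (by rw [hwO]; exact h.left) (by
            rw [polar, ← map_add, hwO, hwO, hwO]; exact heb) :=
        siegel_conj hwO h.left heb _ _
      have h4 : w⁻¹ = w := inv_eq_of_mul_eq_one_left hw2
      rw [h4] at h3
      have h5 := congrArg (fun g : V ≃ₗ[F] V => g v) h3
      change w (siegel Q e b h.left heb (w v)) = _ at h5
      rw [h5, siegel_apply, siegelLin_apply]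
      rw [show w e = _ from hwe, show w b = _ from hwb]
      simp only [polar_neg_left, polar_smul_left, QuadraticMap.map_neg, QuadraticMap.map_smul, smul_eq_mul]
      match_scalars <;> field_simp
    show u (w (u (w (u v)))) = _
    rw [h1 _ (huD v hv), hu _ hv]
    have h6 : siegelLin Q f ((Q b)⁻¹ • b) (siegel Q e b h.left heb v) ∈ D := by
      rw [← h1 _ (hsD v hv)]
      exact hwD _ (huD _ (hwD _ (hsD v hv)))
    rw [hu _ h6]
    rfl
  have hTDk : ∀ v ∈ D, ∀ k : ℕ, (T ^ (2 * k)) v = v := by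
    intro v hv k
    induction k with
    | zero => rfl
    | succ k ih =>
      rw [show 2 * (k + 1) = 2 * k + 1 + 1 from rfl, pow_succ, pow_succ]
      show (T ^ (2 * k)) (T (T v)) = v
      rw [hTD v hv, hTD _ (hwD v hv), hww, ih]
  have hTp : ∀ v, (∀ d ∈ D, polar Q d v = 0) → ∀ k : ℕ, (T ^ k) v = (u ^ (3 * k)) v := by
    have hwv : ∀ v, (∀ d ∈ D, polar Q d v = 0) → w v = v :=
      fun v hv => hwp v (hv e heD) (hv f hfD) (hv b hbD)
    intro v hv k
    induction k generalizing v with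
    | zero => rfl
    | succ k ih =>
      rw [pow_succ, show 3 * (k + 1) = 3 * k + 3 by ring, pow_add]
      show (T ^ k) (u (w (u (w (u v))))) = (u ^ (3 * k)) ((u ^ 3) v)
      have e1 := hup v hv
      have e2 := hup _ e1
      rw [hwv _ e1, hwv _ e2, ih _ (hup _ e2)]
      rfl
  have hTpow : T ^ p = w := by
    ext v
    obtain ⟨a₁, a₂, a₃, v', rfl, hv1, hv2, hv3⟩ := exists_dec h heb hfb h2 hb v
    have hv' : ∀ d ∈ D, polar Q d v' = 0 := by
      intro d hd
      obtain ⟨a, b', c', rfl⟩ := mem_span3 hd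
      rw [polar_add_left, polar_add_left, polar_smul_left, polar_smul_left, polar_smul_left,
        hv1, hv2, hv3]
      simp
    have hd : a₁ • e + a₂ • f + a₃ • b ∈ D :=
      D.add_mem (D.add_mem (D.smul_mem _ heD) (D.smul_mem _ hfD)) (D.smul_mem _ hbD)
    generalize a₁ • e + a₂ • f + a₃ • b = dd at hd
    rw [map_add, map_add, hTp v' hv' p, mul_comm 3 p, pow_mul, hXp, one_pow, hwp v' hv1 hv2 hv3]
    congr 1
    obtain ⟨k, hk⟩ := hodd
    rw [hk, pow_succ]
    show (T ^ (2 * k)) (T _) = _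
    rw [hTD _ hd, hTDk _ (hwD _ hd)]
  -- the new element
  set g : G := ρ ⟨w, hwE⟩ with hg
  have hgl : Lf ρ g (tg Q ⟨w, hwE⟩) := Lf.tg _
  have hcw : ∀ j, j ≠ i₀ → w * X j = X j * w := by
    intro j hj
    obtain ⟨a, ha⟩ := hsc j hj
    ext v
    obtain ⟨a₁, a₂, a₃, v', rfl, hv1, hv2, hv3⟩ := exists_dec h heb hfb h2 hb v
    have hd : a₁ • e + a₂ • f + a₃ • b ∈ D :=
      D.add_mem (D.add_mem (D.smul_mem _ heD) (D.smul_mem _ hfD)) (D.smul_mem _ hbD)
    generalize a₁ • e + a₂ • f + a₃ • b = dd at hd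
    have ha0 : a ≠ 0 := by
      rintro rfl
      have h1 := ha e heD
      rw [zero_smul, LinearEquiv.map_eq_zero_iff] at h1
      have h3 := h.pair
      rw [h1, polar_zero_left] at h3
      exact zero_ne_one h3
    have hX' : ∀ d ∈ D, polar Q d (X j v') = 0 := by
      intro d hd
      have h3 : polar Q d v' = 0 := by
        obtain ⟨a, b', c', rfl⟩ := mem_span3 hd
        rw [polar_add_left, polar_add_left, polar_smul_left, polar_smul_left, polar_smul_left,
          hv1, hv2, hv3]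
        simp
      have h4 := hC.polar_X j d v'
      rw [ha d hd, polar_smul_left, h3, mul_zero, smul_eq_mul] at h4
      exact (mul_eq_zero.1 h4).resolve_left ha0
    show w (X j (dd + v')) = X j (w (dd + v'))
    rw [map_add, map_add, map_add, map_add, ha _ hd, ha _ (hwD _ hd), map_smul, hwp v' hv1 hv2 hv3,
      hwp _ (hX' e heD) (hX' f hfD) (hX' b hbD)]
  have hgc : ∀ j, j ≠ i₀ → g * x j = x j * g := fun j hj =>
    comm_of_lin (hC.lf j) (hC.lin j) hwE (hcw j hj)
  have hginv : g⁻¹ = g := by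
    rw [inv_eq_iff_mul_eq_one, hg, ← map_mul]
    have : (⟨w, hwE⟩ * ⟨w, hwE⟩ : ↥(E Q)) = 1 := Subtype.ext hw2
    rw [this, map_one]
  set y : G := (x i₀ * (g * x i₀ * g⁻¹) * x i₀) ^ p with hy
  set M' : Gam Q := (M i₀ * (tg Q ⟨w, hwE⟩ * M i₀ * tg Q ⟨w, hwE⟩) * M i₀) ^ p with hM'
  have hyl : Lf ρ y M' := by
    rw [hy, hginv]
    exact (((hC.lf i₀).mul ((hgl.mul (hC.lf i₀)).mul hgl)).mul (hC.lf i₀)).pow p
  have hylin : ∀ v, M'.1 v = w v := by
    intro v
    rw [hM', gam_pow_apply (Y := T) _ p v, hTpow]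
    intro v
    rw [gam_mul_apply, gam_mul_apply, gam_mul_apply, gam_mul_apply, hC.lin, hC.lin, hC.lin]
    rfl
  have hycl : y ∈ Subgroup.closure {z | ∃ g : G, (∀ j, j ≠ i₀ → g * x j = x j * g) ∧
      z = g * x i₀ * g⁻¹} := by
    have hx0 : x i₀ ∈ Subgroup.closure {z | ∃ g : G, (∀ j, j ≠ i₀ → g * x j = x j * g) ∧
        z = g * x i₀ * g⁻¹} := Subgroup.subset_closure ⟨1, by simp, by simp⟩
    exact Subgroup.pow_mem _ (Subgroup.mul_mem _ (Subgroup.mul_mem _ hx0
      (Subgroup.subset_closure ⟨g, hgc, rfl⟩)) hx0) _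
  -- the vector `d = e - f / Q b` fixed by `w`
  set k : V := e + (Q b)⁻¹ • f with hk
  have hbne : b ≠ 0 := by
    rintro rfl
    exact hb (map_zero Q)
  have hy1 : y ≠ 1 := by
    intro h1
    rw [hyl.eq_one_iff hC.good hC.env hC.rep] at h1
    obtain ⟨a, ha, h1⟩ := h1
    have h3 := h1 b
    rw [hylin, show w b = _ from hwb] at h3
    have h4 := h1 (e - (Q b)⁻¹ • f)
    rw [hylin, map_sub, map_smul, show w e = _ from hwe, show w f = _ from hwf] at h4
    have h5 : (a + 1) • b = 0 := by rw [add_smul, ← h3]; simp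
    have h6 : a = -1 := eq_neg_of_add_eq_zero_left ((smul_eq_zero.1 h5).resolve_right hbne)
    have h7 := congrArg (fun v => polar Q f v) h4
    simp only [polar_sub_right, polar_smul_right, polar_neg_right, polar_self_of_sing h.right,
      h.symm.pair, smul_eq_mul, h6, mul_zero, mul_one, neg_zero, zero_sub, sub_zero, mul_neg, neg_neg,
      inv_mul_cancel₀ hb] at h7
    apply h2
    linear_combination h7
  have hys : y ^ 2 = 1 := by
    have h1 : Lf ρ (y ^ 2) (M' ^ 2) := hyl.pow 2
    rw [h1.eq_one_iff hC.good hC.env hC.rep]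
    refine ⟨1, one_ne_zero, fun v => ?_⟩
    rw [gam_pow_apply hylin, one_smul, pow_two]
    exact hww v
  have hC' := cv_update hC i₀ Nat.prime_two hys hy1 hycl hyl hylin hwO hcw
  -- the subspace
  have hdet : 4 * Q b * Q k - polar Q b k * polar Q b k ≠ 0 := by
    have h1 : Q k = (Q b)⁻¹ := by
      rw [hk]
      have h3 : Q (e + (Q b)⁻¹ • f) = Q e + Q ((Q b)⁻¹ • f) + polar Q e ((Q b)⁻¹ • f) := by
        rw [polar]; ring
      rw [h3, h.left, QuadraticMap.map_smul, h.right, polar_smul_right, h.pair]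
      simp
    have h3 : polar Q b k = 0 := by
      rw [hk, polar_add_right, polar_smul_right, polar_comm Q b e, heb, polar_comm Q b f, hfb]
      simp
    rw [h1, h3, mul_assoc, mul_inv_cancel₀ hb]
    intro h4
    apply h2
    have h5 : (2 : F) * 2 = 0 := by linear_combination h4
    exact (mul_self_eq_zero.1 h5)
  obtain ⟨α, β, hsp, hW1, hW2⟩ := Cfsg.Agent.H236.RC.split_of_det hdet
  set W : Submodule F V := Cfsg.Agent.GenOrth.Comp α β with hWdef
  have hWmem : ∀ v, v ∈ W ↔ polar Q b v = 0 ∧ polar Q k v = 0 := by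
    intro v
    rw [hWdef, Cfsg.Agent.GenOrth.mem_Comp]
    exact ⟨fun h => hW1 v h.1 h.2, fun h => hW2 v h.1 h.2⟩
  have hWnd : Nondeg (Q.comp W.subtype) := Cfsg.Agent.GenOrth.nondeg_restr hC.good.nondeg hsp
  have hWd : Module.finrank F W + 2 = Module.finrank F V := Cfsg.Agent.GenOrth.finrank_Comp hsp
  have hWG : Good (Q.comp W.subtype) :=
    Cfsg.Agent.LieClassical.OrthFinite.good_of_finite hWnd (by omega)
  have hWt : W ≠ ⊤ := by
    intro h
    rw [h, finrank_top] at hWd
    omega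
  have hkD : k ∈ D := D.add_mem heD (D.smul_mem _ hfD)
  set d : V := e - (Q b)⁻¹ • f with hd
  have hdD : d ∈ D := D.sub_mem heD (D.smul_mem _ hfD)
  have hdW : d ∈ W := by
    rw [hWmem, hd, hk]
    simp only [polar_sub_right, polar_add_left, polar_smul_right, polar_smul_left,
      polar_comm Q b e, heb, polar_comm Q b f, hfb, polar_self_of_sing h.left, h.pair, h.symm.pair,
      polar_self_of_sing h.right, smul_eq_mul]
    constructor <;> ring
  have hd0 : d ≠ 0 := by
    intro h0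
    have h1 := congrArg (fun v => polar Q f v) h0
    simp only [hd, polar_sub_right, polar_smul_right, polar_zero_right, h.symm.pair,
      polar_self_of_sing h.right, smul_eq_mul] at h1
    simp at h1
  have hwW : ∀ v ∈ W, w v = v := by
    intro v hv
    obtain ⟨h3, h4⟩ := (hWmem v).1 hv
    obtain ⟨a₁, a₂, a₃, v', rfl, hv1, hv2, hv3⟩ := exists_dec h heb hfb h2 hb v
    have e3 : polar Q b b = 2 * Q b := by rw [polar_self, two_smul, two_mul]
    have h5 : a₃ = 0 := by
      simp only [polar_add_right, polar_smul_right, polar_comm Q b e, heb, polar_comm Q b f, hfb,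
        hv3, e3, smul_eq_mul] at h3
      have : a₃ * (2 * Q b) = 0 := by linear_combination h3
      exact (mul_eq_zero.1 this).resolve_right (mul_ne_zero h2 hb)
    have h6 : a₂ = -((Q b)⁻¹ * a₁) := by
      simp only [hk, polar_add_right, polar_add_left, polar_smul_right, polar_smul_left, heb, hfb,
        hv1, hv2, h.pair, h.symm.pair, polar_self_of_sing h.left, polar_self_of_sing h.right,
        smul_eq_mul] at h4
      linear_combination h4
    subst h5 h6
    rw [map_add, map_add, map_add, map_smul, map_smul, map_smul, show w e = _ from hwe,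
      show w f = _ from hwf, hwp v' hv1 hv2 hv3]
    match_scalars <;> field_simp
  -- scalars on `W`
  have hns : ∀ j, j ≠ i₀ → ∀ a : F, ¬ ∀ v ∈ W, X j v = a • v := by
    intro j hj a ha
    obtain ⟨a', ha'⟩ := hsc j hj
    have h1 : a = a' := by
      have h3 := ha d hdW
      rw [ha' d hdD] at h3
      have h4 : (a' - a) • d = 0 := by rw [sub_smul, h3, sub_self]
      exact (sub_eq_zero.1 ((smul_eq_zero.1 h4).resolve_right hd0)).symm
    subst h1
    apply hC.not_scal j a
    intro v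
    obtain ⟨a₁, a₂, a₃, v', rfl, hv1, hv2, hv3⟩ := exists_dec h heb hfb h2 hb v
    have hdd : a₁ • e + a₂ • f + a₃ • b ∈ D :=
      D.add_mem (D.add_mem (D.smul_mem _ heD) (D.smul_mem _ hfD)) (D.smul_mem _ hbD)
    have hv'W : v' ∈ W := by
      rw [hWmem, hk, polar_add_left, polar_smul_left, hv1, hv2, hv3]
      simp
    generalize a₁ • e + a₂ • f + a₃ • b = dd at hdd
    rw [map_add, ha' _ hdd, ha _ hv'W, smul_add]
  obtain ⟨j₀, hj₀⟩ := Cov.two hC.env hC.cov hC.ne i₀
  have hXu : ∀ i, (∃ a : F, ∀ v ∈ W, Function.update X i₀ w i v = a • v) → i = i₀ := by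
    intro i ⟨a, ha⟩
    by_contra hi
    rw [Function.update_of_ne hi] at ha
    exact hns i hi a ha
  refine hC'.box_A W hWG hWt ?_ ⟨j₀, ?_⟩ ?_ ?_ ?_
  · intro i v hv
    by_cases hi : i = i₀
    · subst hi
      rw [Function.update_self, hwW v hv]
      exact hv
    · rw [Function.update_of_ne hi]
      obtain ⟨a, ha⟩ := hsc i hi
      have ha0 : a ≠ 0 := by
        rintro rfl
        have h1 := ha e heD
        rw [zero_smul, LinearEquiv.map_eq_zero_iff] at h1
        have h3 := h.pair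
        rw [h1, polar_zero_left] at h3
        exact zero_ne_one h3
      have h5 : ∀ d ∈ D, polar Q d v = 0 → polar Q d (X i v) = 0 := by
        intro d hd h3
        have h4 := hC.polar_X i d v
        rw [ha d hd, polar_smul_left, h3, mul_zero, smul_eq_mul] at h4
        exact (mul_eq_zero.1 h4).resolve_left ha0
      rw [hWmem] at hv ⊢
      exact ⟨h5 b hbD hv.1, h5 k hkD hv.2⟩
  · intro a
    rw [Function.update_of_ne hj₀]
    exact hns j₀ hj₀ a
  · intro i hi j hj hij
    have hi' : i ≠ i₀ := by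
      rintro rfl
      exact hi 1 fun v hv => by rw [Function.update_self, hwW v hv, one_smul]
    have hj' : j ≠ i₀ := by
      rintro rfl
      exact hj 1 fun v hv => by rw [Function.update_self, hwW v hv, one_smul]
    rw [Function.update_of_ne hi', Function.update_of_ne hj'] at hij
    exact hinj hij
  · intro i hi
    rw [hXu i hi, Function.update_self]
    exact fun h => hp2 h.symm
  · left
    rintro ⟨h1, -, -⟩
    apply h2
    have := Fintype.ofFinite F
    rw [Nat.card_eq_fintype_card] at h1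
    have h3 := FiniteField.cast_card_eq_zero F
    rw [h1] at h3
    exact_mod_cast h3

end Cfsg.Agent.H93.RC

private theorem dce_a3e17bb7dcc3 : _root_.True := by
  try have : _root_.True := by simp only [_root_.Cfsg.Agent.H93.RC.wl.congr_simp]
  exact _root_.True.intro
end

-- part: H273/RC/FevLin_mg
section
prune_inst 0x10003144744012000000000222201c26e2000522004804006c430a0203096a608dc0284103a0011148808001300100000114000002000000002004000001002080805200b348a10406009f000000000000000000000000000000000000000000000000000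
set_option linter.all false
open scoped Cfsg.Agent.FastGrp

-- part: H273/RC/FevLin
section
/-!
# S3510, row F, even dimension, box E5: linear algebra (helper273)

* `plane_nondeg` : planes;
* `fix_nondeg`, `fix_split` : the fixed vectors of an isometry of prime order `r ≠ 0` in `F`;
* `gs` : the sign sum `∑ (-1)^{Q v}` over the field with 2 elements, `gs_mul`, `gs_pos`, `gs_plane`;
* `exists_plane_two` : in a nondegenerate `D'` of dimension `≥ 4` over `F₂` there is a nondegenerate plane whose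
  complement (in `V`) is not of plus type;
* `eq_seven` : a fixed point free isometry of prime order of `6⁺(2)` has order 7.
-/

set_option autoImplicit false
set_option linter.unusedSectionVars false
open Cfsg

namespace Cfsg.Agent.H273.RC.Fev

open QuadraticMap Module
open Cfsg.Agent.LieClassical.OrthCore Cfsg.Agent.LieClassical.OrthTrans Cfsg.Agent.H955

section gen

variable {F V : Type*} [Field F] [AddCommGroup V] [Module F V] {Q : QuadraticForm F V}

theorem polar_iso {T : V ≃ₗ[F] V} (hT : ∀ v, Q (T v) = Q v) (v w : V) : polar Q (T v) (T w) = polar Q v w := by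
  rw [polar, polar, ← map_add, hT, hT, hT]

theorem pow_inv {T : V ≃ₗ[F] V} {D : Submodule F V} (hD : ∀ v ∈ D, T v ∈ D) (n : ℕ) : ∀ v ∈ D, (T ^ n) v ∈ D := by
  induction n with
  | zero => exact fun v hv => hv
  | succ n ih =>
    intro v hv
    rw [pow_succ]
    exact ih _ (hD v hv)

theorem pow_iso {T : V ≃ₗ[F] V} (hT : ∀ v, Q (T v) = Q v) (n : ℕ) : ∀ v, Q ((T ^ n) v) = Q v := by
  induction n with
  | zero => exact fun v => rfl
  | succ n ih =>
    intro v
    rw [pow_succ]
    exact (ih _).trans (hT v)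

/-- the orthogonal complement of an invariant subspace is invariant -/
theorem perp_inv [FiniteDimensional F V] {T : V ≃ₗ[F] V} (hT : ∀ v, Q (T v) = Q v) {D : Submodule F V}
    (hD : ∀ v ∈ D, T v ∈ D) : ∀ v ∈ perp Q D, T v ∈ perp Q D := by
  have h1 : D.map (T : V →ₗ[F] V) = D := by
    apply Submodule.eq_of_le_of_finrank_eq
    · rintro _ ⟨v, hv, rfl⟩
      exact hD v hv
    · exact LinearEquiv.finrank_map_eq T D
  intro v hv w hw
  rw [← h1] at hw
  obtain ⟨u, hu, rfl⟩ := hw
  change polar Q (T u) (T v) = 0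
  rw [polar_iso hT]
  exact hv u hu

theorem det_zero {x y : V} (hxy : 4 * Q x * Q y ≠ polar Q x y ^ 2) {a b : F}
    (h1 : polar Q (a • x + b • y) x = 0) (h2 : polar Q (a • x + b • y) y = 0) : a = 0 ∧ b = 0 := by
  rw [polar_add_left, polar_smul_left, polar_smul_left, polar_self', polar_comm Q y x] at h1
  rw [polar_add_left, polar_smul_left, polar_smul_left, polar_self'] at h2
  simp only [smul_eq_mul] at h1 h2
  have hd : 4 * Q x * Q y - polar Q x y ^ 2 ≠ 0 := sub_ne_zero.2 hxy
  constructor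
  · have h3 : (4 * Q x * Q y - polar Q x y ^ 2) * a = 0 := by
      linear_combination 2 * Q y * h1 - polar Q x y * h2
    exact (mul_eq_zero.1 h3).resolve_left hd
  · have h3 : (4 * Q x * Q y - polar Q x y ^ 2) * b = 0 := by
      linear_combination 2 * Q x * h2 - polar Q x y * h1
    exact (mul_eq_zero.1 h3).resolve_left hd

/-- nondegenerate planes -/
theorem plane_nondeg {x y : V} (hxy : 4 * Q x * Q y ≠ polar Q x y ^ 2) :
    Nondeg (res Q (Submodule.span F {x, y})) ∧ finrank F (Submodule.span F {x, y}) = 2 := by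
  constructor
  · rw [nondeg_res_iff]
    intro v hv h
    obtain ⟨a, b, rfl⟩ := Submodule.mem_span_pair.1 hv
    obtain ⟨rfl, rfl⟩ := det_zero hxy (h x (Submodule.mem_span_pair.2 ⟨1, 0, by simp⟩))
      (h y (Submodule.mem_span_pair.2 ⟨0, 1, by simp⟩))
    simp
  · have hli : LinearIndependent F ![x, y] := by
      rw [LinearIndependent.pair_iff]
      intro a b hab
      exact det_zero hxy (by rw [hab, polar_zero_left]) (by rw [hab, polar_zero_left])
    have h1 := finrank_span_eq_card hli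
    have h2 : Set.range ![x, y] = {x, y} := by
      simp only [Matrix.range_cons, Matrix.range_empty, Set.union_empty]
      rfl
    rw [Fintype.card_fin, h2] at h1
    exact h1

/-! ### fixed vectors -/

/-- the fixed vectors of `T` in `W` -/
def fixIn (T : V ≃ₗ[F] V) (W : Submodule F V) : Submodule F V where
  carrier := {v | v ∈ W ∧ T v = v}
  add_mem' := fun ha hb => ⟨W.add_mem ha.1 hb.1, by rw [map_add, ha.2, hb.2]⟩
  zero_mem' := ⟨W.zero_mem, map_zero _⟩
  smul_mem' := fun c _ h => ⟨W.smul_mem c h.1, by rw [map_smul, h.2]⟩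

/-- the fixed vectors form a nondegenerate subspace -/
theorem fix_nondeg {T : V ≃ₗ[F] V} (hT : ∀ v, Q (T v) = Q v) {r : ℕ} (hr : (r : F) ≠ 0) (hTr : T ^ r = 1)
    {W : Submodule F V} (hW : Nondeg (res Q W)) (hi : ∀ v ∈ W, T v ∈ W) : Nondeg (res Q (fixIn T W)) := by
  rw [nondeg_res_iff] at hW ⊢
  intro c hc h
  refine hW c hc.1 fun w hw => ?_
  have hfix : ∀ k : ℕ, (T ^ k) c = c := by
    intro k
    induction k with
    | zero => rfl
    | succ k ih =>
      rw [pow_succ]
      change (T ^ k) (T c) = c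
      rw [hc.2, ih]
  set s : V := ∑ k ∈ Finset.range r, (T ^ k) w with hs
  have hsf : T s = s := by
    rw [hs, map_sum]
    have h1 : ∀ k, T ((T ^ k) w) = (T ^ (k + 1)) w := fun k => by rw [pow_succ']; rfl
    rw [Finset.sum_congr rfl fun k _ => h1 k]
    have h2 := Finset.sum_range_succ (fun k => (T ^ k) w) r
    have h3 := Finset.sum_range_succ' (fun k => (T ^ k) w) r
    rw [h2] at h3
    rw [hTr, pow_zero] at h3
    exact (add_right_cancel h3).symm
  have h1 : polar Q c s = 0 := h s ⟨Submodule.sum_mem _ fun k _ => pow_inv hi k w hw, hsf⟩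
  have h2 : ∀ k : ℕ, polar Q c ((T ^ k) w) = polar Q c w := by
    intro k
    conv_lhs => rw [← hfix k]
    exact polar_iso (T := T ^ k) (pow_iso hT k) c w
  have h3 : polar Q c s = ∑ k ∈ Finset.range r, polar Q c ((T ^ k) w) := by
    rw [hs]
    exact map_sum (polarBilin Q c) _ _
  rw [h3, Finset.sum_congr rfl fun k _ => h2 k, Finset.sum_const, Finset.card_range, nsmul_eq_mul] at h1
  exact (mul_eq_zero.1 h1).resolve_left hr

/-- the complement of a nondegenerate subspace in a nondegenerate subspace -/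
theorem sub_perp [FiniteDimensional F V] (hQ : Nondeg Q) {C W : Submodule F V} (hC : Nondeg (res Q C)) (hW : Nondeg (res Q W))
    (h : C ≤ W) : Nondeg (res Q (W ⊓ perp Q C)) ∧ finrank F C + finrank F ↥(W ⊓ perp Q C) = finrank F W := by
  have hc := isCompl_perp hC
  constructor
  · rw [nondeg_res_iff] at hW ⊢
    intro x hx hxy
    refine hW x hx.1 fun w hw => ?_
    obtain ⟨c, hcC, e, he, rfl⟩ : ∃ c ∈ C, ∃ e ∈ perp Q C, c + e = w := by
      have h1 : w ∈ C ⊔ perp Q C := by rw [hc.sup_eq_top]; trivial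
      exact Submodule.mem_sup.1 h1
    have heW : e ∈ W := by
      have := W.sub_mem hw (h hcC)
      rwa [add_sub_cancel_left] at this
    rw [polar_add_right, hxy e ⟨heW, he⟩, add_zero]
    exact mem_perp'.1 hx.2 c hcC
  · have h1 := Submodule.finrank_sup_add_finrank_inf_eq W (perp Q C)
    have h2 : W ⊔ perp Q C = ⊤ := by
      rw [eq_top_iff, ← hc.sup_eq_top]
      exact sup_le_sup_right h _
    rw [h2, finrank_top] at h1
    have h3 := finrank_add_perp hQ C
    omega

/-- a nonzero nondegenerate subspace contains a vector `v` with `Q v ≠ 0` -/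
theorem exists_nonsing {D : Submodule F V} (hD : Nondeg (res Q D)) (h0 : D ≠ ⊥) : ∃ z ∈ D, Q z ≠ 0 := by
  by_contra hcon
  push Not at hcon
  apply h0
  rw [Submodule.eq_bot_iff]
  rw [nondeg_res_iff] at hD
  intro x hx
  refine hD x hx fun y hy => ?_
  rw [polar, hcon _ (D.add_mem hx hy), hcon x hx, hcon y hy]
  simp

end gen

/-! ### sign sums over the field with two elements -/

section two

variable {F : Type*} [Field F]

open Classical in
/-- the sign -/
noncomputable def sgn (a : F) : ℤ := if a = 0 then 1 else -1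

theorem sgn_zero : sgn (0 : F) = 1 := by simp [sgn]

theorem sgn_ne {a : F} (h : a ≠ 0) : sgn a = -1 := by simp [sgn, h]

theorem eq_one (hF : Nat.card F = 2) {a : F} (h : a ≠ 0) : a = 1 := by
  obtain ⟨y, hy, hu⟩ := (Nat.card_eq_two_iff' (0 : F)).1 hF
  rw [hu a h, hu 1 one_ne_zero]

theorem two_zero (hF : Nat.card F = 2) : (2 : F) = 0 := by
  by_contra h
  have h1 := eq_one hF h
  have : (1 : F) = 0 := by linear_combination h1
  exact one_ne_zero this

theorem sgn_add (hF : Nat.card F = 2) (a b : F) : sgn (a + b) = sgn a * sgn b := by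
  by_cases ha : a = 0
  · rw [ha, zero_add, sgn_zero, one_mul]
  by_cases hb : b = 0
  · rw [hb, add_zero, sgn_zero, mul_one]
  rw [sgn_ne ha, sgn_ne hb, eq_one hF ha, eq_one hF hb, one_add_one_eq_two, two_zero hF, sgn_zero]
  norm_num

/-- the sign sum of a quadratic form -/
noncomputable def gs {W : Type*} [AddCommGroup W] [Module F W] (R : QuadraticForm F W) : ℤ := ∑ᶠ w : W, sgn (R w)

variable {V : Type*} [AddCommGroup V] [Module F V] {Q : QuadraticForm F V}

theorem gs_mul [FiniteDimensional F V] (hF : Nat.card F = 2) {W : Submodule F V} (hW : Nondeg (res Q W)) :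
    gs Q = gs (res Q W) * gs (res Q (perp Q W)) := by
  have : Finite F := Nat.finite_of_card_ne_zero (by omega)
  have : Finite V := Module.finite_of_finite F
  have := Fintype.ofFinite V
  have := Fintype.ofFinite W
  have := Fintype.ofFinite (perp Q W)
  rw [gs, gs, gs, finsum_eq_sum_of_fintype, finsum_eq_sum_of_fintype, finsum_eq_sum_of_fintype, Finset.sum_mul_sum,
    ← Finset.sum_product']
  symm
  refine Fintype.sum_equiv (decomp hW).toEquiv _ _ fun x => ?_
  change _ = sgn (Q (decomp hW x))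
  rw [Q_decomp, sgn_add hF]
  rfl

/-- a nonzero linear form has sign sum zero -/
theorem lin_sum (hF : Nat.card F = 2) {W : Type*} [AddCommGroup W] [Module F W] [Fintype W] (f : W →ₗ[F] F)
    {w : W} (hw : f w ≠ 0) : ∑ v : W, sgn (f v) = 0 := by
  have h1 : ∑ v : W, sgn (f v) = ∑ v : W, sgn (f (v + w)) :=
    (Equiv.sum_comp (Equiv.addRight w) fun v => sgn (f v)).symm
  have h2 : ∑ v : W, sgn (f (v + w)) = -∑ v : W, sgn (f v) := by
    rw [← Finset.sum_neg_distrib]
    refine Finset.sum_congr rfl fun v _ => ?_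
    rw [map_add, sgn_add hF, sgn_ne hw, mul_neg_one]
  omega

theorem gs_plus [FiniteDimensional F V] (hF : Nat.card F = 2) (hQ : Nondeg Q) {U : Submodule F V}
    (hU : ∀ u ∈ U, Q u = 0) (hd : 2 * finrank F U = finrank F V) : gs Q = Nat.card U := by
  classical
  have : Finite F := Nat.finite_of_card_ne_zero (by omega)
  have : Finite V := Module.finite_of_finite F
  have := Fintype.ofFinite V
  have := Fintype.ofFinite U
  have hUp : perp Q U = U := by
    symm
    apply Submodule.eq_of_le_of_finrank_eq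
    · intro u hu w hw
      rw [polar, hU _ (U.add_mem hw hu), hU w hw, hU u hu]
      simp
    · have := finrank_add_perp hQ U
      omega
  have h1 : ∀ u : U, gs Q = ∑ v : V, sgn (Q (v + u)) := by
    intro u
    rw [gs, finsum_eq_sum_of_fintype]
    exact (Equiv.sum_comp (Equiv.addRight (u : V)) fun v => sgn (Q v)).symm
  have h2 : (Fintype.card U : ℤ) * gs Q = ∑ u : U, ∑ v : V, sgn (Q (v + u)) := by
    rw [Finset.sum_congr rfl fun u _ => (h1 u).symm, Finset.sum_const, Finset.card_univ, nsmul_eq_mul]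
  rw [Finset.sum_comm] at h2
  have h3 : ∀ v : V, ∑ u : U, sgn (Q (v + u)) = if v ∈ U then (Fintype.card U : ℤ) else 0 := by
    intro v
    split_ifs with hv
    · rw [Finset.sum_congr rfl fun u _ => by rw [hU _ (U.add_mem hv u.2), sgn_zero]]
      simp
    · rw [← hUp, mem_perp'] at hv
      push Not at hv
      obtain ⟨w, hw, hvw⟩ := hv
      have h4 : ∀ u : U, sgn (Q (v + u)) = sgn (Q v) * sgn ((polarBilin Q v).comp U.subtype u) := by
        intro u
        rw [← sgn_add hF]
        congr 1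
        change Q (v + u) = Q v + polar Q v u
        rw [polar, hU u u.2]
        ring
      rw [Finset.sum_congr rfl fun u _ => h4 u, ← Finset.mul_sum,
        lin_sum hF ((polarBilin Q v).comp U.subtype) (w := ⟨w, hw⟩) hvw, mul_zero]
  rw [Finset.sum_congr rfl fun v _ => h3 v, Finset.sum_ite, Finset.sum_const_zero, add_zero, Finset.sum_const,
    nsmul_eq_mul] at h2
  have h5 : (Finset.univ.filter fun v : V => v ∈ U).card = Fintype.card U := (Fintype.card_subtype _).symm
  rw [h5] at h2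
  have h6 : (Fintype.card U : ℤ) ≠ 0 := by
    have : 0 < Fintype.card U := Fintype.card_pos
    omega
  rw [Nat.card_eq_fintype_card]
  exact mul_left_cancel₀ h6 h2

theorem gs_aniso [Finite V] (h : ∀ v, v ≠ 0 → Q v ≠ 0) : gs Q = 2 - Nat.card V := by
  classical
  have := Fintype.ofFinite V
  rw [gs, finsum_eq_sum_of_fintype, ← Finset.add_sum_erase _ _ (Finset.mem_univ (0 : V)), map_zero, sgn_zero,
    Finset.sum_congr rfl fun v hv => by rw [sgn_ne (h v (Finset.ne_of_mem_erase hv))], Finset.sum_const,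
    Finset.card_erase_of_mem (Finset.mem_univ _), Finset.card_univ, Nat.card_eq_fintype_card]
  have : 0 < Fintype.card V := Fintype.card_pos
  rw [nsmul_eq_mul]
  push_cast [Nat.sub_add_cancel, this]
  omega

/-- the number of singular vectors -/
theorem card_sing [Finite V] : 2 * (Nat.card {v : V // Q v = 0} : ℤ) = Nat.card V + gs Q := by
  classical
  have := Fintype.ofFinite V
  rw [gs, finsum_eq_sum_of_fintype, Nat.card_eq_fintype_card, Nat.card_eq_fintype_card, Fintype.card_subtype]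
  have h1 : ∑ v : V, sgn (Q v) = ∑ v : V, (if Q v = 0 then (2 : ℤ) else 0) + ∑ _v : V, (-1 : ℤ) := by
    rw [← Finset.sum_add_distrib]
    refine Finset.sum_congr rfl fun v _ => ?_
    unfold sgn
    split_ifs <;> norm_num
  rw [h1, Finset.sum_ite, Finset.sum_const_zero, add_zero, Finset.sum_const, Finset.sum_const, Finset.card_univ]
  simp only [nsmul_eq_mul]
  ring

/-- two planes of different type -/
theorem exists_planes [FiniteDimensional F V] (hF : Nat.card F = 2) {D : Submodule F V}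
    (hD : Nondeg (res Q D)) (hd : 4 ≤ finrank F D) :
    (∃ P ≤ D, Nondeg (res Q P) ∧ finrank F P = 2 ∧ 0 < gs (res Q P)) ∧
      ∃ P ≤ D, Nondeg (res Q P) ∧ finrank F P = 2 ∧ gs (res Q P) < 0 := by
  have hfin : Finite F := Nat.finite_of_card_ne_zero (by omega)
  have : Finite V := Module.finite_of_finite F
  have h2 := two_zero hF
  obtain ⟨x, hxD, hx0, hx⟩ := Cfsg.Agent.LieClassical.OrthFinite.exists_sing_mem (Q := Q) D (by omega)
  obtain ⟨⟨y, hyD⟩, hxy⟩ := Cfsg.Agent.LieClassical.OrthTrans.exists_hyp (Q := res Q D) (x := ⟨x, hxD⟩) hD hx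
    (fun h => hx0 (congrArg Subtype.val h))
  have hy : Q y = 0 := hxy.right
  have hp : polar Q x y = 1 := hxy.pair
  have hP : ∀ {a b : V}, polar Q a b = 1 → 4 * Q a * Q b ≠ polar Q a b ^ 2 := by
    intro a b hab h
    rw [hab] at h
    have : (1 : F) = 0 := by linear_combination 2 * Q a * Q b * h2 - h
    exact one_ne_zero this
  have hle : ∀ {a b : V}, a ∈ D → b ∈ D → Submodule.span F {a, b} ≤ D := by
    intro a b ha hb
    rw [Submodule.span_le]
    rintro z (rfl | rfl)
    · exact ha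
    · exact hb
  have hH := plane_nondeg (Q := Q) (hP hp)
  refine ⟨⟨Submodule.span F {x, y}, hle hxD hyD, hH.1, hH.2, ?_⟩, ?_⟩
  · have h3 : gs (res Q (Submodule.span F {x, y})) =
        Nat.card (Submodule.span F {(⟨x, Submodule.mem_span_pair.2 ⟨1, 0, by simp⟩⟩ : Submodule.span F {x, y})}) := by
      refine gs_plus hF hH.1 ?_ ?_
      · intro u hu
        obtain ⟨c, rfl⟩ := Submodule.mem_span_singleton.1 hu
        rw [QuadraticMap.map_smul]
        change _ • Q x = 0
        rw [hx, smul_zero]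
      · rw [finrank_span_singleton, hH.2]
        intro h
        exact hx0 (congrArg Subtype.val h)
    rw [h3]
    exact_mod_cast Nat.card_pos
  · -- the complement of the hyperbolic plane
    have hC := nondeg_res_iff.1 hD
    set H := Submodule.span F {x, y} with hHd
    have hrk : 2 ≤ finrank F ↥(D ⊓ perp Q H) := by
      have h3 := Submodule.finrank_sup_add_finrank_inf_eq D (perp Q H)
      have h4 : D ⊔ perp Q H = ⊤ := by
        rw [eq_top_iff, ← (isCompl_perp hH.1).sup_eq_top]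
        exact sup_le_sup_right (hle hxD hyD) _
      have h5 : finrank F H + finrank F (perp Q H) = finrank F V :=
        Submodule.finrank_add_eq_of_isCompl (isCompl_perp hH.1)
      rw [h4, finrank_top] at h3
      have h6 := hH.2
      omega
    have hnd : Nondeg (res Q (D ⊓ perp Q H)) := by
      rw [nondeg_res_iff]
      intro v hv h
      refine hC v hv.1 fun w hw => ?_
      obtain ⟨c, hcC, e, he, rfl⟩ : ∃ c ∈ H, ∃ e ∈ perp Q H, c + e = w := by
        have h1 : w ∈ H ⊔ perp Q H := by rw [(isCompl_perp hH.1).sup_eq_top]; trivial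
        exact Submodule.mem_sup.1 h1
      have heW : e ∈ D := by
        have := D.sub_mem hw (hle hxD hyD hcC)
        rwa [add_sub_cancel_left] at this
      rw [polar_add_right, h e ⟨heW, he⟩, add_zero]
      exact mem_perp'.1 hv.2 c hcC
    obtain ⟨z, hz, hQz⟩ := exists_nonsing hnd (by
      intro h
      rw [h, finrank_bot] at hrk
      omega)
    have hz1 : Q z = 1 := eq_one hF hQz
    have hxz : polar Q x z = 0 := hz.2 x (Submodule.mem_span_pair.2 ⟨1, 0, by simp⟩)
    have hyz : polar Q y z = 0 := hz.2 y (Submodule.mem_span_pair.2 ⟨0, 1, by simp⟩)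
    have ha : Q (x + y) = 1 := by rw [Q_add, hx, hy, hp]; ring
    have hb : Q (x + z) = 1 := by rw [Q_add, hx, hz1, hxz]; ring
    have hab : polar Q (x + y) (x + z) = 1 := by
      rw [polar_add_left, polar_add_right, polar_add_right, polar_self', hx, hxz, polar_comm Q y x, hp, hyz]
      ring
    have hK := plane_nondeg (Q := Q) (hP hab)
    refine ⟨Submodule.span F {x + y, x + z}, hle (D.add_mem hxD hyD) (D.add_mem hxD hz.1), hK.1, hK.2, ?_⟩
    rw [gs_aniso, Module.natCard_eq_pow_finrank (K := F), hF, hK.2]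
    · norm_num
    · rintro ⟨v, hv⟩ hv0 hQv
      apply hv0
      apply Subtype.ext
      change Q v = 0 at hQv
      obtain ⟨c, d, rfl⟩ := Submodule.mem_span_pair.1 hv
      change c • (x + y) + d • (x + z) = 0
      rw [Q_add, QuadraticMap.map_smul, QuadraticMap.map_smul, polar_smul_left, polar_smul_right, ha, hb, hab] at hQv
      simp only [smul_eq_mul, mul_one] at hQv
      by_cases hc : c = 0
      · by_cases hd' : d = 0
        · rw [hc, hd']; simp
        · rw [hc, eq_one hF hd'] at hQv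
          exfalso
          have : (1 : F) = 0 := by linear_combination hQv
          exact one_ne_zero this
      · by_cases hd' : d = 0
        · rw [eq_one hF hc, hd'] at hQv
          exfalso
          have : (1 : F) = 0 := by linear_combination hQv
          exact one_ne_zero this
        · rw [eq_one hF hc, eq_one hF hd'] at hQv
          exfalso
          have : (1 : F) = 0 := by linear_combination hQv - h2
          exact one_ne_zero this

/-- a plane whose complement is not of plus type -/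
theorem exists_plane_two [FiniteDimensional F V] (hF : Nat.card F = 2) (hQ : Nondeg Q) {D : Submodule F V}
    (hD : Nondeg (res Q D)) (hd : 4 ≤ finrank F D) :
    ∃ P ≤ D, Nondeg (res Q P) ∧ finrank F P = 2 ∧ ¬ IsPlus (res Q (perp Q P)) := by
  have hfin : Finite F := Nat.finite_of_card_ne_zero (by omega)
  have : Finite V := Module.finite_of_finite F
  obtain ⟨⟨P, hPD, hP, hP2, hPs⟩, P', hPD', hP', hP2', hPs'⟩ := exists_planes hF hD hd
  have hpos : ∀ P : Submodule F V, Nondeg (res Q P) → IsPlus (res Q (perp Q P)) → 0 < gs (res Q (perp Q P)) := by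
    rintro P hP ⟨U, hU, hd⟩
    rw [gs_plus hF (nondeg_perp hQ hP) hU hd]
    exact_mod_cast Nat.card_pos
  rcases le_or_gt (gs Q) 0 with h | h
  · refine ⟨P, hPD, hP, hP2, fun hpl => ?_⟩
    have h1 := hpos P hP hpl
    have h2 := gs_mul (Q := Q) hF hP
    have h3 := mul_pos hPs h1
    omega
  · refine ⟨P', hPD', hP', hP2', fun hpl => ?_⟩
    have h1 := hpos P' hP' hpl
    have h2 := gs_mul (Q := Q) hF hP'
    have h3 := mul_neg_of_neg_of_pos hPs' h1
    omega

/-- a fixed point free isometry of prime order of a space of type `6⁺(2)` has order 7 -/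
theorem eq_seven [FiniteDimensional F V] (hF : Nat.card F = 2) {D : Submodule F V} (hD : Nondeg (res Q D))
    (h6 : finrank F D = 6) {U : Submodule F D} (hU : ∀ u ∈ U, Q (u : V) = 0) (hU3 : finrank F U = 3)
    {T : V ≃ₗ[F] V} (hT : ∀ v, Q (T v) = Q v) (hi : ∀ v ∈ D, T v ∈ D) {r : ℕ} (hr : r.Prime) (hTr : T ^ r = 1)
    (hfix : fixIn T D = ⊥) : r = 7 := by
  have hfin : Finite F := Nat.finite_of_card_ne_zero (by omega)
  have : Finite V := Module.finite_of_finite F
  have h64 : Nat.card D = 64 := by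
    rw [Module.natCard_eq_pow_finrank (K := F), hF, h6]
    norm_num
  have h8 : Nat.card U = 8 := by
    rw [Module.natCard_eq_pow_finrank (K := F), hF, hU3]
    norm_num
  have h36 : Nat.card {v : D // res Q D v = 0} = 36 := by
    have h1 := card_sing (Q := res Q D)
    rw [gs_plus hF hD hU (by rw [h6, hU3]), h64, h8] at h1
    omega
  have hf0 : ∀ v ∈ D, T v = v → v = 0 := by
    intro v hv h
    have : v ∈ fixIn T D := ⟨hv, h⟩
    rwa [hfix, Submodule.mem_bot] at this
  -- all vectors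
  let f : D → D := fun v => ⟨T v, hi v v.2⟩
  have hf : ∀ n (v : D), ((f^[n] v : D) : V) = (T ^ n) v := by
    intro n v
    induction n with
    | zero => rfl
    | succ n ih =>
      rw [Function.iterate_succ_apply', pow_succ']
      exact congrArg T ih
  have h1 : Nat.card D ≡ Nat.card {v // f v = v} [MOD r] := Cfsg.Agent.J3.Fix.card_modEq hr f (by
    funext v
    apply Subtype.ext
    rw [hf, hTr]
    rfl)
  have h1' : Nat.card {v // f v = v} = 1 := by
    rw [Nat.card_eq_one_iff_unique]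
    refine ⟨⟨fun a b => ?_⟩, ⟨⟨0, ?_⟩⟩⟩
    · apply Subtype.ext
      apply Subtype.ext
      rw [hf0 _ a.1.2 (congrArg Subtype.val a.2), hf0 _ b.1.2 (congrArg Subtype.val b.2)]
    · exact Subtype.ext (map_zero T)
  let S := {v : D // res Q D v = 0}
  let g : S → S := fun v => ⟨f v.1, (hT _).trans v.2⟩
  have hg : ∀ n (v : S), (g^[n] v).1 = f^[n] v.1 := by
    intro n v
    induction n with
    | zero => rfl
    | succ n ih =>
      rw [Function.iterate_succ_apply', Function.iterate_succ_apply', ← ih]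
  have h2 : Nat.card S ≡ Nat.card {v // g v = v} [MOD r] := Cfsg.Agent.J3.Fix.card_modEq hr g (by
    funext v
    apply Subtype.ext
    apply Subtype.ext
    rw [hg, hf, hTr]
    rfl)
  have h2' : Nat.card {v // g v = v} = 1 := by
    rw [Nat.card_eq_one_iff_unique]
    refine ⟨⟨fun a b => ?_⟩, ⟨⟨⟨0, map_zero _⟩, ?_⟩⟩⟩
    · apply Subtype.ext
      apply Subtype.ext
      apply Subtype.ext
      rw [hf0 _ a.1.1.2 (congrArg (fun w : S => (w.1 : V)) a.2), hf0 _ b.1.1.2 (congrArg (fun w : S => (w.1 : V)) b.2)]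
    · exact Subtype.ext (Subtype.ext (map_zero T))
  rw [h64, h1'] at h1
  rw [h36, h2'] at h2
  have h3 : r ∣ 63 := (Nat.modEq_iff_dvd' (by norm_num)).1 h1.symm
  have h4 : r ∣ 35 := (Nat.modEq_iff_dvd' (by norm_num)).1 h2.symm
  have h5 : r ∣ 7 := by
    have := Nat.dvd_gcd h3 h4
    norm_num at this
    exact this
  exact (Nat.prime_dvd_prime_iff_eq hr (by norm_num)).1 h5

end two

end Cfsg.Agent.H273.RC.Fev
end

-- part: H273/RC/Fev
section
/-!
# S3510, row F, even dimension: the setting of box E5 (helper273)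

`Sit` : the family consists of (scalar multiples of) commuting isometries of prime orders different from `p`.
`BoxLR` : box F1 as a black box.  `boxA` : box F2 in this setting.
-/

set_option autoImplicit false
open Cfsg

namespace Cfsg.Agent.H273.RC.Fev

open QuadraticMap MulAction
open Cfsg.Agent.LieClassical.OrthCore Cfsg.Agent.LieClassical.OrthTrans
open Cfsg.Agent.LieClassical.OrthSimple Cfsg.Agent.ClassicalGeometry.OrthSemi
open Cfsg.Agent.ClassicalGeometry.OrthAut1 Cfsg.Agent.H106.RC Cfsg.Agent.H93.RC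

variable {F V G Ω ι : Type} [Field F] [Finite F] [AddCommGroup V] [Module F V] [FiniteDimensional F V]
  [Group G] [Finite G] [MulAction G Ω] [Nonempty Ω] [Finite ι]

/-- box F1 -/
def BoxLR (Q : QuadraticForm F V) (ρ : ↥(E Q) →* G) (Ω : Type) [MulAction G Ω] (p : ℕ) : Prop :=
  ∀ (κ : Type) [Finite κ] {y : κ → G} {L : κ → Gam Q} {s : κ → ℕ}, (∀ i, Lf ρ (y i) (L i)) →
    (∀ i, (s i).Prime) → (∀ i, s i ≠ p) → (∀ i, y i ^ s i = 1) → (∀ i, y i ≠ 1) →
    (∀ i j, y i * y j = y j * y i) → ∀ {u w : V} (hu : Q u = 0) (_ : Q w = 0) (huw : polar Q u w = 0),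
    u ≠ 0 → (∀ a : F, w ≠ a • u) →
    (∀ i, ∀ v ∈ Submodule.span F {u, w}, (L i).1 v ∈ Submodule.span F {u, w}) →
    (∀ ω : Ω, ρ (AutOrth.SemiSim.sg Q u w hu huw) • ω = ω ∨ ∃ i, y i • ω = ω) → False

/-- the situation of E5: all members are scalar multiples of isometries of prime order `≠ p` -/
structure Sit (Q : QuadraticForm F V) (N : Subgroup G) (ρ : ↥(E Q) →* G) (Ω : Type) [MulAction G Ω] (x : ι → G)
    (M : ι → Gam Q) (r : ι → ℕ) (T : ι → V ≃ₗ[F] V) (p : ℕ) : Prop where
  good : Good Q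
  dim : 8 ≤ Module.finrank F V
  env : Env G Ω N
  rep : Rep Q N ρ
  pf : PF x r
  cov : Cov Ω x
  lf : ∀ i, Lf ρ (x i) (M i)
  iso : ∀ i v, Q (T i v) = Q v
  pow : ∀ i, T i ^ r i = 1
  comm : ∀ i j, T i * T j = T j * T i
  lift : ∀ i, ∃ a : F, a ≠ 0 ∧ ∀ v, (M i).1 v = a • T i v
  rp : ∀ i, r i ≠ p
  ih : IH (Nat.card (P Q))
  box : BoxLR Q ρ Ω p

/-- box E5, cases (3): `V = D ⊥ D'`, both of dimension 4, no smaller nondegenerate invariant subspaces -/
def Case3 (Q : QuadraticForm F V) (T : ι → V ≃ₗ[F] V) : Prop :=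
  Module.finrank F V = 8 ∧ ∃ D D' : Submodule F V, Module.finrank F D = 4 ∧ Module.finrank F D' = 4 ∧ IsCompl D D' ∧
    (∀ v ∈ D, ∀ w ∈ D', polar Q v w = 0) ∧ (∀ i, ∀ v ∈ D, T i v ∈ D) ∧ (∀ i, ∀ v ∈ D', T i v ∈ D') ∧
    ∀ W : Submodule F V, Nondeg (Q.comp W.subtype) → (∀ i, ∀ v ∈ W, T i v ∈ W) → W ≠ ⊥ → 4 ≤ Module.finrank F W

/-- box E5, case (4): `q = 2`, `V = D ⊥ D'`, `D'` of type `6⁺`, two members not scalar on `D'` -/
def Case4 (Q : QuadraticForm F V) (T : ι → V ≃ₗ[F] V) : Prop :=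
  Nat.card F = 2 ∧ Module.finrank F V = 8 ∧ ∃ D D' : Submodule F V, Module.finrank F D = 2 ∧
    Module.finrank F D' = 6 ∧ IsCompl D D' ∧
    (∀ v ∈ D, ∀ w ∈ D', polar Q v w = 0) ∧ (∀ i, ∀ v ∈ D, T i v ∈ D) ∧ (∀ i, ∀ v ∈ D', T i v ∈ D') ∧
    (∃ U ≤ D', (∀ v ∈ U, Q v = 0) ∧ Module.finrank F U = 3) ∧
    ∃ i j, i ≠ j ∧ (∃ v ∈ D', T i v ≠ v) ∧ ∃ v ∈ D', T j v ≠ v

end Cfsg.Agent.H273.RC.Fev
end

private theorem dce_52dbb2eba65e : _root_.True := by
  try have : _root_.True := by simp only [_root_.Cfsg.Agent.H273.RC.Fev.gs.eq_1]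
  try have : _root_.True := by simp only [_root_.Cfsg.Agent.H273.RC.Fev.sgn.eq_1]
  exact _root_.True.intro
end

-- part: H551/E5/Case3
section
prune_inst 0x4012000000000020200000400005200000000000010802000022400d800840008001014800000100010000000400100000000000200000000000000000000000000000000088000000000000000000000000000000000000000000000000000
set_option linter.all false
open scoped Cfsg.Agent.FastGrp

-- part: H551/E5/Lin
section
/-!
# S3510, row F (even), box E5: linear algebra (helper551)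

Isometries of order prime to the characteristic; the exceptional case `q = 2`.
-/

set_option autoImplicit false

namespace Cfsg.Agent.H551.E5

open QuadraticMap Module Cfsg.Agent.LieClassical.OrthCore

section gen

variable {F V : Type*} [Field F] [AddCommGroup V] [Module F V] {Q : QuadraticForm F V}

/-- `A` is a nondegenerate subspace -/
def NonD (Q : QuadraticForm F V) (A : Submodule F V) : Prop :=
  ∀ x ∈ A, (∀ y ∈ A, polar Q x y = 0) → x = 0

theorem nonD_iff {A : Submodule F V} : NonD Q A ↔ Nondeg (Q.comp A.subtype) := by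
  constructor
  · intro h x hx
    apply Subtype.ext
    exact h x.1 x.2 fun y hy => hx ⟨y, hy⟩
  · intro h x hx hxy
    have h1 := h ⟨x, hx⟩ fun y => hxy y.1 y.2
    exact congrArg Subtype.val h1

/-- `S` preserves the polar form -/
def Iso (Q : QuadraticForm F V) (S : End F V) : Prop := ∀ v, Q (S v) = Q v

theorem Iso.polar {S : End F V} (h : Iso Q S) (u v : V) : polar Q (S u) (S v) = polar Q u v := by
  simp only [QuadraticMap.polar, ← map_add, h _]

theorem pow_fix {S : End F V} {v : V} (h : S v = v) (n : ℕ) : (S ^ n) v = v := by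
  induction n with
  | zero => rfl
  | succ n ih => rw [pow_succ, Module.End.mul_apply, h, ih]

theorem pow_mem {S : End F V} {A : Submodule F V} (hA : ∀ v ∈ A, S v ∈ A) {v : V} (hv : v ∈ A) (n : ℕ) :
    (S ^ n) v ∈ A := by
  induction n with
  | zero => exact hv
  | succ n ih => rw [pow_succ']; exact hA _ ih

theorem eq_zero_of_fix {S : End F V} {r : ℕ} (hr : (r : F) ≠ 0) (hS : S ^ r = 1) {v w : V} (h1 : S v = v)
    (h2 : v = S w - w) : v = 0 := by
  have h3 : (∑ k ∈ Finset.range r, S ^ k) * (S - 1) = 0 := by rw [geom_sum_mul, hS, sub_self]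
  have h4 : (∑ k ∈ Finset.range r, S ^ k) v = 0 := by
    conv_lhs => rw [h2]
    exact LinearMap.congr_fun h3 w
  rw [LinearMap.sum_apply, Finset.sum_congr rfl (fun k _ => pow_fix h1 k), Finset.sum_const,
    Finset.card_range, ← Nat.cast_smul_eq_nsmul F] at h4
  exact (smul_eq_zero.1 h4).resolve_left hr

/-- `A = C_A(S) + [A,S]` -/
theorem decomp {S : End F V} {r : ℕ} (hr : (r : F) ≠ 0) (hS : S ^ r = 1) {A : Submodule F V}
    (hA : ∀ v ∈ A, S v ∈ A) {v : V} (hv : v ∈ A) : ∃ u ∈ A, ∃ w ∈ A, S u = u ∧ v = u + (S w - w) := by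
  have hsum : ∀ (n : ℕ), (∑ k ∈ Finset.range n, S ^ k) v ∈ A := by
    intro n
    rw [LinearMap.sum_apply]
    exact Submodule.sum_mem _ fun k _ => pow_mem hA hv k
  refine ⟨(r : F)⁻¹ • (∑ k ∈ Finset.range r, S ^ k) v, A.smul_mem _ (hsum r),
    -((r : F)⁻¹ • ∑ k ∈ Finset.range r, (∑ j ∈ Finset.range k, S ^ j) v),
    A.neg_mem (A.smul_mem _ (Submodule.sum_mem _ fun k _ => hsum k)), ?_, ?_⟩
  · have h1 : (S - 1) * (∑ k ∈ Finset.range r, S ^ k) = 0 := by rw [mul_geom_sum, hS, sub_self]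
    have h2 := LinearMap.congr_fun h1 v
    rw [map_smul]
    congr 1
    exact sub_eq_zero.1 h2
  · have h1 : ∀ k, S ((∑ j ∈ Finset.range k, S ^ j) v) - (∑ j ∈ Finset.range k, S ^ j) v = (S ^ k) v - v := by
      intro k
      have h2 : (S - 1) * (∑ j ∈ Finset.range k, S ^ j) = S ^ k - 1 := mul_geom_sum S k
      exact LinearMap.congr_fun h2 v
    have h2 : S (-((r : F)⁻¹ • ∑ k ∈ Finset.range r, (∑ j ∈ Finset.range k, S ^ j) v)) -
        (-((r : F)⁻¹ • ∑ k ∈ Finset.range r, (∑ j ∈ Finset.range k, S ^ j) v)) =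
        -((r : F)⁻¹ • ∑ k ∈ Finset.range r, ((S ^ k) v - v)) := by
      rw [map_neg, map_smul, map_sum, neg_sub_neg, ← smul_sub, ← Finset.sum_sub_distrib, ← smul_neg]
      congr 1
      rw [← Finset.sum_neg_distrib]
      exact Finset.sum_congr rfl fun k _ => by rw [← h1 k]; abel
    rw [h2, Finset.sum_sub_distrib, Finset.sum_const, Finset.card_range, ← Nat.cast_smul_eq_nsmul F, smul_sub,
      smul_smul, inv_mul_cancel₀ hr, one_smul, LinearMap.sum_apply]
    abel

/-- `[A,S]` -/
def com (S : End F V) (A : Submodule F V) : Submodule F V := A.map (S - 1)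

theorem com_le {S : End F V} {A : Submodule F V} (hA : ∀ v ∈ A, S v ∈ A) : com S A ≤ A := by
  rintro _ ⟨w, hw, rfl⟩
  exact A.sub_mem (hA w hw) hw

/-- `[A,S]` is invariant under maps commuting with `S` -/
theorem com_inv {S T : End F V} {A : Submodule F V} (hc : S * T = T * S) (hA : ∀ v ∈ A, T v ∈ A) :
    ∀ v ∈ com S A, T v ∈ com S A := by
  rintro _ ⟨w, hw, rfl⟩
  refine ⟨T w, hA w hw, ?_⟩
  have h1 : S (T w) = T (S w) := LinearMap.congr_fun hc w
  show S (T w) - T w = T (S w - w)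
  rw [h1, map_sub]

theorem com_fix {S : End F V} {r : ℕ} (hr : (r : F) ≠ 0) (hS : S ^ r = 1) {A : Submodule F V} :
    ∀ v ∈ com S A, S v = v → v = 0 := by
  rintro _ ⟨w, hw, rfl⟩ h
  exact eq_zero_of_fix hr hS h rfl

theorem polar_fix {S : End F V} (hI : Iso Q S) {u : V} (hu : S u = u) (w : V) : polar Q u (S w - w) = 0 := by
  rw [QuadraticMap.polar_sub_right]
  nth_rewrite 1 [← hu]
  rw [hI.polar, sub_self]

theorem com_nonD {S : End F V} {r : ℕ} (hr : (r : F) ≠ 0) (hS : S ^ r = 1) (hI : Iso Q S) {A : Submodule F V}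
    (hA : ∀ v ∈ A, S v ∈ A) (hn : NonD Q A) : NonD Q (com S A) := by
  intro x hx hxy
  apply hn x (com_le hA hx)
  intro y hy
  obtain ⟨u, hu, w, hw, h1, rfl⟩ := decomp hr hS hA hy
  obtain ⟨x', hx', rfl⟩ := hx
  have h2 : polar Q ((S - 1) x') (S w - w) = 0 := hxy _ ⟨w, hw, rfl⟩
  rw [QuadraticMap.polar_add_right, h2, add_zero, QuadraticMap.polar_comm]
  exact polar_fix hI h1 x'

end gen

section cnt

variable {F V : Type*} [Field F] [AddCommGroup V] [Module F V] {Q : QuadraticForm F V}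

/-- a set on which `S` has the only fixed point `0` -/
theorem card_modEq {Y : Set V} [Finite Y] {S : End F V} {r : ℕ} (hr : r.Prime) (hS : S ^ r = 1)
    (hY : ∀ v ∈ Y, S v ∈ Y) (h0 : (0 : V) ∈ Y) (hfix : ∀ v ∈ Y, S v = v → v = 0) :
    Nat.card Y ≡ 1 [MOD r] := by
  classical
  have := Fintype.ofFinite Y
  have := Fact.mk hr
  let f : Function.End Y := fun y => ⟨S y.1, hY y.1 y.2⟩
  have hf : ∀ (n : ℕ) (y : Y), ((f ^ n) y : Y).1 = (S ^ n) y.1 := by
    intro n
    induction n with
    | zero => intro y; rfl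
    | succ n ih =>
      intro y
      rw [pow_succ, pow_succ]
      exact ih (f y)
  have hf1 : f ^ r ^ 1 = 1 := by
    funext y
    apply Subtype.ext
    rw [pow_one, hf, hS]
    rfl
  have h1 := Equiv.Perm.card_fixedPoints_modEq (n := 1) hf1
  have h2 : Fintype.card (Function.fixedPoints f) = 1 := by
    rw [Fintype.card_eq_one_iff]
    refine ⟨⟨⟨0, h0⟩, ?_⟩, ?_⟩
    · apply Subtype.ext
      exact map_zero S
    · rintro ⟨y, hy⟩
      apply Subtype.ext
      apply Subtype.ext
      exact hfix y.1 y.2 (congrArg Subtype.val hy)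
  rw [h2] at h1
  rw [Nat.card_eq_fintype_card]
  exact h1

theorem dvd_card {Y : Submodule F V} [Finite Y] {S : End F V} {r : ℕ} (hr : r.Prime) (hS : S ^ r = 1)
    (hY : ∀ v ∈ Y, S v ∈ Y) (hfix : ∀ v ∈ Y, S v = v → v = 0) : r ∣ Nat.card Y - 1 := by
  have h1 := card_modEq (Y := (Y : Set V)) (S := S) hr hS hY Y.zero_mem hfix
  exact (Nat.modEq_iff_dvd' Nat.card_pos).1 h1.symm

end cnt

section two

variable {F V : Type*} [Field F] [AddCommGroup V] [Module F V] {Q : QuadraticForm F V}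

theorem two_eq_zero (hF : Nat.card F = 2) : (2 : F) = 0 := by
  have h1 := card_nsmul_eq_zero' (G := F) (x := 1)
  rw [hF, two_nsmul] at h1
  rw [← h1]
  norm_num

theorem odd_ne_zero (hF : Nat.card F = 2) {r : ℕ} (hr : r.Prime) (h2 : r ≠ 2) : (r : F) ≠ 0 := by
  obtain ⟨k, hk⟩ := hr.odd_of_ne_two h2
  rw [hk, Nat.cast_add, Nat.cast_mul, Nat.cast_ofNat, two_eq_zero hF, zero_mul, zero_add, Nat.cast_one]
  exact one_ne_zero

theorem eq_one_of_ne (hF : Nat.card F = 2) {a : F} (ha : a ≠ 0) : a = 1 := by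
  have : Finite F := Nat.finite_of_card_ne_zero (by omega)
  have := Fintype.ofFinite F
  have h1 := FiniteField.pow_card_sub_one_eq_one a ha
  rw [← Nat.card_eq_fintype_card, hF, pow_one] at h1
  exact h1

/-- an element of order `7` -/
theorem seven (hF : Nat.card F = 2) {T : End F V} (hT : T ^ 7 = 1) (hI : Iso Q T) {A : Submodule F V}
    (hA : ∀ v ∈ A, T v ∈ A) (hn : NonD Q A) (hA0 : A ≠ ⊥) (hfix : ∀ v ∈ A, T v = v → v = 0)
    (hk : A ⊓ LinearMap.ker (T ^ 3 + T + 1) = ⊥ ∨ A ⊓ LinearMap.ker (T ^ 3 + T + 1) = A) : False := by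
  have h2 := two_eq_zero hF
  have hTT : ∀ v, T (T (T (T (T (T (T v)))))) = v := fun v => LinearMap.congr_fun hT v
  have hadd : ∀ v : V, v + v = 0 := fun v => by
    rw [← two_smul F v, h2, zero_smul]
  have hneg : ∀ v : V, -v = v := fun v => neg_eq_of_add_eq_zero_left (hadd v)
  have hadj : ∀ u v, polar Q (T u) v = polar Q u (T (T (T (T (T (T v)))))) := by
    intro u v
    conv_lhs => rw [← hTT v]
    rw [hI.polar]
  -- `f₁` and `f₂`
  have key1 : (∀ v ∈ A, T (T (T v)) + T v + v = 0) → ∀ v ∈ A, T (T (T v)) + T (T v) + v = 0 := by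
    intro h v hv
    have h3 : T (T (T (T v))) + T (T (T (T (T (T v))))) + v = 0 := by
      apply hn
      · exact A.add_mem (A.add_mem (hA _ (hA _ (hA _ (hA _ hv)))) (hA _ (hA _ (hA _ (hA _ (hA _ (hA _ hv)))))))
          hv
      · intro y hy
        have h4 : polar Q (T (T (T y)) + T y + y) v = 0 := by
          rw [h y hy, QuadraticMap.polar_zero_left]
        rw [QuadraticMap.polar_add_left, QuadraticMap.polar_add_left, hadj, hadj, hadj, hadj, hTT, hTT] at h4
        rw [QuadraticMap.polar_comm, QuadraticMap.polar_add_right, QuadraticMap.polar_add_right]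
        exact h4
    have h4 := congrArg (fun v => T (T (T v))) h3
    simp only [map_add, hTT, map_zero] at h4
    rw [← h4]; abel
  have key2 : (∀ v ∈ A, T (T (T v)) + T (T v) + v = 0) → ∀ v ∈ A, T (T (T v)) + T v + v = 0 := by
    intro h v hv
    have h3 : T (T (T (T v))) + T (T (T (T (T v)))) + v = 0 := by
      apply hn
      · exact A.add_mem (A.add_mem (hA _ (hA _ (hA _ (hA _ hv)))) (hA _ (hA _ (hA _ (hA _ (hA _ hv)))))) hv
      · intro y hy
        have h4 : polar Q (T (T (T y)) + T (T y) + y) v = 0 := by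
          rw [h y hy, QuadraticMap.polar_zero_left]
        rw [QuadraticMap.polar_add_left, QuadraticMap.polar_add_left, hadj, hadj, hadj, hadj, hadj, hTT, hTT]
          at h4
        rw [QuadraticMap.polar_comm, QuadraticMap.polar_add_right, QuadraticMap.polar_add_right]
        exact h4
    have h4 := congrArg (fun v => T (T (T v))) h3
    simp only [map_add, hTT, map_zero] at h4
    rw [← h4]; abel
  have key3 : (∀ v ∈ A, T (T (T v)) + T v + v = 0) → (∀ v ∈ A, T (T (T v)) + T (T v) + v = 0) → False := by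
    intro h h'
    apply hA0
    rw [eq_bot_iff]
    intro v hv
    have h3 : T (T v) = T v := by
      have h4 := h v hv
      have h5 := h' v hv
      have h6 : T (T (T v)) + T v + v - (T (T (T v)) + T (T v) + v) = T v - T (T v) := by abel
      rw [h4, h5, sub_zero] at h6
      exact (sub_eq_zero.1 h6.symm).symm
    have h4 := hfix _ (hA _ hv) h3
    have h5 := hTT v
    rw [h4] at h5
    simp only [map_zero] at h5
    rw [← h5]; exact Submodule.zero_mem _
  rcases hk with hk | hk
  · have h3 : ∀ v ∈ A, T (T (T v)) + T (T v) + v = 0 := by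
      intro v hv
      have hm : T (T (T v)) + T (T v) + v ∈ A :=
        A.add_mem (A.add_mem (hA _ (hA _ (hA _ hv))) (hA _ (hA _ hv))) hv
      -- `f₁(T) f₂(T) v` is fixed by `T`
      have h5 : (T ^ 3 + T + 1 : End F V) (T (T (T v)) + T (T v) + v) = 0 := by
        have hm' : (T ^ 3 + T + 1 : End F V) (T (T (T v)) + T (T v) + v) ∈ A := by
          show T (T (T (T (T (T v)) + T (T v) + v))) + T (T (T (T v)) + T (T v) + v) +
            (T (T (T v)) + T (T v) + v) ∈ A
          exact A.add_mem (A.add_mem (hA _ (hA _ (hA _ hm))) (hA _ hm)) hm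
        apply hfix _ hm'
        have e : (T - 1) * ((T ^ 3 + T + 1) * (T ^ 3 + T ^ 2 + 1)) =
            (T ^ 7 - 1) + ((T ^ 4 - T ^ 3) + (T ^ 4 - T ^ 3)) := by noncomm_ring
        have e1 := LinearMap.congr_fun e v
        rw [hT, sub_self, zero_add, LinearMap.add_apply, hadd] at e1
        exact sub_eq_zero.1 e1
      have h6 : T (T (T v)) + T (T v) + v ∈ A ⊓ LinearMap.ker (T ^ 3 + T + 1) := ⟨hm, h5⟩
      rw [hk] at h6
      exact (Submodule.mem_bot F).1 h6
    exact key3 (key2 h3) h3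
  · have h3 : ∀ v ∈ A, T (T (T v)) + T v + v = 0 := by
      intro v hv
      rw [← hk] at hv
      exact hv.2
    exact key3 h3 (key1 h3)

theorem card_sub (hF : Nat.card F = 2) [FiniteDimensional F V] (Y : Submodule F V) :
    Nat.card Y = 2 ^ finrank F Y := by
  have : Finite F := Nat.finite_of_card_ne_zero (by omega)
  rw [Module.natCard_eq_pow_finrank (K := F), hF]

/-- the primes of fixed-point-free elements -/
theorem prime_of_dim {r d : ℕ} (hr : r.Prime) (hr2 : r ≠ 2) (hd0 : d ≠ 0) (hd : d ≤ 6) (h : r ∣ 2 ^ d - 1) :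
    (d = 2 ∧ r = 3) ∨ (d = 3 ∧ r = 7) ∨ (d = 4 ∧ (r = 3 ∨ r = 5)) ∨ (d = 5 ∧ r = 31) ∨
      (d = 6 ∧ (r = 3 ∨ r = 7)) := by
  have h1 : r ≤ 2 ^ d - 1 := Nat.le_of_dvd (by
    have : 2 ^ 1 ≤ 2 ^ d := Nat.pow_le_pow_right (by norm_num) (by omega)
    omega) h
  interval_cases d
  · exact absurd rfl hd0
  · have h2 := Nat.le_of_dvd (by norm_num) h
    have h3 := hr.two_le
    omega
  all_goals (norm_num only [_root_.true_and, _root_.false_and, _root_.or_self, _root_.or_false, _root_.false_or] at h h1 ⊢; interval_cases r <;> first | (clear * - h; omega) | (exfalso; revert hr; decide))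

/-- elements of orders `3` and `5` acting fixed-point-freely on a nondegenerate space of dimension `4` -/
theorem three_five (hF : Nat.card F = 2) [FiniteDimensional F V] {S T : End F V} (hS : S ^ 3 = 1) (hT : T ^ 5 = 1)
    (hIS : Iso Q S) (hIT : Iso Q T) {A : Submodule F V} (hSA : ∀ v ∈ A, S v ∈ A) (hTA : ∀ v ∈ A, T v ∈ A)
    (hn : NonD Q A) (hA : finrank F A = 4) (hfS : ∀ v ∈ A, S v = v → v = 0) (hfT : ∀ v ∈ A, T v = v → v = 0) :
    False := by
  have : Finite F := Nat.finite_of_card_ne_zero (by omega)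
  have : Finite V := Module.finite_of_finite F
  have h2 := two_eq_zero hF
  let Z : Set V := {v | v ∈ A ∧ Q v = 0}
  have hZ0 : (0 : V) ∈ Z := ⟨A.zero_mem, QuadraticMap.map_zero Q⟩
  have m3 := card_modEq (Y := Z) Nat.prime_three hS (fun v hv => ⟨hSA v hv.1, by rw [hIS]; exact hv.2⟩) hZ0
    fun v hv => hfS v hv.1
  have m5 := card_modEq (Y := Z) Nat.prime_five hT (fun v hv => ⟨hTA v hv.1, by rw [hIT]; exact hv.2⟩) hZ0
    fun v hv => hfT v hv.1
  have hcA : Nat.card A = 16 := by rw [card_sub hF, hA]; norm_num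
  have hle : Nat.card Z ≤ 16 := by
    rw [← hcA]
    exact Nat.card_mono (Set.toFinite _) fun v hv => hv.1
  have hcases : Nat.card Z = 1 ∨ Nat.card Z = 16 := by
    have h3 : Nat.card Z % 3 = 1 := m3
    have h5 : Nat.card Z % 5 = 1 := m5
    omega
  have hA0 : ∃ u ∈ A, u ≠ 0 := by
    by_contra hc
    push Not at hc
    have : A = ⊥ := (Submodule.eq_bot_iff _).2 hc
    rw [this, finrank_bot] at hA
    omega
  obtain ⟨u, hu, hu0⟩ := hA0
  rcases hcases with h | h
  · -- `Q v = 1` for all `v ≠ 0`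
    have h1 : ∀ v ∈ A, v ≠ 0 → Q v = 1 := by
      intro v hv hv0
      apply eq_one_of_ne hF
      intro hQ
      apply hv0
      rw [Nat.card_eq_one_iff_unique] at h
      have := h.1.elim (⟨v, hv, hQ⟩ : Z) ⟨0, hZ0⟩
      exact congrArg Subtype.val this
    have h3 : ∀ v ∈ A, v ≠ 0 → v ≠ u → polar Q u v = 1 := by
      intro v hv hv0 hvu
      have h4 : u + v ≠ 0 := by
        intro h5
        apply hvu
        have h6 : u = -v := eq_neg_of_add_eq_zero_left h5
        rw [h6, neg_eq_of_add_eq_zero_left]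
        rw [← two_smul F v, h2, zero_smul]
      rw [QuadraticMap.polar, h1 _ (A.add_mem hu hv) h4, h1 u hu hu0, h1 v hv hv0, sub_self, zero_sub]
      linear_combination -h2
    -- the kernel of `polar u` is contained in `{0, u}`
    let f : A →ₗ[F] F := (polarBilin Q u).comp A.subtype
    have hk : finrank F (LinearMap.ker f) ≤ 1 := by
      by_contra hk
      have h5 : 4 ≤ Nat.card (LinearMap.ker f) := by
        rw [Module.natCard_eq_pow_finrank (K := F), hF]
        calc 4 = 2 ^ 2 := by norm_num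
          _ ≤ _ := Nat.pow_le_pow_right (by norm_num) (by omega)
      have h6 : Nat.card (LinearMap.ker f) ≤ 2 := by
        have h7 : ((LinearMap.ker f : Submodule F A) : Set A) ⊆ {0, ⟨u, hu⟩} := by
          intro v hv
          by_contra hne
          simp only [Set.mem_insert_iff, Set.mem_singleton_iff, not_or] at hne
          have h8 := h3 v.1 v.2 (fun h => hne.1 (Subtype.ext h)) (fun h => hne.2 (Subtype.ext h))
          have h9 : polar Q u v.1 = 0 := hv
          rw [h9] at h8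
          exact zero_ne_one h8
        calc Nat.card (LinearMap.ker f) ≤ Nat.card ({0, ⟨u, hu⟩} : Set A) := Nat.card_mono (Set.toFinite _) h7
          _ ≤ 2 := by
            rw [Nat.card_coe_set_eq]
            exact (Set.ncard_insert_le _ _).trans (by rw [Set.ncard_singleton])
      omega
    have hrn := LinearMap.finrank_range_add_finrank_ker f
    have hr1 : finrank F (LinearMap.range f) ≤ 1 := (Submodule.finrank_le _).trans (finrank_self F).le
    omega
  · -- `Q = 0` on `A`
    have h1 : ∀ v ∈ A, Q v = 0 := by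
      have h3 : Z = (A : Set V) := by
        apply Set.eq_of_subset_of_ncard_le (fun v hv => hv.1)
        · rw [← Nat.card_coe_set_eq, ← Nat.card_coe_set_eq, h]
          exact hcA.le
      intro v hv
      have : v ∈ Z := by rw [h3]; exact hv
      exact this.2
    apply hu0
    apply hn u hu
    intro y hy
    rw [QuadraticMap.polar, h1 _ (A.add_mem hu hy), h1 u hu, h1 y hy, sub_self, sub_self]

/-- no fixed-point-free element of order `7` on a nondegenerate space of dimension `3` -/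
theorem not_three (hF : Nat.card F = 2) [FiniteDimensional F V] {T : End F V} (hT : T ^ 7 = 1) (hI : Iso Q T)
    {A : Submodule F V} (hA : ∀ v ∈ A, T v ∈ A) (hn : NonD Q A) (hA3 : finrank F A = 3)
    (hfix : ∀ v ∈ A, T v = v → v = 0) : False := by
  have : Finite F := Nat.finite_of_card_ne_zero (by omega)
  have : Finite V := Module.finite_of_finite F
  refine seven hF hT hI hA hn ?_ hfix ?_
  · rintro rfl
    rw [finrank_bot] at hA3
    omega
  · by_cases h0 : A ⊓ LinearMap.ker (T ^ 3 + T + 1) = ⊥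
    · exact Or.inl h0
    right
    have h1 : ∀ v ∈ A ⊓ LinearMap.ker (T ^ 3 + T + 1), T v ∈ A ⊓ LinearMap.ker (T ^ 3 + T + 1) := by
      rintro v ⟨h1, h2⟩
      refine ⟨hA v h1, ?_⟩
      have h3 : T (T (T v)) + T v + v = 0 := h2
      have h4 : T (T (T (T v))) + T (T v) + T v = 0 := by
        rw [← map_add, ← map_add, h3, map_zero]
      exact h4
    have h2 := dvd_card (Y := A ⊓ LinearMap.ker (T ^ 3 + T + 1)) (S := T) (by norm_num : Nat.Prime 7) hT h1
      fun v hv => hfix v hv.1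
    rw [card_sub hF] at h2
    have h3 : finrank F ↥(A ⊓ LinearMap.ker (T ^ 3 + T + 1)) ≤ 3 := by
      rw [← hA3]; exact Submodule.finrank_mono inf_le_left
    have h4 : finrank F ↥(A ⊓ LinearMap.ker (T ^ 3 + T + 1)) ≠ 0 := by
      intro h; exact h0 (Submodule.finrank_eq_zero.1 h)
    have h5 := prime_of_dim (by norm_num : Nat.Prime 7) (by norm_num) h4 (by omega) h2
    apply Submodule.eq_of_le_of_finrank_eq inf_le_left
    omega

/-- no commuting fixed-point-free elements of orders `3` and `7` on a nondegenerate space of dimension `6` -/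
theorem three_seven (hF : Nat.card F = 2) [FiniteDimensional F V] {S T : End F V} (hS : S ^ 3 = 1) (hT : T ^ 7 = 1)
    (hI : Iso Q T) (hc : S * T = T * S) {A : Submodule F V} (hSA : ∀ v ∈ A, S v ∈ A) (hA : ∀ v ∈ A, T v ∈ A)
    (hn : NonD Q A) (hA6 : finrank F A = 6) (hfS : ∀ v ∈ A, S v = v → v = 0) (hfix : ∀ v ∈ A, T v = v → v = 0) :
    False := by
  have : Finite F := Nat.finite_of_card_ne_zero (by omega)
  have : Finite V := Module.finite_of_finite F
  refine seven hF hT hI hA hn ?_ hfix ?_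
  · rintro rfl
    rw [finrank_bot] at hA6
    omega
  · by_cases h0 : A ⊓ LinearMap.ker (T ^ 3 + T + 1) = ⊥
    · exact Or.inl h0
    right
    have h1 : ∀ v ∈ A ⊓ LinearMap.ker (T ^ 3 + T + 1), T v ∈ A ⊓ LinearMap.ker (T ^ 3 + T + 1) := by
      rintro v ⟨h1, h2⟩
      refine ⟨hA v h1, ?_⟩
      have h3 : T (T (T v)) + T v + v = 0 := h2
      have h4 : T (T (T (T v))) + T (T v) + T v = 0 := by
        rw [← map_add, ← map_add, h3, map_zero]
      exact h4
    have hc' : ∀ v, S (T v) = T (S v) := fun v => LinearMap.congr_fun hc v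
    have h1' : ∀ v ∈ A ⊓ LinearMap.ker (T ^ 3 + T + 1), S v ∈ A ⊓ LinearMap.ker (T ^ 3 + T + 1) := by
      rintro v ⟨h1, h2⟩
      refine ⟨hSA v h1, ?_⟩
      have h3 : T (T (T v)) + T v + v = 0 := h2
      have h4 : T (T (T (S v))) + T (S v) + S v = 0 := by
        rw [← hc', ← hc', ← hc', ← map_add, ← map_add, h3, map_zero]
      exact h4
    have h2 := dvd_card (Y := A ⊓ LinearMap.ker (T ^ 3 + T + 1)) (S := T) (by norm_num : Nat.Prime 7) hT h1
      fun v hv => hfix v hv.1
    have h2' := dvd_card (Y := A ⊓ LinearMap.ker (T ^ 3 + T + 1)) (S := S) Nat.prime_three hS h1'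
      fun v hv => hfS v hv.1
    rw [card_sub hF] at h2 h2'
    have h3 : finrank F ↥(A ⊓ LinearMap.ker (T ^ 3 + T + 1)) ≤ 6 := by
      rw [← hA6]; exact Submodule.finrank_mono inf_le_left
    have h4 : finrank F ↥(A ⊓ LinearMap.ker (T ^ 3 + T + 1)) ≠ 0 := by
      intro h; exact h0 (Submodule.finrank_eq_zero.1 h)
    have h5 := prime_of_dim (by norm_num : Nat.Prime 7) (by norm_num) h4 h3 h2
    have h5' := prime_of_dim Nat.prime_three (by norm_num) h4 h3 h2'
    apply Submodule.eq_of_le_of_finrank_eq inf_le_left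
    omega

/-- the possible pairs -/
def PD (d r : ℕ) : Prop :=
  (d = 2 ∧ r = 3) ∨ (d = 3 ∧ r = 7) ∨ (d = 4 ∧ (r = 3 ∨ r = 5)) ∨ (d = 5 ∧ r = 31) ∨ (d = 6 ∧ (r = 3 ∨ r = 7))

theorem PD.arith1 {a b d : ℕ} (h1 : PD d a) (h2 : PD d b) (hab : a ≠ b) :
    (d = 4 ∧ a = 3 ∧ b = 5) ∨ (d = 4 ∧ a = 5 ∧ b = 3) ∨ (d = 6 ∧ a = 3 ∧ b = 7) ∨ (d = 6 ∧ a = 7 ∧ b = 3) := by
  rcases h1 with ⟨rfl, rfl⟩ | ⟨rfl, rfl⟩ | ⟨rfl, rfl | rfl⟩ | ⟨rfl, rfl⟩ | ⟨rfl, rfl | rfl⟩ <;>
    rcases h2 with ⟨h, rfl⟩ | ⟨h, rfl⟩ | ⟨h, rfl | rfl⟩ | ⟨h, rfl⟩ | ⟨h, rfl | rfl⟩ <;>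
    revert h hab <;> decide

theorem PD.arith2 {a b d e : ℕ} (h1 : PD d a) (h2 : PD e b) (hab : a ≠ b) (hs : d + e ≤ 6) :
    (a = 3 ∧ b = 5 ∧ d = 2 ∧ e = 4) ∨ (a = 5 ∧ b = 3 ∧ d = 4 ∧ e = 2) ∨ (a = 7 ∧ d = 3) ∨ (b = 7 ∧ e = 3) := by
  rcases h1 with ⟨rfl, rfl⟩ | ⟨rfl, rfl⟩ | ⟨rfl, rfl | rfl⟩ | ⟨rfl, rfl⟩ | ⟨rfl, rfl | rfl⟩ <;>
    rcases h2 with ⟨rfl, rfl⟩ | ⟨rfl, rfl⟩ | ⟨rfl, rfl | rfl⟩ | ⟨rfl, rfl⟩ | ⟨rfl, rfl | rfl⟩ <;>
    revert hs hab <;> decide

/-- two commuting isometries of different odd prime orders of a nondegenerate space of dimension `6` -/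
theorem types (hF : Nat.card F = 2) [FiniteDimensional F V] {S T : End F V} {a b : ℕ} (ha : a.Prime) (hb : b.Prime)
    (ha2 : a ≠ 2) (hb2 : b ≠ 2) (hab : a ≠ b) (hS : S ^ a = 1) (hT : T ^ b = 1) (hIS : Iso Q S) (hIT : Iso Q T)
    (hc : S * T = T * S) {A : Submodule F V} (hSA : ∀ v ∈ A, S v ∈ A) (hTA : ∀ v ∈ A, T v ∈ A) (hn : NonD Q A)
    (hA : finrank F A = 6) (hS1 : ∃ v ∈ A, S v ≠ v) (hT1 : ∃ v ∈ A, T v ≠ v) :
    (∀ v ∈ com S A, T v = v) ∧
      ((a = 3 ∧ b = 5 ∧ finrank F (com S A) = 2 ∧ finrank F (com T A) = 4) ∨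
        (a = 5 ∧ b = 3 ∧ finrank F (com S A) = 4 ∧ finrank F (com T A) = 2)) := by
  have : Finite F := Nat.finite_of_card_ne_zero (by omega)
  have : Finite V := Module.finite_of_finite F
  have ha0 := odd_ne_zero (F := F) hF ha ha2
  have hb0 := odd_ne_zero (F := F) hF hb hb2
  have hSc := com_inv (S := S) rfl hSA
  have hTc := com_inv (S := T) rfl hTA
  have hTSc := com_inv (S := S) (T := T) hc hTA
  have hfS := com_fix (A := A) ha0 hS
  have hfT := com_fix (A := A) hb0 hT
  have hSle := com_le hSA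
  have hTle := com_le hTA
  -- dimensions
  have dS0 : finrank F (com S A) ≠ 0 := by
    intro h
    obtain ⟨v, hv, hne⟩ := hS1
    have h1 : S v - v ∈ com S A := ⟨v, hv, rfl⟩
    rw [Submodule.finrank_eq_zero.1 h] at h1
    exact hne (sub_eq_zero.1 ((Submodule.mem_bot F).1 h1))
  have dT0 : finrank F (com T A) ≠ 0 := by
    intro h
    obtain ⟨v, hv, hne⟩ := hT1
    have h1 : T v - v ∈ com T A := ⟨v, hv, rfl⟩
    rw [Submodule.finrank_eq_zero.1 h] at h1
    exact hne (sub_eq_zero.1 ((Submodule.mem_bot F).1 h1))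
  have dS6 : finrank F (com S A) ≤ 6 := by rw [← hA]; exact Submodule.finrank_mono hSle
  have dT6 : finrank F (com T A) ≤ 6 := by rw [← hA]; exact Submodule.finrank_mono hTle
  have pS := dvd_card ha hS hSc hfS
  have pT := dvd_card hb hT hTc hfT
  rw [card_sub hF] at pS pT
  have cS : PD _ _ := prime_of_dim ha ha2 dS0 dS6 pS
  have cT : PD _ _ := prime_of_dim hb hb2 dT0 dT6 pT
  have nS := com_nonD ha0 hS hIS hSA hn
  have nT := com_nonD hb0 hT hIT hTA hn
  -- the intersection
  have hX : com T (com S A) = ⊥ := by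
    by_contra hX
    have hXle : com T (com S A) ≤ com S A := com_le hTSc
    have hXT := com_inv (S := T) (T := T) rfl hTSc
    have hXS := com_inv (S := T) (T := S) hc.symm hSc
    have hfXT := com_fix (A := com S A) hb0 hT
    have hfXS : ∀ v ∈ com T (com S A), S v = v → v = 0 := fun v hv => hfS v (hXle hv)
    have nX := com_nonD hb0 hT hIT hTSc nS
    have d0 : finrank F (com T (com S A)) ≠ 0 := fun h => hX (Submodule.finrank_eq_zero.1 h)
    have d6 : finrank F (com T (com S A)) ≤ 6 := (Submodule.finrank_mono hXle).trans dS6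
    have p1 := dvd_card ha hS hXS hfXS
    have p2 := dvd_card hb hT hXT hfXT
    rw [card_sub hF] at p1 p2
    have c1 : PD _ _ := prime_of_dim ha ha2 d0 d6 p1
    have c2 : PD _ _ := prime_of_dim hb hb2 d0 d6 p2
    rcases c1.arith1 c2 hab with ⟨h1, rfl, rfl⟩ | ⟨h1, rfl, rfl⟩ | ⟨h1, rfl, rfl⟩ | ⟨h1, rfl, rfl⟩
    · exact three_five hF hS hT hIS hIT hXS hXT nX h1 hfXS hfXT
    · exact three_five hF hT hS hIT hIS hXT hXS nX h1 hfXT hfXS
    · exact three_seven hF hS hT hIT hc hXS hXT nX h1 hfXS hfXT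
    · exact three_seven hF hT hS hIS hc.symm hXT hXS nX h1 hfXT hfXS
  have hfix : ∀ v ∈ com S A, T v = v := by
    intro v hv
    have h1 : T v - v ∈ com T (com S A) := ⟨v, hv, rfl⟩
    rw [hX] at h1
    exact sub_eq_zero.1 ((Submodule.mem_bot F).1 h1)
  have hinf : com S A ⊓ com T A = ⊥ := by
    rw [eq_bot_iff]
    rintro v ⟨h1, h2⟩
    exact (Submodule.mem_bot F).2 (hfT v h2 (hfix v h1))
  have hsum : finrank F (com S A) + finrank F (com T A) ≤ 6 := by
    rw [← Submodule.finrank_sup_add_finrank_inf_eq, hinf, finrank_bot, add_zero, ← hA]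
    exact Submodule.finrank_mono (sup_le hSle hTle)
  refine ⟨hfix, ?_⟩
  rcases cS.arith2 cT hab hsum with h | h | ⟨rfl, h⟩ | ⟨rfl, h⟩
  · exact Or.inl h
  · exact Or.inr h
  · exact (not_three hF hS hIS hSc nS h hfS).elim
  · exact (not_three hF hT hIT hTc nT h hfT).elim

end two

end Cfsg.Agent.H551.E5
end

-- part: H551/E5/Case4
section
/-!
# S3510, row F (even), box E5, case (4): `q = 2`, `V = D ⊥ D'`, `dim D = 2`, `dim D' = 6` (helper551)
-/

set_option autoImplicit false
set_option linter.unusedSectionVars false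
open Cfsg

namespace Cfsg.Agent.H551.E5

open QuadraticMap MulAction Module
open Cfsg.Agent.LieClassical.OrthCore Cfsg.Agent.LieClassical.OrthTrans
open Cfsg.Agent.LieClassical.OrthSimple Cfsg.Agent.ClassicalGeometry.OrthSemi
open Cfsg.Agent.ClassicalGeometry.OrthAut1 Cfsg.Agent.H106.RC Cfsg.Agent.H93.RC
open Cfsg.Agent.H273.RC.Fev

section geom

variable {F V : Type} [Field F] [AddCommGroup V] [Module F V] {Q : QuadraticForm F V}

/-- the summands of an orthogonal decomposition are nondegenerate -/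
theorem nonD_left (hQ : Nondeg Q) {D D' : Submodule F V} (hc : IsCompl D D')
    (ho : ∀ v ∈ D, ∀ w ∈ D', polar Q v w = 0) : NonD Q D := by
  intro x hx hxy
  apply hQ
  intro y
  obtain ⟨u, hu, w, hw, rfl⟩ := Submodule.mem_sup.1 (hc.sup_eq_top ▸ Submodule.mem_top : y ∈ D ⊔ D')
  rw [QuadraticMap.polar_add_right, hxy u hu, ho x hx w hw, add_zero]

theorem nonD_right (hQ : Nondeg Q) {D D' : Submodule F V} (hc : IsCompl D D')
    (ho : ∀ v ∈ D, ∀ w ∈ D', polar Q v w = 0) : NonD Q D' :=
  nonD_left hQ hc.symm fun v hv w hw => by rw [QuadraticMap.polar_comm]; exact ho w hw v hv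

/-- the sum of two orthogonal nondegenerate subspaces is nondegenerate -/
theorem nonD_sup {A B : Submodule F V} (hA : NonD Q A) (hB : NonD Q B)
    (ho : ∀ v ∈ A, ∀ w ∈ B, polar Q v w = 0) : NonD Q (A ⊔ B) := by
  intro x hx hxy
  obtain ⟨u, hu, w, hw, rfl⟩ := Submodule.mem_sup.1 hx
  have h1 : u = 0 := by
    apply hA u hu
    intro y hy
    have := hxy y (Submodule.mem_sup_left hy)
    rw [QuadraticMap.polar_add_left, QuadraticMap.polar_comm (⇑Q) w y, ho y hy w hw, add_zero] at this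
    exact this
  have h2 : w = 0 := by
    apply hB w hw
    intro y hy
    have := hxy y (Submodule.mem_sup_right hy)
    rw [QuadraticMap.polar_add_left, ho u hu y hy, zero_add] at this
    exact this
  rw [h1, h2, add_zero]

/-- a nonzero nondegenerate subspace contains a nonsingular vector -/
theorem exists_nonsing {A : Submodule F V} (hA : NonD Q A) (h0 : A ≠ ⊥) : ∃ v ∈ A, Q v ≠ 0 := by
  by_contra hc
  push Not at hc
  apply h0
  rw [eq_bot_iff]
  intro x hx
  rw [Submodule.mem_bot]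
  apply hA x hx
  intro y hy
  rw [QuadraticMap.polar, hc _ (A.add_mem hx hy), hc x hx, hc y hy, sub_self, sub_self]

end geom

variable {F V G Ω ι : Type} [Field F] [Finite F] [AddCommGroup V] [Module F V] [FiniteDimensional F V]
  [Group G] [Finite G] [MulAction G Ω] [Nonempty Ω] [Finite ι]
  {Q : QuadraticForm F V} {N : Subgroup G} {ρ : ↥(E Q) →* G} {x : ι → G} {M : ι → Gam Q} {r : ι → ℕ}
  {T : ι → V ≃ₗ[F] V} {p : ℕ}

/-- the isometries as endomorphisms -/
def en (T : ι → V ≃ₗ[F] V) (i : ι) : End F V := (T i : V →ₗ[F] V)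

theorem en_pow (S : Sit Q N ρ Ω x M r T p) (i : ι) : en T i ^ r i = 1 := by
  have h1 : ∀ n, en T i ^ n = ((T i ^ n : V ≃ₗ[F] V) : V →ₗ[F] V) := by
    intro n
    induction n with
    | zero => rfl
    | succ n ih => rw [pow_succ, ih, pow_succ]; rfl
  rw [h1, S.pow]
  rfl

theorem en_comm (S : Sit Q N ρ Ω x M r T p) (i j : ι) : en T i * en T j = en T j * en T i := by
  ext v
  exact LinearEquiv.congr_fun (S.comm i j) v

theorem en_iso (S : Sit Q N ρ Ω x M r T p) (i : ι) : Iso Q (en T i) := S.iso i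

/-- box A in this situation -/
theorem boxA (S : Sit Q N ρ Ω x M r T p) (W : Submodule F V) (hW : Good (Q.comp W.subtype)) (hWt : W ≠ ⊤)
    (hinv : ∀ i, ∀ v ∈ W, T i v ∈ W) (hne : ∃ i, ¬ ScalOn (M i) W)
    (hRC : RC (P (Q.comp W.subtype)) ∨ {i | ¬ ScalOn (M i) W}.Subsingleton) : False :=
  Cfsg.Agent.H188.RC.box_A_of S.good S.rep (p := p) S.box S.lf S.pf.prime S.pf.pow S.pf.ne S.pf.comm S.cov W hW
    hWt (fun i v hv => by
      obtain ⟨a, -, h⟩ := S.lift i
      rw [h]
      exact W.smul_mem _ (hinv i v hv)) hne S.pf.inj.injOn (fun i _ => S.rp i) hRC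

/-- rule (P): an invariant totally singular plane -/
theorem ruleP (S : Sit Q N ρ Ω x M r T p) {u w : V} (hu : Q u = 0) (hw : Q w = 0) (huw : polar Q u w = 0)
    (hu0 : u ≠ 0) (hind : ∀ a : F, w ≠ a • u)
    (hL : ∀ i, ∀ v ∈ Submodule.span F {u, w}, T i v ∈ Submodule.span F {u, w}) : False :=
  S.box ι S.lf S.pf.prime S.rp S.pf.pow S.pf.ne S.pf.comm hu hw huw hu0 hind (fun i v hv => by
    obtain ⟨a, -, h⟩ := S.lift i
    rw [h]
    exact Submodule.smul_mem _ _ (hL i v hv)) fun ω => Or.inr (S.cov ω)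

/-- no member is trivial -/
theorem not_one (S : Sit Q N ρ Ω x M r T p) (i : ι) (h : ∀ v, T i v = v) : False := by
  apply S.pf.ne i
  rw [(S.lf i).eq_one_iff S.good S.env S.rep]
  obtain ⟨a, ha, h1⟩ := S.lift i
  exact ⟨a, ha, fun v => by rw [h1, h]⟩

theorem char_two [CharP F p] (hF : Nat.card F = 2) : p = 2 := by
  have h1 : ((2 : ℕ) : F) = 0 := by exact_mod_cast two_eq_zero (F := F) hF
  have h2 := (CharP.cast_eq_zero_iff F p 2).1 h1
  rcases (Nat.dvd_prime Nat.prime_two).1 h2 with h | h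
  · subst h
    exact (CharP.char_ne_one F 1 rfl).elim
  · exact h

/-- a member acting nontrivially on a plane has order three and no fixed points there -/
theorem plane (hF : Nat.card F = 2) {S : End F V} {a : ℕ} (ha : a.Prime) (ha2 : a ≠ 2) (hS : S ^ a = 1)
    {D : Submodule F V} (hD : finrank F D ≤ 2) (hSD : ∀ v ∈ D, S v ∈ D) (h1 : ∃ v ∈ D, S v ≠ v) :
    a = 3 ∧ ∀ v ∈ D, S v = v → v = 0 := by
  have : Finite V := Module.finite_of_finite F
  have ha0 := odd_ne_zero (F := F) hF ha ha2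
  have hc := com_inv (S := S) rfl hSD
  have hf := com_fix (A := D) ha0 hS
  have hle := com_le hSD
  have d0 : finrank F (com S D) ≠ 0 := by
    intro h
    obtain ⟨v, hv, hne⟩ := h1
    have h2 : S v - v ∈ com S D := ⟨v, hv, rfl⟩
    rw [Submodule.finrank_eq_zero.1 h] at h2
    exact hne (sub_eq_zero.1 ((Submodule.mem_bot F).1 h2))
  have d2 : finrank F (com S D) ≤ 2 := (Submodule.finrank_mono hle).trans hD
  have p1 := dvd_card ha hS hc hf
  rw [card_sub hF] at p1
  have c := prime_of_dim ha ha2 d0 (by omega) p1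
  have h3 : finrank F (com S D) = 2 ∧ a = 3 := by
    clear p1 d0
    omega
  refine ⟨h3.2, ?_⟩
  have h4 : com S D = D := Submodule.eq_of_le_of_finrank_le hle (by omega)
  rw [h4] at hf
  exact hf

/-- `v + S v + S² v = 0` -/
theorem sum3 {S : End F V} (hS : S ^ 3 = 1) {D : Submodule F V} (hSD : ∀ v ∈ D, S v ∈ D)
    (hf : ∀ v ∈ D, S v = v → v = 0) {v : V} (hv : v ∈ D) : v + S v + S (S v) = 0 := by
  apply hf _ (D.add_mem (D.add_mem hv (hSD v hv)) (hSD _ (hSD v hv)))
  have h1 : S (S (S v)) = v := LinearMap.congr_fun hS v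
  rw [map_add, map_add, h1]
  abel

theorem case4_aux [CharP F p] (S : Sit Q N ρ Ω x M r T p) (hF : Nat.card F = 2) (h8 : finrank F V = 8)
    {D D' : Submodule F V} (hD2 : finrank F D = 2) (hD6 : finrank F D' = 6) (hc : IsCompl D D')
    (ho : ∀ v ∈ D, ∀ w ∈ D', polar Q v w = 0) (hTD : ∀ i, ∀ v ∈ D, T i v ∈ D)
    (hTD' : ∀ i, ∀ v ∈ D', T i v ∈ D') {i j : ι} (hij : i ≠ j) (hi : r i = 3) (hj : r j = 5)
    (hi1 : ∃ v ∈ D', T i v ≠ v) (hj1 : ∃ v ∈ D', T j v ≠ v) : False := by
  have hp : p = 2 := char_two hF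
  have hr2 : ∀ k, r k ≠ 2 := fun k => hp ▸ S.rp k
  have hpr := S.pf.prime
  have nD := nonD_left S.good.nondeg hc ho
  have nD' := nonD_right S.good.nondeg hc ho
  have h2 := two_eq_zero (F := F) hF
  have ty : ∀ k l, k ≠ l → (∃ v ∈ D', T k v ≠ v) → (∃ v ∈ D', T l v ≠ v) →
      (∀ v ∈ com (en T k) D', en T l v = v) ∧
      ((r k = 3 ∧ r l = 5 ∧ finrank F (com (en T k) D') = 2 ∧ finrank F (com (en T l) D') = 4) ∨
        (r k = 5 ∧ r l = 3 ∧ finrank F (com (en T k) D') = 4 ∧ finrank F (com (en T l) D') = 2)) :=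
    fun k l hkl hk hl => types hF (hpr k) (hpr l) (hr2 k) (hr2 l) (fun h => hkl (S.pf.inj h)) (en_pow S k)
      (en_pow S l) (en_iso S k) (en_iso S l) (en_comm S k l) (hTD' k) (hTD' l) nD' hD6 hk hl
  -- trivial on `D` unless `k = i`
  have hDk : ∀ k, k ≠ i → ∀ v ∈ D, T k v = v := by
    intro k hk
    by_contra hcon
    push Not at hcon
    obtain ⟨h3, -⟩ := plane hF (hpr k) (hr2 k) (en_pow S k) hD2.le (hTD k) hcon
    exact hk (S.pf.inj (h3.trans hi.symm))
  -- all members are `i` or `j`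
  have hall : ∀ k, k = i ∨ k = j := by
    intro k
    by_contra hcon
    push Not at hcon
    apply not_one S k
    intro v
    obtain ⟨u, hu, w, hw, rfl⟩ := Submodule.mem_sup.1 (hc.sup_eq_top ▸ Submodule.mem_top : v ∈ D ⊔ D')
    rw [map_add, hDk k hcon.1 u hu]
    congr 1
    by_contra hne
    obtain ⟨-, h⟩ := ty k i hcon.1 ⟨w, hw, hne⟩ hi1
    rcases h with ⟨h, -⟩ | ⟨h, -⟩
    · exact hcon.1 (S.pf.inj (h.trans hi.symm))
    · exact hcon.2 (S.pf.inj (h.trans hj.symm))
  obtain ⟨hTj, tyi⟩ := ty i j hij hi1 hj1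
  obtain ⟨hTi, -⟩ := ty j i hij.symm hj1 hi1
  have dA : finrank F (com (en T i) D') = 2 := by
    rcases tyi with h | h
    · exact h.2.2.1
    · exact absurd (hi.symm.trans h.1) (by norm_num)
  have dB : finrank F (com (en T j) D') = 4 := by
    rcases tyi with h | h
    · exact h.2.2.2
    · exact absurd (hi.symm.trans h.1) (by norm_num)
  have hi0 := odd_ne_zero (F := F) hF (hpr i) (hr2 i)
  have hj0 := odd_ne_zero (F := F) hF (hpr j) (hr2 j)
  have nA := com_nonD hi0 (en_pow S i) (en_iso S i) (hTD' i) nD'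
  have nB := com_nonD hj0 (en_pow S j) (en_iso S j) (hTD' j) nD'
  have Ale := com_le (S := en T i) (hTD' i)
  have Ble := com_le (S := en T j) (hTD' j)
  by_cases hiD : ∀ v ∈ D, T i v = v
  · -- `W = D ⊥ B`
    let W := D ⊔ com (en T j) D'
    have hWd : finrank F W = 6 := by
      have h3 := Submodule.finrank_sup_add_finrank_inf_eq D (com (en T j) D')
      have h4 : D ⊓ com (en T j) D' = ⊥ := by
        rw [eq_bot_iff, ← hc.inf_eq_bot]
        exact inf_le_inf_left _ Ble
      rw [h4, finrank_bot, hD2, dB] at h3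
      exact h3
    have nW : NonD Q W := nonD_sup nD nB fun v hv w hw => ho v hv w (Ble hw)
    have gW : Good (Q.comp W.subtype) := Cfsg.Agent.LieClassical.OrthFinite.good_of_finite (nonD_iff.1 nW) (by rw [hWd]; norm_num)
    have scal_i : ScalOn (M i) W := by
      obtain ⟨a, ha, h⟩ := S.lift i
      refine ⟨a, ha, fun v hv => ?_⟩
      obtain ⟨u, hu, w, hw, rfl⟩ := Submodule.mem_sup.1 hv
      rw [h, map_add, hiD u hu]
      have h5 : T i w = w := hTi w hw
      rw [h5]
    have nscal_j : ¬ ScalOn (M j) W := by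
      rintro ⟨c, hc0, h⟩
      obtain ⟨a, ha, h'⟩ := S.lift j
      obtain ⟨v, hv, hne⟩ := exists_nonsing nB (by
        intro h0
        rw [h0, finrank_bot] at dB
        omega)
      have h5 := h v (Submodule.mem_sup_right hv)
      rw [h', eq_one_of_ne hF ha, eq_one_of_ne hF hc0, one_smul, one_smul] at h5
      have h6 := com_fix (A := D') hj0 (en_pow S j) v hv h5
      rw [h6] at hne
      exact hne (QuadraticMap.map_zero Q)
    refine boxA S W gW ?_ ?_ ⟨j, nscal_j⟩ (Or.inr ?_)
    · intro hWt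
      rw [hWt, finrank_top] at hWd
      omega
    · intro k v hv
      obtain ⟨u, hu, w, hw, rfl⟩ := Submodule.mem_sup.1 hv
      rw [map_add]
      refine Submodule.add_mem_sup (hTD k u hu) ?_
      exact com_inv (S := en T j) (T := en T k) (en_comm S j k) (hTD' k) w hw
    · have hs : ∀ k, ¬ ScalOn (M k) W → k = j := by
        intro k hk
        rcases hall k with rfl | rfl
        · exact (hk scal_i).elim
        · rfl
      intro k hk l hl
      rw [hs k hk, hs l hl]
  · -- rule (P)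
    push Not at hiD
    obtain ⟨-, hfD⟩ := plane hF (hpr i) (hr2 i) (en_pow S i) hD2.le (hTD i) hiD
    have h3 : en T i ^ 3 = 1 := by rw [← hi]; exact en_pow S i
    have hfA := com_fix (A := D') hi0 (en_pow S i)
    have hAi := com_inv (S := en T i) (T := en T i) rfl (hTD' i)
    obtain ⟨d, hd, hQd⟩ := exists_nonsing nD (by
      intro h0
      rw [h0, finrank_bot] at hD2
      omega)
    obtain ⟨a, ha, hQa⟩ := exists_nonsing nA (by
      intro h0
      rw [h0, finrank_bot] at dA
      omega)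
    have hQd1 := eq_one_of_ne hF hQd
    have hQa1 := eq_one_of_ne hF hQa
    have hneg : ∀ v : V, -v = v := fun v => neg_eq_of_add_eq_zero_left (by rw [← two_smul F v, h2, zero_smul])
    -- `v = d + a`
    have s1 := sum3 h3 (hTD i) hfD hd
    have s2 := sum3 h3 hAi hfA ha
    have sv : (d + a) + T i (d + a) + T i (T i (d + a)) = 0 := by
      have h5 : (d + T i d + T i (T i d)) + (a + T i a + T i (T i a)) = 0 := by
        have e1 : d + T i d + T i (T i d) = 0 := s1
        have e2 : a + T i a + T i (T i a) = 0 := s2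
        rw [e1, e2, add_zero]
      rw [map_add, map_add, ← h5]
      abel
    have hQv : Q (d + a) = 0 := by
      rw [Q_add, hQd1, hQa1, ho d hd a (Ale ha), add_zero]
      linear_combination h2
    have hv0 : d + a ≠ 0 := by
      intro h0
      have h5 : d ∈ D ⊓ D' := ⟨hd, by
        rw [eq_neg_of_add_eq_zero_left h0]
        exact D'.neg_mem (Ale ha)⟩
      rw [hc.inf_eq_bot, Submodule.mem_bot] at h5
      rw [h5] at hQd
      exact hQd (QuadraticMap.map_zero Q)
    have hQw : Q (T i (d + a)) = 0 := by rw [S.iso, hQv]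
    have hTT : T i (T i (d + a)) = (d + a) + T i (d + a) := by
      have h5 := eq_neg_of_add_eq_zero_right sv
      rw [h5, hneg]
    have hpv : polar Q (d + a) (T i (d + a)) = 0 := by
      rw [QuadraticMap.polar, ← hTT, S.iso, S.iso, hQv, sub_self, sub_self]
    refine ruleP S hQv hQw hpv hv0 ?_ ?_
    · intro c hcc
      by_cases hc0 : c = 0
      · rw [hc0, zero_smul] at hcc
        exact hv0 ((T i).map_eq_zero_iff.1 hcc)
      · rw [eq_one_of_ne hF hc0, one_smul] at hcc
        rw [hcc, hcc] at hTT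
        have h6 : d + a = 0 := by
          have h7 : d + a + (d + a) = d + a := hTT.symm
          exact left_eq_add.1 h7.symm
        exact hv0 h6
    · intro k v hv
      obtain ⟨s, t, rfl⟩ := Submodule.mem_span_pair.1 hv
      rcases hall k with rfl | rfl
      · rw [map_add (T k) (s • (d + a)) (t • T k (d + a)), map_smul, map_smul, hTT]
        refine Submodule.mem_span_pair.2 ⟨t, s + t, ?_⟩
        module
      · have e1 : T k (d + a) = d + a := by
          rw [map_add, hDk k hij.symm d hd]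
          congr 1
          exact hTj a ha
        have e2 : T k (T i (d + a)) = T i (d + a) := by
          have := LinearEquiv.congr_fun (S.comm k i) (d + a)
          have h5 : T k (T i (d + a)) = T i (T k (d + a)) := this
          rw [h5, e1]
        rw [map_add (T k) (s • (d + a)) (t • T i (d + a)), map_smul, map_smul, e1, e2]
        exact Submodule.mem_span_pair.2 ⟨s, t, rfl⟩

/-- **Box E5, case (4).** -/
theorem case4 [CharP F p] (S : Sit Q N ρ Ω x M r T p) (h : Case4 Q T) : False := by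
  obtain ⟨hF, h8, D, D', hD2, hD6, hc, ho, hTD, hTD', -, i, j, hij, hi1, hj1⟩ := h
  have hp : p = 2 := char_two hF
  have hr2 : ∀ k, r k ≠ 2 := fun k => hp ▸ S.rp k
  have hpr := S.pf.prime
  have nD' := nonD_right S.good.nondeg hc ho
  have ty := types hF (hpr i) (hpr j) (hr2 i) (hr2 j) (fun h => hij (S.pf.inj h)) (en_pow S i)
      (en_pow S j) (en_iso S i) (en_iso S j) (en_comm S i j) (hTD' i) (hTD' j) nD' hD6 hi1 hj1
  rcases ty.2 with h | h
  · exact case4_aux S hF h8 hD2 hD6 hc ho hTD hTD' hij h.1 h.2.1 hi1 hj1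
  · exact case4_aux S hF h8 hD2 hD6 hc ho hTD hTD' hij.symm h.2.1 h.1 hj1 hi1

end Cfsg.Agent.H551.E5
end

-- part: H551/E5/Irr
section
/-!
# S3510, row F (even), box E5, case (3): irreducibility (helper551)

`irr` : if there is no invariant totally singular plane and no invariant nondegenerate subspace of dimension `< 4`, then the
four-dimensional summands `D`, `D'` are irreducible.
`exists_field` : some member satisfies `T^(q²) ≠ T` on an irreducible `D` of dimension `4`.
-/

set_option autoImplicit false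
set_option linter.unusedSectionVars false
open Cfsg

namespace Cfsg.Agent.H551.E5

open QuadraticMap Module
open Cfsg.Agent.LieClassical.OrthCore Cfsg.Agent.H955 Cfsg.Agent.H273.RC.Fev

section dual

variable {F V ι : Type} [Field F] [AddCommGroup V] [Module F V] {Q : QuadraticForm F V}

/-- a common eigenvector has a dual common eigenvector -/
theorem exists_dual [Finite ι] {T : ι → End F V} {r : ι → ℕ} (hr : ∀ i, (r i : F) ≠ 0)
    (hTr : ∀ i, T i ^ r i = 1) (hI : ∀ i, Iso Q (T i)) (hc : ∀ i j, T i * T j = T j * T i)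
    {D : Submodule F V} (hD : NonD Q D) (hTD : ∀ i, ∀ v ∈ D, T i v ∈ D) {e : V} (he : e ∈ D) (he0 : e ≠ 0)
    {c : ι → F} (hce : ∀ i, T i e = c i • e) :
    ∃ f ∈ D, polar Q e f = 1 ∧ ∀ i, ∃ c' : F, T i f = c' • f := by
  classical
  cases nonempty_fintype ι
  have hpe : ∀ i n, (T i ^ n) e = c i ^ n • e := by
    intro i n
    induction n with
    | zero => simp
    | succ n ih => rw [pow_succ, Module.End.mul_apply, hce, map_smul, ih, smul_smul, pow_succ, mul_comm]
  have hcr : ∀ i, c i ^ r i = 1 := by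
    intro i
    have h1 := hpe i (r i)
    rw [hTr] at h1
    have h2 : (1 - c i ^ r i) • e = 0 := by
      rw [sub_smul, one_smul, ← h1]
      exact sub_self e
    exact (sub_eq_zero.1 ((smul_eq_zero.1 h2).resolve_right he0)).symm
  have hr0 : ∀ i, r i ≠ 0 := by
    intro i h
    apply hr i
    rw [h, Nat.cast_zero]
  have hc0 : ∀ i, c i ≠ 0 := by
    intro i h
    have := hcr i
    rw [h, zero_pow (hr0 i)] at this
    exact zero_ne_one this
  have key : ∀ s : Finset ι, ∃ f ∈ D, polar Q e f = 1 ∧ ∀ i ∈ s, T i f = (c i)⁻¹ • f := by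
    intro s
    induction s using Finset.induction_on with
    | empty =>
      obtain ⟨y, hy, hne⟩ : ∃ y ∈ D, polar Q e y ≠ 0 := by
        by_contra hcon
        push Not at hcon
        exact he0 (hD e he hcon)
      refine ⟨(polar Q e y)⁻¹ • y, D.smul_mem _ hy, ?_, by simp only [_root_.Finset.notMem_empty, _root_.map_smul, _root_.IsEmpty.forall_iff, _root_.implies_true]⟩
      rw [QuadraticMap.polar_smul_right, smul_eq_mul, inv_mul_cancel₀ hne]
    | insert a s ha ih =>
      obtain ⟨f, hf, hef, hfs⟩ := ih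
      let S : End F V := c a • T a
      have hSr : S ^ r a = 1 := by
        rw [smul_pow, hcr, hTr, one_smul]
      have hSD : ∀ v ∈ D, S v ∈ D := fun v hv => D.smul_mem _ (hTD a v hv)
      have hSp : ∀ w, polar Q e (S w) = polar Q e w := by
        intro w
        have h1 := (hI a).polar e w
        rw [hce, QuadraticMap.polar_smul_left] at h1
        show polar Q e (c a • T a w) = _
        rw [QuadraticMap.polar_smul_right, h1]
      have hSk : ∀ k, polar Q e ((S ^ k) f) = 1 := by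
        intro k
        induction k with
        | zero => exact hef
        | succ k ih => rw [pow_succ', Module.End.mul_apply, hSp, ih]
      refine ⟨(r a : F)⁻¹ • (∑ k ∈ Finset.range (r a), S ^ k) f, D.smul_mem _ ?_, ?_, ?_⟩
      · rw [LinearMap.sum_apply]
        exact Submodule.sum_mem _ fun k _ => pow_mem hSD hf k
      · rw [QuadraticMap.polar_smul_right, LinearMap.sum_apply]
        have h1 : polar Q e (∑ k ∈ Finset.range (r a), (S ^ k) f) =
            ∑ k ∈ Finset.range (r a), polar Q e ((S ^ k) f) := map_sum (polarBilin Q e) _ _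
        rw [h1, Finset.sum_congr rfl fun k _ => hSk k, Finset.sum_const, Finset.card_range, nsmul_eq_mul,
          mul_one, smul_eq_mul, inv_mul_cancel₀ (hr a)]
      · intro i hi
        rw [Finset.mem_insert] at hi
        rcases hi with rfl | hi
        · have h1 : (S - 1) * (∑ k ∈ Finset.range (r i), S ^ k) = 0 := by rw [mul_geom_sum, hSr, sub_self]
          have h2 : S ((∑ k ∈ Finset.range (r i), S ^ k) f) = (∑ k ∈ Finset.range (r i), S ^ k) f :=
            sub_eq_zero.1 (LinearMap.congr_fun h1 f)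
          have h3 : c i • T i ((∑ k ∈ Finset.range (r i), S ^ k) f) = (∑ k ∈ Finset.range (r i), S ^ k) f := h2
          rw [map_smul]
          conv_rhs => rw [← h3]
          rw [smul_comm ((c i)⁻¹), smul_smul ((c i)⁻¹), inv_mul_cancel₀ (hc0 i), one_smul]
        · have hcS : T i * S = S * T i := by
            rw [mul_smul_comm, smul_mul_assoc, hc]
          have hck : ∀ k, T i ((S ^ k) f) = (c i)⁻¹ • (S ^ k) f := by
            intro k
            have h1 : T i * S ^ k = S ^ k * T i := (Commute.pow_right (show Commute (T i) S from hcS) k).eq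
            have h2 := LinearMap.congr_fun h1 f
            rw [Module.End.mul_apply, Module.End.mul_apply, hfs i hi, map_smul] at h2
            exact h2
          rw [map_smul, LinearMap.sum_apply, map_sum, Finset.sum_congr rfl fun k _ => hck k, ← Finset.smul_sum,
            smul_comm]
  obtain ⟨f, hf, hef, h⟩ := key Finset.univ
  exact ⟨f, hf, hef, fun i => ⟨_, h i (Finset.mem_univ i)⟩⟩

end dual

section irr

variable {F V ι : Type} [Field F] [Finite F] [AddCommGroup V] [Module F V] [FiniteDimensional F V]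
  {Q : QuadraticForm F V} [Finite ι]

/-- no common eigenvector -/
theorem no_line {T : ι → V ≃ₗ[F] V} {r : ι → ℕ} (hr : ∀ i, (r i : F) ≠ 0)
    (hTr : ∀ i, en T i ^ r i = 1) (hI : ∀ i, Iso Q (en T i)) (hc : ∀ i j, en T i * en T j = en T j * en T i)
    {D : Submodule F V} (hD : NonD Q D) (hTD : ∀ i, ∀ v ∈ D, T i v ∈ D)
    (hmin : ∀ W : Submodule F V, Nondeg (Q.comp W.subtype) → (∀ i, ∀ v ∈ W, T i v ∈ W) → W ≠ ⊥ → 4 ≤ finrank F W)
    {e : V} (he : e ∈ D) (he0 : e ≠ 0) (hce : ∀ i, ∃ c : F, T i e = c • e) (hq : Q e = 0 ∨ (2 : F) = 0) : False := by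
  choose c hc' using hce
  obtain ⟨f, hf, hef, hfc⟩ := exists_dual (T := en T) hr hTr hI hc hD hTD he he0 hc'
  have h1 : 4 * Q e * Q f ≠ polar Q e f ^ 2 := by
    rw [hef, one_pow]
    have h4 : 4 * Q e * Q f = 0 := by
      rcases hq with h | h
      · rw [h]; ring
      · linear_combination (2 * Q e * Q f) * h
    rw [h4]
    exact zero_ne_one
  have h2 := plane_nondeg h1
  have h3 := hmin _ h2.1 (by
    intro i v hv
    obtain ⟨a, b, rfl⟩ := Submodule.mem_span_pair.1 hv
    obtain ⟨c', hf'⟩ := hfc i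
    have hf'' : T i f = c' • f := hf'
    rw [map_add, map_smul, map_smul, hc', hf'']
    exact Submodule.mem_span_pair.2 ⟨a * c i, b * c', by rw [mul_smul, mul_smul]⟩) (by
    intro h0
    apply he0
    have h5 : e ∈ Submodule.span F {e, f} := Submodule.subset_span (by simp)
    rw [h0] at h5
    exact (Submodule.mem_bot F).1 h5)
  rw [h2.2] at h3
  omega

/-- the singular vectors of a totally isotropic subspace -/
def singOf (Q : QuadraticForm F V) (R : Submodule F V) (hR : ∀ u ∈ R, ∀ v ∈ R, polar Q u v = 0) :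
    Submodule F V where
  carrier := {v | v ∈ R ∧ Q v = 0}
  zero_mem' := ⟨R.zero_mem, QuadraticMap.map_zero Q⟩
  add_mem' := fun {u v} hu hv => ⟨R.add_mem hu.1 hv.1, by
    rw [Q_add, hu.2, hv.2, hR u hu.1 v hv.1, add_zero, add_zero]⟩
  smul_mem' := fun a v hv => ⟨R.smul_mem a hv.1, by rw [QuadraticMap.map_smul, hv.2, smul_zero]⟩

/-- **Irreducibility of the summands.** -/
theorem irr (hQ : Nondeg Q) (h8 : finrank F V = 8) {T : ι → V ≃ₗ[F] V} {r : ι → ℕ} (hr : ∀ i, (r i : F) ≠ 0)
    (hTr : ∀ i, en T i ^ r i = 1) (hI : ∀ i, Iso Q (en T i)) (hc : ∀ i j, en T i * en T j = en T j * en T i)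
    {D D' : Submodule F V} (hD4 : finrank F D = 4) (hD4' : finrank F D' = 4) (hcp : IsCompl D D')
    (ho : ∀ v ∈ D, ∀ w ∈ D', polar Q v w = 0) (hTD : ∀ i, ∀ v ∈ D, T i v ∈ D)
    (hmin : ∀ W : Submodule F V, Nondeg (Q.comp W.subtype) → (∀ i, ∀ v ∈ W, T i v ∈ W) → W ≠ ⊥ → 4 ≤ finrank F W)
    (hno : ∀ u w : V, Q u = 0 → Q w = 0 → polar Q u w = 0 → u ≠ 0 → (∀ a : F, w ≠ a • u) →
      ¬ ∀ i, ∀ v ∈ Submodule.span F {u, w}, T i v ∈ Submodule.span F {u, w})
    {U : Submodule F V} (hUD : U ≤ D) (hTU : ∀ i, ∀ v ∈ U, T i v ∈ U) (hU0 : U ≠ ⊥) : U = D := by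
  classical
  by_contra hne
  have hD := nonD_left hQ hcp ho
  have hlt : finrank F U < 4 := by
    rw [← hD4]
    exact Submodule.finrank_lt_finrank_of_lt (lt_of_le_of_ne hUD hne)
  -- the radical
  set R := U ⊓ perp Q U with hR
  have hTR : ∀ i, ∀ v ∈ R, T i v ∈ R := fun i v hv =>
    ⟨hTU i v hv.1, perp_inv (fun v => hI i v) (hTU i) v hv.2⟩
  have hRt : ∀ u ∈ R, ∀ v ∈ R, polar Q u v = 0 := fun u hu v hv => hv.2 u hu.1
  have hR0 : R ≠ ⊥ := by
    intro h0
    have h1 : NonD Q U := by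
      intro x hx hxy
      have h2 : x ∈ R := ⟨hx, fun w hw => by rw [QuadraticMap.polar_comm]; exact hxy w hw⟩
      rw [h0] at h2
      exact (Submodule.mem_bot F).1 h2
    have h2 := hmin U (nonD_iff.1 h1) hTU hU0
    omega
  have hRD : R ≤ D := inf_le_left.trans hUD
  have hR2 : finrank F R ≤ 2 := by
    have h1 := finrank_add_perp hQ R
    have h2 : R ⊔ D' ≤ perp Q R := by
      refine sup_le ?_ ?_
      · intro v hv u hu
        exact hRt u hu v hv
      · intro v hv u hu
        exact ho u (hRD hu) v hv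
    have h3 := Submodule.finrank_mono h2
    have h4 := Submodule.finrank_sup_add_finrank_inf_eq R D'
    have h5 : R ⊓ D' = ⊥ := by
      rw [eq_bot_iff, ← hcp.inf_eq_bot]
      exact inf_le_inf_right _ hRD
    rw [h5, finrank_bot] at h4
    omega
  have hR1 : finrank F R ≠ 0 := fun h => hR0 (Submodule.finrank_eq_zero.1 h)
  have line : ∀ e ∈ D, e ≠ 0 → (∀ i, ∃ c : F, T i e = c • e) → (Q e = 0 ∨ (2 : F) = 0) → False :=
    fun e he he0 hce hq => no_line hr hTr hI hc hD hTD hmin he he0 hce hq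
  -- invariant lines
  have line' : ∀ L : Submodule F V, L ≤ D → finrank F L = 1 → (∀ i, ∀ v ∈ L, T i v ∈ L) →
      ((∀ v ∈ L, Q v = 0) ∨ (2 : F) = 0) → False := by
    intro L hL hL1 hTL hq
    obtain ⟨⟨e, heL⟩, he0, he⟩ := finrank_eq_one_iff'.1 hL1
    refine line e (hL heL) (fun h => he0 (Subtype.ext h)) (fun i => ?_) ?_
    · obtain ⟨c, hc⟩ := he ⟨T i e, hTL i e heL⟩
      exact ⟨c, (congrArg Subtype.val hc).symm⟩
    · rcases hq with h | h
      · exact Or.inl (h e heL)
      · exact Or.inr h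
  have hsq : ∀ v ∈ R, (2 : F) ≠ 0 → Q v = 0 := by
    intro v hv h2
    have h3 := hRt v hv v hv
    rw [polar_self'] at h3
    exact (mul_eq_zero.1 h3).resolve_left h2
  have hR12 : finrank F R = 1 ∨ finrank F R = 2 := by omega
  rcases hR12 with h1 | h2
  · refine line' R hRD h1 hTR ?_
    by_cases h2 : (2 : F) = 0
    · exact Or.inr h2
    · exact Or.inl fun v hv => hsq v hv h2
  by_cases hall : ∀ v ∈ R, Q v = 0
  · -- a totally singular plane
    let b := Module.finBasisOfFinrankEq F R h2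
    have hli := b.linearIndependent
    have hspan : Submodule.span F {((b 0 : R) : V), ((b 1 : R) : V)} = R := by
      have h3 := b.span_eq
      have h4 : Submodule.map R.subtype (Submodule.span F (Set.range b)) = Submodule.map R.subtype ⊤ := by rw [h3]
      rw [Submodule.map_span, Submodule.map_top, Submodule.range_subtype, ← Set.range_comp] at h4
      have h5 : Set.range (R.subtype ∘ b) = {((b 0 : R) : V), ((b 1 : R) : V)} := by
        ext v
        constructor
        · rintro ⟨i, rfl⟩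
          fin_cases i
          · left; rfl
          · right; rfl
        · rintro (rfl | rfl)
          · exact ⟨0, rfl⟩
          · exact ⟨1, rfl⟩
      rw [h5] at h4
      exact h4
    refine hno (b 0 : R) (b 1 : R) (hall _ (b 0).2) (hall _ (b 1).2) (hRt _ (b 0).2 _ (b 1).2) ?_ ?_ ?_
    · intro h
      exact b.ne_zero 0 (Subtype.ext h)
    · intro a ha
      have h3 := (LinearIndependent.pair_iff' (b.ne_zero 0)).1
        (by
          have h6 : ![b 0, b 1] = (b : Fin 2 → R) := by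
            funext i; fin_cases i <;> rfl
          rw [h6]; exact hli) a
      exact h3 (Subtype.ext ha.symm)
    · rw [hspan]
      exact hTR
  · -- characteristic two
    push Not at hall
    obtain ⟨v, hv, hQv⟩ := hall
    have h20 : (2 : F) = 0 := by
      by_contra h
      exact hQv (hsq v hv h)
    let R0 := singOf Q R hRt
    have hTR0 : ∀ i, ∀ w ∈ R0, T i w ∈ R0 := fun i w hw => ⟨hTR i w hw.1, by
      have := hI i w
      exact this.trans hw.2⟩
    have hR0R : R0 ≤ R := fun w hw => hw.1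
    have hR0ne : R0 ≠ R := by
      intro h
      have h3 : v ∈ R0 := by rw [h]; exact hv
      exact hQv h3.2
    have hlt2 : finrank F R0 < 2 := by
      rw [← h2]
      exact Submodule.finrank_lt_finrank_of_lt (lt_of_le_of_ne hR0R hR0ne)
    have hv0 : v ≠ 0 := by
      rintro rfl
      exact hQv (QuadraticMap.map_zero Q)
    -- a singular vector
    obtain ⟨w, hw, hwv⟩ : ∃ w ∈ R, ∀ a : F, w ≠ a • v := by
      by_contra hcon
      push Not at hcon
      have h3 : R ≤ Submodule.span F {v} := by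
        intro w hw
        obtain ⟨a, ha⟩ := hcon w hw
        exact Submodule.mem_span_singleton.2 ⟨a, ha.symm⟩
      have h4 := Submodule.finrank_mono h3
      rw [finrank_span_singleton hv0] at h4
      omega
    have hchar : ringChar F = 2 := by
      have h5 : ringChar F ∣ 2 := by
        rw [← ringChar.spec]
        exact_mod_cast h20
      rcases (Nat.dvd_prime Nat.prime_two).1 h5 with h | h
      · exfalso
        have := CharP.ringChar_ne_one (R := F)
        exact this h
      · exact h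
    obtain ⟨a, ha⟩ := FiniteField.isSquare_of_char_two hchar (Q w / Q v)
    have hu : w - a • v ∈ R0 := by
      refine ⟨R.sub_mem hw (R.smul_mem a hv), ?_⟩
      have h5 : w - a • v = w + (-a) • v := by rw [neg_smul, sub_eq_add_neg]
      rw [h5, Q_add, QuadraticMap.map_smul, QuadraticMap.polar_smul_right, hRt w hw v hv, smul_zero, add_zero,
        smul_eq_mul, neg_mul_neg, ← ha, div_mul_cancel₀ _ hQv]
      linear_combination Q w * h20
    have hR0b : finrank F R0 ≠ 0 := by
      intro h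
      have h5 := Submodule.finrank_eq_zero.1 h
      rw [h5] at hu
      exact hwv a (sub_eq_zero.1 ((Submodule.mem_bot F).1 hu))
    exact line' R0 (hR0R.trans hRD) (by omega) hTR0 (Or.inr h20)

end irr

end Cfsg.Agent.H551.E5
end

-- part: H551/E5/Big
section
/-!
# S3510, row F (even), box E5, case (3): a member of large order (helper551)

`exists_big` : on an irreducible `D` of dimension `4`, some member does not satisfy `T^(q²) = T`.
-/

set_option autoImplicit false
set_option linter.unusedSectionVars false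
open Cfsg

namespace Cfsg.Agent.H551.E5

open QuadraticMap Module
open Cfsg.Agent.LieClassical.OrthCore

section big

variable {F X ι : Type} [Field F] [Finite F] [AddCommGroup X] [Module F X] [FiniteDimensional F X]

/-- the algebra generated by a commuting irreducible family -/
theorem card_le_of_irr {t : ι → End F X} (hc : ∀ i j, t i * t j = t j * t i) (h0 : ∃ v : X, v ≠ 0)
    (hirr : ∀ U : Submodule F X, (∀ i, ∀ v ∈ U, t i v ∈ U) → U ≠ ⊥ → U = ⊤) {N : ℕ} (hN : 2 ≤ N)
    (hp : ∀ a b : End F X, a * b = b * a → (a + b) ^ N = a ^ N + b ^ N)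
    (hF : ∀ c : F, c ^ N = c) (ht : ∀ i, t i ^ N = t i) : Nat.card X ≤ N := by
  classical
  have hXf : Finite X := Module.finite_of_finite F
  let A := Algebra.adjoin F (Set.range t)
  have hcomm : ∀ a ∈ Set.range t, ∀ b ∈ Set.range t, a * b = b * a := by
    rintro _ ⟨i, rfl⟩ _ ⟨j, rfl⟩
    exact hc i j
  have iMC : IsMulCommutative A := Algebra.isMulCommutative_adjoin F hcomm
  let iA : CommRing A := { (inferInstance : Ring A) with mul_comm := fun a b => iMC.is_comm.comm a b }
  have hmem : ∀ i, t i ∈ A := fun i => Algebra.subset_adjoin ⟨i, rfl⟩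
  have hcA : ∀ a b : End F X, a ∈ A → b ∈ A → a * b = b * a := by
    intro a b ha hb
    have := mul_comm (⟨a, ha⟩ : A) ⟨b, hb⟩
    exact congrArg Subtype.val this
  have hfinE : Finite (End F X) := Finite.of_injective (fun f : End F X => (f : X → X)) DFunLike.coe_injective
  have hfinA : Finite A := Subtype.finite
  -- kernels
  have hker : ∀ a b : End F X, a ∈ A → b ∈ A → a * b = 0 → b ≠ 0 → a = 0 := by
    intro a b ha hb hab hb0
    have h1 : LinearMap.ker a = ⊤ := by
      apply hirr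
      · intro i v hv
        have h2 := LinearMap.congr_fun (hcA a (t i) ha (hmem i)) v
        rw [LinearMap.mem_ker]
        have h3 : a (t i v) = t i (a v) := h2
        rw [h3, LinearMap.mem_ker.1 hv, map_zero]
      · intro h3
        apply hb0
        ext v
        have h4 : b v ∈ LinearMap.ker a := LinearMap.congr_fun hab v
        rw [h3] at h4
        exact (Submodule.mem_bot F).1 h4
    exact LinearMap.ker_eq_top.1 h1
  obtain ⟨v0, hv0⟩ := h0
  have hnt : Nontrivial A := by
    refine ⟨⟨0, 1, fun h => hv0 ?_⟩⟩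
    have h1 : (0 : End F X) = 1 := congrArg Subtype.val h
    have h2 := LinearMap.congr_fun h1 v0
    exact h2.symm
  have hnz : NoZeroDivisors A := by
    refine ⟨fun {a b} hab => ?_⟩
    by_cases hb : b = 0
    · exact Or.inr hb
    · left
      apply Subtype.ext
      exact hker a.1 b.1 a.2 b.2 (congrArg Subtype.val hab) fun h => hb (Subtype.ext h)
  have hdom : IsDomain A := NoZeroDivisors.to_isDomain A
  -- surjectivity
  have hle : Nat.card X ≤ Nat.card A := by
    let φ : A → X := fun a => a.1 v0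
    have hs : Function.Surjective φ := by
      let W : Submodule F X :=
        { carrier := Set.range φ
          zero_mem' := ⟨0, rfl⟩
          add_mem' := by
            rintro _ _ ⟨a, rfl⟩ ⟨b, rfl⟩
            exact ⟨a + b, rfl⟩
          smul_mem' := by
            rintro c _ ⟨a, rfl⟩
            exact ⟨⟨c • a.1, A.smul_mem a.2 c⟩, rfl⟩ }
      have hW : W = ⊤ := by
        apply hirr
        · rintro i _ ⟨a, rfl⟩
          exact ⟨⟨t i * a.1, A.mul_mem (hmem i) a.2⟩, rfl⟩
        · intro h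
          have h1 : v0 ∈ W := ⟨1, rfl⟩
          rw [h] at h1
          exact hv0 ((Submodule.mem_bot F).1 h1)
      intro v
      have h1 : v ∈ W := by rw [hW]; trivial
      exact h1
    exact Nat.card_le_card_of_surjective φ hs
  -- all elements satisfy `a ^ N = a`
  have hpow : ∀ a ∈ A, a ^ N = a := by
    intro a ha
    induction ha using Algebra.adjoin_induction with
    | mem x hx =>
      obtain ⟨i, rfl⟩ := hx
      exact ht i
    | algebraMap c => rw [← map_pow, hF]
    | add x y hx hy h1 h2 => rw [hp x y (hcA x y hx hy), h1, h2]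
    | mul x y hx hy h1 h2 =>
      have h3 : (x * y) ^ N = x ^ N * y ^ N := (show Commute x y from hcA x y hx hy).mul_pow N
      rw [h3, h1, h2]
  have hpA : ∀ a : A, a ≠ 0 → a ^ (N - 1) = 1 := by
    intro a ha
    have h1 : a * a ^ (N - 1) = a * 1 := by
      rw [← pow_succ', Nat.sub_add_cancel (by omega), mul_one]
      apply Subtype.ext
      have h2 : ∀ n : ℕ, ((a ^ n : A) : End F X) = (a : End F X) ^ n := by
        intro n
        induction n with
        | zero => rfl
        | succ n ih => rw [pow_succ, pow_succ, ← ih]; rfl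
      rw [h2]
      exact hpow a.1 a.2
    exact mul_left_cancel₀ ha h1
  have := Fintype.ofFinite A
  have hcard : (Finset.univ.filter (fun a : A => a ≠ 0)).card ≤ N - 1 := by
    calc (Finset.univ.filter (fun a : A => a ≠ 0)).card ≤ (Polynomial.nthRoots (N - 1) (1 : A)).toFinset.card := by
          apply Finset.card_le_card
          intro a ha
          rw [Finset.mem_filter] at ha
          rw [Multiset.mem_toFinset, Polynomial.mem_nthRoots (by omega)]
          exact hpA a ha.2
      _ ≤ Multiset.card (Polynomial.nthRoots (N - 1) (1 : A)) := Multiset.toFinset_card_le _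
      _ ≤ N - 1 := Polynomial.card_nthRoots _ _
  have hcA' : Nat.card A = (Finset.univ.filter (fun a : A => a ≠ 0)).card + 1 := by
    rw [Nat.card_eq_fintype_card, Finset.filter_ne', Finset.card_erase_of_mem (Finset.mem_univ _),
      Finset.card_univ, Nat.sub_add_cancel Fintype.card_pos]
  omega

end big

section big2

variable {F V ι : Type} [Field F] [Finite F] [AddCommGroup V] [Module F V] [FiniteDimensional F V]

theorem exists_big {T : ι → V ≃ₗ[F] V} (hc : ∀ i j, en T i * en T j = en T j * en T i)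
    {D : Submodule F V} (hD4 : finrank F D = 4) (hTD : ∀ i, ∀ v ∈ D, T i v ∈ D)
    (hirr : ∀ U ≤ D, (∀ i, ∀ v ∈ U, T i v ∈ U) → U ≠ ⊥ → U = D) :
    ∃ i, ∃ v ∈ D, (en T i ^ (Nat.card F ^ 2)) v ≠ en T i v := by
  by_contra hcon
  push Not at hcon
  let t : ι → End F D := fun i => (en T i).restrict (hTD i)
  have ht : ∀ i n (v : D), ((t i ^ n) v : V) = (en T i ^ n) v := by
    intro i n
    induction n with
    | zero => intro v; rfl
    | succ n ih =>
      intro v
      rw [pow_succ, pow_succ, Module.End.mul_apply, Module.End.mul_apply, ih]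
      rfl
  obtain ⟨p, hp⟩ := CharP.exists F
  have hpp : Fact p.Prime := ⟨(CharP.char_is_prime_or_zero F p).resolve_right (CharP.char_ne_zero_of_finite F p)⟩
  have := Fintype.ofFinite F
  obtain ⟨n, -, hn⟩ := FiniteField.card F p
  have hnt : Nontrivial D := Module.nontrivial_of_finrank_pos (R := F) (by omega)
  have hcE : CharP (End F D) p := charP_of_injective_algebraMap (algebraMap F (End F D)).injective p
  have hq : 2 ≤ Nat.card F := Finite.one_lt_card
  have h1 := card_le_of_irr (t := t) (N := Nat.card F ^ 2) (by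
      intro i j
      ext v
      exact LinearMap.congr_fun (hc i j) (v : V)) (exists_ne 0) (by
      intro U hU hU0
      have h2 := hirr (U.map D.subtype) (Submodule.map_subtype_le D U) (by
        rintro i _ ⟨v, hv, rfl⟩
        exact ⟨t i v, hU i v hv, rfl⟩) (by
        intro h
        apply hU0
        rw [eq_bot_iff]
        intro v hv
        have h3 : (v : V) ∈ U.map D.subtype := ⟨v, hv, rfl⟩
        rw [h] at h3
        exact (Submodule.mem_bot F).2 (Subtype.ext ((Submodule.mem_bot F).1 h3)))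
      rw [eq_top_iff]
      rintro ⟨v, hv⟩ -
      rw [← h2] at hv
      obtain ⟨w, hw, hwv⟩ := hv
      have : w = ⟨v, by rw [← hwv]; exact w.2⟩ := Subtype.ext hwv
      rw [← this]
      exact hw) (by nlinarith only [hq]) (by
      intro a b hab
      rw [Nat.card_eq_fintype_card, hn, ← pow_mul]
      exact add_pow_char_pow_of_commute p _ hab) (by
      intro c
      rw [pow_two, pow_mul, Nat.card_eq_fintype_card, FiniteField.pow_card, FiniteField.pow_card]) (by
      intro i
      ext v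
      rw [ht]
      exact hcon i v v.2)
  rw [Module.natCard_eq_pow_finrank (K := F), hD4] at h1
  have h2 : Nat.card F ^ 2 < Nat.card F ^ 4 := Nat.pow_lt_pow_right hq (by norm_num)
  omega

end big2

end Cfsg.Agent.H551.E5
end

-- part: H551/E5/MRule4
section
/-!
# S3510, row F (even), box E5, case (3): the M-rule for a four-dimensional subspace of minus type (helper551)
-/

set_option autoImplicit false
set_option linter.unusedSectionVars false
open Cfsg

namespace Cfsg.Agent.H551.E5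

open QuadraticMap MulAction
open Cfsg.Agent.LieClassical.OrthCore Cfsg.Agent.LieClassical.OrthTrans
open Cfsg.Agent.LieClassical.OrthSimple Cfsg.Agent.ClassicalGeometry.OrthSemi
open Cfsg.Agent.ClassicalGeometry.OrthAut1 Cfsg.Agent.H106.RC Cfsg.Agent.H93.RC
open Cfsg.Agent.GenOrth Cfsg.Agent.H188.RC Cfsg.Agent.H170.RC Cfsg.Agent.H236.RC

section card

variable {F V : Type} [Field F] [Finite F] [AddCommGroup V] [Module F V] [FiniteDimensional F V]
  {Q : QuadraticForm F V}

/-- the group of a four-dimensional subspace of minus type is smaller -/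
theorem card_lt4 (hG : Good Q) (W : Submodule F V) (hW : Minus4 (Q.comp W.subtype)) (hWt : W ≠ ⊤) :
    Nat.card (P (Q.comp W.subtype)) < Nat.card (P Q) := by
  have he : ∀ w : W, (embW hW.nondeg).j w = w := embW_j hW.nondeg
  set e := embW hW.nondeg with hedef
  have hf1 := finite_E (Q := Q)
  have hf2 := finite_E (Q := Q.comp W.subtype)
  have hf3 := finite_P (Q := Q)
  have hf4 := finite_P (Q := Q.comp W.subtype)
  obtain ⟨v, hv0, hv⟩ := exists_perp hW.nondeg hWt
  let f : ↥(E (Q.comp W.subtype)) →* P Q := (QuotientGroup.mk' _).comp e.extE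
  have hf : Function.Injective f := by
    rw [injective_iff_map_eq_one]
    intro g hg
    exact eq_one_of_extE_center hG hW.nondeg hWt ((QuotientGroup.eq_one_iff _).1 hg)
  have h1 : Nat.card (P (Q.comp W.subtype)) ≤ Nat.card ↥(E (Q.comp W.subtype)) :=
    Nat.card_le_card_of_surjective _ (QuotientGroup.mk'_surjective (Subgroup.center ↥(E (Q.comp W.subtype))))
  have h2 : Nat.card ↥(E (Q.comp W.subtype)) ≤ Nat.card (P Q) := Nat.card_le_card_of_injective f hf
  refine lt_of_le_of_ne (h1.trans h2) fun heq => ?_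
  have h3 : Nat.card ↥(E (Q.comp W.subtype)) = Nat.card (P Q) := le_antisymm h2 (heq ▸ h1)
  have hfs : Function.Surjective f := ((Nat.bijective_iff_injective_and_card f).2 ⟨hf, h3⟩).2
  -- every element of `E Q` preserves `W`
  have hinv : ∀ g ∈ E Q, ∀ w : W, g w ∈ W := by
    intro g hg w
    obtain ⟨k, hk⟩ := hfs (QuotientGroup.mk (⟨g, hg⟩ : ↥(E Q)))
    have h4 : (e.extE k)⁻¹ * ⟨g, hg⟩ ∈ Subgroup.center ↥(E Q) := QuotientGroup.eq.1 hk
    obtain ⟨a, -, ha⟩ := scal_of_center hG h4
    have h5 := ha w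
    have h6 : g w = e.ext k (a • (w : V)) := by
      rw [← h5]
      show g w = e.ext k (((e.extE k)⁻¹ * ⟨g, hg⟩ : ↥(E Q)).1 w)
      have h7 : e.ext k * ((e.extE k)⁻¹ * ⟨g, hg⟩ : ↥(E Q)).1 = g := by
        rw [← GenOrth.Emb.extE_coe, ← Subgroup.coe_mul, mul_inv_cancel_left]
      exact (LinearEquiv.congr_fun h7 (w : V)).symm
    rw [h6, map_smul, ← he w, e.ext_j, he]
    exact W.smul_mem a (k.1 w).2
  obtain ⟨x, y, hxy⟩ := hW.exists_hyp
  have hx : Q (x : V) = 0 := hxy.left
  have hy : Q (y : V) = 0 := hxy.right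
  have hp : polar Q (x : V) (y : V) = 1 := by
    have := hxy.pair
    simpa only [polar, QuadraticMap.comp_apply, map_add, Submodule.subtype_apply] using this
  have hpv : ∀ w : W, polar Q (w : V) v = 0 := by
    intro w
    have := e.adj w v
    rw [hv, polar_zero_right, mul_zero, he] at this
    exact this
  have hvW : v ∉ W := by
    intro h
    have h4 := e.π_j ⟨v, h⟩
    rw [he] at h4
    have h5 : (⟨v, h⟩ : W) = 0 := by rw [← h4]; exact hv
    exact hv0 (congrArg Subtype.val h5)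
  set u : V := (x : V) + v - Q v • (y : V) with hu
  have huW : u ∉ W := by
    intro h
    apply hvW
    have : v = u - (x : V) + Q v • (y : V) := by rw [hu]; abel
    rw [this]
    exact W.add_mem (W.sub_mem h x.2) (W.smul_mem _ y.2)
  have hu0 : Q u = 0 := by
    have e1 : ∀ a b : V, Q (a + b) = Q a + Q b + polar Q a b := fun a b => by
      rw [QuadraticMap.polar]; ring
    have e2 : u = ((x : V) + v) + (-(Q v)) • (y : V) := by rw [hu, neg_smul]; abel
    rw [e2, e1, e1, hx, QuadraticMap.map_smul, hy, polar_add_left, polar_smul_right, polar_smul_right, hp,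
      polar_comm Q v y, hpv y, hpv x]
    simp
  have hune : u ≠ 0 := fun h => huW (h ▸ W.zero_mem)
  have hx0 : (x : V) ≠ 0 := by
    intro h
    rw [h, polar_zero_left] at hp
    exact zero_ne_one hp
  obtain ⟨g, hg, hgx⟩ := hG.trans_sing hx hu0 hx0 hune
  exact huW (hgx ▸ hinv g hg x)

end card

section main

variable {F V : Type*} [Field F] [Finite F] [AddCommGroup V] [Module F V] [FiniteDimensional F V]
  {Q : QuadraticForm F V} {G Ω : Type*} [Group G] [MulAction G Ω]
  {N : Subgroup G} {ρ : ↥(E Q) →* G} {W : Submodule F V}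

/-- an element centralises `M` iff its lift is scalar on `W` -/
theorem cent_iff4 (hG : Good Q) (hρ : _root_.Cfsg.Agent.H93.RC.Rep Q N ρ) (hW : Minus4 (Q.comp W.subtype)) (hWt : W ≠ ⊤) {x : G} {M : Gam Q}
    (hl : Lf ρ x M) (hinv : ∀ v ∈ W, M.1 v ∈ W) :
    (∀ m ∈ (phi ρ hW.nondeg).range, x * m = m * x) ↔ ScalOn M W := by
  obtain ⟨L, hLM, hL⟩ := phi_conj hW.nondeg hl hinv
  constructor
  · intro h
    have h1 : conjE (Q.comp W.subtype) L = 1 := by
      ext g : 1
      apply phi_injective hG hρ hW.nondeg hWt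
      rw [← hL, h _ ⟨g, rfl⟩, mul_inv_cancel_right, MulAut.one_apply]
    obtain ⟨a, ha, h2⟩ := hW.scal L h1
    refine ⟨a, ha, fun v hv => ?_⟩
    have h3 := congrArg Subtype.val (h2 ⟨v, hv⟩)
    rw [hLM] at h3
    exact h3
  · rintro ⟨a, ha, h⟩ _ ⟨g, rfl⟩
    have h1 : conjE (Q.comp W.subtype) L = 1 :=
      conjE_of_scal ⟨a, ha, fun v => Subtype.ext (by rw [hLM, h v v.2]; rfl)⟩
    have h2 := hL g
    rw [h1, MulAut.one_apply, mul_inv_eq_iff_eq_mul] at h2
    exact h2

/-- **The M-rule for `W`.** -/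
theorem mrule4 [Finite G] (hG : Good Q) (hρ : _root_.Cfsg.Agent.H93.RC.Rep Q N ρ)
    {ι : Type*} [Finite ι] {x : ι → G} {M : ι → Gam Q} {r : ι → ℕ} (hl : ∀ i, Lf ρ (x i) (M i))
    (hr : ∀ i, (r i).Prime) (hx : ∀ i, x i ^ r i = 1)
    (hc : ∀ i j, x i * x j = x j * x i) (hcov : Cov Ω x)
    (hW : Minus4 (Q.comp W.subtype)) (hWt : W ≠ ⊤)
    (hinv : ∀ i, ∀ v ∈ W, (M i).1 v ∈ W) (hne : ∃ i, ¬ ScalOn (M i) W)
    (hinj : Set.InjOn r {i | ¬ ScalOn (M i) W})
    (hRC : RC (P (Q.comp W.subtype)) ∨ {i | ¬ ScalOn (M i) W}.Subsingleton) (ω : Ω) :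
    (phi ρ hW.nondeg).range ≤ stabilizer G ω ∨ ∃ j, ScalOn (M j) W ∧ x j • ω = ω := by
  classical
  by_cases hω : ∃ j, ScalOn (M j) W ∧ x j • ω = ω
  · exact Or.inr hω
  left
  push Not at hω
  have hφ := phi_injective (ρ := ρ) hG hρ hW.nondeg hWt
  set φ := phi ρ hW.nondeg with hφdef
  have hperf : ⁅φ.range, φ.range⁆ = φ.range := by
    have h1 : commutator ↥(E (Q.comp W.subtype)) = ⊤ := hW.commutator_E
    rw [commutator_def] at h1
    rw [MonoidHom.range_eq_map φ, ← Subgroup.map_commutator, h1]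
  let π : ↥φ.range →* P (Q.comp W.subtype) :=
    (QuotientGroup.mk' (Subgroup.center ↥(E (Q.comp W.subtype)))).comp (MonoidHom.ofInjective hφ).symm.toMonoidHom
  have hπ : Function.Surjective π :=
    (QuotientGroup.mk'_surjective _).comp (MonoidHom.ofInjective hφ).symm.surjective
  have hker : π.ker ≤ Subgroup.center ↥φ.range := by
    intro m hm
    rw [MonoidHom.mem_ker] at hm
    have h1 : (MonoidHom.ofInjective hφ).symm m ∈ Subgroup.center ↥(E (Q.comp W.subtype)) :=
      (QuotientGroup.eq_one_iff _).mp hm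
    rw [Subgroup.mem_center_iff]
    intro n
    apply (MonoidHom.ofInjective hφ).symm.injective
    rw [map_mul, map_mul]
    exact Subgroup.mem_center_iff.mp h1 _
  -- the subfamily
  let K : Set ι := {i | ¬ ScalOn (M i) W}
  have hnorm : ∀ i, x i ∈ Subgroup.normalizer ((φ.range : Subgroup G) : Set G) := by
    intro i
    obtain ⟨L, -, hL⟩ := phi_conj hW.nondeg (hl i) (hinv i)
    rw [Subgroup.mem_normalizer_iff]
    intro m
    constructor
    · rintro ⟨g, rfl⟩
      exact ⟨_, (hL g).symm⟩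
    · rintro ⟨g, hg⟩
      refine ⟨(conjE (Q.comp W.subtype) L)⁻¹ g, ?_⟩
      have h2 := hL ((conjE (Q.comp W.subtype) L)⁻¹ g)
      rw [MulAut.apply_inv_self] at h2
      have h3 : x i * φ ((conjE (Q.comp W.subtype) L)⁻¹ g) * (x i)⁻¹ = x i * m * (x i)⁻¹ := h2.trans hg
      exact mul_left_cancel (mul_right_cancel h3)
  have hcent : ∀ i, (∀ m ∈ φ.range, x i * m = m * x i) ↔ ScalOn (M i) W := fun i =>
    cent_iff4 hG hρ hW hWt (hl i) (hinv i)
  have hcovK : ∀ m ∈ φ.range, ∃ i : K, x i • m • ω = m • ω := by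
    intro m hm
    obtain ⟨i, hi⟩ := hcov (m • ω)
    by_cases hs : ScalOn (M i) W
    · exfalso
      apply hω i hs
      rw [← mul_smul, (hcent i).mpr hs m hm, mul_smul] at hi
      exact smul_left_cancel m hi
    · exact ⟨⟨i, hs⟩, hi⟩
  have hrule : φ.range ≤ stabilizer G ω ∨
      ∃ j : K, (∀ m ∈ φ.range, x j * m = m * x j) ∧ x j • ω = ω := by
    rcases hRC with h | h
    · exact mrule_RC hW.simple hW.not_comm (fun i : K => x i) (fun i : K => r i)
        (fun i => hr i) (fun i j hij => Subtype.ext (hinj i.2 j.2 hij)) (fun i => hx i) (fun i j => hc i j)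
        φ.range hperf π hπ hker (fun i => hnorm i) h ω hcovK
    · obtain ⟨i₀, hi₀⟩ := hne
      exact mrule_one hW.simple hW.not_comm (fun i : K => x i) (fun i : K => r i)
        (fun i => hr i) (fun i j hij => Subtype.ext (hinj i.2 j.2 hij)) (fun i => hx i) (fun i j => hc i j)
        φ.range hperf π hπ hker ⟨i₀, hi₀⟩ (hnorm i₀) (fun i hi => (hi (Subtype.ext (h i.2 hi₀))).elim) ω hcovK
  rcases hrule with h | ⟨j, hj, -⟩
  · exact h
  · exact (j.2 ((hcent j).mp hj)).elim

end main

end Cfsg.Agent.H551.E5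
end

-- part: H273/RC/Case3Lem
section
/-!
# S3510, row F even, box E5, case (3): two lemmas for helper551 (helper273)

* `card_plus` : the number of singular vectors of a 4-dimensional space of plus type;
* `exists_ss` : `Minus4 Q`: an element of prime order `≠ p` in `E Q` with a fixed vector.
-/

set_option autoImplicit false
set_option linter.unusedSectionVars false
open Cfsg

namespace Cfsg.Agent.H273.RC.Case3

open QuadraticMap Module
open scoped commutatorElement
open Cfsg.Agent.LieClassical.OrthCore Cfsg.Agent.LieClassical.OrthTrans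
open Cfsg.Agent.H170.RC Cfsg.Agent.H955

variable {F V : Type*} [Field F] [AddCommGroup V] [Module F V] {Q : QuadraticForm F V}

section ss

/-- a vector orthogonal to a hyperbolic pair and to a basis of its complement is zero -/
theorem eq_zero_of (h : Minus4 Q) {x y : V} (hxy : Hyp Q x y) {u w : V} (hxu : polar Q x u = 0) (hyu : polar Q y u = 0)
    (hxw : polar Q x w = 0) (hyw : polar Q y w = 0) (hind : ∀ a b : F, a • u + b • w = 0 → a = 0 ∧ b = 0) {v : V}
    (h1 : polar Q v x = 0) (h2 : polar Q v y = 0) (h3 : polar Q v u = 0) (h4 : polar Q v w = 0) : v = 0 := by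
  have hfin := h.fin
  have hli : LinearIndependent F ![x, y, u, w] := by
    rw [Fintype.linearIndependent_iff]
    intro g hg
    rw [Fin.sum_univ_four] at hg
    change g 0 • x + g 1 • y + g 2 • u + g 3 • w = 0 at hg
    have hxx : polar Q x x = 0 := polar_self_of_sing hxy.left
    have hyy : polar Q y y = 0 := polar_self_of_sing hxy.right
    have e1 : polar Q x (g 0 • x + g 1 • y + g 2 • u + g 3 • w) = 0 := by rw [hg, polar_zero_right]
    have e2 : polar Q y (g 0 • x + g 1 • y + g 2 • u + g 3 • w) = 0 := by rw [hg, polar_zero_right]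
    simp only [polar_add_right, polar_smul_right, hxx, hyy, hxy.pair, hxy.pair', hxu, hxw, hyu, hyw, smul_eq_mul,
      mul_zero, mul_one, add_zero, zero_add] at e1 e2
    rw [e1, e2, zero_smul, zero_smul, zero_add, zero_add] at hg
    obtain ⟨e3, e4⟩ := hind _ _ hg
    intro i
    fin_cases i
    · exact e2
    · exact e1
    · exact e3
    · exact e4
  have hsp : Submodule.span F (Set.range ![x, y, u, w]) = ⊤ :=
    hli.span_eq_top_of_card_eq_finrank (by rw [Fintype.card_fin, h.dim])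
  refine h.nondeg v fun z => ?_
  have hz : z ∈ Submodule.span F (Set.range ![x, y, u, w]) := by rw [hsp]; trivial
  induction hz using Submodule.span_induction with
  | mem z hz =>
    obtain ⟨i, rfl⟩ := hz
    fin_cases i
    · exact h1
    · exact h2
    · exact h3
    · exact h4
  | zero => exact polar_zero_right Q v
  | add a b _ _ ha hb => rw [polar_add_right, ha, hb, add_zero]
  | smul c a _ ha => rw [polar_smul_right, ha, smul_zero]

/-- two independent non-orthogonal vectors in the complement of a hyperbolic pair -/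
theorem exists_uw (h : Minus4 Q) {x y : V} (hxy : Hyp Q x y) : ∃ u w : V, polar Q x u = 0 ∧ polar Q y u = 0 ∧
    polar Q x w = 0 ∧ polar Q y w = 0 ∧ (∀ a b : F, a • u + b • w = 0 → a = 0 ∧ b = 0) ∧ polar Q u w ≠ 0 := by
  obtain ⟨r, s, h1, h2, h3, h4, h5⟩ := h.exists_rs hxy
  by_cases hrs : polar Q r s = 0
  · refine ⟨r, r + s, h1, h2, ?_, ?_, ?_, ?_⟩
    · rw [polar_add_right, h1, h3, add_zero]
    · rw [polar_add_right, h2, h4, add_zero]
    · intro a b hab
      have e : (a + b) • r + b • s = 0 := by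
        rw [← hab]
        module
      obtain ⟨e1, e2⟩ := h5 _ _ e
      rw [e2, add_zero] at e1
      exact ⟨e1, e2⟩
    · rw [polar_add_right, hrs, add_zero]
      intro hrr
      have hr : r = 0 := eq_zero_of h hxy h1 h2 h3 h4 h5 (by rw [polar_comm]; exact h1) (by rw [polar_comm]; exact h2)
        hrr hrs
      have := (h5 1 0 (by rw [hr]; simp)).1
      exact one_ne_zero this
  · exact ⟨r, s, h1, h2, h3, h4, h5, hrs⟩

theorem exists_ss_M [Finite F] (h : Minus4 Q) {p : ℕ} [hp : Fact p.Prime] [CharP F p] :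
    ∃ g ∈ E Q, ∃ s : ℕ, s.Prime ∧ s ≠ p ∧ g ^ s = 1 ∧ g ≠ 1 ∧ ∃ v, v ≠ 0 ∧ g v = v := by
  have hfin := h.fin
  have : Finite V := Module.finite_of_finite F
  have hfe : Finite (V ≃ₗ[F] V) := Finite.of_injective (fun e : V ≃ₗ[F] V => (e : V → V)) DFunLike.coe_injective
  obtain ⟨x, y, hxy⟩ := h.exists_hyp
  obtain ⟨u, w, hxu, hyu, hxw, hyw, hind, huw⟩ := exists_uw h hxy
  have hu0 : u ≠ 0 := by
    rintro rfl
    exact huw (polar_zero_left Q w)
  have hw0 : w ≠ 0 := by
    rintro rfl
    exact huw (polar_zero_right Q u)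
  have hQu : Q u ≠ 0 := fun h0 => hu0 (h.aniso hxy hxu hyu h0)
  have hQw : Q w ≠ 0 := fun h0 => hw0 (h.aniso hxy hxw hyw h0)
  set g : V ≃ₗ[F] V := ⁅refl Q w hQw, refl Q u hQu⁆ with hg
  have hgE : g ∈ E Q := by
    rw [← h.commutator_eq_E]
    exact Subgroup.commutator_mem_commutator (refl_mem_O _) (refl_mem_O _)
  have hfixr : ∀ {a : V} (ha : Q a ≠ 0) {z : V}, polar Q z a = 0 → refl Q a ha z = z := by
    intro a ha z hz
    rw [refl_apply, polar_comm Q a z, hz, mul_zero, zero_smul, sub_zero]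
  have hgfix : ∀ z, polar Q z u = 0 → polar Q z w = 0 → g z = z := by
    intro z h1 h2
    rw [hg, commutatorElement_def, refl_inv, refl_inv]
    change refl Q w hQw (refl Q u hQu (refl Q w hQw (refl Q u hQu z))) = z
    rw [hfixr hQu h1, hfixr hQw h2, hfixr hQu h1, hfixr hQw h2]
  have hgx : g x = x := hgfix x hxu hxw
  have hgy : g y = y := hgfix y hyu hyw
  have hgO : g ∈ O Q := by
    rw [hg, commutatorElement_def]
    exact mul_mem (mul_mem (mul_mem (refl_mem_O _) (refl_mem_O _)) (inv_mem (refl_mem_O _))) (inv_mem (refl_mem_O _))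
  -- no fixed vectors in the plane
  have hno : ∀ v, polar Q x v = 0 → polar Q y v = 0 → g v = v → v = 0 := by
    intro v hxv hyv hgv
    have hgd : g = refl Q w hQw * (refl Q u hQu * refl Q w hQw * (refl Q u hQu)⁻¹) := by
      rw [hg, commutatorElement_def, refl_inv hQw]
      group
    have hQw' : Q (refl Q u hQu w) ≠ 0 := by
      rw [mem_O.1 (refl_mem_O hQu)]
      exact hQw
    rw [refl_conj (refl_mem_O hQu) hQw hQw'] at hgd
    have h1 : refl Q (refl Q u hQu w) hQw' v = refl Q w hQw v := by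
      have e : refl Q w hQw (refl Q (refl Q u hQu w) hQw' v) = v := by
        rw [hgd] at hgv
        exact hgv
      have e2 := congrArg (refl Q w hQw) e
      have e3 : refl Q w hQw (refl Q w hQw (refl Q (refl Q u hQu w) hQw' v)) = refl Q (refl Q u hQu w) hQw' v :=
        reflLin_reflLin hQw _
      rw [e3] at e2
      exact e2
    set c : F := (Q u)⁻¹ * polar Q u w with hc
    have hc0 : c ≠ 0 := mul_ne_zero (inv_ne_zero hQu) huw
    have hw' : refl Q u hQu w = w - c • u := refl_apply hQu w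
    have hQeq : Q (refl Q u hQu w) = Q w := mem_O.1 (refl_mem_O hQu) w
    rw [refl_apply, refl_apply hQw, hQeq, hw'] at h1
    have h2 : (((Q w)⁻¹ * polar Q (w - c • u) v) * c) • u +
        ((Q w)⁻¹ * polar Q w v - (Q w)⁻¹ * polar Q (w - c • u) v) • w = 0 := by
      have h3 := sub_eq_zero.2 h1
      rw [← h3]
      module
    obtain ⟨h3, h4⟩ := hind _ _ h2
    have h5 : polar Q (w - c • u) v = 0 := by
      rcases mul_eq_zero.1 h3 with h6 | h6
      · exact (mul_eq_zero.1 h6).resolve_left (inv_ne_zero hQw)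
      · exact absurd h6 hc0
    rw [h5, mul_zero, sub_zero] at h4
    have h6 : polar Q w v = 0 := (mul_eq_zero.1 h4).resolve_left (inv_ne_zero hQw)
    rw [polar_sub_left, polar_smul_left, h6, zero_sub, neg_eq_zero, smul_eq_mul] at h5
    have h7 : polar Q u v = 0 := (mul_eq_zero.1 h5).resolve_left hc0
    exact eq_zero_of h hxy hxu hyu hxw hyw hind (by rw [polar_comm]; exact hxv) (by rw [polar_comm]; exact hyv)
      (by rw [polar_comm]; exact h7) (by rw [polar_comm]; exact h6)
  -- a prime different from `p`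
  obtain ⟨s, hs, hsm, hsp⟩ : ∃ s : ℕ, s.Prime ∧ s ∣ orderOf g ∧ s ≠ p := by
    by_contra hcon
    push Not at hcon
    have h1 : orderOf g = p ^ (orderOf g).primeFactorsList.length :=
      Nat.eq_prime_pow_of_unique_prime_dvd (orderOf_pos g).ne' fun {d} hd hdm => hcon d hd hdm
    set k := (orderOf g).primeFactorsList.length with hk
    have hgk : g ^ p ^ k = 1 := by rw [← h1, pow_orderOf_eq_one]
    let G : End F V := (g : V →ₗ[F] V)
    have : Nontrivial V := ⟨⟨u, 0, hu0⟩⟩
    have : CharP (End F V) p := charP_of_injective_algebraMap (FaithfulSMul.algebraMap_injective F _) p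
    have hGk : G ^ p ^ k = 1 := by
      have e : ∀ n : ℕ, G ^ n = ((g ^ n : V ≃ₗ[F] V) : V →ₗ[F] V) := by
        intro n
        induction n with
        | zero => rfl
        | succ n ih => rw [pow_succ, ih, pow_succ]; rfl
      rw [e, hgk]
      rfl
    have h2 : (G - 1) ^ p ^ k = 0 := by
      rw [sub_pow_char_pow_of_commute _ _ (Commute.one_right G), hGk, one_pow, sub_self]
    have h3 : ∀ n : ℕ, polar Q x (((G - 1) ^ n) u) = 0 ∧ polar Q y (((G - 1) ^ n) u) = 0 ∧ ((G - 1) ^ n) u ≠ 0 := by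
      intro n
      induction n with
      | zero => exact ⟨hxu, hyu, hu0⟩
      | succ n ih =>
        rw [pow_succ', Module.End.mul_apply]
        set z := ((G - 1) ^ n) u with hz
        have e : (G - 1) z = g z - z := rfl
        have ex : polar Q x (g z) = 0 := by
          have := polar_map hgO x z
          rw [hgx] at this
          rw [this]
          exact ih.1
        have ey : polar Q y (g z) = 0 := by
          have := polar_map hgO y z
          rw [hgy] at this
          rw [this]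
          exact ih.2.1
        rw [e]
        refine ⟨by rw [polar_sub_right, ex, ih.1, sub_zero], by rw [polar_sub_right, ey, ih.2.1, sub_zero], ?_⟩
        intro h0
        exact ih.2.2 (hno z ih.1 ih.2.1 (sub_eq_zero.1 h0))
    apply (h3 (p ^ k)).2.2
    rw [h2]
    rfl
  obtain ⟨m, hm⟩ := hsm
  have hm0 : m ≠ 0 := by
    rintro rfl
    have := orderOf_pos g
    omega
  refine ⟨g ^ m, pow_mem hgE m, s, hs, hsp, ?_, ?_, x, hxy.left_ne, ?_⟩
  · rw [← pow_mul, mul_comm, ← hm, pow_orderOf_eq_one]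
  · intro h0
    have h1 := orderOf_dvd_of_pow_eq_one h0
    have h2 := Nat.le_of_dvd (Nat.pos_of_ne_zero hm0) h1
    rw [hm] at h2
    have h3 := hs.two_le
    have : 0 < m := Nat.pos_of_ne_zero hm0
    nlinarith only [h2, h3, this]
  · have : ∀ n : ℕ, (g ^ n) x = x := by
      intro n
      induction n with
      | zero => rfl
      | succ n ih =>
        rw [pow_succ]
        change (g ^ n) (g x) = x
        rw [hgx, ih]
    exact this m

end ss

section count

/-- the fibres of a nonzero linear form on a plane -/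
theorem card_fibre [Finite F] {W : Type*} [AddCommGroup W] [Module F W] (hW : finrank F W = 2) {f : W →ₗ[F] F}
    (hf : f ≠ 0) (a : F) : Nat.card {l : W // f l = a} = Nat.card F := by
  have hfd : FiniteDimensional F W := FiniteDimensional.of_finrank_pos (by rw [hW]; norm_num)
  have hr : LinearMap.range f = ⊤ := by
    rw [LinearMap.range_eq_top]
    exact LinearMap.surjective hf
  have hk : finrank F (LinearMap.ker f) = 1 := by
    have := LinearMap.finrank_range_add_finrank_ker f
    rw [hr, finrank_top, finrank_self, hW] at this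
    omega
  obtain ⟨l0, hl0⟩ := LinearMap.range_eq_top.1 hr a
  let e : {l : W // f l = a} ≃ LinearMap.ker f :=
    { toFun := fun l => ⟨l.1 - l0, by rw [LinearMap.mem_ker, map_sub, l.2, hl0, sub_self]⟩
      invFun := fun l => ⟨l.1 + l0, by rw [map_add, LinearMap.mem_ker.1 l.2, hl0, zero_add]⟩
      left_inv := fun l => Subtype.ext (sub_add_cancel _ _)
      right_inv := fun l => Subtype.ext (add_sub_cancel_right _ _) }
  rw [Nat.card_congr e, Module.natCard_eq_pow_finrank (K := F), hk, pow_one]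

/-- the number of singular vectors in a 4-dimensional space of plus type -/
theorem card_plus [Finite F] (hQ : Nondeg Q) (h4 : finrank F V = 4) (L : Submodule F V) (hL : ∀ v ∈ L, Q v = 0)
    (hL2 : finrank F L = 2) : Nat.card {v : V // Q v = 0} = Nat.card F ^ 3 + Nat.card F ^ 2 - Nat.card F := by
  classical
  have hfd : FiniteDimensional F V := FiniteDimensional.of_finrank_pos (by rw [h4]; norm_num)
  have hfV : Finite V := Module.finite_of_finite F
  obtain ⟨C, hC⟩ := Submodule.exists_isCompl L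
  have hC2 : finrank F C = 2 := by
    have := Submodule.finrank_add_eq_of_isCompl hC
    omega
  have hLp : perp Q L = L := by
    symm
    apply Submodule.eq_of_le_of_finrank_eq
    · intro u hu w hw
      rw [polar, hL _ (L.add_mem hw hu), hL w hw, hL u hu]
      simp
    · have := finrank_add_perp hQ L
      omega
  let E := Submodule.prodEquivOfIsCompl L C hC
  have hE : ∀ z, E z = (z.1 : V) + (z.2 : V) := fun z => rfl
  let fc : C → (L →ₗ[F] F) := fun c => (polarBilin Q (c : V)).comp L.subtype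
  have hfc : ∀ c l, fc c l = polar Q (c : V) (l : V) := fun c l => rfl
  have hQE : ∀ (l : L) (c : C), Q ((l : V) + (c : V)) = Q (c : V) + fc c l := by
    intro l c
    rw [Q_add, hL l l.2, hfc, polar_comm Q (l : V)]
    ring
  let e1 : {v : V // Q v = 0} ≃ (Σ c : C, {l : L // fc c l = -Q (c : V)}) :=
    { toFun := fun v => ⟨(E.symm v.1).2, (E.symm v.1).1, by
        have h1 := v.2
        have h2 : ((E.symm v.1).1 : V) + ((E.symm v.1).2 : V) = v.1 := E.apply_symm_apply v.1
        rw [← h2, hQE] at h1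
        exact eq_neg_of_add_eq_zero_right h1⟩
      invFun := fun z => ⟨(z.2.1 : V) + (z.1 : V), by rw [hQE, z.2.2, add_neg_cancel]⟩
      left_inv := fun v => Subtype.ext (E.apply_symm_apply v.1)
      right_inv := fun z => by
        obtain ⟨c, l, hl⟩ := z
        have h2 : E.symm ((l : V) + (c : V)) = (l, c) := E.symm_apply_apply (l, c)
        have h3 : (E.symm ((l : V) + (c : V))).2 = c := by rw [h2]
        have h4 : (E.symm ((l : V) + (c : V))).1 = l := by rw [h2]
        refine Sigma.ext h3 ?_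
        refine (Subtype.heq_iff_coe_eq ?_).2 h4
        intro x
        dsimp only
        rw [h3] }
  have := Fintype.ofFinite C
  have := Fintype.ofFinite L
  rw [Nat.card_congr e1, Nat.card_sigma, ← Finset.add_sum_erase _ _ (Finset.mem_univ (0 : C))]
  have h0 : Nat.card {l : L // fc 0 l = -Q ((0 : C) : V)} = Nat.card F ^ 2 := by
    rw [← hL2, ← Module.natCard_eq_pow_finrank (K := F) (V := L)]
    refine Nat.card_congr (Equiv.subtypeUnivEquiv fun l => ?_)
    rw [hfc, ZeroMemClass.coe_zero, polar_zero_left, QuadraticMap.map_zero, neg_zero]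
  have h1 : ∀ c ∈ Finset.univ.erase (0 : C), Nat.card {l : L // fc c l = -Q (c : V)} = Nat.card F := by
    intro c hc
    refine card_fibre hL2 ?_ _
    intro h
    apply Finset.ne_of_mem_erase hc
    have h2 : (c : V) ∈ L := by
      rw [← hLp, mem_perp']
      intro w hw
      exact LinearMap.congr_fun h (⟨w, hw⟩ : L)
    have h3 : (c : V) ∈ L ⊓ C := ⟨h2, c.2⟩
    rw [hC.inf_eq_bot, Submodule.mem_bot] at h3
    exact Subtype.ext h3
  rw [h0, Finset.sum_congr rfl h1, Finset.sum_const, Finset.card_erase_of_mem (Finset.mem_univ _), Finset.card_univ,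
    ← Nat.card_eq_fintype_card, Module.natCard_eq_pow_finrank (K := F) (V := C), hC2, smul_eq_mul, Nat.sub_mul,
    one_mul]
  have hq : 0 < Nat.card F := Nat.card_pos
  have h3 : Nat.card F ≤ Nat.card F ^ 2 * Nat.card F := Nat.le_mul_of_pos_left _ (by positivity)
  have h4 : Nat.card F ^ 3 = Nat.card F ^ 2 * Nat.card F := by ring
  rw [h4]
  omega

end count

end Cfsg.Agent.H273.RC.Case3
end

-- part: H551/E5/Case3
section
/-!
# S3510, row F (even), box E5, case (3): `V = D ⊥ D'`, both of dimension four (helper551)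
-/

set_option autoImplicit false
set_option linter.unusedSectionVars false
open Cfsg

namespace Cfsg.Agent.H551.E5

open QuadraticMap MulAction Module
open Cfsg.Agent.LieClassical.OrthCore Cfsg.Agent.LieClassical.OrthTrans
open Cfsg.Agent.LieClassical.OrthSimple Cfsg.Agent.ClassicalGeometry.OrthSemi
open Cfsg.Agent.ClassicalGeometry.OrthAut1 Cfsg.Agent.H106.RC Cfsg.Agent.H93.RC
open Cfsg.Agent.H273.RC.Fev Cfsg.Agent.H170.RC Cfsg.Agent.H188.RC Cfsg.Agent.H236.RC

/-- the number of singular vectors -/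
def L1 (F : Type) [Field F] : Prop :=
  ∀ (X : Type) [AddCommGroup X] [Module F X] (R : QuadraticForm F X), Nondeg R → finrank F X = 4 →
    ∀ L : Submodule F X, finrank F L = 2 → (∀ v ∈ L, R v = 0) →
      Nat.card {v : X // R v = 0} = Nat.card F ^ 3 + Nat.card F ^ 2 - Nat.card F

/-- a semisimple element with a fixed vector -/
def L2 (F : Type) [Field F] (p : ℕ) : Prop :=
  ∀ (X : Type) [AddCommGroup X] [Module F X] (R : QuadraticForm F X), Minus4 R →
    ∃ g : ↥(E R), ∃ s : ℕ, s.Prime ∧ s ≠ p ∧ g ^ s = 1 ∧ g ≠ 1 ∧ ∃ v : X, v ≠ 0 ∧ (g : X ≃ₗ[F] X) v = v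

section geom

variable {F V ι : Type} [Field F] [Finite F] [AddCommGroup V] [Module F V] [FiniteDimensional F V]
  {Q : QuadraticForm F V}

/-- fixed points on an irreducible subspace -/
theorem fpf {T : ι → V ≃ₗ[F] V} (hc : ∀ i j, en T i * en T j = en T j * en T i)
    {D : Submodule F V} (hirr : ∀ U ≤ D, (∀ i, ∀ v ∈ U, T i v ∈ U) → U ≠ ⊥ → U = D) (hTD : ∀ i, ∀ v ∈ D, T i v ∈ D)
    (i : ι) (h : ∃ v ∈ D, T i v ≠ v) : ∀ v ∈ D, T i v = v → v = 0 := by
  let U : Submodule F V :=
    { carrier := {v | v ∈ D ∧ T i v = v}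
      zero_mem' := ⟨D.zero_mem, map_zero _⟩
      add_mem' := fun {u v} hu hv => ⟨D.add_mem hu.1 hv.1, by rw [map_add, hu.2, hv.2]⟩
      smul_mem' := fun a v hv => ⟨D.smul_mem a hv.1, by rw [map_smul, hv.2]⟩ }
  intro v hv hTv
  by_contra hv0
  have h1 : U = D := by
    apply hirr U (fun v hv => hv.1)
    · intro j v hv
      refine ⟨hTD j v hv.1, ?_⟩
      have h2 : T i (T j v) = T j (T i v) := LinearMap.congr_fun (hc i j) v
      rw [h2, hv.2]
    · intro h0
      have h2 : v ∈ U := ⟨hv, hTv⟩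
      rw [h0] at h2
      exact hv0 ((Submodule.mem_bot F).1 h2)
  obtain ⟨w, hw, hne⟩ := h
  rw [← h1] at hw
  exact hne hw.2

/-- an irreducible four-dimensional space is of minus type -/
theorem noplane (hL1 : L1 F) {T : ι → V ≃ₗ[F] V} {r : ι → ℕ} (hr : ∀ i, (r i).Prime)
    (hTr : ∀ i, en T i ^ r i = 1) (hI : ∀ i, Iso Q (en T i)) (hc : ∀ i j, en T i * en T j = en T j * en T i)
    {D : Submodule F V} (nD : NonD Q D) (hD4 : finrank F D = 4) (hTD : ∀ i, ∀ v ∈ D, T i v ∈ D)
    (hirr : ∀ U ≤ D, (∀ i, ∀ v ∈ U, T i v ∈ U) → U ≠ ⊥ → U = D) : Minus4 (Q.comp D.subtype) := by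
  have hfV : Finite V := Module.finite_of_finite F
  apply Minus4.of_le_one (nonD_iff.1 nD) hD4
  intro U hU
  by_contra hcon
  push Not at hcon
  -- a plane
  obtain ⟨L, hLU, hL2⟩ : ∃ L ≤ U, finrank F L = 2 := by
    obtain ⟨f, hf⟩ := exists_linearIndependent_of_le_finrank (R := F) (M := U) (n := 2) hcon
    refine ⟨Submodule.span F (Set.range fun i => ((f i : U) : D)), ?_, ?_⟩
    · rw [Submodule.span_le]
      rintro _ ⟨i, rfl⟩
      exact (f i).2
    · have h1 : LinearIndependent F (fun i => ((f i : U) : D)) := hf.map' U.subtype (Submodule.ker_subtype U)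
      rw [finrank_span_eq_card h1, Fintype.card_fin]
  have hcard := hL1 D (Q.comp D.subtype) (nonD_iff.1 nD) hD4 L hL2 fun v hv => hU v (hLU hv)
  obtain ⟨k, v0, hv0, hk⟩ := exists_big hc hD4 hTD hirr
  have hfix := fpf hc hirr hTD k ⟨v0, hv0, fun h => hk (by
    have h1 : en T k v0 = v0 := h
    rw [pow_fix h1, h1])⟩
  let Z : Set V := {v | v ∈ D ∧ Q v = 0}
  have hZ : Nat.card Z = Nat.card {v : D // Q.comp D.subtype v = 0} := by
    apply Nat.card_congr
    exact { toFun := fun z => ⟨⟨z.1, z.2.1⟩, z.2.2⟩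
            invFun := fun v => ⟨v.1.1, v.1.2, v.2⟩
            left_inv := fun _ => rfl
            right_inv := fun _ => rfl }
  have h1 := card_modEq (Y := Z) (S := en T k) (hr k) (hTr k)
    (fun v hv => ⟨hTD k v hv.1, (hI k v).trans hv.2⟩) ⟨D.zero_mem, QuadraticMap.map_zero Q⟩
    (fun v hv h => hfix v hv.1 h)
  rw [hZ, hcard] at h1
  have hq : 2 ≤ Nat.card F := Finite.one_lt_card
  have h2 : r k ∣ Nat.card F ^ 2 - 1 := by
    generalize Nat.card F = q at h1 hq
    obtain ⟨q, rfl⟩ : ∃ q', q = q' + 1 := ⟨q - 1, by omega⟩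
    have e1 : (q + 1) ^ 3 + (q + 1) ^ 2 - (q + 1) = q * (q + 2) * (q + 2) + 1 := by
      have : (q + 1) ^ 3 + (q + 1) ^ 2 = q * (q + 2) * (q + 2) + 1 + (q + 1) := by ring
      omega
    have e2 : (q + 1) ^ 2 - 1 = q * (q + 2) := by
      have : (q + 1) ^ 2 = q * (q + 2) + 1 := by ring
      omega
    rw [e1] at h1
    rw [e2]
    have h3 : r k ∣ q * (q + 2) * (q + 2) := by
      have := (Nat.modEq_iff_dvd' (by omega)).1 h1.symm
      simpa only [_root_.add_tsub_cancel_right] using this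
    rcases (hr k).dvd_mul.1 h3 with h | h
    · exact h
    · exact h.mul_left q
  apply hk
  obtain ⟨m, hm⟩ := h2
  have h3 : Nat.card F ^ 2 = r k * m + 1 := by
    have : 1 ≤ Nat.card F ^ 2 := Nat.one_le_pow _ _ (by omega)
    omega
  rw [h3, pow_succ, pow_mul, hTr, one_pow, one_mul]

/-- the fixed space in a nondegenerate subspace is nondegenerate -/
def fixOf (S : End F V) (A : Submodule F V) : Submodule F V where
  carrier := {v | v ∈ A ∧ S v = v}
  zero_mem' := ⟨A.zero_mem, map_zero _⟩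
  add_mem' := fun {u v} hu hv => ⟨A.add_mem hu.1 hv.1, by rw [map_add, hu.2, hv.2]⟩
  smul_mem' := fun a v hv => ⟨A.smul_mem a hv.1, by rw [map_smul, hv.2]⟩

theorem fix_nonD {S : End F V} {r : ℕ} (hr : (r : F) ≠ 0) (hS : S ^ r = 1) (hI : Iso Q S) {A : Submodule F V}
    (hA : ∀ v ∈ A, S v ∈ A) (hn : NonD Q A) : NonD Q (fixOf S A) := by
  intro x hx hxy
  apply hn x hx.1
  intro y hy
  obtain ⟨u, hu, w, hw, h1, rfl⟩ := decomp hr hS hA hy
  rw [QuadraticMap.polar_add_right, hxy u ⟨hu, h1⟩, zero_add]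
  exact polar_fix hI hx.2 w

end geom

section main

variable {F V G Ω ι : Type} [Field F] [Finite F] [AddCommGroup V] [Module F V] [FiniteDimensional F V]
  [Group G] [Finite G] [MulAction G Ω] [Nonempty Ω] [Finite ι]
  {Q : QuadraticForm F V} {N : Subgroup G} {ρ : ↥(E Q) →* G} {x : ι → G} {M : ι → Gam Q} {r : ι → ℕ}
  {T : ι → V ≃ₗ[F] V} {p : ℕ}

theorem scalOn_iff (S : Sit Q N ρ Ω x M r T p) (i : ι) (W : Submodule F V) :
    ScalOn (M i) W ↔ ∃ c : F, c ≠ 0 ∧ ∀ v ∈ W, T i v = c • v := by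
  obtain ⟨a, ha, h⟩ := S.lift i
  constructor
  · rintro ⟨c, hc, h'⟩
    refine ⟨a⁻¹ * c, mul_ne_zero (inv_ne_zero ha) hc, fun v hv => ?_⟩
    rw [mul_smul, ← h' v hv, h, smul_smul, inv_mul_cancel₀ ha, one_smul]
  · rintro ⟨c, hc, h'⟩
    refine ⟨a * c, mul_ne_zero ha hc, fun v hv => ?_⟩
    rw [h, h' v hv, smul_smul]

theorem cast_ne [CharP F p] (S : Sit Q N ρ Ω x M r T p) (i : ι) : (r i : F) ≠ 0 := by
  intro h
  have h1 := (CharP.cast_eq_zero_iff F p (r i)).1 h
  rcases (Nat.dvd_prime (S.pf.prime i)).1 h1 with h2 | h2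
  · subst h2
    exact CharP.char_ne_one F 1 rfl
  · exact S.rp i h2.symm

/-- fixed points of members not scalar on `D` -/
theorem fpf' (S : Sit Q N ρ Ω x M r T p) {D : Submodule F V}
    (hirr : ∀ U ≤ D, (∀ i, ∀ v ∈ U, T i v ∈ U) → U ≠ ⊥ → U = D) (hTD : ∀ i, ∀ v ∈ D, T i v ∈ D)
    {i : ι} (h : ¬ ScalOn (M i) D) : ∀ v ∈ D, T i v = v → v = 0 := by
  apply fpf (en_comm S) hirr hTD i
  by_contra hcon
  push Not at hcon
  exact h ((scalOn_iff S i D).2 ⟨1, one_ne_zero, fun v hv => by rw [one_smul, hcon v hv]⟩)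

/-- at most one member is not scalar if `q ≤ 3` -/
theorem sub3 (S : Sit Q N ρ Ω x M r T p) [CharP F p] {D : Submodule F V} (nD : NonD Q D) (hD4 : finrank F D = 4)
    (hirr : ∀ U ≤ D, (∀ i, ∀ v ∈ U, T i v ∈ U) → U ≠ ⊥ → U = D) (hTD : ∀ i, ∀ v ∈ D, T i v ∈ D)
    (hq : Nat.card F ≤ 3) : {i | ¬ ScalOn (M i) D}.Subsingleton := by
  have hfV : Finite V := Module.finite_of_finite F
  have hq2 : 2 ≤ Nat.card F := Finite.one_lt_card
  have hdvd : ∀ i, ¬ ScalOn (M i) D → r i ∣ Nat.card F ^ 4 - 1 := by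
    intro i hi
    have h1 := dvd_card (Y := D) (S := en T i) (S.pf.prime i) (en_pow S i) (hTD i) (fpf' S hirr hTD hi)
    rwa [Module.natCard_eq_pow_finrank (K := F), hD4] at h1
  have hq23 : Nat.card F = 2 ∨ Nat.card F = 3 := by omega
  rcases hq23 with h2 | h3
  · have h5 : ∀ i, ¬ ScalOn (M i) D → r i = 3 ∨ r i = 5 := by
      intro i hi
      have h1 := hdvd i hi
      rw [h2] at h1
      have h6 : r i ∣ 3 * 5 := by norm_num at h1 ⊢; exact h1
      rcases (S.pf.prime i).dvd_mul.1 h6 with h | h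
      · exact Or.inl ((Nat.prime_dvd_prime_iff_eq (S.pf.prime i) Nat.prime_three).1 h)
      · exact Or.inr ((Nat.prime_dvd_prime_iff_eq (S.pf.prime i) Nat.prime_five).1 h)
    have key : ∀ i j, ¬ ScalOn (M i) D → ¬ ScalOn (M j) D → r i = 3 → r j = 5 → False := by
      intro i j hi hj hi3 hj5
      have e1 := en_pow S i
      have e2 := en_pow S j
      rw [hi3] at e1
      rw [hj5] at e2
      exact three_five h2 e1 e2 (en_iso S i) (en_iso S j) (hTD i) (hTD j) nD hD4 (fpf' S hirr hTD hi)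
        (fpf' S hirr hTD hj)
    intro i hi j hj
    apply S.pf.inj
    rcases h5 i hi with h | h <;> rcases h5 j hj with h' | h'
    · rw [h, h']
    · exact (key i j hi hj h h').elim
    · exact (key j i hj hi h' h).elim
    · rw [h, h']
  · have h5 : ∀ i, ¬ ScalOn (M i) D → r i = 5 := by
      intro i hi
      have h1 := hdvd i hi
      rw [h3] at h1
      have h6 : r i ∣ 2 ^ 4 * 5 := by norm_num at h1 ⊢; exact h1
      rcases (S.pf.prime i).dvd_mul.1 h6 with h | h
      · exfalso
        have h7 : r i = 2 := (Nat.prime_dvd_prime_iff_eq (S.pf.prime i) Nat.prime_two).1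
          ((S.pf.prime i).dvd_of_dvd_pow h)
        apply hi
        rw [scalOn_iff S]
        refine ⟨-1, neg_ne_zero.2 one_ne_zero, fun v hv => ?_⟩
        have h8 : T i (T i v) = v := by
          have h9 := LinearMap.congr_fun (en_pow S i) v
          rw [h7] at h9
          exact h9
        have h10 := fpf' S hirr hTD hi (v + T i v) (D.add_mem hv (hTD i v hv)) (by
          rw [map_add, h8, add_comm])
        rw [neg_smul, one_smul]
        exact eq_neg_of_add_eq_zero_right h10
      · exact (Nat.prime_dvd_prime_iff_eq (S.pf.prime i) Nat.prime_five).1 h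
    intro i hi j hj
    apply S.pf.inj
    rw [h5 i hi, h5 j hj]

/-- the final step -/
theorem case3_aux [CharP F p] (hL2 : L2 F p) (S : Sit Q N ρ Ω x M r T p) (h8 : finrank F V = 8)
    {D D' : Submodule F V} (hD4 : finrank F D = 4) (hD4' : finrank F D' = 4) (hcp : IsCompl D D')
    (ho : ∀ v ∈ D, ∀ w ∈ D', polar Q v w = 0) (hTD : ∀ i, ∀ v ∈ D, T i v ∈ D)
    (hTD' : ∀ i, ∀ v ∈ D', T i v ∈ D')
    (hirr : ∀ U ≤ D, (∀ i, ∀ v ∈ U, T i v ∈ U) → U ≠ ⊥ → U = D)
    (hirr' : ∀ U ≤ D', (∀ i, ∀ v ∈ U, T i v ∈ U) → U ≠ ⊥ → U = D')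
    (hM4 : Minus4 (Q.comp D.subtype)) : False := by
  have hfV : Finite V := Module.finite_of_finite F
  have nD := nonD_left S.good.nondeg hcp ho
  have nD' := nonD_right S.good.nondeg hcp ho
  have hDt : D ≠ ⊤ := by
    intro h
    rw [h, finrank_top] at hD4
    omega
  have hMD : ∀ i, ∀ v ∈ D, (M i).1 v ∈ D := by
    intro i v hv
    obtain ⟨a, -, h⟩ := S.lift i
    rw [h]
    exact D.smul_mem _ (hTD i v hv)
  -- some member is not scalar on `D`
  have hneD : ∃ i, ¬ ScalOn (M i) D := by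
    obtain ⟨k, v0, hv0, hk⟩ := exists_big (en_comm S) hD4 hTD hirr
    refine ⟨k, fun hs => hk ?_⟩
    obtain ⟨c, hc0, hc⟩ := (scalOn_iff S k D).1 hs
    have h1 : ∀ n, (en T k ^ n) v0 = c ^ n • v0 := by
      intro n
      induction n with
      | zero => simp
      | succ n ih =>
        have h2 : en T k v0 = c • v0 := hc v0 hv0
        rw [pow_succ, Module.End.mul_apply, h2, map_smul, ih, smul_smul, pow_succ, mul_comm]
    have := Fintype.ofFinite F
    have h2 : en T k v0 = c • v0 := hc v0 hv0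
    rw [h1, h2, pow_two, pow_mul, Nat.card_eq_fintype_card, FiniteField.pow_card, FiniteField.pow_card]
  have hRC : RC (P (Q.comp D.subtype)) ∨ {i | ¬ ScalOn (M i) D}.Subsingleton := by
    by_cases h3 : Nat.card F ≤ 3
    · exact Or.inr (sub3 S nD hD4 hirr hTD h3)
    · exact Or.inl (hM4.rc S.ih (card_lt4 S.good D hM4 hDt) (by omega))
  have hrule := mrule4 (Ω := Ω) S.good S.rep S.lf S.pf.prime S.pf.pow S.pf.comm S.cov hM4 hDt hMD hneD
    S.pf.inj.injOn hRC
  -- the new element
  obtain ⟨g, s, hs, hsp, hgs, hg1, v1, hv1, hgv1⟩ := hL2 D (Q.comp D.subtype) hM4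
  have hs0 : (s : F) ≠ 0 := by
    intro h
    have h1 := (CharP.cast_eq_zero_iff F p s).1 h
    rcases (Nat.dvd_prime hs).1 h1 with h2 | h2
    · subst h2
      exact CharP.char_ne_one F 1 rfl
    · exact hsp h2.symm
  set e := embW hM4.nondeg with hedef
  let γ : ↥(E Q) := e.extE g
  have hγj : ∀ v : D, (γ : V ≃ₗ[F] V) (v : V) = ((g : D ≃ₗ[F] D) v : V) := fun v => e.ext_j g v
  have hγD' : ∀ v ∈ D', (γ : V ≃ₗ[F] V) v = v := by
    intro v hv
    apply e.ext_of_π_eq_zero
    apply hM4.nondeg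
    intro y
    have h1 := e.adj y v
    rw [embW_j, embW_c, one_mul] at h1
    rw [QuadraticMap.polar_comm, ← h1]
    exact ho y y.2 v hv
  let S0 : End F V := ((γ : V ≃ₗ[F] V) : V →ₗ[F] V)
  have hS0 : S0 ^ s = 1 := by
    have h1 : ∀ n, S0 ^ n = (((γ ^ n : ↥(E Q)) : V ≃ₗ[F] V) : V →ₗ[F] V) := by
      intro n
      induction n with
      | zero => rfl
      | succ n ih => rw [pow_succ, ih, pow_succ]; rfl
    rw [h1]
    have h2 : γ ^ s = 1 := by
      show (e.extE g) ^ s = 1
      rw [← map_pow, hgs, map_one]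
    rw [h2]
    rfl
  have hS0I : Iso Q S0 := fun v => E_le_O γ.2 v
  have hS0D : ∀ v ∈ D, S0 v ∈ D := by
    intro v hv
    have h1 := hγj ⟨v, hv⟩
    have h2 : S0 v = ((g : D ≃ₗ[F] D) ⟨v, hv⟩ : V) := h1
    rw [h2]
    exact Subtype.mem _
  let C := fixOf S0 D
  have nC : NonD Q C := fix_nonD hs0 hS0 hS0I hS0D nD
  have hCD : C ≤ D := fun v hv => hv.1
  have hC0 : C ≠ ⊥ := by
    intro h
    have h1 : (v1 : V) ∈ C := ⟨v1.2, (hγj v1).trans (congrArg Subtype.val hgv1)⟩
    rw [h, Submodule.mem_bot] at h1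
    exact hv1 (Subtype.ext h1)
  have hCne : C ≠ D := by
    intro h
    apply hg1
    apply Subtype.ext
    ext v
    have h1 : (v : V) ∈ C := by rw [h]; exact v.2
    have h2 : (γ : V ≃ₗ[F] V) (v : V) = v := h1.2
    rw [hγj] at h2
    exact h2
  have hC4 : finrank F C < 4 := by
    rw [← hD4]
    exact Submodule.finrank_lt_finrank_of_lt (lt_of_le_of_ne hCD hCne)
  have hC1 : finrank F C ≠ 0 := fun h => hC0 (Submodule.finrank_eq_zero.1 h)
  let W := C ⊔ D'
  have hWd : finrank F W = finrank F C + 4 := by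
    have h3 := Submodule.finrank_sup_add_finrank_inf_eq C D'
    have h4 : C ⊓ D' = ⊥ := by
      rw [eq_bot_iff, ← hcp.inf_eq_bot]
      exact inf_le_inf_right _ hCD
    rw [h4, finrank_bot, hD4', add_zero] at h3
    exact h3
  have nW : NonD Q W := nonD_sup nC nD' fun v hv w hw => ho v (hCD hv) w hw
  have gW : Good (Q.comp W.subtype) :=
    Cfsg.Agent.LieClassical.OrthFinite.good_of_finite (nonD_iff.1 nW) (by rw [hWd]; omega)
  have hWt : W ≠ ⊤ := by
    intro h
    rw [h, finrank_top] at hWd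
    omega
  -- the new family
  let κ := Option {i : ι // ScalOn (M i) D}
  let y : κ → G := fun o => o.elim (ρ γ) (fun i => x i)
  let L : κ → Gam Q := fun o => o.elim (tg Q γ) (fun i => M i)
  let t : κ → ℕ := fun o => o.elim s (fun i => r i)
  have hcent : ∀ i : {i : ι // ScalOn (M i) D}, x i * ρ γ = ρ γ * x i := fun i =>
    (cent_iff4 S.good S.rep hM4 hDt (S.lf i) (hMD i)).2 i.2 _ ⟨g, rfl⟩
  have hγs : ρ γ ^ s = 1 := by
    have h2 : γ ^ s = 1 := by
      show (e.extE g) ^ s = 1
      rw [← map_pow, hgs, map_one]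
    rw [← map_pow, h2, map_one]
  have hγ1 : ρ γ ≠ 1 := by
    intro h
    apply hg1
    apply phi_injective (ρ := ρ) S.good S.rep hM4.nondeg hDt
    rw [map_one]
    exact h
  have hycov : Cov Ω y := by
    intro ω
    rcases hrule ω with h | ⟨j, hj, hjω⟩
    · refine ⟨none, ?_⟩
      have h1 : ρ γ ∈ (phi ρ hM4.nondeg).range := ⟨g, rfl⟩
      exact h h1
    · exact ⟨some ⟨j, hj⟩, hjω⟩
  have hscW : ∀ i : {i : ι // ScalOn (M i) D}, ¬ ScalOn (M i) W := by
    rintro ⟨i, hi⟩ hW
    obtain ⟨c, hc0, hc⟩ := hW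
    obtain ⟨d, hd0, hd⟩ := hi
    apply S.pf.ne i
    rw [(S.lf i).eq_one_iff S.good S.env S.rep]
    have hcd : c = d := by
      obtain ⟨v, hv, hv0⟩ := Submodule.exists_mem_ne_zero_of_ne_bot hC0
      have h1 := hc v (Submodule.mem_sup_left hv)
      have h2 := hd v (hCD hv)
      have h3 : (c - d) • v = 0 := by rw [sub_smul, ← h1, ← h2, sub_self]
      exact sub_eq_zero.1 ((smul_eq_zero.1 h3).resolve_right hv0)
    refine ⟨c, hc0, fun v => ?_⟩
    obtain ⟨u, hu, w, hw, rfl⟩ := Submodule.mem_sup.1 (hcp.sup_eq_top ▸ Submodule.mem_top : v ∈ D ⊔ D')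
    rw [add_of_mem (M i).2, hd u hu, hc w (Submodule.mem_sup_right hw), hcd, smul_add]
  have hscn : ScalOn (L none) W := by
    refine ⟨1, one_ne_zero, fun v hv => ?_⟩
    obtain ⟨u, hu, w, hw, rfl⟩ := Submodule.mem_sup.1 hv
    show (γ : V ≃ₗ[F] V) (u + w) = _
    rw [map_add, hγD' w hw, one_smul]
    congr 1
    exact hu.2
  have hne : ∃ i, ¬ ScalOn (L i) W := by
    by_contra hcon
    push Not at hcon
    have h1 : ∀ i : {i : ι // ScalOn (M i) D}, False := fun i => hscW i (hcon (some i))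
    apply hγ1
    apply S.env.single (Ω := Ω)
    intro ω
    obtain ⟨(_ | i), hi⟩ := hycov ω
    · exact hi
    · exact (h1 i).elim
  have hLinv : ∀ i, ∀ v ∈ W, (L i).1 v ∈ W := by
    rintro (_ | i) v hv
    · obtain ⟨c, -, hc⟩ := hscn
      rw [hc v hv]
      exact W.smul_mem _ hv
    · obtain ⟨u, hu, w, hw, rfl⟩ := Submodule.mem_sup.1 hv
      show (M i).1 (u + w) ∈ W
      rw [add_of_mem (M i).2]
      obtain ⟨d, hd0, hd⟩ := i.2
      obtain ⟨a, -, ha⟩ := S.lift i
      rw [hd u (hCD hu), ha w]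
      exact Submodule.add_mem_sup (C.smul_mem _ hu) (D'.smul_mem _ (hTD' i w hw))
  have hinj : Set.InjOn t {i | ¬ ScalOn (L i) W} := by
    rintro (_ | i) hi (_ | j) hj hij
    · rfl
    · exact (hi hscn).elim
    · exact (hj hscn).elim
    · exact congrArg some (Subtype.ext (S.pf.inj hij))
  have hRCW : RC (P (Q.comp W.subtype)) ∨ {i | ¬ ScalOn (L i) W}.Subsingleton := by
    obtain ⟨hs1, hnc, hcl, hex⟩ := box_id gW
    have hfP := finite_P (Q := Q.comp W.subtype)
    rcases hex with ⟨h2, -, -⟩ | hex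
    · right
      have h3 := sub3 S nD' hD4' hirr' hTD' (by omega)
      have h4 : ∀ i : {i : ι // ScalOn (M i) D}, ¬ ScalOn (M i) D' := by
        rintro ⟨i, hi⟩ hi'
        apply hscW ⟨i, hi⟩
        obtain ⟨c, hc0, hc⟩ := hi
        obtain ⟨d, hd0, hd⟩ := hi'
        refine ⟨1, one_ne_zero, fun v hv => ?_⟩
        obtain ⟨u, hu, w, hw, rfl⟩ := Submodule.mem_sup.1 hv
        rw [add_of_mem (M i).2, hc u (hCD hu), hd w hw, eq_one_of_ne h2 hc0, eq_one_of_ne h2 hd0, smul_add]
      rintro (_ | i) hi (_ | j) hj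
      · rfl
      · exact (hi hscn).elim
      · exact (hj hscn).elim
      · exact congrArg some (Subtype.ext (h3 (h4 i) (h4 j)))
    · left
      exact S.ih (P (Q.comp W.subtype)) hs1 hnc hcl hex (box_card S.good W gW hWt)
  refine box_A_of S.good S.rep (p := p) S.box (x := y) (M := L) (r := t) ?_ ?_ ?_ ?_ ?_ hycov W gW hWt hLinv
    hne hinj ?_ hRCW
  · rintro (_ | i)
    · exact Lf.tg γ
    · exact S.lf i
  · rintro (_ | i)
    · exact hs
    · exact S.pf.prime i
  · rintro (_ | i)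
    · exact hγs
    · exact S.pf.pow i
  · rintro (_ | i)
    · exact hγ1
    · exact S.pf.ne i
  · rintro (_ | i) (_ | j)
    · rfl
    · exact (hcent j).symm
    · exact hcent i
    · exact S.pf.comm i j
  · rintro (_ | i) hi
    · exact hsp
    · exact (hscW i hi).elim

/-- **Box E5, case (3)** from `L1`, `L2`. -/
theorem case3_of [CharP F p] (hL1 : L1 F) (hL2 : L2 F p) (S : Sit Q N ρ Ω x M r T p) (h : Case3 Q T) : False := by
  obtain ⟨h8, D, D', hD4, hD4', hcp, ho, hTD, hTD', hmin⟩ := h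
  have nD := nonD_left S.good.nondeg hcp ho
  have nD' := nonD_right S.good.nondeg hcp ho
  have ho' : ∀ v ∈ D', ∀ w ∈ D, polar Q v w = 0 := fun v hv w hw => by
    rw [QuadraticMap.polar_comm]; exact ho w hw v hv
  have hno : ∀ u w : V, Q u = 0 → Q w = 0 → polar Q u w = 0 → u ≠ 0 → (∀ a : F, w ≠ a • u) →
      ¬ ∀ i, ∀ v ∈ Submodule.span F {u, w}, T i v ∈ Submodule.span F {u, w} :=
    fun u w hu hw huw hu0 hind hL => ruleP S hu hw huw hu0 hind hL
  have hirr : ∀ U ≤ D, (∀ i, ∀ v ∈ U, T i v ∈ U) → U ≠ ⊥ → U = D := fun U hU hTU hU0 =>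
    irr S.good.nondeg h8 (cast_ne S) (en_pow S) (en_iso S) (en_comm S) hD4 hD4' hcp ho hTD hmin hno hU hTU hU0
  have hirr' : ∀ U ≤ D', (∀ i, ∀ v ∈ U, T i v ∈ U) → U ≠ ⊥ → U = D' := fun U hU hTU hU0 =>
    irr S.good.nondeg h8 (cast_ne S) (en_pow S) (en_iso S) (en_comm S) hD4' hD4 hcp.symm ho' hTD' hmin hno hU hTU hU0
  exact case3_aux hL2 S h8 hD4 hD4' hcp ho hTD hTD' hirr hirr'
    (noplane hL1 S.pf.prime (en_pow S) (en_iso S) (en_comm S) nD hD4 hTD hirr)

/-- **Box E5, case (3).** -/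
theorem case3 [CharP F p] (S : Sit Q N ρ Ω x M r T p) (h : Case3 Q T) : False := by
  refine case3_of ?_ ?_ S h
  · intro X _ _ R hR h4 L hL2 hL
    exact Cfsg.Agent.H273.RC.Case3.card_plus hR h4 L hL hL2
  · intro X _ _ R hR
    have : Fact p.Prime := ⟨CharP.char_is_prime F p⟩
    obtain ⟨g, hg, s, hs, hsp, hgs, hg1, v, hv, hgv⟩ := Cfsg.Agent.H273.RC.Case3.exists_ss_M (p := p) hR
    exact ⟨⟨g, hg⟩, s, hs, hsp, Subtype.ext hgs, fun h => hg1 (congrArg Subtype.val h), v, hv, hgv⟩

end main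

end Cfsg.Agent.H551.E5
end
end

-- part: H236/RC/FA
section
prune_inst 0x11003504406212000818000020201c62820004220048400068020a060f89ac4084810061b1300010009008c56039006001000000424000000e000c000118008000801000a0480100000090000000000000000000000000000000000000000000000000000
set_option linter.all false
open scoped Cfsg.Agent.FastGrp

-- part: H188/RC/FA1
section
/-!
# S3510, row F, box FA1 (descent of the form along the nonlinear members of the family) (helper188)
-/

set_option autoImplicit false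
open Cfsg

namespace Cfsg.Agent.H188.RC

open QuadraticMap MulAction
open Cfsg.Agent.LieClassical.OrthCore Cfsg.Agent.LieClassical.OrthTrans
open Cfsg.Agent.LieClassical.OrthSimple Cfsg.Agent.ClassicalGeometry.OrthSemi
open Cfsg.Agent.ClassicalGeometry.OrthAut1 Cfsg.Agent.H106.RC Cfsg.Agent.H93.RC

/-- the semilinear embedding of the coordinate space over a subfield -/
noncomputable def semJ {F₀ F V : Type*} [Field F₀] [Field F] [AddCommGroup V] [Module F V] {n : ℕ}
    (φ : F₀ →+* F) (b : Module.Basis (Fin n) F V) (v : Fin n → F₀) : V := ∑ i, φ (v i) • b i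

section semJ

variable {F₀ F V : Type*} [Field F₀] [Field F] [AddCommGroup V] [Module F V] {n : ℕ}
  {φ : F₀ →+* F} {b : Module.Basis (Fin n) F V}

theorem semJ_add (v w : Fin n → F₀) : semJ φ b (v + w) = semJ φ b v + semJ φ b w := by
  simp only [semJ, Pi.add_apply, map_add, add_smul, Finset.sum_add_distrib]

theorem semJ_smul (a : F₀) (v : Fin n → F₀) : semJ φ b (a • v) = φ a • semJ φ b v := by
  simp only [semJ, Pi.smul_apply, smul_eq_mul, map_mul, Finset.smul_sum, smul_smul]

theorem semJ_zero : semJ φ b 0 = 0 := by simp only [semJ, _root_.Pi.zero_apply, _root_.map_zero, _root_.zero_smul, _root_.Finset.sum_const_zero]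

theorem semJ_single (i : Fin n) : semJ φ b (Pi.single i 1) = b i := by
  classical
  rw [semJ, Finset.sum_eq_single i]
  · rw [Pi.single_eq_same, map_one, one_smul]
  · intro j _ hj
    rw [Pi.single_eq_of_ne hj, map_zero, zero_smul]
  · intro h
    exact (h (Finset.mem_univ i)).elim

theorem semJ_injective : Function.Injective (semJ φ b) := by
  intro v w h
  funext i
  have h1 := congrArg (fun z => b.repr z i) h
  simp only [semJ, map_sum, map_smul, Finsupp.coe_finsetSum, Finset.sum_apply, Finsupp.smul_apply,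
    Module.Basis.repr_self, smul_eq_mul] at h1
  have h2 : ∀ u : Fin n → F₀, ∑ j, φ (u j) * (Finsupp.single j (1 : F)) i = φ (u i) := by
    intro u
    rw [Finset.sum_eq_single i]
    · rw [Finsupp.single_eq_same, mul_one]
    · intro j _ hj
      rw [Finsupp.single_eq_of_ne (by (clear * - n i j hj; tauto)), mul_zero]
    · intro h
      exact (h (Finset.mem_univ i)).elim
  rw [h2, h2] at h1
  exact φ.injective h1

end semJ

/-! ### Field automorphisms of the elements of `G` -/

section fld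

variable {F V : Type*} [Field F] [AddCommGroup V] [Module F V] {Q : QuadraticForm F V}
  {G : Type*} [Group G] {ρ : ↥(E Q) →* G}

/-- some lift of `z` is `τ`-semilinear -/
def Fld (ρ : ↥(E Q) →* G) (z : G) (τ : F ≃+* F) : Prop :=
  ∃ (L : Gam Q) (c : F), Lf ρ z L ∧ IsSS Q τ c L.1

theorem Fld.mul {z z' : G} {σ τ : F ≃+* F} (h : Fld ρ z σ) (h' : Fld ρ z' τ) : Fld ρ (z * z') (σ * τ) := by
  obtain ⟨L, c, hL, hc⟩ := h
  obtain ⟨L', c', hL', hc'⟩ := h'
  exact ⟨L * L', c * σ c', hL.mul hL', hc.mul hc'⟩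

theorem Fld.one : Fld ρ 1 (1 : F ≃+* F) :=
  ⟨1, 1, Lf.one, one_ne_zero, fun _ _ => rfl, fun _ _ => rfl, fun _ => by rw [one_mul]; rfl⟩

theorem Fld.pow {z : G} {σ : F ≃+* F} (h : Fld ρ z σ) (n : ℕ) : Fld ρ (z ^ n) (σ ^ n) := by
  induction n with
  | zero => rw [pow_zero, pow_zero]; exact Fld.one
  | succ n ih => rw [pow_succ, pow_succ]; exact ih.mul h

/-- two lifts of the same element -/
theorem lf_unique (hG : Good Q) {N : Subgroup G} (hρ : _root_.Cfsg.Agent.H93.RC.Rep Q N ρ) {z : G} {L L' : Gam Q}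
    (h : Lf ρ z L) (h' : Lf ρ z L') : ∃ a : F, a ≠ 0 ∧ ∀ v, L.1 v = a • L'.1 v := by
  have h1 : Lf ρ (z * z⁻¹) (L * L'⁻¹) := h.mul h'.inv
  rw [mul_inv_cancel] at h1
  obtain ⟨a, ha, h2⟩ := (h1.scal_iff hG hρ).2 fun t => by simp
  refine ⟨a, ha, fun v => ?_⟩
  have h3 := h2 (L'.1 v)
  have h4 : (L * L'⁻¹).1 (L'.1 v) = L.1 v := by
    show L.1 (L'.1⁻¹ (L'.1 v)) = _
    rw [inv_apply]
  rw [h4] at h3
  exact h3

theorem Fld.uniq (hG : Good Q) {N : Subgroup G} (hρ : _root_.Cfsg.Agent.H93.RC.Rep Q N ρ) {z : G} {σ τ : F ≃+* F}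
    (h : Fld ρ z σ) (h' : Fld ρ z τ) : σ = τ := by
  obtain ⟨L, c, hL, hc⟩ := h
  obtain ⟨L', c', hL', hc'⟩ := h'
  obtain ⟨a, ha, h1⟩ := lf_unique hG hρ hL hL'
  obtain ⟨x, y, hxy⟩ := hG.exists_hyp
  ext t
  have h2 := h1 (t • x)
  rw [hc.smul, hc'.smul, h1, smul_smul, smul_smul] at h2
  have h3 : L'.1 x ≠ 0 := by
    intro h0
    rw [← hc'.map_zero] at h0
    exact hxy.left_ne (L'.1.injective h0)
  have h4 : (σ t * a - a * τ t) • L'.1 x = 0 := by rw [sub_smul, h2, sub_self]
  rcases smul_eq_zero.mp h4 with h5 | h5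
  · have h6 : (σ t - τ t) * a = 0 := by linear_combination h5
    rcases mul_eq_zero.mp h6 with h7 | h7
    · exact sub_eq_zero.mp h7
    · exact (ha h7).elim
  · exact (h3 h5).elim

theorem Fld.exists_of_closure {ι : Type*} {x : ι → G} (h : ∀ i, ∃ τ, Fld ρ (x i) τ) {z : G}
    (hz : z ∈ Subgroup.closure (Set.range x)) : ∃ τ, Fld ρ z τ := by
  induction hz using Subgroup.closure_induction with
  | mem z hz =>
    obtain ⟨i, rfl⟩ := hz
    exact h i
  | one => exact ⟨1, Fld.one⟩
  | mul a b _ _ ha hb =>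
    obtain ⟨σ, hσ⟩ := ha
    obtain ⟨τ, hτ⟩ := hb
    exact ⟨_, hσ.mul hτ⟩
  | inv a _ ha =>
    obtain ⟨σ, L, c, hL, hc⟩ := ha
    exact ⟨σ.symm, L⁻¹, _, hL.inv, hc.inv⟩

theorem isLin_of_ss {M : Gam Q} {c : F} (h : IsSS Q (1 : F ≃+* F) c M.1) : IsLin M := fun a v => h.smul a v

theorem ss_one_of_isLin (hG : Good Q) {M : Gam Q} (h : IsLin M) {σ : F ≃+* F} {c : F} (hM : IsSS Q σ c M.1) :
    σ = 1 := by
  obtain ⟨x, y, hxy⟩ := hG.exists_hyp
  have h3 : M.1 x ≠ 0 := by
    intro h0
    rw [← hM.map_zero] at h0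
    exact hxy.left_ne (M.1.injective h0)
  ext t
  have h1 := h t x
  rw [hM.smul] at h1
  have h4 : (σ t - t) • M.1 x = 0 := by rw [sub_smul, h1, sub_self]
  rcases smul_eq_zero.mp h4 with h5 | h5
  · exact sub_eq_zero.mp h5
  · exact (h3 h5).elim

end fld

/-! ### Group theory -/

theorem closure_comm {G ι : Type*} [Group G] {x : ι → G} (hc : ∀ i j, x i * x j = x j * x i) {a b : G}
    (ha : a ∈ Subgroup.closure (Set.range x)) (hb : b ∈ Subgroup.closure (Set.range x)) : a * b = b * a := by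
  have h1 : Subgroup.closure (Set.range x) ≤ Subgroup.centralizer (Set.range x) := by
    rw [Subgroup.closure_le]
    rintro _ ⟨i, rfl⟩
    rw [SetLike.mem_coe, Subgroup.mem_centralizer_iff]
    rintro _ ⟨j, rfl⟩
    exact hc j i
  have h2 : Subgroup.closure (Set.range x) ≤ Subgroup.centralizer (Subgroup.closure (Set.range x) : Set G) := by
    conv_lhs => rw [Subgroup.closure]
    refine sInf_le ?_
    rintro _ ⟨i, rfl⟩
    rw [SetLike.mem_coe, Subgroup.mem_centralizer_iff]
    intro c hc'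
    exact (Subgroup.mem_centralizer_iff.mp (h1 hc') (x i) ⟨i, rfl⟩).symm
  exact (Subgroup.mem_centralizer_iff.mp (h2 ha) b hb).symm

theorem pow_prod_eq_one {G ι : Type*} [Group G] [Fintype ι] {x : ι → G} {r : ι → ℕ}
    (hx : ∀ i, x i ^ r i = 1) (hc : ∀ i j, x i * x j = x j * x i) {z : G}
    (hz : z ∈ Subgroup.closure (Set.range x)) : z ^ (∏ i, r i) = 1 := by
  induction hz using Subgroup.closure_induction with
  | mem z hz =>
    obtain ⟨i, rfl⟩ := hz
    obtain ⟨k, hk⟩ := Finset.dvd_prod_of_mem r (Finset.mem_univ i)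
    rw [hk, pow_mul, hx, one_pow]
  | one => exact one_pow _
  | mul a b ha hb iha ihb =>
    have h1 : Commute a b := closure_comm hc ha hb
    rw [h1.mul_pow, iha, ihb, one_mul]
  | inv a _ ih => rw [inv_pow, ih, inv_one]

/-- a generator of the subgroup generated by elements with nontrivial field automorphisms -/
theorem exists_gen_fld {F V : Type*} [Field F] [AddCommGroup V] [Module F V] {Q : QuadraticForm F V}
    {G : Type*} [Group G] {ρ : ↥(E Q) →* G} (hG : Good Q) {N : Subgroup G} (hρ : _root_.Cfsg.Agent.H93.RC.Rep Q N ρ)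
    {ι : Type*} [Finite ι] {x : ι → G} {r : ι → ℕ}
    (hr : ∀ i, (r i).Prime) (hinj : Function.Injective r) (hx : ∀ i, x i ^ r i = 1)
    (hc : ∀ i j, x i * x j = x j * x i) (hf : ∀ i, ∃ τ : F ≃+* F, τ ≠ 1 ∧ Fld ρ (x i) τ) :
    ∃ (g : G) (τ : F ≃+* F), g ∈ Subgroup.closure (Set.range x) ∧ (∀ i, ∃ k : ℕ, x i = g ^ k) ∧ Fld ρ g τ ∧
      g ^ orderOf τ = 1 := by
  classical
  let _ : Fintype ι := Fintype.ofFinite ι
  obtain ⟨g, hgc, hg⟩ := exists_gen x r hr hinj hx hc
  obtain ⟨τ, hτ⟩ := Fld.exists_of_closure (fun i => (hf i).imp fun _ h => h.2) hgc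
  have hgR := pow_prod_eq_one hx hc hgc
  have hRpos : 0 < ∏ i, r i := Finset.prod_pos fun i _ => (hr i).pos
  have hfo : IsOfFinOrder g := isOfFinOrder_iff_pow_eq_one.mpr ⟨_, hRpos, hgR⟩
  have hk : ∀ i, ∃ k : ℕ, x i = g ^ k := by
    intro i
    obtain ⟨k, hk⟩ := (hfo.mem_powers_iff_mem_zpowers).mpr (hg i)
    exact ⟨k, hk.symm⟩
  refine ⟨g, τ, hgc, hk, hτ, ?_⟩
  have hdvd : ∀ i, r i ∣ orderOf τ := by
    intro i
    obtain ⟨k, hk⟩ := hk i
    obtain ⟨σ, hσ1, hσ⟩ := hf i
    have h1 : Fld ρ (x i) (τ ^ k) := by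
      rw [hk]; exact hτ.pow k
    have h2 : τ ^ k ≠ 1 := by rwa [h1.uniq hG hρ hσ]
    have h3 : (τ ^ k) ^ r i = 1 := by
      have h4 := h1.pow (r i)
      rw [hx i] at h4
      exact h4.uniq hG hρ Fld.one
    have h5 : orderOf (τ ^ k) = r i := orderOf_eq_prime h3 h2 (hp := ⟨hr i⟩)
    rw [← h5]
    exact orderOf_pow_dvd k
  have hR : (∏ i, r i) ∣ orderOf τ := by
    apply Finset.prod_dvd_of_isRelPrime
    · intro i _ j _ hij
      rw [Function.onFun, ← Nat.coprime_iff_isRelPrime]
      exact (Nat.coprime_primes (hr i) (hr j)).mpr fun h => hij (hinj h)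
    · intro i _
      exact hdvd i
  obtain ⟨k, hk⟩ := hR
  rw [hk, pow_mul, hgR, one_pow]

/-! ### Descent of the form -/

section form

variable {F V : Type*} [Field F] [AddCommGroup V] [Module F V] {Q : QuadraticForm F V} {n : ℕ}

theorem polar_eq_zero_of_basis (b : Module.Basis (Fin n) F V) (h : ∀ i j, polar Q (b i) (b j) = 0) (x y : V) :
    polar Q x y = 0 := by
  have h1 : polarBilin Q = 0 := by
    apply b.ext
    intro i
    apply b.ext
    intro j
    exact h i j
  rw [← polarBilin_apply_apply, h1]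
  rfl

/-- the form over the fixed field of `τ`, if `τ (Q v) = μ Q v` on the `K`-span of the basis -/
theorem exists_form (hG : Good Q) {τ : F ≃+* F} {K : Subfield F} (hK : ∀ t, t ∈ K ↔ τ t = t)
    (b : Module.Basis (Fin n) F V) {μ : F} (hμ : μ ≠ 0)
    (hform : ∀ v : Fin n → K, τ (Q (semJ K.subtype b v)) = μ * Q (semJ K.subtype b v)) :
    ∃ (Q₀ : QuadraticForm K (Fin n → K)) (d : F), d ≠ 0 ∧
      ∀ v, Q (semJ K.subtype b v) = d * K.subtype (Q₀ v) := by
  obtain ⟨v₀, hv₀⟩ : ∃ v₀ : Fin n → K, Q (semJ K.subtype b v₀) ≠ 0 := by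
    by_contra hno
    push Not at hno
    obtain ⟨x, y, hxy⟩ := hG.exists_hyp
    have h1 := hxy.pair
    rw [polar_eq_zero_of_basis b (fun i j => ?_)] at h1
    · exact zero_ne_one h1
    · have h2 := hno (Pi.single i 1 + Pi.single j 1)
      have h3 := hno (Pi.single i 1)
      have h4 := hno (Pi.single j 1)
      rw [semJ_add, semJ_single, semJ_single] at h2
      rw [semJ_single] at h3 h4
      rw [polar, h2, h3, h4]
      simp
  set d := Q (semJ K.subtype b v₀) with hd
  have hmem : ∀ v : Fin n → K, Q (semJ K.subtype b v) / d ∈ K := by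
    intro v
    rw [hK, map_div₀, hform, hform, ← hd, mul_div_mul_left _ _ hμ]
  let q : (Fin n → K) → K := fun v => ⟨Q (semJ K.subtype b v) / d, hmem v⟩
  have hq : ∀ v, ((q v : K) : F) = Q (semJ K.subtype b v) / d := fun v => rfl
  have hpol : ∀ v w, ((polar q v w : K) : F) = polar Q (semJ K.subtype b v) (semJ K.subtype b w) / d := by
    intro v w
    show (q (v + w) : F) - (q v : F) - (q w : F) = _
    rw [hq, hq, hq, semJ_add, polar]
    ring
  refine ⟨QuadraticMap.ofPolar q ?_ ?_ ?_, d, hv₀, ?_⟩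
  · intro a v
    apply Subtype.ext
    show ((q (a • v) : K) : F) = ((a * a) * q v : K)
    rw [hq, semJ_smul, QuadraticMap.map_smul]
    show (a : F) * a * Q (semJ K.subtype b v) / d = (a * a : F) * (q v : F)
    rw [hq]
    ring
  · intro v w u
    apply Subtype.ext
    have h1 := hpol (v + w) u
    have h2 := hpol v u
    have h3 := hpol w u
    show ((polar q (v + w) u : K) : F) = ((polar q v u : K) : F) + ((polar q w u : K) : F)
    rw [h1, h2, h3, semJ_add, polar_add_left]
    ring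
  · intro a v w
    apply Subtype.ext
    have h1 := hpol (a • v) w
    have h2 := hpol v w
    show ((polar q (a • v) w : K) : F) = (a : F) * ((polar q v w : K) : F)
    rw [h1, h2, semJ_smul, polar_smul_left]
    show (a : F) * _ / d = _
    ring
  · intro v
    show _ = d * ((q v : K) : F)
    rw [hq, mul_div_cancel₀ _ hv₀]

end form

section main

variable {F V : Type*} [Field F] [Finite F] [AddCommGroup V] [Module F V] [FiniteDimensional F V]
  {Q : QuadraticForm F V} {G : Type*} [Group G] {N : Subgroup G} {ρ : ↥(E Q) →* G}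

/-- **BOX FA1.** -/
theorem exists_descent (hG : Good Q) (hρ : _root_.Cfsg.Agent.H93.RC.Rep Q N ρ) {ι : Type*} [Finite ι] {x : ι → G} {M : ι → Gam Q}
    {r : ι → ℕ} (hl : ∀ i, Lf ρ (x i) (M i)) (hx : PF x r) (hnl : ∃ i, ¬ IsLin (M i)) :
    ∃ (K : Subfield F) (b : Module.Basis (Fin (Module.finrank F V)) F V)
      (Q₀ : QuadraticForm K (Fin (Module.finrank F V) → K)) (d : F),
      ¬ Function.Surjective K.subtype ∧ d ≠ 0 ∧
      (∀ v, Q (semJ K.subtype b v) = d * K.subtype (Q₀ v)) ∧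
      (∀ i, ¬ IsLin (M i) → ∃ s : F, s ≠ 0 ∧ ∀ v, (M i).1 (semJ K.subtype b v) = s • semJ K.subtype b v) ∧
      ∀ i, IsLin (M i) → ∃ (s : F) (T : (Fin (Module.finrank F V) → K) ≃ₗ[K] (Fin (Module.finrank F V) → K)),
        s ≠ 0 ∧ ∀ v, (M i).1 (semJ K.subtype b v) = s • semJ K.subtype b (T v) := by
  classical
  -- the nonlinear members
  let κ := {i : ι // ¬ IsLin (M i)}
  have hf : ∀ i : κ, ∃ τ : F ≃+* F, τ ≠ 1 ∧ Fld ρ (x i) τ := by
    rintro ⟨i, hi⟩
    obtain ⟨σ, c, hM⟩ := (M i).2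
    refine ⟨σ, ?_, M i, c, hl i, hM⟩
    rintro rfl
    exact hi (isLin_of_ss hM)
  obtain ⟨g, τ, hgc, hgk, ⟨Y, c₀, hY, hYs⟩, hgm⟩ := exists_gen_fld (x := fun i : κ => x i) (r := fun i : κ => r i)
    hG hρ (fun i => hx.prime i) (fun i j h => Subtype.ext (hx.inj h)) (fun i => hx.pow i)
    (fun i j => hx.comm i j) hf
  have hτ1 : τ ≠ 1 := by
    obtain ⟨i, hi⟩ := hnl
    obtain ⟨k, hk⟩ := hgk ⟨i, hi⟩
    obtain ⟨σ, hσ1, hσ⟩ := hf ⟨i, hi⟩
    rintro rfl
    apply hσ1
    have h1 : Fld ρ (x i) ((1 : F ≃+* F) ^ k) := by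
      show Fld ρ (x i) _
      have : x i = g ^ k := hk
      rw [this]
      exact Fld.pow ⟨Y, c₀, hY, hYs⟩ k
    rw [one_pow] at h1
    exact hσ.uniq hG hρ h1
  have hfin : Finite (F ≃+* F) := Finite.of_injective (fun e : F ≃+* F => (e : F → F)) DFunLike.coe_injective
  -- descent
  obtain ⟨c₁, -, hc₁⟩ := hY.pow_scal hG hρ hgm
  obtain ⟨a, ha, b, hb⟩ := descent τ (orderOf τ) (orderOf_pos τ) rfl { Y.1 with map_add' := hYs.add }
    (fun t v => hYs.smul t v) c₁ (by
      intro v
      have h1 := hc₁ v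
      rw [Subgroup.coe_pow, ← Equiv.Perm.iterate_eq_pow] at h1
      exact h1)
  have hb' : ∀ i, Y.1 (b i) = a⁻¹ • b i := by
    intro i
    have h1 : a • Y.1 (b i) = b i := hb i
    rw [← h1, smul_smul, inv_mul_cancel₀ ha, one_smul]
    exact congrArg Y.1 h1
  let K : Subfield F := (τ : F →+* F).eqLocusField (RingHom.id F)
  have hK : ∀ t, t ∈ K ↔ τ t = t := fun t => Iff.rfl
  set J := semJ K.subtype b with hJ
  let Yh : V →+ V := ⟨⟨Y.1, hYs.map_zero⟩, hYs.add⟩
  have hYh : ∀ v, Yh v = Y.1 v := fun v => rfl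
  have hYJ : ∀ v, Y.1 (J v) = a⁻¹ • J v := by
    intro v
    rw [← hYh, hJ, semJ, map_sum, Finset.smul_sum]
    refine Finset.sum_congr rfl fun i _ => ?_
    rw [hYh, hYs.smul, hb']
    have h1 : τ (K.subtype (v i)) = K.subtype (v i) := (v i).2
    rw [h1, smul_comm]
  have hYk : ∀ k : ℕ, ∃ t : F, t ≠ 0 ∧ ∀ v, (Y ^ k).1 (J v) = t • J v := by
    intro k
    induction k with
    | zero => exact ⟨1, one_ne_zero, fun v => by rw [pow_zero, one_smul]; rfl⟩
    | succ k ih =>
      obtain ⟨t, ht, h⟩ := ih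
      refine ⟨τ t * a⁻¹, mul_ne_zero ((map_ne_zero τ).mpr ht) (inv_ne_zero ha), fun v => ?_⟩
      rw [pow_succ']
      show Y.1 ((Y ^ k).1 (J v)) = _
      rw [h, hYs.smul, hYJ, smul_smul]
  -- the form
  have hμ : c₀⁻¹ * (a⁻¹ * a⁻¹) ≠ 0 := mul_ne_zero (inv_ne_zero hYs.ne) (mul_ne_zero (inv_ne_zero ha) (inv_ne_zero ha))
  obtain ⟨Q₀, d, hd, hQ⟩ := exists_form hG hK b hμ (by
    intro v
    have h1 := hYs.form (J v)
    rw [hYJ, QuadraticMap.map_smul, smul_eq_mul] at h1
    rw [← hJ, mul_assoc, h1, ← mul_assoc, inv_mul_cancel₀ hYs.ne, one_mul])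
  refine ⟨K, b, Q₀, d, ?_, hd, hQ, ?_, ?_⟩
  · intro hsurj
    apply hτ1
    ext t
    obtain ⟨u, rfl⟩ := hsurj t
    exact u.2
  · intro i hi
    obtain ⟨k, hk⟩ := hgk ⟨i, hi⟩
    have h1 : Lf ρ (x i) (Y ^ k) := by
      have : x i = g ^ k := hk
      rw [this]
      exact hY.pow k
    obtain ⟨u, hu, h2⟩ := lf_unique hG hρ (hl i) h1
    obtain ⟨t, ht, h3⟩ := hYk k
    refine ⟨u * t, mul_ne_zero hu ht, fun v => ?_⟩
    rw [← hJ, h2, h3, smul_smul]
  · intro i hi
    obtain ⟨σ, c, hM⟩ := (M i).2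
    have hσ := ss_one_of_isLin hG hi hM
    subst hσ
    -- commutation
    have hcg : x i * g = g * x i := by
      have h1 : Subgroup.closure (Set.range fun j : κ => x j) ≤ Subgroup.centralizer {x i} := by
        rw [Subgroup.closure_le]
        rintro _ ⟨j, rfl⟩
        rw [SetLike.mem_coe, Subgroup.mem_centralizer_singleton_iff]
        exact hx.comm j i
      exact (Subgroup.mem_centralizer_singleton_iff.mp (h1 hgc)).symm
    obtain ⟨l, hl0, hcomm⟩ := (hl i).comm hG hρ hY hcg
    let X : V →ₗ[F] V := { toFun := (M i).1, map_add' := hM.add, map_smul' := hi }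
    have hXa : ∀ v, X v = (M i).1 v := fun v => rfl
    let cf : Fin (Module.finrank F V) → Fin (Module.finrank F V) → F := fun k j => b.repr (X (b j)) k
    have hcf : ∀ j, X (b j) = ∑ k, cf k j • b k := fun j => (b.sum_repr (X (b j))).symm
    have hrel : ∀ k j, cf k j = l * τ (cf k j) := by
      intro k j
      have h1 := hcomm (b j)
      rw [hb', hi, ← hXa, hcf, ← hYh, map_sum] at h1
      have h2 : ∀ k, Yh (cf k j • b k) = a⁻¹ • (τ (cf k j) • b k) := fun k => by
        rw [hYh, hYs.smul, hb', smul_comm]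
      rw [Finset.sum_congr rfl fun k _ => h2 k, ← Finset.smul_sum, smul_comm l a⁻¹] at h1
      have h3 := smul_right_injective V (inv_ne_zero ha) h1
      have h4 := congrArg (fun v => b.repr v k) h3
      simp only [Finset.smul_sum, smul_smul, map_sum, map_smul, Finsupp.coe_finsetSum, Finset.sum_apply,
        Finsupp.smul_apply, Module.Basis.repr_self, smul_eq_mul] at h4
      have h5 : ∀ f : Fin (Module.finrank F V) → F, ∑ j, f j * (Finsupp.single j (1 : F)) k = f k := by
        intro f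
        rw [Finset.sum_eq_single k]
        · rw [Finsupp.single_eq_same, mul_one]
        · intro j _ hj
          rw [Finsupp.single_eq_of_ne (by (clear * - hj; tauto)), mul_zero]
        · intro h
          exact (h (Finset.mem_univ k)).elim
      rw [h5, h5] at h4
      exact h4
    obtain ⟨k₀, j₀, hs⟩ : ∃ k j, cf k j ≠ 0 := by
      by_contra hno
      push Not at hno
      obtain ⟨y, z, hyz⟩ := hG.exists_hyp
      have h1 : X = 0 := b.ext fun j => by
        rw [hcf j]
        simp only [hno, _root_.zero_smul, _root_.Finset.sum_const_zero, _root_.LinearMap.zero_apply]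
      have h2 : (M i).1 y = (M i).1 0 := by
        rw [← hXa, ← hXa, h1]
        rfl
      exact hyz.left_ne ((M i).1.injective h2)
    set s := cf k₀ j₀ with hsdef
    have hmem : ∀ k j, cf k j / s ∈ K := by
      intro k j
      rw [hK, map_div₀]
      have h1 := hrel k j
      have h2 := hrel k₀ j₀
      rw [← hsdef] at h2
      have hτs : τ s ≠ 0 := (map_ne_zero τ).mpr hs
      rw [div_eq_div_iff hτs hs]
      have h3 : cf k j * τ s = l * τ (cf k j) * τ s := by rw [← h1]
      have h4 : τ (cf k j) * s = τ (cf k j) * (l * τ s) := by rw [← h2]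
      rw [h3, h4]
      ring
    let T₀ : Matrix (Fin (Module.finrank F V)) (Fin (Module.finrank F V)) K := Matrix.of fun k j => ⟨cf k j / s, hmem k j⟩
    have hT₀ : ∀ k j, (T₀ k j : F) = cf k j / s := fun k j => rfl
    have hXJ : ∀ v, (M i).1 (J v) = s • J (T₀.mulVec v) := by
      intro v
      rw [← hXa, hJ, semJ, semJ, map_sum, Finset.smul_sum]
      have h1 : ∀ j, X (K.subtype (v j) • b j) = ∑ k, (cf k j * (v j : F)) • b k := by
        intro j
        rw [map_smul, hcf, Finset.smul_sum]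
        refine Finset.sum_congr rfl fun k _ => ?_
        rw [smul_smul, mul_comm]
        rfl
      rw [Finset.sum_congr rfl fun j _ => h1 j, Finset.sum_comm]
      refine Finset.sum_congr rfl fun k _ => ?_
      rw [← Finset.sum_smul, smul_smul]
      congr 1
      have h2 : K.subtype (T₀.mulVec v k) = ∑ j, (cf k j / s) * (v j : F) := by
        rw [Matrix.mulVec, dotProduct, map_sum]
        rfl
      rw [h2, Finset.mul_sum]
      refine Finset.sum_congr rfl fun j _ => ?_
      rw [← mul_assoc, mul_div_cancel₀ _ hs]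
    refine ⟨s, LinearEquiv.ofInjectiveEndo (Matrix.toLin' T₀) ?_, hs, fun v => ?_⟩
    · rw [← LinearMap.ker_eq_bot, LinearMap.ker_eq_bot']
      intro v hv
      have h1 := hXJ v
      have h2 : T₀.mulVec v = 0 := hv
      rw [h2, hJ, semJ_zero, smul_zero, ← hM.map_zero] at h1
      have h3 := (M i).1.injective h1
      rw [← semJ_zero (φ := K.subtype) (b := b)] at h3
      exact semJ_injective h3
    · exact hXJ v

end main

end Cfsg.Agent.H188.RC
end

-- part: H236/RC/FA
section
/-!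
# S3510, row F: some lift is not linear (helper236)

`box_FA` : a covering family of prime-power type one of whose lifts is not linear does not exist
(`finrank ≥ 7`, odd or even), under the induction hypothesis.
-/

set_option autoImplicit false
open Cfsg

namespace Cfsg.Agent.H236.RC

open QuadraticMap MulAction
open Cfsg.Agent.LieClassical.OrthCore Cfsg.Agent.LieClassical.OrthTrans
open Cfsg.Agent.LieClassical.OrthSimple Cfsg.Agent.ClassicalGeometry.OrthSemi
open Cfsg.Agent.ClassicalGeometry.OrthAut1 Cfsg.Agent.H106.RC Cfsg.Agent.H93.RC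

/-- **BOX FA.** The row when some lift is not linear, all dimensions `≥ 7`. -/
theorem box_FA {F V G Ω S ι : Type} [Field F] [Finite F] [AddCommGroup V] [Module F V]
    [FiniteDimensional F V] {Q : QuadraticForm F V} [Group G] [Finite G] [MulAction G Ω] [Nonempty Ω]
    [Group S] [Finite S] {N : Subgroup G} {ρ : ↥(E Q) →* G}
    (hG : Good Q) (h7 : 7 ≤ Module.finrank F V) (hE : Env G Ω N) (hρ : _root_.Cfsg.Agent.H93.RC.Rep Q N ρ)
    (e : N ≃* S) (hIH : IH (Nat.card S)) [Finite ι] {x : ι → G} {M : ι → Gam Q} {r : ι → ℕ} (hx : PF x r)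
    (hl : ∀ i, Lf ρ (x i) (M i)) (hcov : Cov Ω x) (hne : ∃ i, ¬ IsLin (M i)) : False := by
  obtain ⟨K, b, Q0, d, hφ, hd, hQ, hnl, hlin⟩ := H188.RC.exists_descent hG hρ hl hx hne
  exact box_FA3 hG h7 hE hρ e hIH hx hl hcov hφ hd hQ hnl hlin hne

/-- `N ≃ P Q` -/
theorem exists_equiv_P {F V G : Type*} [Field F] [AddCommGroup V] [Module F V]
    {Q : QuadraticForm F V} [Group G] {N : Subgroup G} {ρ : ↥(E Q) →* G} (hρ : _root_.Cfsg.Agent.H93.RC.Rep Q N ρ) :
    Nonempty (N ≃* P Q) := by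
  have hmem : ∀ t, ρ t ∈ N := fun t => by rw [← hρ.range]; exact ⟨t, rfl⟩
  let ρN : ↥(E Q) →* N := ρ.codRestrict N hmem
  have hρNs : Function.Surjective ρN := by
    rintro ⟨n, hn⟩
    have hn' := hn
    rw [← hρ.range] at hn'
    obtain ⟨t, ht⟩ := hn'
    exact ⟨t, Subtype.ext ht⟩
  have hρNk : ρN.ker = Subgroup.center ↥(E Q) := by
    rw [← hρ.ker]
    ext t
    rw [MonoidHom.mem_ker, MonoidHom.mem_ker]
    exact ⟨fun h => congrArg Subtype.val h, fun h => Subtype.ext h⟩
  exact ⟨((QuotientGroup.quotientMulEquivOfEq hρNk.symm).trans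
    (QuotientGroup.quotientKerEquivOfSurjective ρN hρNs)).symm⟩

/-- **BOX FA** in the form of the stubs of helper93. -/
theorem box_FA' {F V G Ω ι : Type} [Field F] [Finite F] [AddCommGroup V] [Module F V]
    [FiniteDimensional F V] {Q : QuadraticForm F V} [Group G] [Finite G] [MulAction G Ω] [Nonempty Ω]
    {N : Subgroup G} {ρ : ↥(E Q) →* G}
    (hG : Good Q) (h7 : 7 ≤ Module.finrank F V) (hE : Env G Ω N) (hρ : _root_.Cfsg.Agent.H93.RC.Rep Q N ρ)
    [Finite ι] {x : ι → G} {M : ι → Gam Q} {r : ι → ℕ}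
    (hl : ∀ i, Lf ρ (x i) (M i)) (hx : PF x r) (hcov : Cov Ω x) (hIH : IH (Nat.card (P Q)))
    (hne : ∃ i, ¬ IsLin (M i)) : False := by
  obtain ⟨e⟩ := exists_equiv_P hρ
  have hfV : Finite V := Module.finite_of_finite F
  have hfP : Finite (P Q) := finite_P
  exact box_FA hG h7 hE hρ e hIH hx hl hcov hne

end Cfsg.Agent.H236.RC
end

private theorem dce_c57b2e6d38f6 : _root_.True := by
  try have : _root_.True := by simp only [_root_.Cfsg.Agent.H188.RC.semJ.eq_1]
  exact _root_.True.intro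
end

-- part: H338/RC/BoxC
section
prune_inst 0x10001540446200000000000020001c62a2000002004804000443000604c9ac400400082081200111400000040030006001040000024000000e200400011800800080100090480000020000000000000000000000000000000000000000000000000000000
set_option linter.all false
open scoped Cfsg.Agent.FastGrp

-- part: H338/RC/HermA
section
/-!
# S3510, row F, box C: the hermitian form (helper338)

`K` a quadratic extension of `F` acting on `V` with `Q (a v) = N(a) Q(v)`.
* `HK.hm` : the hermitian form `h` with `h(v,v) = Q v`, `h + h^q = polar Q`;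
* `HK.exists_phi` : `V ≃ K^m` isometric to the standard hermitian space.
-/

set_option autoImplicit false
set_option linter.unusedSectionVars false
open Cfsg

namespace Cfsg.Agent.H338.RC

open QuadraticMap Module
open Cfsg.Agent.LieClassical.OrthCore Cfsg.Agent.LieClassical.HermBasic Cfsg.Agent.H91.U

variable {F K V : Type*} [Field F] [Field K] [Fintype K] [Algebra F K] [AddCommGroup V] [Module F V] [Module K V]
  [IsScalarTower F K V] {Q : QuadraticForm F V} {q : ℕ}

/-- `K` acts by similitudes with multiplier the norm -/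
structure HK (Q : QuadraticForm F V) (K : Type*) [Field K] [Fintype K] [Algebra F K] [Module K V] (q : ℕ) : Prop where
  card : Fintype.card K = q ^ 2
  fix : ∀ a : K, a ^ q = a → ∃ c : F, algebraMap F K c = a
  base : ∀ c : F, (algebraMap F K c) ^ q = algebraMap F K c
  form : ∀ (a : K) (v : V), algebraMap F K (Q (a • v)) = a * a ^ q * algebraMap F K (Q v)
  nondeg : Nondeg Q

namespace HK

variable (h : HK Q K q)
include h

theorem q_ne : q ≠ 0 := (q_pos h.card).ne'

theorem form_polar (a : K) (u v : V) :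
    algebraMap F K (polar Q (a • u) (a • v)) = a * a ^ q * algebraMap F K (polar Q u v) := by
  unfold polar
  rw [← smul_add, map_sub, map_sub, h.form, h.form, h.form, map_sub, map_sub]
  ring

theorem norm_mem (a : K) : ∃ c : F, algebraMap F K c = a * a ^ q := h.fix _ (norm_pow_q h.card a)

theorem trace_mem (a : K) : ∃ c : F, algebraMap F K c = a + a ^ q := h.fix _ (trace_pow_q h.card a)

theorem adj (a : K) (u v : V) : polar Q (a • u) v = polar Q u (a ^ q • v) := by
  apply (algebraMap F K).injective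
  by_cases ha : a = 0
  · subst ha
    rw [zero_pow h.q_ne, zero_smul, zero_smul, QuadraticMap.polar_zero_left, QuadraticMap.polar_zero_right]
  · obtain ⟨c, hc⟩ := h.norm_mem a
    have h1 : v = a • a⁻¹ • v := (smul_inv_smul₀ ha v).symm
    conv_lhs => rw [h1]
    rw [h.form_polar, ← hc, ← map_mul, ← smul_eq_mul, ← QuadraticMap.polar_smul_right]
    congr 2
    rw [← algebraMap_smul K c, hc, smul_smul]
    congr 1
    field_simp

/-- the generator -/
noncomputable def th (_ : HK Q K q) : K := Classical.choose (exists_not_fixed ‹HK Q K q›.card)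

theorem th_ne : h.th ^ q ≠ h.th := Classical.choose_spec (exists_not_fixed h.card)

theorem sub_ne : h.th - h.th ^ q ≠ 0 := sub_ne_zero.2 (Ne.symm h.th_ne)

theorem decomp (a : K) : ∃ c d : F, a = algebraMap F K c + algebraMap F K d * h.th := by
  have hs := h.sub_ne
  have hq := pow_q_pow_q h.card
  obtain ⟨d, hd⟩ := h.fix ((a - a ^ q) * (h.th - h.th ^ q)⁻¹) (by
    rw [mul_pow, inv_pow, sub_pow_q h.card, sub_pow_q h.card, hq, hq]
    rw [← neg_sub a (a ^ q), ← neg_sub h.th (h.th ^ q), inv_neg, neg_mul_neg])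
  obtain ⟨c, hc⟩ := h.fix (a - algebraMap F K d * h.th) (by
    rw [sub_pow_q h.card, mul_pow, h.base]
    have h1 : (a - a ^ q) = algebraMap F K d * (h.th - h.th ^ q) := by
      rw [hd, mul_assoc, inv_mul_cancel₀ hs, mul_one]
    linear_combination -h1)
  exact ⟨c, d, by rw [hc, sub_add_cancel]⟩

/-- the hermitian form -/
noncomputable def hm (u v : V) : K :=
  (h.th - h.th ^ q)⁻¹ * (algebraMap F K (polar Q (h.th • u) v) - h.th ^ q * algebraMap F K (polar Q u v))

theorem hm_def (u v : V) : h.hm u v =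
  (h.th - h.th ^ q)⁻¹ * (algebraMap F K (polar Q (h.th • u) v) - h.th ^ q * algebraMap F K (polar Q u v)) := rfl

theorem hm_add_left (u u' v : V) : h.hm (u + u') v = h.hm u v + h.hm u' v := by
  simp only [hm_def, smul_add, QuadraticMap.polar_add_left, map_add]
  ring

theorem hm_add_right (u v v' : V) : h.hm u (v + v') = h.hm u v + h.hm u v' := by
  simp only [hm_def, QuadraticMap.polar_add_right, map_add]
  ring

theorem hm_base_left (c : F) (u v : V) : h.hm (c • u) v = algebraMap F K c * h.hm u v := by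
  have h1 : h.th • c • u = c • h.th • u := by rw [smul_algebra_smul_comm]
  rw [hm_def, hm_def, h1, QuadraticMap.polar_smul_left, QuadraticMap.polar_smul_left, smul_eq_mul, smul_eq_mul, map_mul,
    map_mul]
  ring

theorem th_sq (u : V) : ∃ T N : F, algebraMap F K T = h.th + h.th ^ q ∧ algebraMap F K N = h.th * h.th ^ q ∧
    h.th • h.th • u = T • h.th • u - N • u := by
  obtain ⟨T, hT⟩ := h.trace_mem h.th
  obtain ⟨N, hN⟩ := h.norm_mem h.th
  refine ⟨T, N, hT, hN, ?_⟩
  rw [← algebraMap_smul K T, ← algebraMap_smul K N, hT, hN, smul_smul, smul_smul, ← sub_smul]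
  congr 1
  ring

theorem hm_th_left (u v : V) : h.hm (h.th • u) v = h.th * h.hm u v := by
  obtain ⟨T, N, hT, hN, h1⟩ := h.th_sq u
  rw [hm_def, hm_def, h1, QuadraticMap.polar_sub_left, QuadraticMap.polar_smul_left, QuadraticMap.polar_smul_left,
    smul_eq_mul, smul_eq_mul, map_sub, map_mul, map_mul, hT, hN]
  ring

theorem hm_smul_left (a : K) (u v : V) : h.hm (a • u) v = a * h.hm u v := by
  obtain ⟨c, d, rfl⟩ := h.decomp a
  have h1 : (algebraMap F K c + algebraMap F K d * h.th) • u = c • u + d • h.th • u := by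
    rw [add_smul, algebraMap_smul, mul_smul, algebraMap_smul]
  rw [h1, hm_add_left, hm_base_left, hm_base_left, hm_th_left]
  ring

theorem hm_conj (u v : V) : (h.hm u v) ^ q =
    (h.th ^ q - h.th)⁻¹ * (algebraMap F K (polar Q (h.th • u) v) - h.th * algebraMap F K (polar Q u v)) := by
  have hq := pow_q_pow_q h.card
  rw [hm_def, mul_pow, inv_pow, sub_pow_q h.card, hq, sub_pow_q h.card, mul_pow, hq, h.base, h.base]

theorem hm_trace (u v : V) : h.hm u v + (h.hm u v) ^ q = algebraMap F K (polar Q u v) := by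
  have hs := h.sub_ne
  rw [hm_conj, hm_def, ← neg_sub h.th (h.th ^ q), inv_neg]
  field_simp
  ring

theorem hm_symm (u v : V) : h.hm v u = (h.hm u v) ^ q := by
  have hs := h.sub_ne
  obtain ⟨T, hT⟩ := h.trace_mem h.th
  have h1 : polar Q (h.th • v) u = T * polar Q u v - polar Q (h.th • u) v := by
    rw [QuadraticMap.polar_comm]
    have h2 : u = u := rfl
    have h3 : h.th • v = (h.th ^ q) ^ q • v := by rw [pow_q_pow_q h.card]
    rw [h3, ← h.adj]
    have h4 : (h.th ^ q) • u = T • u - h.th • u := by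
      rw [← algebraMap_smul K T, hT, ← sub_smul]
      congr 1
      ring
    rw [h4, QuadraticMap.polar_sub_left, QuadraticMap.polar_smul_left, smul_eq_mul]
  rw [hm_conj, hm_def, h1, QuadraticMap.polar_comm Q v u, map_sub, map_mul, hT, ← neg_sub h.th (h.th ^ q), inv_neg]
  ring

theorem hm_self (v : V) : h.hm v v = algebraMap F K (Q v) := by
  have hs := h.sub_ne
  have h1 : algebraMap F K (polar Q (h.th • v) v) = (h.th + h.th ^ q) * algebraMap F K (Q v) := by
    unfold polar
    have h2 : h.th • v + v = (h.th + 1) • v := by rw [add_smul, one_smul]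
    rw [h2, map_sub, map_sub, h.form, h.form, add_pow_q h.card, one_pow]
    ring
  have h2 : polar Q v v = 2 * Q v := polar_self' v
  rw [hm_def, h1, h2, map_mul, map_ofNat]
  field_simp
  ring

theorem hm_smul_right (a : K) (u v : V) : h.hm u (a • v) = a ^ q * h.hm u v := by
  rw [h.hm_symm (a • v) u, hm_smul_left, mul_pow, ← h.hm_symm]

/-- the sesquilinear form, semilinear in the first variable -/
noncomputable def B : V →ₛₗ[((conj h.card : K ≃+* K) : K →+* K)] V →ₗ[K] K :=
  LinearMap.mk₂'ₛₗ ((conj h.card : K ≃+* K) : K →+* K) (RingHom.id K) (fun v w => h.hm w v)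
    (fun v v' w => h.hm_add_right w v v') (fun a v w => h.hm_smul_right a w v)
    (fun v w w' => h.hm_add_left w w' v) (fun a v w => h.hm_smul_left a w v)

theorem B_apply (v w : V) : h.B v w = h.hm w v := rfl

theorem hform : HForm h.B where
  nd := by
    constructor
    · intro v hv
      apply h.nondeg
      intro w
      have h1 := h.hm_trace w v
      rw [← B_apply, hv, zero_pow h.q_ne, add_zero] at h1
      have h2 := (map_eq_zero (algebraMap F K)).1 h1.symm
      rw [QuadraticMap.polar_comm]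
      exact h2
    · intro v hv
      apply h.nondeg
      intro w
      have h1 := h.hm_trace v w
      rw [← B_apply, hv, zero_pow h.q_ne, add_zero] at h1
      exact (map_eq_zero (algebraMap F K)).1 h1.symm
  symm := ⟨fun v w => by
    rw [B_apply, B_apply]
    exact (h.hm_symm w v).symm⟩
  invol := fun a => pow_q_pow_q h.card a
  ne_id := by
    intro h1
    have h2 := congrArg (fun f : K →+* K => f h.th) h1
    exact h.th_ne h2

theorem exists_phi [FiniteDimensional K V] :
    ∃ φ : V ≃ₗ[K] (Fin (finrank K V) → K), ∀ v w, h.hm v w = hermForm (finrank K V) K q (φ v) (φ w) := by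
  obtain ⟨φ, hφ⟩ := Cfsg.Agent.H450.UF.exists_model h.card h.hform
  exact ⟨φ, fun v w => (h.B_apply w v).symm.trans (hφ w v)⟩

end HK

end Cfsg.Agent.H338.RC
end

-- part: H338/RC/HermM
section
/-!
# S3510, row F, box C: hermitian structure (helper338)
-/

set_option autoImplicit false
set_option linter.unusedSectionVars false
open Cfsg

namespace Cfsg.Agent.H338.RC

open QuadraticMap Module MulAction
open Cfsg.Agent.LieClassical.OrthCore Cfsg.Agent.LieClassical.HermBasic Cfsg.Agent.LieClassical.HermSiegel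
open Cfsg.Agent.LieClassical.OrthTrans Cfsg.Agent.ClassicalGeometry.OrthSemi Cfsg.Agent.ClassicalGeometry.OrthAut1
open Cfsg.Agent.H106.RC Cfsg.Agent.H93.RC

/-- the projection of the image of a perfect group onto the quotient by the centre -/
theorem exists_pi_gen {H G : Type*} [Group H] [Group G] (hH : commutator H = ⊤) (μ : H →* G)
    (hker : μ.ker ≤ Subgroup.center H) : ⁅μ.range, μ.range⁆ = μ.range ∧
      ∃ π : μ.range →* H ⧸ Subgroup.center H, Function.Surjective π ∧ π.ker ≤ Subgroup.center μ.range := by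
  refine ⟨by rw [MonoidHom.range_eq_map, ← Subgroup.map_commutator, ← commutator_def, hH], ?_⟩
  let e1 : H ⧸ μ.ker ≃* μ.range := QuotientGroup.quotientKerEquivRange μ
  let k : H ⧸ μ.ker →* H ⧸ Subgroup.center H := QuotientGroup.map μ.ker (Subgroup.center _) (MonoidHom.id _) hker
  have hks : Function.Surjective k := by
    intro y
    obtain ⟨s, rfl⟩ := QuotientGroup.mk_surjective y
    exact ⟨QuotientGroup.mk s, rfl⟩
  refine ⟨k.comp e1.symm.toMonoidHom, hks.comp e1.symm.surjective, ?_⟩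
  intro y hy
  obtain ⟨s', hs'⟩ := e1.surjective y
  obtain ⟨s, rfl⟩ := QuotientGroup.mk_surjective s'
  have h1 : k (QuotientGroup.mk s) = 1 := by
    have h2 : k (e1.symm y) = 1 := hy
    rwa [← hs', MulEquiv.symm_apply_apply] at h2
  have h2 : s ∈ Subgroup.center H := by
    have h3 : (QuotientGroup.mk s : H ⧸ Subgroup.center H) = 1 := h1
    exact (QuotientGroup.eq_one_iff s).1 h3
  rw [Subgroup.mem_center_iff] at h2 ⊢
  rintro ⟨_, ⟨t, rfl⟩⟩
  have h4 : (y : G) = μ s := by rw [← hs']; rfl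
  apply Subtype.ext
  change μ t * (y : G) = (y : G) * μ t
  rw [h4, ← map_mul, ← map_mul, h2 t]

/-- a perfect group with nontrivial quotient: the quotient is not commutative -/
theorem not_comm_of_perf' {M S : Type*} [Group M] [Group S] (hM : commutator M = ⊤) (f : M →* S)
    (hf : Function.Surjective f) (hS : IsSimpleGroup S) : ¬ IsMulCommutative S := by
  intro hc
  have h1 : ∀ m : M, f m = 1 := by
    intro m
    have h2 : commutator M ≤ f.ker := by
      rw [commutator_def, Subgroup.commutator_le]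
      intro a _ b _
      rw [MonoidHom.mem_ker, map_commutatorElement, commutatorElement_eq_one_iff_mul_comm]
      exact hc.is_comm.comm _ _
    rw [hM] at h2
    exact h2 (Subgroup.mem_top m)
  obtain ⟨s, hs⟩ := exists_ne (1 : S)
  obtain ⟨m, rfl⟩ := hf s
  exact hs (h1 m)

/-- an element of finite order conjugating `M` into `M` normalises `M` -/
theorem mem_norm_pow' {G : Type*} [Group G] {M : Subgroup G} {x : G} {k : ℕ} (hk : 0 < k) (hx : x ^ k = 1)
    (h : ∀ m ∈ M, x * m * x⁻¹ ∈ M) : x ∈ Subgroup.normalizer (M : Set G) := by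
  have h1 : ∀ (j : ℕ), ∀ m ∈ M, x ^ j * m * (x ^ j)⁻¹ ∈ M := by
    intro j
    induction j with
    | zero => intro m hm; simpa using hm
    | succ j ih =>
      intro m hm
      have h2 := h _ (ih m hm)
      have h3 : x * (x ^ j * m * (x ^ j)⁻¹) * x⁻¹ = x ^ (j + 1) * m * (x ^ (j + 1))⁻¹ := by
        rw [pow_succ']
        group
      rwa [h3] at h2
  rw [Subgroup.mem_normalizer_iff]
  intro m
  refine ⟨fun hm => h m hm, fun hm => ?_⟩
  have h2 := h1 (k - 1) _ hm
  have h3 : x ^ (k - 1) = x⁻¹ := by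
    rw [eq_inv_iff_mul_eq_one, ← pow_succ, Nat.sub_add_cancel hk]
    exact hx
  rw [h3] at h2
  have h4 : x⁻¹ * (x * m * x⁻¹) * x⁻¹⁻¹ = m := by group
  rwa [h4] at h2

variable {F K V : Type*} [Field F] [Field K] [Fintype K] [Algebra F K] [AddCommGroup V] [Module F V] [Module K V]
  [IsScalarTower F K V] {Q : QuadraticForm F V} {q : ℕ} {m : ℕ}

namespace HK

/-- `SU` acting on `V` -/
noncomputable def su (φ : V ≃ₗ[K] (Fin m → K)) : SU m K q →* (V ≃ₗ[F] V) where
  toFun g :=
    { toFun := fun v => φ.symm (act g (φ v))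
      invFun := fun v => φ.symm (act g⁻¹ (φ v))
      map_add' := fun v w => by rw [map_add, act_add, map_add]
      map_smul' := fun c v => by
        rw [← algebraMap_smul K c v, map_smul, act_smul, map_smul, RingHom.id_apply, algebraMap_smul]
      left_inv := fun v => by
        change φ.symm (act g⁻¹ (φ (φ.symm (act g (φ v))))) = v
        rw [LinearEquiv.apply_symm_apply, act_inv_act, LinearEquiv.symm_apply_apply]
      right_inv := fun v => by
        change φ.symm (act g (φ (φ.symm (act g⁻¹ (φ v))))) = v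
        rw [LinearEquiv.apply_symm_apply, act_act_inv, LinearEquiv.symm_apply_apply] }
  map_one' := by
    ext v
    change φ.symm (act 1 (φ v)) = v
    rw [act_one, LinearEquiv.symm_apply_apply]
  map_mul' g g' := by
    ext v
    change φ.symm (act (g * g') (φ v)) = φ.symm (act g (φ (φ.symm (act g' (φ v)))))
    rw [act_mul, LinearEquiv.apply_symm_apply]

theorem su_apply (φ : V ≃ₗ[K] (Fin m → K)) (g : SU m K q) (v : V) :
    (su (F := F) φ g) v = φ.symm (act g (φ v)) := rfl

theorem phi_su (φ : V ≃ₗ[K] (Fin m → K)) (g : SU m K q) (v : V) : φ ((su (F := F) φ g) v) = act g (φ v) := by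
  rw [su_apply, LinearEquiv.apply_symm_apply]

theorem su_smul (φ : V ≃ₗ[K] (Fin m → K)) (g : SU m K q) (a : K) (v : V) :
    (su (F := F) φ g) (a • v) = a • (su (F := F) φ g) v := by
  rw [su_apply, su_apply, map_smul, act_smul, map_smul]

theorem su_inj (φ : V ≃ₗ[K] (Fin m → K)) : Function.Injective (su (F := F) (q := q) φ) := by
  intro g g' hg
  apply ext_act
  intro w
  obtain ⟨v, rfl⟩ := φ.surjective w
  rw [← phi_su (F := F), ← phi_su (F := F), hg]

variable (h : HK Q K q)
include h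

theorem su_mem_O {φ : V ≃ₗ[K] (Fin m → K)} (hφ : ∀ v w, h.hm v w = hermForm m K q (φ v) (φ w)) (g : SU m K q) :
    su (F := F) φ g ∈ O Q := by
  intro v
  apply (algebraMap F K).injective
  rw [← h.hm_self, ← h.hm_self, hφ, hφ, phi_su, herm_act]

theorem su_mem_E (hG : Good Q) {φ : V ≃ₗ[K] (Fin m → K)} (hφ : ∀ v w, h.hm v w = hermForm m K q (φ v) (φ w))
    (hperf : commutator (SU m K q) = ⊤) (g : SU m K q) : su (F := F) φ g ∈ E Q := by
  rw [← hG.commutator_eq_E]
  have h1 : g ∈ commutator (SU m K q) := by rw [hperf]; trivial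
  have h2 : su (F := F) φ g ∈ (commutator (SU m K q)).map (su φ) := ⟨g, h1, rfl⟩
  rw [commutator_def, Subgroup.map_commutator] at h2
  have h3 : (⊤ : Subgroup (SU m K q)).map (su (F := F) φ) ≤ O Q := by
    rintro _ ⟨g, -, rfl⟩
    exact h.su_mem_O hφ g
  exact Subgroup.commutator_mono h3 h3 h2

/-- multiplier of a `K`-linear semisimilitude -/
theorem hm_map {M : Equiv.Perm V} {c : F} (hM : IsSS Q (RingEquiv.refl F) c M)
    (hlin : ∀ (a : K) v, M (a • v) = a • M v) (u v : V) : h.hm (M u) (M v) = algebraMap F K c * h.hm u v := by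
  rw [hm_def, hm_def, ← hlin, hM.polar, hM.polar, RingEquiv.refl_apply, RingEquiv.refl_apply, map_mul, map_mul]
  ring

/-- conjugation by a `K`-linear similitude -/
theorem exists_conj [FiniteDimensional K V] {φ : V ≃ₗ[K] (Fin m → K)}
    (hφ : ∀ v w, h.hm v w = hermForm m K q (φ v) (φ w))
    {M : Equiv.Perm V} {c : F} (hM : IsSS Q (RingEquiv.refl F) c M)
    (hlin : ∀ (a : K) v, M (a • v) = a • M v) (s : SU m K q) :
    ∃ s' : SU m K q, ∀ v, M ((su (F := F) φ s) v) = (su (F := F) φ s') (M v) := by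
  let M' : V ≃ₗ[K] V := { M with map_add' := hM.add, map_smul' := hlin }
  let L : (Fin m → K) ≃ₗ[K] (Fin m → K) := (φ.symm.trans M').trans φ
  have hL : ∀ v, L (φ v) = φ (M v) := by
    intro v
    change φ (M (φ.symm (φ v))) = _
    rw [LinearEquiv.symm_apply_apply]
  have hLf : ∀ u v, hermForm m K q (L u) (L v) = algebraMap F K c * hermForm m K q u v := by
    intro u v
    obtain ⟨u, rfl⟩ := φ.surjective u
    obtain ⟨v, rfl⟩ := φ.surjective v
    rw [hL, hL, ← hφ, ← hφ, h.hm_map hM hlin]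
  have hc : algebraMap F K c ≠ 0 := (map_ne_zero _).2 hM.ne
  let A : (Fin m → K) →ₗ[K] (Fin m → K) := Matrix.toLin' (mat s)
  let A' : (Fin m → K) →ₗ[K] (Fin m → K) := (L : _ →ₗ[K] _) ∘ₗ A ∘ₗ (L.symm : _ →ₗ[K] _)
  have hA' : ∀ v, A' v = L (act s (L.symm v)) := fun v => rfl
  have hdet : (LinearMap.toMatrix' A').det = 1 := by
    rw [LinearMap.det_toMatrix', LinearMap.det_conj, LinearMap.det_toLin', det_mat]
  refine ⟨mkSU (LinearMap.toMatrix' A') hdet ?_, ?_⟩
  · intro u v
    have h1 : ∀ u, (LinearMap.toMatrix' A').mulVec u = L (act s (L.symm u)) := by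
      intro u
      rw [LinearMap.toMatrix'_mulVec, hA']
    apply mul_left_cancel₀ hc
    rw [h1, h1, hLf, herm_act, ← hLf, LinearEquiv.apply_symm_apply, LinearEquiv.apply_symm_apply]
  · intro v
    apply φ.injective
    rw [phi_su, ← hL, phi_su]
    change _ = (LinearMap.toMatrix' A').mulVec (φ (M v))
    rw [LinearMap.toMatrix'_mulVec, hA', ← hL, LinearEquiv.symm_apply_apply]

end HK

end Cfsg.Agent.H338.RC
end

-- part: H338/RC/HermC
section
/-!
# S3510, row F, box C (helper338)

* `no_herm` : no cover by elements with linear lifts commuting with a quadratic extension field `K` of `F` which acts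
  by similitudes with multiplier the norm (hermitian structure), `dim_K V ≥ 3`.
-/

set_option autoImplicit false
set_option linter.unusedSectionVars false
open Cfsg

namespace Cfsg.Agent.H338.RC

open QuadraticMap Module MulAction
open Cfsg.Agent.LieClassical.OrthCore Cfsg.Agent.LieClassical.HermBasic Cfsg.Agent.LieClassical.HermSiegel
open Cfsg.Agent.LieClassical.OrthTrans Cfsg.Agent.ClassicalGeometry.OrthSemi Cfsg.Agent.ClassicalGeometry.OrthAut1
open Cfsg.Agent.H106.RC Cfsg.Agent.H93.RC Cfsg.Agent.H138.RC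

section herm

variable {F K V : Type} [Field F] [Finite F] [Field K] [Fintype K] [Algebra F K] [AddCommGroup V] [Module F V] [Module K V]
  [IsScalarTower F K V] {Q : QuadraticForm F V} {q : ℕ}
  {G Ω : Type} [Group G] [MulAction G Ω] {N : Subgroup G} {ρ : ↥(E Q) →* G} {m : ℕ}

namespace HK

/-- the unitary group in `E Q` -/
noncomputable def suE (h : HK Q K q) (hG : Good Q) {φ : V ≃ₗ[K] (Fin m → K)}
    (hφ : ∀ v w, h.hm v w = hermForm m K q (φ v) (φ w)) (hperf : commutator (SU m K q) = ⊤) : SU m K q →* ↥(E Q) :=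
  (su φ).codRestrict (E Q) (h.su_mem_E hG hφ hperf)

variable (h : HK Q K q) (hG : Good Q) {φ : V ≃ₗ[K] (Fin m → K)}
  (hφ : ∀ v w, h.hm v w = hermForm m K q (φ v) (φ w)) (hperf : commutator (SU m K q) = ⊤)

theorem suE_apply (g : SU m K q) (v : V) : (h.suE hG hφ hperf g : V ≃ₗ[F] V) v = (su (F := F) φ g) v := rfl

theorem suE_inj : Function.Injective (h.suE hG hφ hperf) := by
  intro g g' hg
  exact su_inj (F := F) φ (congrArg Subtype.val hg)

/-- the homomorphism `SU → G` -/
noncomputable def mu (ρ : ↥(E Q) →* G) : SU m K q →* G := ρ.comp (h.suE hG hφ hperf)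

theorem mu_ker (hρ : _root_.Cfsg.Agent.H93.RC.Rep Q N ρ) : (h.mu hG hφ hperf ρ).ker ≤ Subgroup.center (SU m K q) := by
  intro s hs
  rw [MonoidHom.mem_ker] at hs
  have h1 : h.suE hG hφ hperf s ∈ Subgroup.center ↥(E Q) := by
    rw [← hρ.ker, MonoidHom.mem_ker]
    exact hs
  rw [Subgroup.mem_center_iff] at h1 ⊢
  intro t
  apply h.suE_inj hG hφ hperf
  rw [map_mul, map_mul, h1]

theorem mu_le (hρ : _root_.Cfsg.Agent.H93.RC.Rep Q N ρ) : (h.mu hG hφ hperf ρ).range ≤ N := by
  rw [← hρ.range]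
  rintro _ ⟨s, rfl⟩
  exact ⟨_, rfl⟩

/-- conjugation in `G` -/
theorem conj_mu [FiniteDimensional K V] {x : G} {M : Gam Q} {c : F} (hl : Lf ρ x M)
    (hM : IsSS Q (RingEquiv.refl F) c M.1) (hlin : ∀ (a : K) v, M.1 (a • v) = a • M.1 v) (s : SU m K q) :
    x * h.mu hG hφ hperf ρ s * x⁻¹ ∈ (h.mu hG hφ hperf ρ).range := by
  obtain ⟨s', hs'⟩ := h.exists_conj hφ hM hlin s
  refine ⟨s', ?_⟩
  change ρ _ = x * ρ _ * x⁻¹
  rw [hl]
  congr 1
  apply Subtype.ext
  rw [coe_conjE]
  ext v
  obtain ⟨v, rfl⟩ := M.1.surjective v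
  rw [conjLin_apply']
  exact (hs' v).symm

/-- a generator of `K` as a similitude -/
theorem exists_T : ∃ T : Gam Q, ∀ v, T.1 v = h.th • v := by
  obtain ⟨c, hc⟩ := h.norm_mem h.th
  have hth : h.th ≠ 0 := by
    intro h0
    apply h.th_ne
    rw [h0, zero_pow h.q_ne]
  refine ⟨⟨(LinearEquiv.smulOfNeZero K V h.th hth).toEquiv, RingEquiv.refl F, c, ⟨?_, ?_, ?_, ?_⟩⟩, fun v => rfl⟩
  · rintro rfl
    rw [map_zero] at hc
    exact mul_ne_zero hth (pow_ne_zero _ hth) hc.symm
  · intro u v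
    exact smul_add _ _ _
  · intro a v
    exact smul_algebra_smul_comm _ _ _
  · intro v
    apply (algebraMap F K).injective
    change algebraMap F K (Q (h.th • v)) = _
    rw [h.form, map_mul, hc]
    rfl

theorem nt (hG : Good Q) : Nontrivial V := by
  have := hG.dim
  exact Module.nontrivial_of_finrank_pos (R := F) (by omega)

theorem mu_ne (hρ : _root_.Cfsg.Agent.H93.RC.Rep Q N ρ) : (h.mu hG hφ hperf ρ).range ≠ N := by
  intro hN
  obtain ⟨T, hT⟩ := h.exists_T
  have h1 : conjE Q T = 1 := by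
    ext t : 1
    rw [MulAut.one_apply]
    have h2 : ρ t ∈ (h.mu hG hφ hperf ρ).range := by
      rw [hN, ← hρ.range]
      exact ⟨t, rfl⟩
    obtain ⟨s, hs⟩ := h2
    change ρ (h.suE hG hφ hperf s) = ρ t at hs
    have h3 : t * (h.suE hG hφ hperf s)⁻¹ ∈ Subgroup.center ↥(E Q) := by
      rw [← hρ.ker, MonoidHom.mem_ker, map_mul, map_inv, hs, mul_inv_cancel]
    obtain ⟨a, ha⟩ := center_scalar hG h3
    have h4 : ∀ v, (t : V ≃ₗ[F] V) v = a • (su (F := F) φ s) v := by
      intro v
      have h5 := ha ((su (F := F) φ s) v)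
      rw [← h5]
      have h6 : (t * (h.suE hG hφ hperf s)⁻¹ : ↥(E Q)) * h.suE hG hφ hperf s = t := by group
      conv_lhs => rw [← h6]
      rfl
    apply Subtype.ext
    rw [coe_conjE]
    ext v
    obtain ⟨v, rfl⟩ := T.1.surjective v
    rw [conjLin_apply', hT, hT, h4, h4, su_smul, smul_algebra_smul_comm]
  obtain ⟨a, -, ha⟩ := exists_scalar_of_conjE hG T h1
  have := nt hG
  obtain ⟨v, hv⟩ := exists_ne (0 : V)
  have h2 := ha v
  rw [hT, ← algebraMap_smul K a, ← sub_eq_zero, ← sub_smul] at h2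
  rcases smul_eq_zero.1 h2 with h3 | h3
  · apply h.th_ne
    rw [sub_eq_zero.1 h3, h.base]
  · exact hv h3

/-! ### transvections -/

theorem sing_th {e : V} (he : Q e = 0) : Q (h.th • e) = 0 := by
  apply (algebraMap F K).injective
  rw [h.form, he, map_zero, mul_zero]

theorem polar_th {e : V} (he : Q e = 0) : polar Q e (h.th • e) = 0 := by
  apply (algebraMap F K).injective
  rw [← h.hm_trace, h.hm_smul_right, h.hm_self, he, map_zero, mul_zero, zero_pow h.q_ne, add_zero]

/-- the unitary transvection with centre `e` -/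
theorem exists_tv {e : V} (he : Q e = 0) : ∃ s : SU m K q,
    (∀ v, (su (F := F) φ s) v = v + ((h.th - h.th ^ q) * h.hm v e) • e) ∧
      h.suE hG hφ hperf s = AutOrth.SemiSim.sg Q e (h.th • e) he (h.polar_th he) := by
  have hs : IsSiegel q (φ e) 0 (h.th - h.th ^ q) := by
    refine ⟨?_, ?_, ?_⟩
    · rw [← hφ, h.hm_self, he, map_zero]
    · rw [herm_zero_left]
    · rw [herm_zero_left, sub_pow_q h.card, pow_q_pow_q h.card]
      ring
  have h1 : ∀ v, (su (F := F) φ (Cfsg.Agent.LieClassical.HermSiegel.siegel h.card (φ e) 0 (h.th - h.th ^ q) hs)) v =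
      v + ((h.th - h.th ^ q) * h.hm v e) • e := by
    intro v
    apply φ.injective
    rw [phi_su, act_siegel, ← hφ, smul_zero, add_zero, herm_zero_right h.card, sub_zero, map_add, map_smul]
  refine ⟨_, h1, ?_⟩
  apply Subtype.ext
  ext v
  rw [suE_apply, h1, AutOrth.SemiSim.sg_apply, h.sing_th he, zero_mul, zero_smul, sub_zero, add_sub_assoc]
  congr 1
  have h2 : algebraMap F K (polar Q e v) = h.hm v e + (h.hm v e) ^ q := by
    rw [QuadraticMap.polar_comm, h.hm_trace]
  have h3 : algebraMap F K (polar Q (h.th • e) v) = h.th * (h.hm v e) ^ q + h.th ^ q * h.hm v e := by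
    rw [← h.hm_trace, h.hm_smul_left, h.hm_symm v e, mul_pow, pow_q_pow_q h.card]
  rw [← algebraMap_smul K (polar Q e v), ← algebraMap_smul K (polar Q (h.th • e) v), h2, h3, smul_smul, ← sub_smul]
  congr 1
  ring

/-- a lift of an element centralising the image of `SU` fixes the `K`-lines of the singular vectors -/
theorem eig_of_cent {x : G} {M : Gam Q} {c : F} (hρ : _root_.Cfsg.Agent.H93.RC.Rep Q N ρ) (hl : Lf ρ x M)
    (hM : IsSS Q (RingEquiv.refl F) c M.1) (hlin : ∀ (a : K) v, M.1 (a • v) = a • M.1 v)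
    (hcen : ∀ y ∈ (h.mu hG hφ hperf ρ).range, x * y = y * x) {e : V} (he : Q e = 0) (he0 : e ≠ 0) :
    ∃ a : K, M.1 e = a • e := by
  obtain ⟨s, hs, -⟩ := h.exists_tv hG hφ hperf he
  have hth : h.th - h.th ^ q ≠ 0 := h.sub_ne
  have h1 := hl (h.suE hG hφ hperf s)
  have h2 := hcen _ ⟨s, rfl⟩
  change x * ρ (h.suE hG hφ hperf s) = ρ (h.suE hG hφ hperf s) * x at h2
  rw [h2, mul_inv_cancel_right] at h1
  have h3 : conjE Q M (h.suE hG hφ hperf s) * (h.suE hG hφ hperf s)⁻¹ ∈ Subgroup.center ↥(E Q) := by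
    rw [← hρ.ker, MonoidHom.mem_ker, map_mul, map_inv, ← h1, mul_inv_cancel]
  obtain ⟨a, ha⟩ := center_scalar hG h3
  have h4 : ∀ v, M.1 ((su (F := F) φ s) v) = a • (su (F := F) φ s) (M.1 v) := by
    intro v
    have h5 := ha ((su (F := F) φ s) (M.1 v))
    rw [← h5]
    have h6 : (conjE Q M (h.suE hG hφ hperf s) * (h.suE hG hφ hperf s)⁻¹ : ↥(E Q)) * h.suE hG hφ hperf s =
      conjE Q M (h.suE hG hφ hperf s) := by group
    have h7 : ((conjE Q M (h.suE hG hφ hperf s) : ↥(E Q)) : V ≃ₗ[F] V) (M.1 v) = M.1 ((su (F := F) φ s) v) := by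
      rw [coe_conjE, conjLin_apply']
      rfl
    rw [← h7]
    conv_lhs => rw [← h6]
    rfl
  have hMe0 : M.1 e ≠ 0 := by
    intro h0
    rw [← hM.map_zero] at h0
    exact he0 (M.1.injective h0)
  have hee : h.hm e e = 0 := by rw [h.hm_self, he, map_zero]
  have hse : (su (F := F) φ s) e = e := by rw [hs, hee, mul_zero, zero_smul, add_zero]
  -- `a = 1`
  have ha1 : a = 1 := by
    have h5 := h4 e
    rw [hse, hs] at h5
    by_cases h6 : h.hm (M.1 e) e = 0
    · rw [h6, mul_zero, zero_smul, add_zero] at h5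
      have h7 : ((1 : F) - a) • M.1 e = 0 := by rw [sub_smul, one_smul, ← h5, sub_self]
      rcases smul_eq_zero.1 h7 with h8 | h8
      · exact (sub_eq_zero.1 h8).symm
      · exact (hMe0 h8).elim
    · exfalso
      have ha0 : a ≠ 0 := by
        rintro rfl
        rw [zero_smul] at h5
        exact hMe0 h5
      -- take the form with `e`
      have h7 : h.hm (M.1 e) e = h.hm (a • (M.1 e + ((h.th - h.th ^ q) * h.hm (M.1 e) e) • e)) e :=
        congrArg (fun w => h.hm w e) h5
      rw [h.hm_base_left, h.hm_add_left, h.hm_smul_left, hee, mul_zero, add_zero] at h7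
      have h8 : algebraMap F K a = 1 := by
        have : algebraMap F K a * h.hm (M.1 e) e = 1 * h.hm (M.1 e) e := by rw [one_mul, ← h7]
        exact mul_right_cancel₀ h6 this
      have h9 : a = 1 := (algebraMap F K).injective (by rw [h8, map_one])
      rw [h9, one_smul] at h5
      have h10 : ((h.th - h.th ^ q) * h.hm (M.1 e) e) • e = 0 := (left_eq_add).1 h5
      rcases smul_eq_zero.1 h10 with h11 | h11
      · exact (mul_ne_zero hth h6) h11
      · exact he0 h11
  -- a vector with `h(v,e) = 1`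
  obtain ⟨w, hw⟩ : ∃ w, h.hm w e ≠ 0 := by
    by_contra hcon
    push Not at hcon
    apply he0
    apply h.nondeg
    intro w
    apply (algebraMap F K).injective
    rw [QuadraticMap.polar_comm, ← h.hm_trace, hcon, zero_pow h.q_ne, add_zero, map_zero]
  have h5 := h4 w
  have hadd : M.1 (w + ((h.th - h.th ^ q) * h.hm w e) • e) = M.1 w + ((h.th - h.th ^ q) * h.hm w e) • M.1 e := by
    rw [hM.add, hlin]
  rw [ha1, one_smul, hs, hs, hadd, add_right_inj] at h5
  refine ⟨((h.th - h.th ^ q) * h.hm w e)⁻¹ * ((h.th - h.th ^ q) * h.hm (M.1 w) e), ?_⟩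
  rw [mul_smul, ← h5, inv_smul_smul₀ (mul_ne_zero hth hw)]

end HK

/-- a semisimilitude commuting with `K` is linear -/
theorem isSS_of_lin [Nontrivial V] {M : Gam Q} (hlin : ∀ (a : K) v, M.1 (a • v) = a • M.1 v) :
    ∃ c : F, IsSS Q (RingEquiv.refl F) c M.1 := by
  obtain ⟨σ, c, hM⟩ := M.2
  refine ⟨c, hM.ne, hM.add, fun a v => ?_, fun v => ?_⟩
  · rw [RingEquiv.refl_apply, ← algebraMap_smul K a v, hlin, algebraMap_smul]
  · obtain ⟨w, hw⟩ := exists_ne (0 : V)
    have hw' : M.1 w ≠ 0 := by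
      intro h0
      rw [← hM.map_zero] at h0
      exact hw (M.1.injective h0)
    have hσ : ∀ a : F, σ a = a := by
      intro a
      have h1 := hM.smul a w
      rw [← algebraMap_smul K a w, hlin, algebraMap_smul, ← sub_eq_zero, ← sub_smul] at h1
      rcases smul_eq_zero.1 h1 with h2 | h2
      · exact (sub_eq_zero.1 h2).symm
      · exact (hw' h2).elim
    rw [hM.form, hσ]
    rfl

/-- **box C** (`K` given) -/
theorem no_herm [FiniteDimensional F V] [Finite G] [Nonempty Ω] (h : HK Q K q) (hG : Good Q) (hE : Env G Ω N)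
    (hρ : _root_.Cfsg.Agent.H93.RC.Rep Q N ρ) {p : ℕ} [CharP F p] (hLR : LR Q Ω ρ p) {ι : Type} [Finite ι] {x : ι → G} {M : ι → Gam Q}
    {r : ι → ℕ} (hx : PF x r) (hcov : Cov Ω x) (hl : ∀ i, Lf ρ (x i) (M i)) (hm3 : 3 ≤ finrank K V)
    (h32 : ¬ (finrank K V = 3 ∧ q = 2)) (hlin : ∀ i (a : K) v, (M i).1 (a • v) = a • (M i).1 v)
    (hIH : IH (Nat.card N)) : False := by
  classical
  have := HK.nt hG
  have hKV : FiniteDimensional K V := Module.finite_of_finrank_pos (by omega)
  have hpp : p.Prime := CharP.char_is_prime F p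
  have : Fact p.Prime := ⟨hpp⟩
  have : CharP K p := charP_of_injective_algebraMap (algebraMap F K).injective p
  obtain ⟨φ, hφ⟩ := h.exists_phi
  have hperf : commutator (SU (finrank K V) K q) = ⊤ :=
    Cfsg.Agent.LieClassical.HermPerfect.commutator_SU_eq_top h.card hm3 h32
  have hS : IsSimpleGroup (PSU (finrank K V) K q) :=
    Cfsg.Agent.LieClassical.HermSimple.isSimpleGroup_of_perfect h.card hm3 hperf
  have hSn : ¬ IsMulCommutative (PSU (finrank K V) K q) :=
    not_comm_of_perf' hperf (QuotientGroup.mk' _) (QuotientGroup.mk'_surjective _) hS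
  set μ := h.mu hG hφ hperf ρ with hμ
  obtain ⟨hMp, π, hπ, hπk⟩ := exists_pi_gen hperf μ (h.mu_ker hG hφ hperf hρ)
  have hss := fun i => isSS_of_lin (K := K) (hlin i)
  have hnorm : ∀ i, x i ∈ Subgroup.normalizer (μ.range : Set G) := by
    intro i
    obtain ⟨c, hc⟩ := hss i
    refine mem_norm_pow' (hx.prime i).pos (hx.pow i) ?_
    rintro _ ⟨s, rfl⟩
    exact h.conj_mu hG hφ hperf (hl i) hc (hlin i) s
  have hRC : RC (PSU (finrank K V) K q) := by
    refine hIH.use (S := N) (MulEquiv.refl N) (h.mu_le hG hφ hperf hρ) (h.mu_ne hG hφ hperf hρ) π hπ hS hSn ?_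
      (psu_not_exc h.card hm3 h32)
    right; right; left
    exact ⟨K, inferInstance, inferInstance, finrank K V, q, h.card, hm3, h32, ⟨MulEquiv.refl _⟩⟩
  have hrule : ∀ ω : Ω, μ.range ≤ stabilizer G ω ∨ ∃ j, (∀ m ∈ μ.range, x j * m = m * x j) ∧ x j • ω = ω :=
    fun ω => mrule_RC hS hSn x r hx.prime hx.inj hx.pow hx.comm μ.range hMp π hπ hπk hnorm hRC ω fun m _ => hcov _
  -- the members centralising `M` are `p'`-elements
  have hrp : ∀ j, (∀ m ∈ μ.range, x j * m = m * x j) → r j ≠ p := by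
    intro j hj hrj
    obtain ⟨c, hc⟩ := hss j
    obtain ⟨a₀, ha₀, hpow⟩ := (hl j).pow_scal hG hρ (hx.pow j)
    obtain ⟨b, hb⟩ : ∃ b : F, b ^ p = a₀ := by
      have h1 : Function.Surjective (frobenius F p) := Finite.injective_iff_surjective.1 (frobenius_inj F p)
      exact h1 a₀
    have hsing : ∀ e : V, Q e = 0 → (M j).1 e = b • e := by
      intro e he
      by_cases he0 : e = 0
      · rw [he0, smul_zero, hc.map_zero]
      obtain ⟨a, ha⟩ := h.eig_of_cent hG hφ hperf hρ (hl j) hc (hlin j) hj he he0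
      have hk : ∀ k : ℕ, ((M j) ^ k).1 e = a ^ k • e := by
        intro k
        induction k with
        | zero => rw [pow_zero, pow_zero, one_smul]; rfl
        | succ k ih =>
          rw [pow_succ']
          change (M j).1 (((M j) ^ k).1 e) = _
          rw [ih, hlin, ha, smul_smul, pow_succ]
      have h1 := hpow e
      rw [hk, hrj, ← algebraMap_smul K a₀ e, ← sub_eq_zero, ← sub_smul] at h1
      have h2 : a ^ p = algebraMap F K b ^ p := by
        rcases smul_eq_zero.1 h1 with h3 | h3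
        · rw [← map_pow, hb]
          exact sub_eq_zero.1 h3
        · exact (he0 h3).elim
      have h3 : a = algebraMap F K b := frobenius_inj K p h2
      rw [ha, h3, algebraMap_smul]
    have hall : ∀ v : V, (M j).1 v = b • v := by
      obtain ⟨e, f, hef⟩ := hG.exists_hyp
      exact sing_induction hef (fun a c ha hc' => by rw [hc.add, ha, hc', smul_add]) hsing
    have hb0 : b ≠ 0 := by
      rintro rfl
      rw [zero_pow hpp.ne_zero] at hb
      exact ha₀ hb.symm
    exact hx.ne j (((hl j).eq_one_iff hG hE hρ).2 ⟨b, hb0, hall⟩)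
  -- the long root element
  obtain ⟨e, he0, he⟩ := hG.sing
  obtain ⟨s, -, hs⟩ := h.exists_tv hG hφ hperf he
  refine hLR {j : ι // ∀ m ∈ μ.range, x j * m = m * x j} (y := fun j => x j.1) (L := fun j => M j.1)
    (s := fun j => r j.1) (fun j => hl j.1) (fun j => hx.prime j.1) (fun j => hrp j.1 j.2) (fun j => hx.pow j.1)
    (fun j => hx.ne j.1) (fun i j => hx.comm i.1 j.1) he (h.sing_th he) (h.polar_th he) he0 ?_ ?_ ?_
  · intro a ha
    rw [← algebraMap_smul K a e, ← sub_eq_zero, ← sub_smul] at ha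
    rcases smul_eq_zero.1 ha with h1 | h1
    · apply h.th_ne
      rw [sub_eq_zero.1 h1, h.base]
    · exact he0 h1
  · rintro ⟨j, hj⟩ v hv
    obtain ⟨c, hc⟩ := hss j
    obtain ⟨a, ha⟩ := h.eig_of_cent hG hφ hperf hρ (hl j) hc (hlin j) hj he he0
    have hKe : ∀ b : K, b • e ∈ Submodule.span F {e, h.th • e} := by
      intro b
      obtain ⟨c, d, rfl⟩ := h.decomp b
      rw [add_smul, mul_smul, algebraMap_smul, algebraMap_smul]
      exact Submodule.add_mem _ (Submodule.smul_mem _ _ (Submodule.subset_span (by simp)))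
        (Submodule.smul_mem _ _ (Submodule.subset_span (by simp)))
    obtain ⟨c1, c2, rfl⟩ := Submodule.mem_span_pair.1 hv
    have h2 : c1 • e + c2 • h.th • e = (algebraMap F K c1 + algebraMap F K c2 * h.th) • e := by
      rw [add_smul, mul_smul, algebraMap_smul, algebraMap_smul]
    change (M j).1 _ ∈ _
    rw [h2, hlin, ha, smul_smul]
    exact hKe _
  · intro ω
    rcases hrule ω with h1 | ⟨j, hj, h1⟩
    · left
      have h2 : ρ (AutOrth.SemiSim.sg Q e (h.th • e) he (h.polar_th he)) ∈ μ.range := by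
        rw [← hs]
        exact ⟨s, rfl⟩
      exact h1 h2
    · exact Or.inr ⟨⟨j, hj⟩, h1⟩

end herm

end Cfsg.Agent.H338.RC
end

-- part: H338/RC/QuadK
section
/-!
# The field generated by an endomorphism with an irreducible quadratic equation (helper338)
-/

set_option autoImplicit false

namespace Cfsg.Agent.H338.RC

open Module Polynomial

/-- the field `F[κ]` -/
theorem exists_quadK {F V : Type} [Field F] [Finite F] [AddCommGroup V] [Module F V] (κ : V →ₗ[F] V) (s t : F)
    (hκ : ∀ v, κ (κ v) = s • κ v - t • v) (hirr : ∀ a : F, a * a - s * a + t ≠ 0) :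
    ∃ (K : Type) (_ : Field K) (_ : Fintype K) (_ : Algebra F K) (_ : Module K V) (_ : IsScalarTower F K V) (α : K),
      Fintype.card K = Nat.card F ^ 2 ∧ (∀ v : V, α • v = κ v) ∧ α * α = algebraMap F K s * α - algebraMap F K t ∧
      ∀ a : K, ∃ c d : F, a = algebraMap F K c + algebraMap F K d * α := by
  classical
  let f : F[X] := X ^ 2 - C s * X + C t
  have hfm : f.Monic := by
    change (X ^ 2 - C s * X + C t).Monic
    monicity!
  have hfd : f.natDegree = 2 := by
    change (X ^ 2 - C s * X + C t).natDegree = 2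
    compute_degree!
  have hfi : Irreducible f := by
    rw [hfm.irreducible_iff_roots_eq_zero_of_degree_le_three (by rw [hfd]) (by rw [hfd]; norm_num)]
    rw [Multiset.eq_zero_iff_forall_notMem]
    intro a ha
    have h1 : f.IsRoot a := (mem_roots hfm.ne_zero).1 ha
    apply hirr a
    have h2 : f.eval a = 0 := h1
    simp only [f, eval_add, eval_sub, eval_pow, eval_X, eval_mul, eval_C] at h2
    linear_combination h2
  have : Fact (Irreducible f) := ⟨hfi⟩
  let pb := AdjoinRoot.powerBasis hfi.ne_zero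
  have hdim : pb.dim = 2 := by
    rw [AdjoinRoot.powerBasis_dim, hfd]
  have hfin : Module.Finite F (AdjoinRoot f) := pb.finite
  have hfinite : Finite (AdjoinRoot f) := Module.finite_of_finite F
  let ft : Fintype (AdjoinRoot f) := Fintype.ofFinite _
  have hfr : finrank F (AdjoinRoot f) = 2 := by rw [pb.finrank, hdim]
  -- the action
  have hker : ∀ a ∈ Ideal.span {f}, (aeval κ : F[X] →ₐ[F] Module.End F V).toRingHom a = 0 := by
    intro a ha
    obtain ⟨b, rfl⟩ := Ideal.mem_span_singleton'.1 ha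
    change aeval κ (b * f) = 0
    rw [map_mul]
    have h1 : aeval κ f = (0 : Module.End F V) := by
      refine LinearMap.ext fun v => ?_
      simp only [f, map_add, map_sub, map_mul, aeval_X, aeval_C, LinearMap.add_apply, LinearMap.sub_apply,
        Module.End.mul_apply, Module.algebraMap_end_apply, pow_two, hκ, LinearMap.zero_apply]
      abel
    rw [h1, mul_zero]
  let ψ : AdjoinRoot f →+* Module.End F V := Ideal.Quotient.lift (Ideal.span {f})
    (aeval κ : F[X] →ₐ[F] Module.End F V).toRingHom hker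
  have hψ : ∀ g : F[X], ψ (AdjoinRoot.mk f g) = aeval κ g := fun g => rfl
  let md : Module (AdjoinRoot f) V := Module.compHom V ψ
  have hsm : ∀ (a : AdjoinRoot f) (v : V), a • v = ψ a v := fun a v => rfl
  have hof : ∀ (c : F) (v : V), (algebraMap F (AdjoinRoot f) c) • v = c • v := by
    intro c v
    rw [hsm]
    have h1 : algebraMap F (AdjoinRoot f) c = AdjoinRoot.mk f (C c) := rfl
    rw [h1, hψ, aeval_C, Module.algebraMap_end_apply]
  have htower : IsScalarTower F (AdjoinRoot f) V := by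
    constructor
    intro c a v
    rw [Algebra.smul_def, mul_smul, hof]
  refine ⟨AdjoinRoot f, inferInstance, ft, inferInstance, md, htower, AdjoinRoot.root f, ?_, ?_, ?_, ?_⟩
  · rw [← Nat.card_eq_fintype_card, Module.natCard_eq_pow_finrank (K := F), hfr]
  · intro v
    rw [hsm]
    have h1 : AdjoinRoot.root f = AdjoinRoot.mk f X := rfl
    rw [h1, hψ, aeval_X]
  · have h1 : AdjoinRoot.mk f f = 0 := AdjoinRoot.mk_self
    have h2 : AdjoinRoot.mk f f = AdjoinRoot.root f * AdjoinRoot.root f -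
        algebraMap F (AdjoinRoot f) s * AdjoinRoot.root f + algebraMap F (AdjoinRoot f) t := by
      conv_lhs => arg 2; change X ^ 2 - C s * X + C t
      rw [map_add, map_sub, map_mul, map_pow, AdjoinRoot.mk_X, pow_two]
      rfl
    rw [h2] at h1
    linear_combination h1
  · intro a
    induction a using AdjoinRoot.induction_on with
    | ih g =>
      have h1 : AdjoinRoot.mk f g = AdjoinRoot.mk f (g %ₘ f) := by
        rw [AdjoinRoot.mk_eq_mk]
        have := modByMonic_add_div g f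
        exact ⟨g /ₘ f, by linear_combination -this⟩
      have h2 : (g %ₘ f).natDegree < 2 := by
        rw [← hfd]
        exact natDegree_modByMonic_lt g hfm (by
          intro h0
          rw [h0, natDegree_one] at hfd
          omega)
      refine ⟨(g %ₘ f).coeff 0, (g %ₘ f).coeff 1, ?_⟩
      rw [h1]
      conv_lhs => rw [eq_X_add_C_of_natDegree_le_one (by omega : (g %ₘ f).natDegree ≤ 1)]
      rw [map_add, map_mul, AdjoinRoot.mk_X, add_comm]
      rfl

end Cfsg.Agent.H338.RC
end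

-- part: H338/RC/BoxC
section
/-!
# S3510, row F, box C (helper338), final form
-/

set_option autoImplicit false
open Cfsg

namespace Cfsg.Agent.H338.RC

open QuadraticMap Module MulAction
open Cfsg.Agent.LieClassical.OrthCore Cfsg.Agent.LieClassical.HermBasic
open Cfsg.Agent.LieClassical.OrthTrans Cfsg.Agent.ClassicalGeometry.OrthSemi Cfsg.Agent.ClassicalGeometry.OrthAut1
open Cfsg.Agent.H106.RC Cfsg.Agent.H93.RC Cfsg.Agent.H138.RC

section alg

variable {F V : Type} [Field F] [Finite F] [AddCommGroup V] [Module F V] {Q : QuadraticForm F V}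

/-- the form `polar Q v (κ v)` -/
theorem polar_kappa {κ : V →ₗ[F] V} {s t : F} (hκ : ∀ v, κ (κ v) = s • κ v - t • v)
    (hirr : ∀ a : F, a * a - s * a + t ≠ 0) (hQκ : ∀ v, Q (κ v) = t * Q v) (v : V) :
    polar Q v (κ v) = s * Q v := by
  have ht : t ≠ 0 := by
    rintro rfl
    exact hirr 0 (by ring)
  have hp : ∀ u v, polar Q (κ u) (κ v) = t * polar Q u v := by
    intro u v
    rw [polar, polar, ← map_add, hQκ, hQκ, hQκ]
    ring
  -- the adjoint
  have hadj : ∀ u v, polar Q (κ u) v = s * polar Q u v - polar Q u (κ v) := by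
    intro u v
    have h1 : κ (s • v - κ v) = t • v := by
      rw [map_sub, map_smul, hκ]
      abel
    have h2 := hp u (s • v - κ v)
    rw [h1, polar_smul_right, polar_sub_right, polar_smul_right, smul_eq_mul, smul_eq_mul] at h2
    exact mul_left_cancel₀ ht h2
  by_cases h2 : (2 : F) = 0
  · let D : V → F := fun v => polar Q v (κ v) - s * Q v
    have hadd : ∀ u v, D (u + v) = D u + D v := by
      intro u v
      change polar Q (u + v) (κ (u + v)) - s * Q (u + v) = (polar Q u (κ u) - s * Q u) + (polar Q v (κ v) - s * Q v)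
      rw [map_add, polar_add_left, polar_add_right, polar_add_right, Q_add]
      have h3 := hadj u v
      rw [polar_comm] at h3
      linear_combination h3
    have hneg : ∀ v, D (-v) = D v := by
      intro v
      change polar Q (-v) (κ (-v)) - s * Q (-v) = polar Q v (κ v) - s * Q v
      rw [map_neg, polar_neg_left, polar_neg_right, QuadraticMap.map_neg, neg_neg]
    have hsm : ∀ (c : F) v, D (c • v) = c * c * D v := by
      intro c v
      change polar Q (c • v) (κ (c • v)) - s * Q (c • v) = c * c * (polar Q v (κ v) - s * Q v)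
      rw [map_smul, polar_smul_left, polar_smul_right, QuadraticMap.map_smul, smul_eq_mul, smul_eq_mul, smul_eq_mul]
      ring
    have hDκ : ∀ v, D (κ v) = t * D v := by
      intro v
      change polar Q (κ v) (κ (κ v)) - s * Q (κ v) = t * (polar Q v (κ v) - s * Q v)
      rw [hp, hQκ]
      ring
    have h3 : D (κ (κ v)) = t * (t * D v) := by rw [hDκ, hDκ]
    rw [hκ, sub_eq_add_neg, hadd, hneg, hsm, hsm, hDκ] at h3
    have h4 : s * s * (t * D v) = 0 := by linear_combination h3
    have hs : s ≠ 0 := by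
      rintro rfl
      have h5 : Function.Injective (fun a : F => a * a) := by
        intro a b hab
        have h6 : (a - b) * (a - b) = 0 := by
          have hab' : a * a = b * b := hab
          linear_combination hab' - a * b * h2 + b * b * h2
        exact sub_eq_zero.1 (mul_self_eq_zero.1 h6)
      obtain ⟨a, ha⟩ := Finite.injective_iff_surjective.1 h5 t
      have ha' : a * a = t := ha
      apply hirr a
      linear_combination ha' + t * h2
    have h5 : D v = 0 := by
      rcases mul_eq_zero.1 h4 with h6 | h6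
      · exact (mul_ne_zero hs hs h6).elim
      · exact (mul_eq_zero.1 h6).resolve_left ht
    exact sub_eq_zero.1 h5
  · have h3 := hadj v v
    rw [polar_comm Q (κ v) v, polar_self' v] at h3
    have h4 : 2 * (polar Q v (κ v) - s * Q v) = 0 := by linear_combination h3
    exact sub_eq_zero.1 ((mul_eq_zero.1 h4).resolve_left h2)

end alg

/-- the hypotheses `HK` for `F[κ]` -/
theorem exists_HK {F V : Type} [Field F] [Finite F] [AddCommGroup V] [Module F V] {Q : QuadraticForm F V}
    (hQ : Nondeg Q) (κ : V →ₗ[F] V) (s t : F) (hκ : ∀ v, κ (κ v) = s • κ v - t • v)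
    (hirr : ∀ a : F, a * a - s * a + t ≠ 0) (hQκ : ∀ v, Q (κ v) = t * Q v) :
    ∃ (K : Type) (_ : Field K) (_ : Fintype K) (_ : Algebra F K) (_ : Module K V) (_ : IsScalarTower F K V) (α : K),
      HK Q K (Nat.card F) ∧ (∀ v : V, α • v = κ v) ∧ finrank F K = 2 ∧
      ∀ a : K, ∃ c d : F, a = algebraMap F K c + algebraMap F K d * α := by
  obtain ⟨K, _, _, _, _, _, α, hcard, hα, hαα, hdec⟩ := exists_quadK κ s t hκ hirr
  have : Fintype F := Fintype.ofFinite F
  have hbase : ∀ c : F, (algebraMap F K c) ^ Nat.card F = algebraMap F K c := by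
    intro c
    rw [← map_pow, Nat.card_eq_fintype_card, FiniteField.pow_card]
  have hfr : finrank F K = 2 := by
    have h1 := Module.natCard_eq_pow_finrank (K := F) (V := K)
    rw [Nat.card_eq_fintype_card, hcard] at h1
    exact (Nat.pow_right_injective (Finite.one_lt_card : 2 ≤ Nat.card F) h1).symm
  have hfix : ∀ a : K, a ^ Nat.card F = a → ∃ c : F, algebraMap F K c = a := by
    have h1 := card_fixed hcard
    let g : F → {x : K // x ^ Nat.card F = x} := fun c => ⟨algebraMap F K c, hbase c⟩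
    have hg : Function.Injective g := fun c d hcd => (algebraMap F K).injective (congrArg Subtype.val hcd)
    have hg' : Function.Bijective g := hg.bijective_of_nat_card_le h1.le
    intro a ha
    obtain ⟨c, hc⟩ := hg'.2 ⟨a, ha⟩
    exact ⟨c, congrArg Subtype.val hc⟩
  have hαq : α ^ Nat.card F = algebraMap F K s - α := by
    have h1 : α ^ Nat.card F * α ^ Nat.card F = algebraMap F K s * α ^ Nat.card F - algebraMap F K t := by
      have h2 : (α * α) ^ Nat.card F = (algebraMap F K s * α - algebraMap F K t) ^ Nat.card F :=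
        congrArg (fun a => a ^ Nat.card F) hαα
      rw [mul_pow, sub_pow_q hcard, mul_pow, hbase, hbase] at h2
      exact h2
    have h2 : (α ^ Nat.card F - α) * (α ^ Nat.card F - (algebraMap F K s - α)) = 0 := by
      linear_combination h1 - hαα
    rcases mul_eq_zero.1 h2 with h3 | h3
    · exfalso
      obtain ⟨c, hc⟩ := hfix α (sub_eq_zero.1 h3)
      apply hirr c
      apply (algebraMap F K).injective
      rw [map_add, map_sub, map_mul, map_mul, hc, map_zero, hαα]
      ring
    · exact sub_eq_zero.1 h3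
  refine ⟨K, inferInstance, inferInstance, inferInstance, inferInstance, inferInstance, α,
    ⟨hcard, hfix, hbase, ?_, hQ⟩, hα, hfr, hdec⟩
  intro a v
  obtain ⟨c, d, rfl⟩ := hdec a
  have h1 : (algebraMap F K c + algebraMap F K d * α) • v = c • v + d • κ v := by
    rw [add_smul, mul_smul, algebraMap_smul, algebraMap_smul, hα]
  rw [h1, add_pow_q hcard, mul_pow, hbase, hbase, hαq, Q_add, QuadraticMap.map_smul, QuadraticMap.map_smul,
    polar_smul_left, polar_smul_right, polar_kappa hκ hirr hQκ, hQκ]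
  simp only [smul_eq_mul, map_add, map_mul]
  linear_combination ((algebraMap F K (Q v)) * (algebraMap F K d) * (algebraMap F K d)) * hαα

variable {F V : Type} [Field F] [Finite F] [AddCommGroup V] [Module F V] [FiniteDimensional F V]
  {Q : QuadraticForm F V} {G Ω : Type} [Group G] [MulAction G Ω] [Finite G] [Nonempty Ω] {N : Subgroup G}
  {ρ : ↥(E Q) →* G}

/-- **box C** : `κ` generates a field with `q ^ 2` elements, `Q (κ v) = t Q v`, all lifts are linear and commute
with `κ`. -/
theorem box_C (hG : Good Q) (hE : Env G Ω N) (hρ : _root_.Cfsg.Agent.H93.RC.Rep Q N ρ) {p : ℕ} [CharP F p] (hLR : LR Q Ω ρ p) {ι : Type}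
    [Finite ι] {x : ι → G} {M : ι → Gam Q} {r : ι → ℕ} (hx : PF x r) (hcov : Cov Ω x) (hl : ∀ i, Lf ρ (x i) (M i))
    (hlin : ∀ i, IsLin (M i)) (hIH : IH (Nat.card N)) (h6 : 6 ≤ finrank F V)
    (h62 : ¬ (finrank F V = 6 ∧ Nat.card F = 2)) (κ : V →ₗ[F] V) (s t : F)
    (hκ : ∀ v, κ (κ v) = s • κ v - t • v) (hirr : ∀ a : F, a * a - s * a + t ≠ 0) (hQκ : ∀ v, Q (κ v) = t * Q v)
    (hcomm : ∀ i v, (M i).1 (κ v) = κ ((M i).1 v)) : False := by
  obtain ⟨K, _, _, _, _, _, α, hK, hα, hfr, hdec⟩ := exists_HK hG.nondeg κ s t hκ hirr hQκ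
  have h1 : finrank F K * finrank K V = finrank F V := Module.finrank_mul_finrank F K V
  rw [hfr] at h1
  refine no_herm hK hG hE hρ hLR hx hcov hl (by omega) (fun h => h62 ⟨by omega, h.2⟩) ?_ hIH
  intro i a v
  obtain ⟨c, d, rfl⟩ := hdec a
  obtain ⟨σ, c', hM⟩ := (M i).2
  rw [add_smul, mul_smul, algebraMap_smul, algebraMap_smul, hα, hM.add, hlin i, hlin i, hcomm, add_smul, mul_smul,
    algebraMap_smul, algebraMap_smul, hα]

/-- **box C**, statement of the stub file (with `box_LR` as a hypothesis) -/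
theorem box_C_of (hG : Good Q) (hE : Env G Ω N) (hρ : _root_.Cfsg.Agent.H93.RC.Rep Q N ρ) (hIH : IH (Nat.card (P Q)))
    {p : ℕ} [CharP F p] (hLR : LR Q Ω ρ p) {ι : Type} [Finite ι] {x : ι → G} {M : ι → Gam Q} {r : ι → ℕ}
    (hl : ∀ i, Lf ρ (x i) (M i)) (hlin : ∀ i, IsLin (M i)) (hx : PF x r) (hcov : Cov Ω x)
    (h8 : 8 ≤ Module.finrank F V) (κ : V →ₗ[F] V) (s t : F)
    (hκ : ∀ v, κ (κ v) = s • κ v - t • v) (hirr : ∀ a : F, a * a - s * a + t ≠ 0)
    (hQκ : ∀ v, Q (κ v) = t * Q v) (hcom : ∀ i v, (M i).1 (κ v) = κ ((M i).1 v)) : False := by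
  have h1 : Nonempty (P Q ≃* N) := by
    rw [← hρ.range]
    exact ⟨(QuotientGroup.quotientMulEquivOfEq hρ.ker.symm).trans (QuotientGroup.quotientKerEquivRange ρ)⟩
  obtain ⟨e⟩ := h1
  rw [Nat.card_congr e.toEquiv] at hIH
  exact box_C hG hE hρ hLR hx hcov hl hlin hIH (by omega) (fun h => by omega) κ s t hκ hirr hQκ hcom

end Cfsg.Agent.H338.RC
end

private theorem dce_d0348b0c9c1a : _root_.True := by
  try have : _root_.True := by simp only [_root_.Cfsg.Agent.H338.RC.HK.suE.congr_simp]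
  try have : _root_.True := by simp only [_root_.Cfsg.Agent.H338.RC.HK.th.congr_simp]
  try have : _root_.True := by simp only [_root_.Cfsg.Agent.H338.RC.HK.hm.congr_simp]
  exact _root_.True.intro
end

-- part: H385/RC/Ev
section
set_option linter.all false
open scoped Cfsg.Agent.FastGrp

/-!
# S3510, symplectic groups in characteristic two: the environment (helper385)

* `Ev B N` : `G` acts faithfully on `V` by semilinear isometries of the alternating form `B`, `N` is the subgroup of the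
  linear ones, and every isometry occurs.
* `ysr e f` (`B e f = 0`) : the short root element `v ↦ v + B v e • f + B v f • e`
* `tr e c` : the transvection `v ↦ v + (c * B v e) • e`
* `SimpCl H` : simple, classical, not exceptional.
-/

set_option autoImplicit false
set_option linter.unusedSimpArgs false
set_option linter.unusedVariables false

namespace Cfsg.Agent.H385.RC

open Cfsg Cfsg.Agent.H106.RC Module

/-- environment: `G` acts faithfully on `V` by semilinear isometries of `B`, `N` = the linear ones, every isometry occurs -/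
structure Ev {F V G : Type*} [Field F] [AddCommGroup V] [Module F V] [Group G] [DistribMulAction G V]
    (B : LinearMap.BilinForm F V) (N : Subgroup G) : Prop where
  alt : B.IsAlt
  nd : ∀ u, (∀ v, B u v = 0) → u = 0
  two : (2 : F) = 0
  inj : ∀ g : G, (∀ v : V, g • v = v) → g = 1
  semi : ∀ g : G, ∃ σ : F ≃+* F, (∀ (a : F) (v : V), g • a • v = σ a • g • v) ∧ ∀ u v, B (g • u) (g • v) = σ (B u v)
  mem : ∀ g : G, g ∈ N ↔ ∀ (a : F) (v : V), g • a • v = a • g • v
  surj : ∀ A : V ≃ₗ[F] V, (∀ u v, B (A u) (A v) = B u v) → ∃ g : G, ∀ v : V, g • v = A v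

/-- simple classical groups which are not exceptional -/
structure SimpCl (H : Type*) [Group H] : Prop where
  simple : IsSimpleGroup H
  ncomm : ¬ IsMulCommutative H
  cl : Cl H
  nexc : ¬ Exc H

section basic

variable {F V G : Type*} [Field F] [AddCommGroup V] [Module F V] [Group G] [DistribMulAction G V]
  {B : LinearMap.BilinForm F V} {N : Subgroup G}

theorem Ev.self (h : Ev B N) (u : V) : B u u = 0 := h.alt u

theorem Ev.add_self (h : Ev B N) (a : F) : a + a = 0 := by
  have := h.two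
  linear_combination a * this

theorem Ev.vadd_self (h : Ev B N) (v : V) : v + v = 0 := by
  rw [← two_smul F v, h.two, zero_smul]

theorem Ev.neg (h : Ev B N) (a : F) : -a = a := by
  rw [neg_eq_iff_add_eq_zero]; exact h.add_self a

theorem Ev.vneg (h : Ev B N) (v : V) : -v = v := by
  rw [neg_eq_iff_add_eq_zero]; exact h.vadd_self v

theorem Ev.symm (h : Ev B N) (u v : V) : B u v = B v u := by
  rw [← h.alt.neg_eq v u, h.neg]

theorem Ev.ext (h : Ev B N) {g g' : G} (hg : ∀ v : V, g • v = g' • v) : g = g' := by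
  have h1 := h.inj (g'⁻¹ * g) fun v => by rw [mul_smul, hg, inv_smul_smul]
  exact (inv_mul_eq_one.1 h1).symm

theorem Ev.lin (h : Ev B N) {g : G} (hg : g ∈ N) (a : F) (v : V) : g • a • v = a • g • v := (h.mem g).1 hg a v

/-- linear elements are isometries -/
theorem Ev.isom (h : Ev B N) {g : G} (hg : g ∈ N) (u v : V) : B (g • u) (g • v) = B u v := by
  obtain ⟨σ, h1, h2⟩ := h.semi g
  by_cases hV : ∀ w : V, w = 0
  · rw [hV (g • u), hV u]; simp
  · push Not at hV
    obtain ⟨w, hw⟩ := hV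
    have hσ : ∀ a, σ a = a := by
      intro a
      have h3 := h1 a w
      rw [h.lin hg] at h3
      have h4 : g • w ≠ 0 := by
        intro h5
        apply hw
        exact (smul_eq_zero_iff_eq g).1 h5
      have h6 : (a - σ a) • g • w = 0 := by rw [sub_smul, h3, sub_self]
      rcases smul_eq_zero.1 h6 with h7 | h7
      · exact (sub_eq_zero.1 h7).symm
      · exact absurd h7 h4
    rw [h2, hσ]

/-- the linear equivalence attached to a linear element -/
def Ev.le (h : Ev B N) {g : G} (hg : g ∈ N) : V ≃ₗ[F] V :=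
  { DistribMulAction.toAddEquiv V g with
    map_smul' := fun a v => h.lin hg a v }

/-- every isometry comes from an element of `N` -/
theorem Ev.surjN (h : Ev B N) (A : V ≃ₗ[F] V) (hA : ∀ u v, B (A u) (A v) = B u v) : ∃ g ∈ N, ∀ v, g • v = A v := by
  obtain ⟨g, hg⟩ := h.surj A hA
  refine ⟨g, (h.mem g).2 fun a v => ?_, hg⟩
  rw [hg, hg, map_smul]

/-- the linear map `v ↦ v + B v e • f + B v f • e` -/
def srMap (B : LinearMap.BilinForm F V) (e f : V) : V →ₗ[F] V :=
  LinearMap.id + (B.flip e).smulRight f + (B.flip f).smulRight e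

theorem srMap_apply (e f v : V) : srMap B e f v = v + B v e • f + B v f • e := rfl

/-- the linear map `v ↦ v + (c * B v e) • e` -/
def trMap (B : LinearMap.BilinForm F V) (e : V) (c : F) : V →ₗ[F] V :=
  LinearMap.id + (c • B.flip e).smulRight e

theorem trMap_apply (e v : V) (c : F) : trMap B e c v = v + (c * B v e) • e := rfl

theorem Ev.srMap_invol (h : Ev B N) {e f : V} (hef : B e f = 0) : Function.Involutive (srMap B e f) := by
  intro v
  have hfe : B f e = 0 := by rw [h.symm, hef]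
  simp only [srMap_apply, map_add, map_smul, LinearMap.add_apply, LinearMap.smul_apply, h.self, hef, hfe, smul_zero,
    add_zero, smul_eq_mul, mul_zero, zero_smul]
  have h1 := h.vadd_self (B v e • f)
  have h2 := h.vadd_self (B v f • e)
  calc v + B v e • f + B v f • e + B v e • f + B v f • e
      = v + (B v e • f + B v e • f) + (B v f • e + B v f • e) := by abel
    _ = v := by rw [h1, h2, add_zero, add_zero]

theorem Ev.trMap_invol (h : Ev B N) (e : V) (c : F) : Function.Involutive (trMap B e c) := by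
  intro v
  simp only [trMap_apply, map_add, map_smul, LinearMap.add_apply, LinearMap.smul_apply, h.self, smul_zero, add_zero,
    smul_eq_mul, mul_zero, zero_smul]
  rw [add_assoc, h.vadd_self, add_zero]

theorem Ev.exists_sr (h : Ev B N) {e f : V} (hef : B e f = 0) : ∃ g ∈ N, ∀ v, g • v = v + B v e • f + B v f • e := by
  obtain ⟨g, hg, hgv⟩ := h.surjN (LinearEquiv.ofInvolutive (srMap B e f) (h.srMap_invol hef)) (by
    intro u v
    have hfe : B f e = 0 := by rw [h.symm, hef]
    change B (srMap B e f u) (srMap B e f v) = B u v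
    simp only [srMap_apply, map_add, map_smul, LinearMap.add_apply, LinearMap.smul_apply, h.self, smul_eq_mul, hef, hfe]
    rw [h.symm e v, h.symm f v]
    linear_combination (B u e * B v f + B u f * B v e) * h.two)
  exact ⟨g, hg, fun v => by rw [hgv]; rfl⟩

/-- short root element -/
noncomputable def Ev.sr (h : Ev B N) {e f : V} (hef : B e f = 0) : G := (h.exists_sr hef).choose

theorem Ev.sr_mem (h : Ev B N) {e f : V} (hef : B e f = 0) : h.sr hef ∈ N := (h.exists_sr hef).choose_spec.1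

theorem Ev.sr_apply (h : Ev B N) {e f : V} (hef : B e f = 0) (v : V) :
    h.sr hef • v = v + B v e • f + B v f • e := (h.exists_sr hef).choose_spec.2 v

theorem Ev.exists_tr (h : Ev B N) (e : V) (c : F) : ∃ g ∈ N, ∀ v, g • v = v + (c * B v e) • e := by
  obtain ⟨g, hg, hgv⟩ := h.surjN (LinearEquiv.ofInvolutive (trMap B e c) (h.trMap_invol e c)) (by
    intro u v
    change B (trMap B e c u) (trMap B e c v) = B u v
    simp only [trMap_apply, map_add, map_smul, LinearMap.add_apply, LinearMap.smul_apply, h.self, smul_eq_mul]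
    rw [h.symm e v]
    linear_combination (c * B u e * B v e) * h.two)
  exact ⟨g, hg, fun v => by rw [hgv]; rfl⟩

/-- transvection -/
noncomputable def Ev.tr (h : Ev B N) (e : V) (c : F) : G := (h.exists_tr e c).choose

theorem Ev.tr_mem (h : Ev B N) (e : V) (c : F) : h.tr e c ∈ N := (h.exists_tr e c).choose_spec.1

theorem Ev.tr_apply (h : Ev B N) (e : V) (c : F) (v : V) : h.tr e c • v = v + (c * B v e) • e :=
  (h.exists_tr e c).choose_spec.2 v

theorem Ev.sr_sq (h : Ev B N) {e f : V} (hef : B e f = 0) : h.sr hef * h.sr hef = 1 := by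
  apply h.ext
  intro v
  rw [mul_smul, one_smul, h.sr_apply, h.sr_apply]
  exact h.srMap_invol hef v

theorem Ev.sr_inv (h : Ev B N) {e f : V} (hef : B e f = 0) : (h.sr hef)⁻¹ = h.sr hef :=
  inv_eq_of_mul_eq_one_left (h.sr_sq hef)

theorem Ev.tr_sq (h : Ev B N) (e : V) (c : F) : h.tr e c * h.tr e c = 1 := by
  apply h.ext
  intro v
  rw [mul_smul, one_smul, h.tr_apply, h.tr_apply]
  exact h.trMap_invol e c v

theorem Ev.tr_inv (h : Ev B N) (e : V) (c : F) : (h.tr e c)⁻¹ = h.tr e c :=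
  inv_eq_of_mul_eq_one_left (h.tr_sq e c)

/-- the form and semilinear isometries -/
theorem Ev.form_zero (h : Ev B N) (g : G) {u v : V} (huv : B u v = 0) : B (g • u) (g • v) = 0 := by
  obtain ⟨σ, -, h2⟩ := h.semi g
  rw [h2, huv, map_zero]

theorem Ev.form_inv (h : Ev B N) {g : G} {σ : F ≃+* F} (h2 : ∀ u v, B (g • u) (g • v) = σ (B u v)) (u v : V) :
    σ (B (g⁻¹ • u) v) = B u (g • v) := by
  rw [← h2, smul_inv_smul]

theorem Ev.conj_sr (h : Ev B N) (g : G) {e f : V} (hef : B e f = 0) :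
    g * h.sr hef * g⁻¹ = h.sr (h.form_zero g hef) := by
  obtain ⟨σ, h1, h2⟩ := h.semi g
  apply h.ext
  intro v
  rw [mul_smul, mul_smul, h.sr_apply, h.sr_apply, smul_add, smul_add, h1, h1, smul_inv_smul,
    h.form_inv h2, h.form_inv h2]

theorem Ev.conj_tr (h : Ev B N) {g : G} {σ : F ≃+* F} (h1 : ∀ (a : F) (v : V), g • a • v = σ a • g • v)
    (h2 : ∀ u v, B (g • u) (g • v) = σ (B u v)) (e : V) (c : F) :
    g * h.tr e c * g⁻¹ = h.tr (g • e) (σ c) := by
  apply h.ext
  intro v
  rw [mul_smul, mul_smul, h.tr_apply, h.tr_apply, smul_add, h1, smul_inv_smul, map_mul, h.form_inv h2]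

end basic

end Cfsg.Agent.H385.RC
end

-- part: H547/RC/M2U
section
prune_inst 0x10003104642210000000008003201c62c2000520000804000c03080605896c200d80286083a001014800080500310060011400900240000004200000011900800000100231400000000090000000000000000000000000000000000000000004000000000
set_option linter.all false
open scoped Cfsg.Agent.FastGrp

/-!
# S3510, `Sp₄(q)`, `q ≥ 4` even: covers containing an involution of the linear group (helper547)
-/

set_option autoImplicit false
set_option linter.unusedVariables false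

namespace Cfsg.Agent.H547.RC

open Cfsg Cfsg.Agent.H106.RC Cfsg.Agent.H385.RC Cfsg.Agent.H380.RC Module

section abs

/-- a commutator `[U, x]` is contained in `[U, y]` -/
theorem common {G : Type*} [Group G] {U : Subgroup G} [Finite U] (hab : ∀ u ∈ U, ∀ v ∈ U, u * v = v * u) {x y : G} {r : ℕ}
    (hx : x ^ r = 1) (hr : r.Coprime (Nat.card U)) (hxy : x * y = y * x) (hUx : ∀ u ∈ U, x * u * x⁻¹ ∈ U)
    (hUy : ∀ u ∈ U, y * u * y⁻¹ ∈ U) (hC : ∀ u ∈ U, u * y = y * u → u * x = x * u) {u0 : G} (hu0 : u0 ∈ U) :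
    u0 * x * u0⁻¹ * x⁻¹ ∈ cmm U y := by
  classical
  have key : ∀ (z : G), (∀ u ∈ U, z * u * z⁻¹ ∈ U) → ∀ u ∈ U, u * z * u⁻¹ * z⁻¹ ∈ U := by
    intro z hz u hu
    have h1 : u * z * u⁻¹ * z⁻¹ = u * (z * u⁻¹ * z⁻¹) := by group
    rw [h1]
    exact U.mul_mem hu (hz _ (U.inv_mem hu))
  have hmul : ∀ (z : G), (∀ u ∈ U, z * u * z⁻¹ ∈ U) → ∀ u ∈ U, ∀ v ∈ U,
      (u * v) * z * (u * v)⁻¹ * z⁻¹ = (u * z * u⁻¹ * z⁻¹) * (v * z * v⁻¹ * z⁻¹) := by
    intro z hz u hu v hv
    have h1 : (u * v) * z * (u * v)⁻¹ * z⁻¹ = u * (v * z * v⁻¹ * z⁻¹) * (z * u⁻¹ * z⁻¹) := by group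
    have h2 : (u * z * u⁻¹ * z⁻¹) * (v * z * v⁻¹ * z⁻¹) = u * ((z * u⁻¹ * z⁻¹) * (v * z * v⁻¹ * z⁻¹)) := by group
    rw [h1, h2, mul_assoc, hab _ (key z hz v hv) _ (hz _ (U.inv_mem hu))]
  let φ : U →* U :=
    { toFun := fun u => ⟨u * x * (u : G)⁻¹ * x⁻¹, key x hUx u u.2⟩
      map_one' := Subtype.ext (by simp)
      map_mul' := fun u v => Subtype.ext (hmul x hUx u u.2 v v.2) }
  let ψ : U →* U :=
    { toFun := fun u => ⟨u * y * (u : G)⁻¹ * y⁻¹, key y hUy u u.2⟩
      map_one' := Subtype.ext (by simp)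
      map_mul' := fun u v => Subtype.ext (hmul y hUy u u.2 v v.2) }
  have hφψ : ∀ u : U, ψ (φ u) = φ (ψ u) := by
    intro u
    apply Subtype.ext
    show (u * x * (u : G)⁻¹ * x⁻¹) * y * (u * x * (u : G)⁻¹ * x⁻¹)⁻¹ * y⁻¹ =
      (u * y * (u : G)⁻¹ * y⁻¹) * x * (u * y * (u : G)⁻¹ * y⁻¹)⁻¹ * x⁻¹
    have hu : (u : G) ∈ U := u.2
    have e1 : (u * x * (u : G)⁻¹ * x⁻¹) * y * (u * x * (u : G)⁻¹ * x⁻¹)⁻¹ * y⁻¹ =
      u * (x * (u : G)⁻¹ * x⁻¹) * ((y * x) * u * (y * x)⁻¹ * (y * (u : G)⁻¹ * y⁻¹)) := by group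
    have e2 : (u * y * (u : G)⁻¹ * y⁻¹) * x * (u * y * (u : G)⁻¹ * y⁻¹)⁻¹ * x⁻¹ =
      u * (y * (u : G)⁻¹ * y⁻¹) * ((x * y) * u * (x * y)⁻¹ * (x * (u : G)⁻¹ * x⁻¹)) := by group
    rw [e1, e2, hxy]
    have m1 : x * (u : G)⁻¹ * x⁻¹ ∈ U := hUx _ (U.inv_mem hu)
    have m2 : y * (u : G)⁻¹ * y⁻¹ ∈ U := hUy _ (U.inv_mem hu)
    have m3 : (y * x) * u * (y * x)⁻¹ ∈ U := by
      have : (y * x) * u * (y * x)⁻¹ = y * (x * u * x⁻¹) * y⁻¹ := by group
      rw [this]; exact hUy _ (hUx _ hu)
    generalize x * (u : G)⁻¹ * x⁻¹ = a at m1 ⊢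
    generalize y * (u : G)⁻¹ * y⁻¹ = b at m2 ⊢
    generalize (y * x) * u * (y * x)⁻¹ = c at m3 ⊢
    rw [hab _ m3 _ m2, hab _ m3 _ m1, mul_assoc, mul_assoc, ← mul_assoc a, ← mul_assoc b, hab _ m1 _ m2]
  -- `ψ` is injective on the range of `φ`
  have hpow : ∀ (u : U), x * ((φ u : U) : G) * x⁻¹ = φ u → ∀ k : ℕ, x ^ k * u * (x ^ k)⁻¹ = ((φ u : U) : G)⁻¹ ^ k * u := by
    intro u hw k
    have hφu : ((φ u : U) : G) = u * x * (u : G)⁻¹ * x⁻¹ := rfl
    have h1 : x * u * x⁻¹ = ((φ u : U) : G)⁻¹ * u := by rw [hφu]; group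
    have h2 : x * ((φ u : U) : G)⁻¹ * x⁻¹ = ((φ u : U) : G)⁻¹ := by
      have : x * ((φ u : U) : G)⁻¹ * x⁻¹ = (x * ((φ u : U) : G) * x⁻¹)⁻¹ := by group
      rw [this, hw]
    induction k with
    | zero => simp
    | succ k ih =>
      have h3 : x ^ (k + 1) * u * (x ^ (k + 1))⁻¹ = x * (x ^ k * u * (x ^ k)⁻¹) * x⁻¹ := by
        rw [pow_succ']; group
      have h4 : x * (((φ u : U) : G)⁻¹ ^ k * u) * x⁻¹ = (x * ((φ u : U) : G)⁻¹ * x⁻¹) ^ k * (x * u * x⁻¹) := by
        rw [conj_pow]; group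
      rw [h3, ih, h4, h2, h1, pow_succ, mul_assoc]
  have hinj : ∀ u : U, ψ (φ u) = 1 → φ u = 1 := by
    intro u hu
    have h1 : ((φ u : U) : G) * y * ((φ u : U) : G)⁻¹ * y⁻¹ = 1 := congrArg Subtype.val hu
    have h2 : ((φ u : U) : G) * y = y * ((φ u : U) : G) := by
      rw [mul_inv_eq_one, mul_inv_eq_iff_eq_mul] at h1
      exact h1
    have h3 := hC _ (φ u).2 h2
    have h4 : x * ((φ u : U) : G) * x⁻¹ = φ u := by rw [← h3, mul_inv_cancel_right]
    have h5 := hpow u h4 r
    rw [hx, one_mul, inv_one, mul_one] at h5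
    have h6 : ((φ u : U) : G)⁻¹ ^ r = 1 := (mul_eq_right.1 h5.symm)
    rw [inv_pow, inv_eq_one] at h6
    have h7 : (φ u) ^ r = 1 := Subtype.ext h6
    have h8 : orderOf (φ u) = 1 := by
      have h9 := orderOf_dvd_of_pow_eq_one h7
      have h10 : orderOf (φ u) ∣ Nat.card U := orderOf_dvd_natCard _
      exact Nat.eq_one_of_dvd_coprimes hr h9 h10
    exact orderOf_eq_one_iff.1 h8
  let ρ : φ.range → φ.range := fun w => ⟨ψ w, by
    obtain ⟨_, ⟨u, rfl⟩⟩ := w
    exact ⟨ψ u, (hφψ u).symm⟩⟩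
  have hρ : Function.Injective ρ := by
    rintro ⟨_, ⟨u, rfl⟩⟩ ⟨_, ⟨v, rfl⟩⟩ huv
    have h1 : ψ (φ u) = ψ (φ v) := congrArg Subtype.val huv
    apply Subtype.ext
    show φ u = φ v
    have h2 : ψ (φ (u * v⁻¹)) = 1 := by rw [map_mul, map_mul, map_inv, map_inv, h1, mul_inv_cancel]
    have h3 := hinj _ h2
    rw [map_mul, map_inv, mul_inv_eq_one] at h3
    exact h3
  obtain ⟨⟨w, hw⟩, hww⟩ := (Finite.injective_iff_surjective.1 hρ) ⟨φ ⟨u0, hu0⟩, ⟨_, rfl⟩⟩
  have h1 : ψ w = φ ⟨u0, hu0⟩ := congrArg Subtype.val hww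
  have h2 : (w : G) * y * (w : G)⁻¹ * y⁻¹ = u0 * x * u0⁻¹ * x⁻¹ := congrArg Subtype.val h1
  rw [← h2]
  exact mem_cmm w.2

/-- groups of exponent two -/
theorem coprime_of_sq {G : Type*} [Group G] {U : Subgroup G} [Finite U] (h : ∀ u ∈ U, u * u = 1) {r : ℕ} (hr : r.Prime)
    (h2 : r ≠ 2) : r.Coprime (Nat.card U) := by
  rw [hr.coprime_iff_not_dvd]
  intro hd
  have := Fact.mk hr
  obtain ⟨u, hu⟩ := exists_prime_orderOf_dvd_card' (G := U) r hd
  have h1 : u ^ 2 = 1 := by rw [pow_two]; exact Subtype.ext (h u u.2)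
  have h3 := orderOf_dvd_of_pow_eq_one h1
  rw [hu] at h3
  exact h2 ((Nat.prime_dvd_prime_iff_eq hr Nat.prime_two).1 h3)

variable {G Ω ι : Type*} [Group G] [MulAction G Ω] {N : Subgroup G}

/-- **The combined rule**: `U` of exponent two contains the involution `x i0` and is normalised by the other members of the
cover; `t ∈ [U, x j0]` -/
theorem two_rule [Finite ι] [Nonempty Ω] (hE : Env G Ω N) {x : ι → G} {r : ι → ℕ} (hx : PF x r) (hcov : Cov Ω x) {i0 : ι}
    (hi : r i0 = 2) {U : Subgroup G} [Finite U] (hU2 : ∀ u ∈ U, u * u = 1) (hxU : x i0 ∈ U)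
    (hU : ∀ i, ∀ u ∈ U, x i * u * (x i)⁻¹ ∈ U)
    (hC : ∀ i j, i ≠ i0 → j ≠ i0 → ∀ u ∈ U, u * x i = x i * u → u * x j = x j * u) {j0 : ι} (hj0 : j0 ≠ i0) {u0 : G}
    (hu0 : u0 ∈ U) (hfin : x i0 ∈ cmm (N ⊓ Subgroup.centralizer {x i0}) (u0 * x j0 * u0⁻¹ * (x j0)⁻¹)) : False := by
  have hab : ∀ u ∈ U, ∀ v ∈ U, u * v = v * u := by
    intro u hu v hv
    have h1 := hU2 _ (U.mul_mem hu hv)
    have h2 := hU2 _ hu
    have h3 := hU2 _ hv
    calc u * v = u * (v * ((u * v) * (u * v))) * (v * v)⁻¹ * (u * u)⁻¹ * ((u * u) * (v * v)) := by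
          rw [h1, h2, h3]; simp
      _ = v * u := by
          rw [h1, h2, h3]
          have h4 : u⁻¹ = u := inv_eq_of_mul_eq_one_left h2
          have h5 : v⁻¹ = v := inv_eq_of_mul_eq_one_left h3
          have h6 : (u * v)⁻¹ = u * v := inv_eq_of_mul_eq_one_left h1
          rw [mul_inv_rev, h4, h5] at h6
          simp [h6]
  have hodd : ∀ j, j ≠ i0 → r j ≠ 2 := fun j hj h => hj (hx.inj (h.trans hi.symm))
  refine not_cov_one hE (x := u0 * x j0 * u0⁻¹ * (x j0)⁻¹) (y := x i0) (U := N ⊓ Subgroup.centralizer {x i0})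
    (fun ω => ?_) (fun u hu => (Subgroup.mem_centralizer_singleton_iff.1 hu.2)) (hx.ne i0) hfin
  by_cases hω : x i0 • ω = ω
  · exact Or.inl hω
  right
  have h1 : ∃ j : {j // j ≠ i0}, ∀ u ∈ U, x j.1 • u • ω = u • ω := by
    refine cover_loc (x := fun j : {j // j ≠ i0} => x j.1) (r := fun j => r j.1) (fun j => hx.prime _)
      (fun j => hx.pow _) (fun i j => hx.comm _ _) (fun u hu => ?_) (fun j u hu => hU _ u hu)
      (Or.inl ⟨hab, fun i j h1 _ => absurd (coprime_of_sq hU2 (hx.prime i.1) (hodd _ i.2)) h1⟩)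
    obtain ⟨j, hj⟩ := hcov (u • ω)
    refine ⟨⟨j, fun h => hω ?_⟩, hj⟩
    subst h
    rw [← mul_smul, hab _ hxU _ hu, mul_smul] at hj
    exact MulAction.injective u hj
  obtain ⟨⟨j, hj⟩, hjU⟩ := h1
  exact comm_le hjU (common hab (hx.pow j0) (coprime_of_sq hU2 (hx.prime _) (hodd _ hj0)) (hx.comm j0 j) (hU _) (hU _)
    (fun u hu h2 => hC j j0 hj hj0 u hu h2) hu0)

end abs

section geo

variable {F V G : Type*} [Field F] [AddCommGroup V] [Module F V] [Group G] [DistribMulAction G V]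
  {B : LinearMap.BilinForm F V} {N : Subgroup G}

/-- adjointness for involutions -/
theorem adj (h : Ev B N) {g : G} (hg : g ∈ N) (h2 : g * g = 1) (v w : V) : B (g • v + v) w = B v (g • w + w) := by
  have h3 : B (g • v) w = B v (g • w) := by
    rw [← h.isom hg (g • v) w, ← mul_smul, h2, one_smul]
  rw [map_add, LinearMap.add_apply, map_add, h3]

theorem fix_inter (h : Ev B N) {x : G} {r : ℕ} (hx : x ^ r = 1) (hr : r % 2 = 1) {y z : V} (hz : z = x • y + y)
    (hxz : x • z = z) : z = 0 := by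
  have h1 : x • y = y + z := by
    rw [hz, add_comm (x • y) y, ← add_assoc, h.vadd_self, zero_add]
  have h2 : ∀ k : ℕ, x ^ k • y = y + k • z := by
    intro k
    induction k with
    | zero => simp
    | succ k ih =>
      rw [pow_succ', mul_smul, ih, smul_add, h1, smul_comm, hxz, succ_nsmul, add_assoc, add_comm z]
  have h3 := h2 r
  rw [hx, one_smul] at h3
  have h4 : r • z = 0 := by
    have : y + 0 = y + r • z := by rw [add_zero]; exact h3
    exact (add_left_cancel this).symm
  obtain ⟨m, hm⟩ : ∃ m, r = 2 * m + 1 := ⟨r / 2, by omega⟩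
  rw [hm, succ_nsmul, mul_comm, mul_smul, two_nsmul, h.vadd_self, smul_zero, zero_add] at h4
  exact h4

/-- `v ↦ g v + v` -/
def nu (h : Ev B N) {g : G} (hg : g ∈ N) : V →ₗ[F] V := (h.le hg).toLinearMap + LinearMap.id

theorem nu_apply (h : Ev B N) {g : G} (hg : g ∈ N) (v : V) : nu h hg v = g • v + v := rfl

theorem mem_ker_nu (h : Ev B N) {g : G} (hg : g ∈ N) {v : V} : v ∈ LinearMap.ker (nu h hg) ↔ g • v = v := by
  rw [LinearMap.mem_ker, nu_apply]
  constructor
  · intro h1
    have h2 := eq_neg_of_add_eq_zero_left h1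
    rwa [h.vneg] at h2
  · intro h1
    rw [h1, h.vadd_self]

theorem orth (h : Ev B N) {x : G} (hx : x ∈ N) {c : V} (hc : x • c = c) (y : V) : B c (x • y + y) = 0 := by
  rw [map_add, ← h.isom hx c y, hc, h.add_self]

/-- decomposition for elements of odd order -/
theorem nondeg_CD [FiniteDimensional F V] (h : Ev B N) {x : G} (hx : x ∈ N) {r : ℕ} (hxr : x ^ r = 1) (hr : r % 2 = 1)
    {z : V} (h1 : ∀ c : V, x • c = c → B z c = 0) (h2 : ∀ y : V, B z (x • y + y) = 0) : z = 0 := by
  have hd : Disjoint (LinearMap.range (nu h hx)) (LinearMap.ker (nu h hx)) := by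
    rw [Submodule.disjoint_def]
    rintro w ⟨y, hy⟩ hw
    rw [mem_ker_nu] at hw
    rw [nu_apply] at hy
    exact fix_inter h hxr hr hy.symm hw
  have ht := Submodule.eq_top_of_disjoint _ _ (LinearMap.finrank_range_add_finrank_ker (nu h hx)).ge hd
  apply h.nd
  intro v
  have hv : v ∈ LinearMap.range (nu h hx) ⊔ LinearMap.ker (nu h hx) := by rw [ht]; trivial
  obtain ⟨_, ⟨y, rfl⟩, c, hc, rfl⟩ := Submodule.mem_sup.1 hv
  rw [map_add, nu_apply, h2, h1 c ((mem_ker_nu h hx).1 hc), add_zero]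

theorem range_ne (h : Ev B N) [FiniteDimensional F V] {x : G} (hx : x ∈ N) {r : ℕ} (hxr : x ^ r = 1) (hr : r % 2 = 1)
    (hx1 : x ≠ 1) : 2 ≤ finrank F (LinearMap.range (nu h hx)) := by
  by_contra hcon
  have h1 : finrank F (LinearMap.range (nu h hx)) = 0 ∨ finrank F (LinearMap.range (nu h hx)) = 1 := by omega
  rcases h1 with h1 | h1
  · rw [Submodule.finrank_eq_zero] at h1
    apply hx1
    apply h.inj
    intro v
    have h2 : nu h hx v ∈ LinearMap.range (nu h hx) := ⟨v, rfl⟩
    rw [h1, Submodule.mem_bot] at h2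
    exact (mem_ker_nu h hx).1 (LinearMap.mem_ker.2 h2)
  · obtain ⟨⟨d, hd⟩, hd0, hd1⟩ := finrank_eq_one_iff'.1 h1
    apply hd0
    apply Subtype.ext
    show d = 0
    obtain ⟨y, hy⟩ := hd
    refine nondeg_CD h hx hxr hr (fun c hc => ?_) fun y' => ?_
    · rw [h.symm, ← hy, nu_apply]
      exact orth h hx hc y
    · obtain ⟨c, hc⟩ := hd1 ⟨x • y' + y', ⟨y', rfl⟩⟩
      have h2 : c • d = x • y' + y' := congrArg Subtype.val hc
      rw [← h2, map_smul, h.self, smul_zero]

theorem ker_ne (h : Ev B N) [FiniteDimensional F V] {x : G} (hx : x ∈ N) {r : ℕ} (hxr : x ^ r = 1) (hr : r % 2 = 1) :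
    finrank F (LinearMap.ker (nu h hx)) ≠ 1 := by
  intro h1
  obtain ⟨⟨d, hd⟩, hd0, hd1⟩ := finrank_eq_one_iff'.1 h1
  apply hd0
  apply Subtype.ext
  show d = 0
  have hd' := (mem_ker_nu h hx).1 hd
  refine nondeg_CD h hx hxr hr (fun c hc => ?_) fun y' => orth h hx hd' y'
  obtain ⟨a, ha⟩ := hd1 ⟨c, (mem_ker_nu h hx).2 hc⟩
  have h2 : a • d = c := congrArg Subtype.val ha
  rw [← h2, map_smul, h.self, smul_zero]

theorem span_pair {W : Submodule F V} (h2 : finrank F W = 2) {w1 w3 : V} (m1 : w1 ∈ W) (m3 : w3 ∈ W)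
    (hli : ∀ a b : F, a • w1 + b • w3 = 0 → a = 0 ∧ b = 0) {w : V} (hw : w ∈ W) : ∃ a b : F, a • w1 + b • w3 = w := by
  have hli' : LinearIndependent F ![w1, w3] := LinearIndependent.pair_iff.2 hli
  have hfd : FiniteDimensional F W := FiniteDimensional.of_finrank_pos (by rw [h2]; norm_num)
  have h3 : Submodule.span F {w1, w3} = W := by
    have h4 : finrank F (Submodule.span F (Set.range ![w1, w3])) = 2 := by
      rw [finrank_span_eq_card hli', Fintype.card_fin]
    have h5 : Set.range ![w1, w3] = {w1, w3} := by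
      simp [Matrix.range_cons, Matrix.range_empty, Set.pair_comm]
    rw [h5] at h4
    refine Submodule.eq_of_le_of_finrank_eq ?_ (h4.trans h2.symm)
    rw [Submodule.span_le]
    rintro z (rfl | rfl)
    · exact m1
    · exact m3
  rw [← h3, Submodule.mem_span_pair] at hw
  exact hw

/-- planes -/
theorem plane (h : Ev B N) {W : Submodule F V} (h2 : finrank F W = 2) (hnd : ∀ w ∈ W, (∀ w' ∈ W, B w w' = 0) → w = 0)
    {w1 w2 : V} (m1 : w1 ∈ W) (m2 : w2 ∈ W) (h0 : w1 ≠ 0) (h12 : B w1 w2 = 0) : ∃ c : F, w2 = c • w1 := by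
  have h3 : ∃ w3 ∈ W, B w1 w3 ≠ 0 := by
    by_contra hcon
    push Not at hcon
    exact h0 (hnd w1 m1 hcon)
  obtain ⟨w3, m3, h13⟩ := h3
  obtain ⟨a, b, hab⟩ := span_pair h2 m1 m3 (fun a b hab => by
    have h4 := congrArg (B w1) hab
    rw [map_add, map_smul, map_smul, h.self, smul_zero, zero_add, smul_eq_mul, map_zero] at h4
    have hb : b = 0 := (mul_eq_zero.1 h4).resolve_right h13
    rw [hb, zero_smul, add_zero] at hab
    exact ⟨(smul_eq_zero.1 hab).resolve_right h0, hb⟩) m2
  refine ⟨a, ?_⟩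
  rw [← hab, map_add, map_smul, map_smul, h.self, smul_zero, zero_add, smul_eq_mul] at h12
  have hb : b = 0 := (mul_eq_zero.1 h12).resolve_right h13
  rw [← hab, hb, zero_smul, add_zero]

/-- the additive function `B z (g z + z)` vanishes on commutators -/
theorem q_zero (h : Ev B N) {g x : G} (hg : g ∈ N) (h2 : g * g = 1) (hx : x ∈ N) (hgx : g * x = x * g) (y : V) :
    B (x • y + y) (g • (x • y + y) + (x • y + y)) = 0 := by
  have h3 : g • x • y = x • g • y := by rw [← mul_smul, hgx, mul_smul]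
  have h4 : g • (x • y + y) + (x • y + y) = x • (g • y + y) + (g • y + y) := by
    rw [smul_add, h3, smul_add]; abel
  have h5 : B y (x • (g • y + y)) = B (x • y) (g • y + y) := by
    have h6 : x • (g • y + y) = g • (x • y) + x • y := by rw [smul_add, h3]
    rw [h6, ← adj h hg h2, h.symm]
  have h8 : B (x • y) (x • (g • y + y)) = B y (g • y + y) := h.isom hx _ _
  rw [h4]
  generalize g • y + y = m at h5 h8 ⊢
  generalize x • y = z at h5 h8 ⊢
  generalize x • m = n at h5 h8 ⊢
  rw [map_add B, LinearMap.add_apply, map_add, map_add, h8, h5]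
  have h6 := h.add_self (B y m)
  have h7 := h.add_self (B z m)
  linear_combination h6 + h7

/-- the element `(w, c)` of the unipotent radical of the stabiliser of `e` -/
def IsQ (B : LinearMap.BilinForm F V) (e : V) (g : G) (w : V) (c : F) : Prop :=
  ∀ z : V, g • z = z + B z e • w + (B z w + c * B z e) • e

theorem IsQ.mul (h : Ev B N) {e : V} {g g' : G} {w w' : V} {c c' : F} (hg : g ∈ N) (he : B e w = 0) (he' : B e w' = 0)
    (h1 : IsQ B e g w c) (h2 : IsQ B e g' w' c') : IsQ B e (g * g') (w + w') (c + c' + B w' w) := by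
  intro z
  have h3 : g • e = e := by rw [h1, h.self, he]; simp
  have h4 : g • w' = w' + B w' w • e := by rw [h1, h.symm w' e, he']; simp
  rw [mul_smul, h2, smul_add, smul_add, h.lin hg, h.lin hg, h3, h4, h1, map_add]
  module

theorem IsQ.sq (h : Ev B N) {e : V} {g : G} {w : V} {c : F} (hg : g ∈ N) (he : B e w = 0) (h1 : IsQ B e g w c) :
    g * g = 1 := by
  apply h.ext
  intro z
  rw [IsQ.mul h hg he he h1 h1 z, h.self, h.vadd_self, h.add_self, one_smul]
  simp

theorem IsQ.inv (h : Ev B N) {e : V} {g : G} {w : V} {c : F} (hg : g ∈ N) (he : B e w = 0) (h1 : IsQ B e g w c) :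
    g⁻¹ = g := inv_eq_of_mul_eq_one_left (h1.sq h hg he)

theorem IsQ.conj (h : Ev B N) {e : V} {g x : G} {w : V} {c : F} (hx : x ∈ N) (hxe : x • e = e) (h1 : IsQ B e g w c) :
    IsQ B e (x * g * x⁻¹) (x • w) c := by
  intro z
  have h2 : ∀ y : V, B (x⁻¹ • z) y = B z (x • y) := fun y => by rw [← h.isom hx, smul_inv_smul]
  rw [mul_smul, mul_smul, h1, smul_add, smul_add, h.lin hx, h.lin hx, smul_inv_smul, h2, h2, hxe]

/-- the subgroup of all `(w, c)` -/
def QS (h : Ev B N) (e : V) : Subgroup G where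
  carrier := {g | g ∈ N ∧ ∃ w c, B e w = 0 ∧ IsQ B e g w c}
  one_mem' := ⟨N.one_mem, 0, 0, by simp, fun z => by simp⟩
  mul_mem' := by
    rintro g g' ⟨hg, w, c, he, h1⟩ ⟨hg', w', c', he', h1'⟩
    exact ⟨N.mul_mem hg hg', w + w', c + c' + B w' w, by rw [map_add, he, he', add_zero], h1.mul h hg he he' h1'⟩
  inv_mem' := by
    rintro g ⟨hg, w, c, he, h1⟩
    exact ⟨N.inv_mem hg, w, c, he, by rw [h1.inv h hg he]; exact h1⟩

theorem exists_dual (h : Ev B N) {e : V} (he : e ≠ 0) : ∃ w, B e w = 1 := by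
  by_contra hcon
  push Not at hcon
  apply he
  apply h.nd
  intro w
  by_contra hw
  apply hcon ((B e w)⁻¹ • w)
  rw [map_smul, smul_eq_mul, inv_mul_cancel₀ hw]

/-- involutions with one-dimensional commutator space -/
theorem type1 (h : Ev B N) [FiniteDimensional F V] {u : G} (hu : u ∈ N) (h2 : u * u = 1)
    (h1 : finrank F (LinearMap.range (nu h hu)) = 1) : ∃ (e : V) (c : F), e ≠ 0 ∧ c ≠ 0 ∧ IsQ B e u 0 c := by
  obtain ⟨⟨e, he⟩, he0, he1⟩ := finrank_eq_one_iff'.1 h1
  have he0' : e ≠ 0 := fun h3 => he0 (Subtype.ext h3)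
  have h3 : ∀ z : V, ∃ a : F, a • e = u • z + z := fun z => by
    obtain ⟨a, ha⟩ := he1 ⟨u • z + z, ⟨z, rfl⟩⟩
    exact ⟨a, congrArg Subtype.val ha⟩
  choose a ha using h3
  obtain ⟨w, hw⟩ := exists_dual h he0'
  have h5 : ∀ z, a z = a w * B z e := by
    intro z
    have h6 := adj h hu h2 z w
    rw [← ha, ← ha, map_smul, LinearMap.smul_apply, hw, map_smul, smul_eq_mul, smul_eq_mul, mul_one] at h6
    exact h6
  refine ⟨e, a w, he0', ?_, ?_⟩
  · intro h6
    obtain ⟨y, hy⟩ := he
    apply he0'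
    rw [← hy, nu_apply, ← ha, h5, h6, zero_mul, zero_smul]
  · intro z
    have h6 := ha z
    rw [h5] at h6
    rw [map_zero, smul_zero, add_zero, zero_add, h6]
    rw [add_comm (u • z) z, ← add_assoc, h.vadd_self, zero_add]

theorem exists_dual2 (h : Ev B N) {e v : V} (he : e ≠ 0) (hv : ∀ b : F, v ≠ b • e) : ∃ w, B v w = 1 ∧ B e w = 0 := by
  obtain ⟨z, hz⟩ := exists_dual h he
  have h1 : ∃ w, B e w = 0 ∧ B v w ≠ 0 := by
    by_contra hcon
    push Not at hcon
    apply hv (B v z)
    have h2 : v - B v z • e = 0 := by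
      apply h.nd
      intro y
      have h3 := hcon (y - B e y • z) (by rw [map_sub, map_smul, hz, smul_eq_mul, mul_one, sub_self])
      rw [map_sub, map_smul, smul_eq_mul] at h3
      rw [map_sub, LinearMap.sub_apply, map_smul, LinearMap.smul_apply, smul_eq_mul]
      linear_combination h3
    exact sub_eq_zero.1 h2
  obtain ⟨w, h2, h3⟩ := h1
  refine ⟨(B v w)⁻¹ • w, ?_, ?_⟩
  · rw [map_smul, smul_eq_mul, inv_mul_cancel₀ h3]
  · rw [map_smul, h2, smul_zero]

/-- an element commuting with a transvection fixes its centre -/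
theorem fix_centre (h : Ev B N) {u x : G} {e : V} {c : F} (he : e ≠ 0) (hc : c ≠ 0) (h1 : IsQ B e u 0 c) (hx : x ∈ N)
    (hxu : u * x = x * u) : x • e = e := by
  obtain ⟨w, hw⟩ := exists_dual h he
  rw [h.symm] at hw
  have h1' : ∀ z : V, u • z = z + (c * B z e) • e := fun z => by rw [h1 z]; simp only [_root_.smul_zero, _root_.add_zero, _root_.map_zero, _root_.zero_add]
  -- evaluate at `x w`
  have h2 : u • x • w = x • u • w := by rw [← mul_smul, hxu, mul_smul]
  rw [h1' (x • w), h1' w, smul_add, h.lin hx, hw, mul_one] at h2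
  have h3 : (c * B (x • w) e) • e = c • x • e := add_left_cancel h2
  have h4 : x • e = B (x • w) e • e := by
    rw [mul_smul] at h3
    exact (smul_right_injective V hc h3).symm
  have h5 : B (x • w) (x • e) = 1 := by rw [h.isom hx, hw]
  rw [h4, map_smul, smul_eq_mul] at h5
  have h6 : (B (x • w) e + 1) * (B (x • w) e + 1) = 0 := by linear_combination h5 + (1 + B (x • w) e) * h.two
  have h7 : B (x • w) e + 1 = 0 := mul_self_eq_zero.1 h6
  have h8 : B (x • w) e = 1 := by linear_combination h7 - h.two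
  rw [h4, h8, one_smul]

/-- elements of odd order act without fixed points on `e^⊥ / e` -/
theorem fpf1 (h : Ev B N) [FiniteDimensional F V] (h4 : finrank F V = 4) {x : G} (hx : x ∈ N) {r : ℕ} (hxr : x ^ r = 1)
    (hr : r % 2 = 1) (hx1 : x ≠ 1) {e w : V} (he : e ≠ 0) (hxe : x • e = e) (hew : B e w = 0) {a : F}
    (ha : x • w + w = a • e) : ∃ b : F, w = b • e := by
  have h1 : a • e = 0 := fix_inter h hxr hr ha.symm (by rw [h.lin hx, hxe])
  rw [h1] at ha
  have h2 : w ∈ LinearMap.ker (nu h hx) := LinearMap.mem_ker.2 ha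
  have h3 : e ∈ LinearMap.ker (nu h hx) := (mem_ker_nu h hx).2 hxe
  by_contra hcon
  push Not at hcon
  have h5 : finrank F (LinearMap.ker (nu h hx)) = 2 := by
    have h6 := LinearMap.finrank_range_add_finrank_ker (nu h hx)
    have h7 := range_ne h hx hxr hr hx1
    have h8 := ker_ne h hx hxr hr
    have h9 : finrank F (LinearMap.ker (nu h hx)) ≠ 0 := by
      intro h10
      rw [Submodule.finrank_eq_zero] at h10
      rw [h10] at h3
      exact he h3
    omega
  have hli : ∀ a b : F, a • e + b • w = 0 → a = 0 ∧ b = 0 := by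
    intro a b hab
    by_cases hb : b = 0
    · rw [hb, zero_smul, add_zero] at hab
      exact ⟨(smul_eq_zero.1 hab).resolve_right he, hb⟩
    · exfalso
      apply hcon (-(b⁻¹ * a))
      have h6 : w = b⁻¹ • (b • w) := by rw [smul_smul, inv_mul_cancel₀ hb, one_smul]
      have h7 : b • w = -(a • e) := (neg_eq_of_add_eq_zero_right hab).symm
      rw [h6, h7, smul_neg, smul_smul, neg_smul]
  apply he
  refine nondeg_CD h hx hxr hr (fun c hc => ?_) fun y => orth h hx hxe y
  obtain ⟨a, b, hab⟩ := span_pair h5 h3 h2 hli ((mem_ker_nu h hx).2 hc)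
  rw [← hab, map_add, map_smul, map_smul, h.self, hew, smul_zero, smul_zero, add_zero]

theorem exists_perp (h : Ev B N) [FiniteDimensional F V] (h4 : finrank F V = 4) (e : V) :
    ∃ w, B e w = 0 ∧ ∀ b : F, w ≠ b • e := by
  by_contra hcon
  push Not at hcon
  have h1 : LinearMap.ker (B e) ≤ Submodule.span F {e} := by
    intro w hw
    obtain ⟨b, hb⟩ := hcon w (LinearMap.mem_ker.1 hw)
    rw [hb]
    exact Submodule.smul_mem _ _ (Submodule.mem_span_singleton_self e)
  have h2 := Submodule.finrank_mono h1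
  have h3 : finrank F (Submodule.span F {e}) ≤ 1 := (finrank_span_le_card ({e} : Set V)).trans (by simp)
  have h5 := LinearMap.finrank_range_add_finrank_ker (B e)
  have h6 : finrank F (LinearMap.range (B e)) ≤ 1 := (Submodule.finrank_le _).trans (by simp)
  omega

theorem IsQ.eq (h : Ev B N) {e : V} {g g' : G} {w : V} {c : F} (h1 : IsQ B e g w c) (h2 : IsQ B e g' w c) : g = g' :=
  h.ext fun z => by rw [h1, h2]

/-- commutators of a transvection with `(w, c)` -/
theorem IsQ.comm_tr (h : Ev B N) {e : V} {t : G} {w : V} {c : F} (ht : t ∈ N) (he : B e w = 0) (h1 : IsQ B e t w c) {w' : V}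
    (he' : B e w' = 0) (hw : B w w' ≠ 0) : ∃ k ∈ N, (∀ (u : G) (μ : F), IsQ B e u 0 μ → k * u = u * k) ∧
      IsQ B e (k * t * k⁻¹ * t⁻¹) w' (B w w') := by
  have hke : h.tr w' (B w w')⁻¹ • e = e := by rw [h.tr_apply, he', mul_zero, zero_smul, add_zero]
  refine ⟨h.tr w' (B w w')⁻¹, h.tr_mem _ _, ?_, ?_⟩
  · intro u μ hu
    have h2 := hu.conj h (h.tr_mem w' (B w w')⁻¹) hke
    rw [smul_zero] at h2
    have h3 := h2.eq h hu
    rwa [mul_inv_eq_iff_eq_mul] at h3
  · have h2 := h1.conj h (h.tr_mem w' (B w w')⁻¹) hke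
    have h3 : h.tr w' (B w w')⁻¹ • w = w + w' := by
      rw [h.tr_apply, inv_mul_cancel₀ hw, one_smul]
    rw [h3] at h2
    rw [h1.inv h ht he]
    have h4 := h2.mul h (N.mul_mem (N.mul_mem (h.tr_mem _ _) ht) (N.inv_mem (h.tr_mem _ _)))
      (by rw [map_add, he, he', add_zero]) he h1
    have h5 : w + w' + w = w' := by rw [add_right_comm, h.vadd_self, zero_add]
    have h6 : c + c + B w (w + w') = B w w' := by rw [h.add_self, map_add, h.self, zero_add, zero_add]
    rw [h5, h6] at h4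
    exact h4

theorem exists_ne_01 {F : Type*} [Field F] [Finite F] (hq : 2 < Nat.card F) : ∃ θ : F, θ ≠ 0 ∧ θ ≠ 1 := by
  by_contra hcon
  push Not at hcon
  have h1 : (Set.univ : Set F) ⊆ {0, 1} := by
    intro θ _
    by_cases h : θ = 0
    · exact Or.inl h
    · exact Or.inr (hcon θ h)
  have h2 := Set.ncard_le_ncard h1 (Set.toFinite _)
  rw [Set.ncard_univ] at h2
  have h3 : ({0, 1} : Set F).ncard ≤ 2 := Set.ncard_insert_le _ _ |>.trans (by simp)
  omega

theorem one_add_ne (h : Ev B N) {θ : F} (h1 : θ ≠ 1) : 1 + θ ≠ 0 := by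
  intro h2
  apply h1
  linear_combination h2 - h.two

/-- **final step, transvections** -/
theorem fin1 [Finite F] (hq : 2 < Nat.card F) (h : Ev B N) {e : V} (he0 : e ≠ 0) {u : G} {μ : F} (hu : IsQ B e u 0 μ)
    {t : G} {w : V} {c : F} (ht : t ∈ N) (he : B e w = 0) (h1 : IsQ B e t w c) (hw : ∀ b : F, w ≠ b • e) :
    u ∈ cmm (N ⊓ Subgroup.centralizer {u}) t := by
  obtain ⟨θ, hθ0, hθ1⟩ := exists_ne_01 hq
  have hθ2 := one_add_ne h hθ1
  obtain ⟨w', h2, h3⟩ := exists_dual2 h he0 hw
  have key : ∀ y : V, B e y = 0 → B w y ≠ 0 → ∃ g ∈ cmm (N ⊓ Subgroup.centralizer {u}) t, g ∈ N ∧ IsQ B e g y (B w y) := by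
    intro y hy hwy
    obtain ⟨k, hk, hku, hk2⟩ := h1.comm_tr h ht he hy hwy
    exact ⟨_, mem_cmm ⟨hk, Subgroup.mem_centralizer_singleton_iff.2 (hku u μ hu)⟩,
      N.mul_mem (N.mul_mem (N.mul_mem hk ht) (N.inv_mem hk)) (N.inv_mem ht), hk2⟩
  have b2 : B w (μ • w + θ • w') = θ := by
    rw [map_add, map_smul, map_smul, h.self, smul_zero, zero_add, h2, smul_eq_mul, mul_one]
  have b3 : B w (μ • w + (1 + θ) • w') = 1 + θ := by
    rw [map_add, map_smul, map_smul, h.self, smul_zero, zero_add, h2, smul_eq_mul, mul_one]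
  have e2 : ∀ a b : F, B e (a • w + b • w') = 0 := fun a b => by
    rw [map_add, map_smul, map_smul, he, h3, smul_zero, smul_zero, add_zero]
  obtain ⟨g1, c1, n1, q1⟩ := key w' h3 (by rw [h2]; exact one_ne_zero)
  obtain ⟨g2, c2, n2, q2⟩ := key (μ • w + θ • w') (e2 _ _) (by rw [b2]; exact hθ0)
  obtain ⟨g3, c3, n3, q3⟩ := key (μ • w + (1 + θ) • w') (e2 _ _) (by rw [b3]; exact hθ2)
  have m1 := (q1.mul h n1 h3 (e2 _ _) q2).mul h (N.mul_mem n1 n2) (by rw [map_add, h3, e2, add_zero]) (e2 _ _) q3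
  have h4 : w' + (μ • w + θ • w') + (μ • w + (1 + θ) • w') = 0 := by
    have h5 : w' + (μ • w + θ • w') + (μ • w + (1 + θ) • w') = (2 : F) • (μ • w + (1 + θ) • w') := by module
    rw [h5, h.two, zero_smul]
  have h5 : B w w' + B w (μ • w + θ • w') + B (μ • w + θ • w') w' + B w (μ • w + (1 + θ) • w') +
      B (μ • w + (1 + θ) • w') (w' + (μ • w + θ • w')) = μ := by
    rw [b2, b3]
    simp only [map_add, map_smul, LinearMap.add_apply, LinearMap.smul_apply, h.self, h2, h.symm w' w, smul_eq_mul]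
    linear_combination (1 + θ + μ + μ * θ) * h.two
  rw [h4, h5] at m1
  have h6 := (cmm _ _).mul_mem ((cmm _ _).mul_mem c1 c2) c3
  rwa [← hu.eq h m1] at h6

/-- **`u` is a transvection** -/
theorem fals1 {Ω ι : Type*} [Finite F] [FiniteDimensional F V] [Finite G] [MulAction G Ω] [Nonempty Ω] [Finite ι] (h : Ev B N)
    (hE : Env G Ω N) {x : ι → G} {r : ι → ℕ} (hx : PF x r) (hcov : Cov Ω x) (hdim : finrank F V = 4) (hq : 2 < Nat.card F)
    (hlin : ∀ i, x i ∈ N) {i0 : ι} (hi : r i0 = 2) {j0 : ι} (hj0 : j0 ≠ i0) {e : V} {c : F} (he : e ≠ 0) (hc : c ≠ 0)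
    (hu : IsQ B e (x i0) 0 c) : False := by
  have hodd : ∀ j, j ≠ i0 → r j % 2 = 1 := fun j hj =>
    (hx.prime j).eq_two_or_odd.resolve_left fun h3 => hj (hx.inj (h3.trans hi.symm))
  have hfix : ∀ j, x j • e = e := fun j => fix_centre h he hc hu (hlin j) (hx.comm _ _)
  obtain ⟨w, hew, hwe⟩ := exists_perp h hdim e
  have hu0 : IsQ B e (h.sr hew) w 0 := fun z => by rw [h.sr_apply, zero_mul, add_zero]
  have hu0N := h.sr_mem hew
  have hjw : B e (x j0 • w) = 0 := by
    have := h.isom (hlin j0) e w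
    rwa [hfix, hew] at this
  have hu1 := hu0.conj h (hlin j0) (hfix j0)
  have ht := hu0.mul h hu0N hew hjw hu1
  have ht' : h.sr hew * (x j0 * h.sr hew * (x j0)⁻¹) = h.sr hew * x j0 * (h.sr hew)⁻¹ * (x j0)⁻¹ := by
    rw [h.sr_inv]; group
  rw [ht'] at ht
  have hmem : ∀ j, ∀ g ∈ QS h e, x j * g * (x j)⁻¹ ∈ QS h e := by
    rintro j g ⟨hg, w', c', he', h1⟩
    refine ⟨N.mul_mem (N.mul_mem (hlin j) hg) (N.inv_mem (hlin j)), x j • w', c', ?_, h1.conj h (hlin j) (hfix j)⟩
    have := h.isom (hlin j) e w'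
    rwa [hfix, he'] at this
  have hu0Q : h.sr hew ∈ QS h e := ⟨hu0N, w, 0, hew, hu0⟩
  refine two_rule hE hx hcov hi (U := QS h e) ?_ ?_ hmem ?_ hj0 hu0Q ?_
  · rintro g ⟨hg, w', c', he', h1⟩
    exact h1.sq h hg he'
  · exact ⟨hlin i0, 0, c, by rw [map_zero], hu⟩
  · rintro i j hi1 hj1 g ⟨hg, w', c', he', h1⟩ hgi
    have h2 := h1.conj h (hlin i) (hfix i)
    have h3 : x i * g * (x i)⁻¹ = g := by rw [← hgi, mul_inv_cancel_right]
    rw [h3] at h2
    obtain ⟨z, hz⟩ := exists_dual h he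
    rw [h.symm] at hz
    have h4 := (h1 z).symm.trans (h2 z)
    rw [hz, one_smul, one_smul, add_assoc, add_assoc] at h4
    have h5 := add_left_cancel h4
    have h6 : x i • w' + w' = (B z w' + B z (x i • w')) • e := by
      have h7 : x i • w' = w' + (B z w' + c' * 1) • e - (B z (x i • w') + c' * 1) • e := eq_sub_of_add_eq h5.symm
      have h8 : x i • w' + w' = (2 : F) • (w' - B z (x i • w') • e) + (B z w' + B z (x i • w')) • e := by
        nth_rewrite 1 [h7]
        module
      rw [h8, h.two, zero_smul, zero_add]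
    obtain ⟨b, hb⟩ := fpf1 h hdim (hlin i) (hx.pow i) (hodd i hi1) (hx.ne i) he (hfix i) he' h6
    have h9 : ∀ z, g • z = z + (c' * B z e) • e := by
      intro z
      have h10 : z + B z e • b • e + (B z (b • e) + c' * B z e) • e =
          z + (c' * B z e) • e + (2 : F) • ((b * B z e) • e) := by
        rw [map_smul, smul_eq_mul]; module
      rw [h1 z, hb, h10, h.two, zero_smul, add_zero]
    apply h.ext
    intro z
    rw [mul_smul, mul_smul, h9, h9, smul_add, h.lin (hlin j), hfix]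
    have h10 := h.isom (hlin j) z e
    rw [hfix] at h10
    rw [h10]
  · refine fin1 hq h he hu (N.mul_mem (N.mul_mem (N.mul_mem hu0N (hlin j0)) (N.inv_mem hu0N)) (N.inv_mem (hlin j0)))
      (by rw [map_add, hew, hjw, add_zero]) ht fun b hb => ?_
    rw [add_comm] at hb
    obtain ⟨b', hb'⟩ := fpf1 h hdim (hlin j0) (hx.pow j0) (hodd j0 hj0) (hx.ne j0) he (hfix j0) hew hb
    exact hwe b' hb'

/-- the element `(a, b, c)` of the unipotent radical of the stabiliser of `⟨v, v'⟩` -/
def IsM (B : LinearMap.BilinForm F V) (v v' : V) (g : G) (a b c : F) : Prop :=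
  ∀ z : V, g • z = z + (a * B z v + c * B z v') • v + (b * B z v' + c * B z v) • v'

theorem IsM.swap {v v' : V} {g : G} {a b c : F} (h1 : IsM B v v' g a b c) : IsM B v' v g b a c := fun z => by
  rw [h1 z, add_right_comm]

theorem IsM.eq (h : Ev B N) {v v' : V} {g g' : G} {a b c : F} (h1 : IsM B v v' g a b c) (h2 : IsM B v v' g' a b c) : g = g' :=
  h.ext fun z => by rw [h1, h2]

theorem IsM.mul (h : Ev B N) {v v' : V} (hv : B v v' = 0) {g g' : G} {a b c a' b' c' : F} (hg : g ∈ N)
    (h1 : IsM B v v' g a b c) (h2 : IsM B v v' g' a' b' c') : IsM B v v' (g * g') (a + a') (b + b') (c + c') := by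
  intro z
  have h3 : g • v = v := by rw [h1, h.self, hv]; simp
  have h4 : g • v' = v' := by rw [h1, h.self, h.symm, hv]; simp
  rw [mul_smul, h2, smul_add, smul_add, h.lin hg, h.lin hg, h3, h4, h1]
  module

theorem IsM.sq (h : Ev B N) {v v' : V} (hv : B v v' = 0) {g : G} {a b c : F} (hg : g ∈ N) (h1 : IsM B v v' g a b c) :
    g * g = 1 := by
  apply h.ext
  intro z
  rw [IsM.mul h hv hg h1 h1 z, h.add_self, h.add_self, h.add_self, one_smul]
  simp

theorem IsM.inv (h : Ev B N) {v v' : V} (hv : B v v' = 0) {g : G} {a b c : F} (hg : g ∈ N) (h1 : IsM B v v' g a b c) :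
    g⁻¹ = g := inv_eq_of_mul_eq_one_left (h1.sq h hv hg)

theorem IsM.conj (h : Ev B N) {v v' : V} {g x : G} {a b c : F} (hx : x ∈ N) {l : F} (h1 : IsM B v v' g a b c)
    (hv : x • v = v) (hv' : x • v' = v' + l • v) : IsM B v v' (x * g * x⁻¹) (a + b * l ^ 2) b (c + b * l) := by
  intro z
  have h2 : ∀ y : V, B (x⁻¹ • z) y = B z (x • y) := fun y => by rw [← h.isom hx, smul_inv_smul]
  rw [mul_smul, mul_smul, h1, smul_add, smul_add, h.lin hx, h.lin hx, smul_inv_smul, h2, h2, hv, hv', map_add, map_smul,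
    smul_eq_mul]
  have h3 : z + (a * B z v + c * (B z v' + l * B z v)) • v + (b * (B z v' + l * B z v) + c * B z v) • (v' + l • v) =
      z + ((a + b * l ^ 2) * B z v + (c + b * l) * B z v') • v + (b * B z v' + (c + b * l) * B z v) • v' +
        (2 : F) • ((c * l * B z v) • v) := by module
  rw [h3, h.two, zero_smul, add_zero]

/-- **final step, short root elements** (`b ≠ 0`) -/
theorem fin2 [Finite F] (hq : 2 < Nat.card F) (h : Ev B N) {v v' w w' : V} (hvv : B v v' = 0) (hvw : B v w = 1)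
    (hvw' : B v w' = 0) (hv'w : B v' w = 0) (hv'w' : B v' w' = 1) {u : G} {μ : F} (hu : IsM B v v' u 0 0 μ) {t : G}
    {a b c : F} (ht : t ∈ N) (h1 : IsM B v v' t a b c) (hb : b ≠ 0) :
    u ∈ cmm (N ⊓ Subgroup.centralizer {u}) t := by
  obtain ⟨θ, hθ0, hθ1⟩ := exists_ne_01 hq
  have hθ2 := one_add_ne h hθ1
  have a1 : ∀ l : F, ∃ g ∈ N, g • v = v ∧ g • v' = v' + l • v := by
    intro l
    have h2 : B v (l • w') = 0 := by rw [map_smul, hvw', smul_zero]
    refine ⟨h.sr h2, h.sr_mem h2, ?_, ?_⟩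
    · rw [h.sr_apply, h.self, h2]; simp
    · rw [h.sr_apply, h.symm v' v, hvv, map_smul, hv'w']; simp
  have a2 : ∀ l : F, ∃ g ∈ N, g • v' = v' ∧ g • v = v + l • v' := by
    intro l
    have h2 : B v' (l • w) = 0 := by rw [map_smul, hv'w, smul_zero]
    refine ⟨h.sr h2, h.sr_mem h2, ?_, ?_⟩
    · rw [h.sr_apply, h.self, h2]; simp
    · rw [h.sr_apply, hvv, map_smul, hvw]; simp
  have e1 : ∀ l : F, ∃ g ∈ cmm (N ⊓ Subgroup.centralizer {u}) t, g ∈ N ∧ IsM B v v' g (b * l ^ 2) 0 (b * l) := by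
    intro l
    obtain ⟨g, hg, h2, h3⟩ := a1 l
    have h4 := h1.conj h hg h2 h3
    have h5 := hu.conj h hg h2 h3
    rw [zero_mul, zero_mul, add_zero, add_zero] at h5
    have h6 := h5.eq h hu
    rw [mul_inv_eq_iff_eq_mul] at h6
    refine ⟨g * t * g⁻¹ * t⁻¹, mem_cmm ⟨hg, Subgroup.mem_centralizer_singleton_iff.2 h6⟩,
      N.mul_mem (N.mul_mem (N.mul_mem hg ht) (N.inv_mem hg)) (N.inv_mem ht), ?_⟩
    rw [h1.inv h hvv ht]
    have h7 := h4.mul h hvv (N.mul_mem (N.mul_mem hg ht) (N.inv_mem hg)) h1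
    have h8 : a + b * l ^ 2 + a = b * l ^ 2 := by rw [add_right_comm, h.add_self, zero_add]
    have h9 : c + b * l + c = b * l := by rw [add_right_comm, h.add_self, zero_add]
    rw [h8, h9, h.add_self] at h7
    exact h7
  have e3 : ∀ l m : F, ∃ g ∈ cmm (N ⊓ Subgroup.centralizer {u}) t, g ∈ N ∧
      IsM B v v' g 0 (b * l ^ 2 * m ^ 2) (b * l ^ 2 * m) := by
    intro l m
    obtain ⟨g1, c1, n1, q1⟩ := e1 l
    obtain ⟨k, hk, h2, h3⟩ := a2 m
    have h4 := (q1.swap.conj h hk h2 h3).swap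
    have h5 := (hu.swap.conj h hk h2 h3).swap
    rw [zero_mul, zero_mul, add_zero, add_zero] at h5
    have h6 := h5.eq h hu
    rw [mul_inv_eq_iff_eq_mul] at h6
    have h7 := h4.mul h hvv (N.mul_mem (N.mul_mem hk n1) (N.inv_mem hk)) q1
    refine ⟨k * g1 * k⁻¹ * g1, (cmm _ _).mul_mem (cmm_conj ⟨hk, Subgroup.mem_centralizer_singleton_iff.2 h6⟩ c1) c1,
      N.mul_mem (N.mul_mem (N.mul_mem hk n1) (N.inv_mem hk)) n1, ?_⟩
    have h8 : b * l + b * l ^ 2 * m + b * l = b * l ^ 2 * m := by rw [add_right_comm, h.add_self, zero_add]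
    rw [h8, h.add_self, zero_add, add_zero] at h7
    exact h7
  set n : F := μ / (b * (1 + θ)) with hn
  obtain ⟨g1, c1, n1, q1⟩ := e3 1 n
  obtain ⟨g2, c2, n2, q2⟩ := e3 θ (n / θ)
  have m1 := q1.mul h hvv n1 q2
  have h2 : b * 1 ^ 2 * n ^ 2 + b * θ ^ 2 * (n / θ) ^ 2 = 0 := by
    have h3 : b * θ ^ 2 * (n / θ) ^ 2 = b * n ^ 2 := by field_simp
    rw [h3, one_pow, mul_one, h.add_self]
  have h3 : b * 1 ^ 2 * n + b * θ ^ 2 * (n / θ) = μ := by
    have h4 : b * θ ^ 2 * (n / θ) = b * θ * n := by field_simp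
    rw [h4, hn]
    field_simp
  rw [h2, h3, add_zero] at m1
  have h6 := (cmm _ _).mul_mem c1 c2
  rwa [← hu.eq h m1] at h6

theorem nu_nu (h : Ev B N) {u : G} (hu2 : u * u = 1) (z : V) : u • (u • z + z) = u • z + z := by
  rw [smul_add, ← mul_smul, hu2, one_smul, add_comm]

/-- the fixed space of `u` is totally isotropic when it is the commutator space -/
theorem iso_fix (h : Ev B N) {u : G} (hu : u ∈ N) (hu2 : u * u = 1)
    (hru : ∀ z : V, u • z = z → ∃ y : V, u • y + y = z) {z z' : V} (hz : u • z = z) (hz' : u • z' = z') : B z z' = 0 := by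
  obtain ⟨y, rfl⟩ := hru z hz
  rw [adj h hu hu2, hz', h.vadd_self, map_zero]

/-- fixed-point-freeness -/
theorem fpf2 (h : Ev B N) [FiniteDimensional F V] (h4 : finrank F V = 4) {u x : G} (hu : u ∈ N) (hu2 : u * u = 1)
    (hru : ∀ z : V, u • z = z → ∃ y : V, u • y + y = z) (hx : x ∈ N) {r : ℕ} (hxr : x ^ r = 1)
    (hr : r % 2 = 1) (hx1 : x ≠ 1) (hxu : u * x = x * u) {z : V} (hz : x • z = z) : z = 0 := by
  have hne := range_ne h hx hxr hr hx1
  by_contra hz0
  have h5 : finrank F (LinearMap.range (nu h hx)) = 2 := by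
    have h6 := LinearMap.finrank_range_add_finrank_ker (nu h hx)
    have h8 := ker_ne h hx hxr hr
    have h9 : finrank F (LinearMap.ker (nu h hx)) ≠ 0 := by
      intro h10
      rw [Submodule.finrank_eq_zero] at h10
      have h3 : z ∈ LinearMap.ker (nu h hx) := (mem_ker_nu h hx).2 hz
      rw [h10] at h3
      exact hz0 h3
    omega
  have hnd : ∀ d ∈ LinearMap.range (nu h hx), (∀ d' ∈ LinearMap.range (nu h hx), B d d' = 0) → d = 0 := by
    rintro d ⟨y, rfl⟩ h6
    refine nondeg_CD h hx hxr hr (fun c hc => ?_) fun y' => h6 _ ⟨y', rfl⟩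
    rw [nu_apply, h.symm]
    exact orth h hx hc y
  have hfix : ∀ d ∈ LinearMap.range (nu h hx), u • d = d := by
    intro d hd
    by_cases hd0 : d = 0
    · rw [hd0, smul_zero]
    have h6 : B d (u • d + d) = 0 := by
      obtain ⟨y, rfl⟩ := hd
      exact q_zero h hu hu2 hx hxu y
    have h7 : u • d + d ∈ LinearMap.range (nu h hx) := by
      obtain ⟨y, rfl⟩ := hd
      refine ⟨u • y + y, ?_⟩
      rw [nu_apply, nu_apply]
      have h3 : u • x • y = x • u • y := by rw [← mul_smul, hxu, mul_smul]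
      rw [smul_add, smul_add, h3]; abel
    obtain ⟨c, hc⟩ := plane h h5 hnd hd h7 hd0 h6
    have h8 := nu_nu h hu2 d
    rw [hc, h.lin hu] at h8
    by_cases hc0 : c = 0
    · rw [hc0, zero_smul] at hc
      have h9 := eq_neg_of_add_eq_zero_left hc
      rwa [h.vneg] at h9
    · exact smul_right_injective V hc0 h8
  have h6 : LinearMap.range (nu h hx) = ⊥ := by
    rw [eq_bot_iff]
    intro d hd
    exact hnd d hd fun d' hd' => iso_fix h hu hu2 hru (hfix d hd) (hfix d' hd')
  rw [h6, finrank_bot] at h5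
  omega

/-- all elements of `N` which are trivial on the fixed space of `u` -/
def UE (N : Subgroup G) (V : Type*) [AddCommGroup V] [DistribMulAction G V] (u : G) : Subgroup G where
  carrier := {g | g ∈ N ∧ ∀ z : V, u • z = z → g • z = z}
  one_mem' := ⟨N.one_mem, fun z _ => one_smul _ z⟩
  mul_mem' := by
    rintro g g' ⟨hg, h1⟩ ⟨hg', h2⟩
    exact ⟨N.mul_mem hg hg', fun z hz => by rw [mul_smul, h2 z hz, h1 z hz]⟩
  inv_mem' := by
    rintro g ⟨hg, h1⟩
    exact ⟨N.inv_mem hg, fun z hz => by rw [inv_smul_eq_iff, h1 z hz]⟩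

theorem UE_fix (h : Ev B N) {u : G} (hu : u ∈ N) (hu2 : u * u = 1) {g : G} (hg : g ∈ UE N V u) (z : V) :
    u • (g • z + z) = g • z + z := by
  have h1 : u • (g • z + z) + (g • z + z) = 0 := by
    apply h.nd
    intro a
    rw [adj h hu hu2, map_add B, LinearMap.add_apply]
    have h2 : B (g • z) (u • a + a) = B z (u • a + a) := by
      rw [← h.isom hg.1 z, hg.2 _ (nu_nu h hu2 a)]
    rw [h2, h.add_self]
  have h2 := eq_neg_of_add_eq_zero_left h1
  rwa [h.vneg] at h2

theorem UE_sq (h : Ev B N) {u : G} (hu : u ∈ N) (hu2 : u * u = 1) {g : G} (hg : g ∈ UE N V u) : g * g = 1 := by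
  apply h.ext
  intro z
  have h1 := hg.2 _ (UE_fix h hu hu2 hg z)
  rw [smul_add, add_comm (g • z) z] at h1
  rw [mul_smul, one_smul]
  exact add_right_cancel h1

theorem UE_conj (h : Ev B N) {u x g : G} (hx : x ∈ N) (hxu : u * x = x * u) (hg : g ∈ UE N V u) :
    x * g * x⁻¹ ∈ UE N V u := by
  refine ⟨N.mul_mem (N.mul_mem hx hg.1) (N.inv_mem hx), fun z hz => ?_⟩
  have h1 : u • x⁻¹ • z = x⁻¹ • z := by
    rw [eq_inv_smul_iff, ← mul_smul, ← hxu, mul_smul, smul_inv_smul, hz]
  rw [mul_smul, mul_smul, hg.2 _ h1, smul_inv_smul]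

theorem UE_form (h : Ev B N) [FiniteDimensional F V] {u x g : G} (hu : u ∈ N) (hu2 : u * u = 1) (hx : x ∈ N)
    (hfpf : ∀ z : V, x • z = z → z = 0) (hg : g ∈ UE N V u) (hgx : g * x = x * g) (z : V) : B z (g • z + z) = 0 := by
  have h1 : Function.Injective (nu h hx) := by
    rw [← LinearMap.ker_eq_bot, eq_bot_iff]
    intro y hy
    exact hfpf y ((mem_ker_nu h hx).1 hy)
  obtain ⟨y, rfl⟩ := (LinearMap.injective_iff_surjective.1 h1) z
  exact q_zero h hg.1 (UE_sq h hu hu2 hg) hx hgx y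

/-- the elements of `UE` with trivial form -/
theorem UE_isM (h : Ev B N) {u g : G} (hu : u ∈ N) (hu2 : u * u = 1) (hg : g ∈ UE N V u)
    (hform : ∀ z : V, B z (g • z + z) = 0) {v v' w w' : V} (hE : ∀ z : V, u • z = z → ∃ a b : F, a • v + b • v' = z)
    (hvw : B v w = 1) (hvw' : B v w' = 0) (hv'w : B v' w = 0) (hv'w' : B v' w' = 1) : ∃ μ, IsM B v v' g 0 0 μ := by
  have h1 : ∀ z : V, ∃ ab : F × F, ab.1 • v + ab.2 • v' = g • z + z := fun z => by
    obtain ⟨a, b, hab⟩ := hE _ (UE_fix h hu hu2 hg z)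
    exact ⟨(a, b), hab⟩
  choose f hf using h1
  have h2 : ∀ z y : V, (f z).1 * B v y + (f z).2 * B v' y = (f y).1 * B z v + (f y).2 * B z v' := by
    intro z y
    have h3 := adj h hg.1 (UE_sq h hu hu2 hg) z y
    rw [← hf, ← hf] at h3
    simpa only [map_add, map_smul, LinearMap.add_apply, LinearMap.smul_apply, smul_eq_mul] using h3
  have h3 : ∀ z, (f z).1 = (f w).1 * B z v + (f w).2 * B z v' := fun z => by
    have := h2 z w
    rwa [hvw, hv'w, mul_one, mul_zero, add_zero] at this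
  have h4 : ∀ z, (f z).2 = (f w').1 * B z v + (f w').2 * B z v' := fun z => by
    have := h2 z w'
    rwa [hvw', hv'w', mul_one, mul_zero, zero_add] at this
  have h5 : (f w).1 = 0 := by
    have := hform w
    rw [← hf, map_add, map_smul, map_smul, h.symm w v, h.symm w v', hvw, hv'w, smul_zero, add_zero, smul_eq_mul,
      mul_one] at this
    exact this
  have h6 : (f w').2 = 0 := by
    have := hform w'
    rw [← hf, map_add, map_smul, map_smul, h.symm w' v, h.symm w' v', hvw', hv'w', smul_zero, zero_add, smul_eq_mul,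
      mul_one] at this
    exact this
  have h7 : (f w').1 = (f w).2 := by
    have := h3 w'
    rwa [h5, zero_mul, zero_add, h.symm w' v', hv'w', mul_one] at this
  refine ⟨(f w).2, fun z => ?_⟩
  have h8 := hf z
  rw [h3 z, h4 z, h5, h6, h7] at h8
  have h9 : g • z = z + (g • z + z) := by
    rw [add_comm (g • z) z, ← add_assoc, h.vadd_self, zero_add]
  rw [h9, ← h8, ← add_assoc]
  simp only [zero_mul, zero_add, add_zero]

/-- bases adapted to the fixed space of `u` -/
theorem exists_frame (h : Ev B N) [FiniteDimensional F V] {u : G} (hu : u ∈ N) (h2 : finrank F (LinearMap.ker (nu h hu)) = 2) :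
    ∃ v v' w w' : V, u • v = v ∧ u • v' = v' ∧ (∀ z : V, u • z = z → ∃ a b : F, a • v + b • v' = z) ∧ v ≠ 0 ∧
      B v w = 1 ∧ B v w' = 0 ∧ B v' w = 0 ∧ B v' w' = 1 := by
  let b := Module.finBasisOfFinrankEq F (LinearMap.ker (nu h hu)) h2
  have hb0 := (mem_ker_nu h hu).1 (b 0).2
  have hb1 := (mem_ker_nu h hu).1 (b 1).2
  have hli : ∀ s t : F, s • (b 0 : V) + t • (b 1 : V) = 0 → s = 0 ∧ t = 0 := by
    intro s t hst
    have h3 := Fintype.linearIndependent_iff.1 b.linearIndependent ![s, t] (by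
      rw [Fin.sum_univ_two]
      exact Subtype.ext (by simpa only [_root_.Fin.isValue, _root_.Matrix.cons_val_zero, _root_.Matrix.cons_val_one, _root_.Matrix.cons_val_fin_one, _root_.Submodule.coe_add, _root_.SetLike.val_smul, _root_.ZeroMemClass.coe_zero] using hst))
    exact ⟨h3 0, h3 1⟩
  have hv : (b 0 : V) ≠ 0 := fun h3 => by
    have := hli 1 0 (by rw [h3]; simp only [_root_.smul_zero, _root_.Fin.isValue, _root_.zero_smul, _root_.add_zero])
    exact one_ne_zero this.1
  have hv' : (b 1 : V) ≠ 0 := fun h3 => by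
    have := hli 0 1 (by rw [h3]; simp only [_root_.Fin.isValue, _root_.zero_smul, _root_.smul_zero, _root_.add_zero])
    exact one_ne_zero this.2
  have h3 : ∀ c : F, (b 0 : V) ≠ c • (b 1 : V) := fun c hc => by
    have := hli 1 (-c) (by rw [hc]; module)
    exact one_ne_zero this.1
  have h4 : ∀ c : F, (b 1 : V) ≠ c • (b 0 : V) := fun c hc => by
    have := hli (-c) 1 (by rw [hc]; module)
    exact one_ne_zero this.2
  obtain ⟨w, hw, hw2⟩ := exists_dual2 h hv' h3
  obtain ⟨w', hw', hw2'⟩ := exists_dual2 h hv h4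
  refine ⟨b 0, b 1, w, w', hb0, hb1, fun z hz => ?_, hv, hw, hw2', hw2, hw'⟩
  have h5 := b.sum_repr ⟨z, (mem_ker_nu h hu).2 hz⟩
  rw [Fin.sum_univ_two] at h5
  exact ⟨_, _, congrArg Subtype.val h5⟩

/-- **`u` is a short root element** -/
theorem fals2 {Ω ι : Type*} [Finite F] [FiniteDimensional F V] [Finite G] [MulAction G Ω] [Nonempty Ω] [Finite ι] (h : Ev B N)
    (hE : Env G Ω N) {x : ι → G} {r : ι → ℕ} (hx : PF x r) (hcov : Cov Ω x) (hdim : finrank F V = 4) (hq : 2 < Nat.card F)
    (hlin : ∀ i, x i ∈ N) {i0 : ι} (hi : r i0 = 2) {j0 : ι} (hj0 : j0 ≠ i0) (hu2 : x i0 * x i0 = 1)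
    (hru : ∀ z : V, x i0 • z = z → ∃ y : V, x i0 • y + y = z)
    (hk : finrank F (LinearMap.ker (nu h (hlin i0))) = 2) : False := by
  have hodd : ∀ j, j ≠ i0 → r j % 2 = 1 := fun j hj =>
    (hx.prime j).eq_two_or_odd.resolve_left fun h3 => hj (hx.inj (h3.trans hi.symm))
  have hfpf : ∀ j, j ≠ i0 → ∀ z : V, x j • z = z → z = 0 := fun j hj z hz =>
    fpf2 h hdim (hlin i0) hu2 hru (hlin j) (hx.pow j) (hodd j hj) (hx.ne j) (hx.comm _ _) hz
  obtain ⟨v, v', w, w', hv, hv', hspan, hv0, hvw, hvw', hv'w, hv'w'⟩ := exists_frame h (hlin i0) hk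
  have hvv : B v v' = 0 := iso_fix h (hlin i0) hu2 hru hv hv'
  have huU : x i0 ∈ UE N V (x i0) := ⟨hlin i0, fun z hz => hz⟩
  have hM : ∀ j, j ≠ i0 → ∀ g ∈ UE N V (x i0), g * x j = x j * g → ∃ μ, IsM B v v' g 0 0 μ := fun j hj g hg hgj =>
    UE_isM h (hlin i0) hu2 hg (UE_form h (hlin i0) hu2 (hlin j) (hfpf j hj) hg hgj) hspan hvw hvw' hv'w hv'w'
  obtain ⟨μ, hμ⟩ := hM j0 hj0 _ huU (hx.comm _ _)
  have hμ0 : μ ≠ 0 := by
    rintro rfl
    apply hx.ne i0
    apply h.ext
    intro z
    rw [hμ z]; simp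
  have hμ' : ∀ z, x i0 • z + z = μ • (B z v' • v + B z v • v') := by
    intro z
    rw [hμ z]
    have : z + (0 * B z v + μ * B z v') • v + (0 * B z v' + μ * B z v) • v' + z =
      (2 : F) • z + μ • (B z v' • v + B z v • v') := by module
    rw [this, h.two, zero_smul, zero_add]
  have hcen : ∀ {g : G} {m : F}, IsM B v v' g 0 0 m → ∀ z : V, g • z = z + (m / μ) • (x i0 • z + z) := by
    intro g m hg z
    rw [hμ', smul_smul, div_mul_cancel₀ _ hμ0, hg z]
    module
  have hu0N := h.tr_mem v 1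
  have hu0 : IsM B v v' (h.tr v 1) 1 0 0 := fun z => by
    rw [h.tr_apply]
    simp
  have hu0U : h.tr v 1 ∈ UE N V (x i0) := ⟨hu0N, fun z hz => by
    rw [h.tr_apply, iso_fix h (hlin i0) hu2 hru hz hv]; simp⟩
  -- the element `t`
  have hjv : x i0 • x j0 • v = x j0 • v := by rw [← mul_smul, hx.comm, mul_smul, hv]
  obtain ⟨α, β, hαβ⟩ := hspan _ hjv
  have hu1 : IsM B v v' (x j0 * h.tr v 1 * (x j0)⁻¹) (α ^ 2) (β ^ 2) (α * β) := by
    intro z
    have h2 : B ((x j0)⁻¹ • z) v = B z (x j0 • v) := by rw [← h.isom (hlin j0), smul_inv_smul]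
    rw [mul_smul, mul_smul, h.tr_apply, smul_add, h.lin (hlin j0), smul_inv_smul, h2, ← hαβ, map_add, map_smul, map_smul,
      smul_eq_mul, smul_eq_mul]
    module
  have hu1N : x j0 * h.tr v 1 * (x j0)⁻¹ ∈ N := N.mul_mem (N.mul_mem (hlin j0) hu0N) (N.inv_mem (hlin j0))
  have ht := hu0.mul h hvv hu0N hu1
  have ht' : h.tr v 1 * (x j0 * h.tr v 1 * (x j0)⁻¹) = h.tr v 1 * x j0 * (h.tr v 1)⁻¹ * (x j0)⁻¹ := by
    rw [h.tr_inv]; group
  have htN := N.mul_mem hu0N hu1N
  rw [ht'] at ht htN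
  refine two_rule hE hx hcov hi (U := UE N V (x i0)) ?_ huU (fun j g hg => UE_conj h (hlin j) (hx.comm _ _) hg) ?_ hj0
    hu0U ?_
  · intro g hg
    exact UE_sq h (hlin i0) hu2 hg
  · intro i j hi1 hj1 g hg hgi
    obtain ⟨m, hm⟩ := hM i hi1 g hg hgi
    apply h.ext
    intro z
    have h3 : x i0 • x j • z = x j • x i0 • z := by rw [← mul_smul, hx.comm, mul_smul]
    rw [mul_smul, mul_smul, hcen hm, hcen hm z, smul_add (x j) z, h.lin (hlin j), smul_add (x j), h3]
  · by_cases hβ : β = 0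
    · have hα : 1 + α ≠ 0 := by
        intro h3
        have hα1 : α = 1 := by linear_combination h3 - h.two
        rw [hβ, hα1, one_smul, zero_smul, add_zero] at hαβ
        exact hv0 (hfpf j0 hj0 v hαβ.symm)
      have ha : 1 + α ^ 2 ≠ 0 := by
        have : 1 + α ^ 2 = (1 + α) * (1 + α) := by linear_combination (-α) * h.two
        rw [this]
        exact mul_ne_zero hα hα
      exact fin2 hq h (by rw [h.symm, hvv]) hv'w' hv'w hvw' hvw hμ.swap htN ht.swap ha
    · exact fin2 hq h hvv hvw hvw' hv'w hv'w' hμ htN ht (by rw [zero_add]; exact pow_ne_zero 2 hβ)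

end geo

/-- **`Sp₄(q)`, `q ≥ 4` even: a cover contains no involution of the linear group** -/
theorem m2u {F V G Ω S : Type} [Field F] [Finite F] [AddCommGroup V] [Module F V] [FiniteDimensional F V] [Group G]
    [Finite G] [DistribMulAction G V] {B : LinearMap.BilinForm F V} {N : Subgroup G} (h : Ev B N) [MulAction G Ω]
    [Nonempty Ω] (hE : Env G Ω N) [Group S] [Finite S] (hIH : IH (Nat.card S)) (eS : N ≃* S) {ι : Type} [Finite ι]
    {x : ι → G} {r : ι → ℕ} (hx : PF x r) (hcov : Cov Ω x) (hdim : finrank F V = 4) (hq : 2 < Nat.card F)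
    (hlin : ∀ i, x i ∈ N) (i : ι) (hi : r i = 2) : False := by
  have hu2 : x i * x i = 1 := by
    have := hx.pow i
    rwa [hi, pow_two] at this
  by_cases hj : ∃ j0, j0 ≠ i
  swap
  · push Not at hj
    refine hE.not_all (hx.ne i) fun ω => ?_
    obtain ⟨j, hj'⟩ := hcov ω
    rw [hj j] at hj'
    exact hj'
  obtain ⟨j0, hj0⟩ := hj
  have hle : LinearMap.range (nu h (hlin i)) ≤ LinearMap.ker (nu h (hlin i)) := by
    rintro _ ⟨z, rfl⟩
    rw [mem_ker_nu, nu_apply]
    exact nu_nu h hu2 z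
  have h1 := LinearMap.finrank_range_add_finrank_ker (nu h (hlin i))
  have h2 := Submodule.finrank_mono hle
  have h3 : finrank F (LinearMap.range (nu h (hlin i))) ≠ 0 := by
    intro h4
    rw [Submodule.finrank_eq_zero] at h4
    apply hx.ne i
    apply h.inj
    intro z
    have h5 : nu h (hlin i) z ∈ LinearMap.range (nu h (hlin i)) := ⟨z, rfl⟩
    rw [h4, Submodule.mem_bot] at h5
    exact (mem_ker_nu h (hlin i)).1 (LinearMap.mem_ker.2 h5)
  have h4 : finrank F (LinearMap.range (nu h (hlin i))) = 1 ∨ finrank F (LinearMap.range (nu h (hlin i))) = 2 := by omega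
  rcases h4 with h4 | h4
  · obtain ⟨e, c, he, hc, hu⟩ := type1 h (hlin i) hu2 h4
    exact fals1 h hE hx hcov hdim hq hlin hi hj0 he hc hu
  · have h5 : finrank F (LinearMap.ker (nu h (hlin i))) = 2 := by omega
    have h6 := Submodule.eq_of_le_of_finrank_eq hle (h4.trans h5.symm)
    refine fals2 h hE hx hcov hdim hq hlin hi hj0 hu2 (fun z hz => ?_) h5
    have h7 := (mem_ker_nu h (hlin i)).2 hz
    rw [← h6] at h7
    obtain ⟨y, hy⟩ := h7
    exact ⟨y, hy⟩

end Cfsg.Agent.H547.RC

private theorem dce_3ee635a332f8 : _root_.True := by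
  try have : _root_.True := by simp only [_root_.Cfsg.Agent.H385.RC.Ev.sr.congr_simp]
  try have : _root_.True := by simp only [_root_.Cfsg.Agent.H385.RC.Ev.tr.congr_simp]
  exact _root_.True.intro
end

-- part: H721/RC/EvenStmt
section
set_option linter.all false

/-!
# S3510, row F, even dimension: the boxes of `tools/plans/S3510_F_even_stubs.lean.txt` as `Prop`s (helper721)
-/

set_option autoImplicit false
open Cfsg

namespace Cfsg.Agent.H721.RC

open QuadraticMap MulAction
open Cfsg.Agent.LieClassical.OrthCore Cfsg.Agent.LieClassical.OrthTrans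
open Cfsg.Agent.LieClassical.OrthSimple Cfsg.Agent.ClassicalGeometry.OrthSemi
open Cfsg.Agent.ClassicalGeometry.OrthAut1 Cfsg.Agent.H106.RC Cfsg.Agent.H93.RC

/-- `D` is preserved by everything commuting with the `T i` -/
def BicInv {F V : Type} [Field F] [AddCommGroup V] [Module F V] {ι : Type} (T : ι → V ≃ₗ[F] V)
    (D : Submodule F V) : Prop :=
  ∀ f : V →ₗ[F] V, (∀ i v, f (T i v) = T i (f v)) → ∀ v ∈ D, f v ∈ D

/-- BOX B -/
def BoxB : Prop :=
  ∀ {F V : Type} [Field F] [Finite F] [AddCommGroup V] [Module F V] [FiniteDimensional F V]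
    {Q : QuadraticForm F V} {G Ω : Type} [Group G] [Finite G] [MulAction G Ω] [Nonempty Ω]
    {N : Subgroup G} {ρ : ↥(E Q) →* G} (_ : Good Q) (_ : Env G Ω N) (_ : Rep Q N ρ)
    (_ : IH (Nat.card (P Q))) {p : ℕ} [CharP F p] {ι : Type} [Finite ι] {x : ι → G}
    {M : ι → Gam Q} {r : ι → ℕ} (_ : ∀ i, Lf ρ (x i) (M i)) (_ : ∀ i, IsLin (M i)) (_ : PF x r)
    (_ : Cov Ω x) (_ : 8 ≤ Module.finrank F V) (_ : ¬ (Nat.card F = 2 ∧ Module.finrank F V = 8))
    (W W' : Submodule F V) (_ : IsCompl W W') (_ : ∀ v ∈ W, Q v = 0) (_ : ∀ v ∈ W', Q v = 0)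
    (_ : ∀ i, ∀ v ∈ W, (M i).1 v ∈ W) (_ : ∀ i, ∀ v ∈ W', (M i).1 v ∈ W'), False

/-- BOX C -/
def BoxC : Prop :=
  ∀ {F V : Type} [Field F] [Finite F] [AddCommGroup V] [Module F V] [FiniteDimensional F V]
    {Q : QuadraticForm F V} {G Ω : Type} [Group G] [Finite G] [MulAction G Ω] [Nonempty Ω]
    {N : Subgroup G} {ρ : ↥(E Q) →* G} (_ : Good Q) (_ : Env G Ω N) (_ : Rep Q N ρ)
    (_ : IH (Nat.card (P Q))) {p : ℕ} [CharP F p] {ι : Type} [Finite ι] {x : ι → G}
    {M : ι → Gam Q} {r : ι → ℕ} (_ : ∀ i, Lf ρ (x i) (M i)) (_ : ∀ i, IsLin (M i)) (_ : PF x r)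
    (_ : Cov Ω x) (_ : 8 ≤ Module.finrank F V) (κ : V →ₗ[F] V) (s t : F)
    (_ : ∀ v, κ (κ v) = s • κ v - t • v) (_ : ∀ a : F, a * a - s * a + t ≠ 0)
    (_ : ∀ v, Q (κ v) = t * Q v) (_ : ∀ i v, (M i).1 (κ v) = κ ((M i).1 v)), False

/-- BOX D5 -/
def BoxD5 : Prop :=
  ∀ {F V : Type} [Field F] [Finite F] [AddCommGroup V] [Module F V] [FiniteDimensional F V]
    {Q : QuadraticForm F V} {G Ω : Type} [Group G] [Finite G] [MulAction G Ω] [Nonempty Ω]
    {N : Subgroup G} {ρ : ↥(E Q) →* G} (_ : Good Q) (_ : Env G Ω N) (_ : Rep Q N ρ)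
    (_ : IH (Nat.card (P Q))) {p : ℕ} [CharP F p] {ι : Type} [Finite ι] {x : ι → G}
    {M : ι → Gam Q} {r : ι → ℕ} (_ : ∀ i, Lf ρ (x i) (M i)) (_ : ∀ i, IsLin (M i)) (_ : PF x r)
    (_ : Cov Ω x) (_ : 10 ≤ Module.finrank F V) (κ : V →ₗ[F] V) (s t : F)
    (_ : ∀ v, κ (κ v) = s • κ v - t • v) (_ : ∀ a : F, a * a - s * a + t ≠ 0)
    (_ : ∀ v w, polar Q (κ v) w = polar Q v (κ w)) (_ : (2 : F) = 0 → ∀ v, polar Q v (κ v) = 0)
    (_ : ∀ i v, (M i).1 (κ v) = κ ((M i).1 v)), False

/-- BOX D4m -/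
def BoxD4m : Prop :=
  ∀ {F V : Type} [Field F] [Finite F] [AddCommGroup V] [Module F V] [FiniteDimensional F V]
    {Q : QuadraticForm F V} {G Ω : Type} [Group G] [Finite G] [MulAction G Ω] [Nonempty Ω]
    {N : Subgroup G} {ρ : ↥(E Q) →* G} (_ : Good Q) (_ : Env G Ω N) (_ : Rep Q N ρ)
    (_ : IH (Nat.card (P Q))) {p : ℕ} [CharP F p] {ι : Type} [Finite ι] {x : ι → G}
    {M : ι → Gam Q} {r : ι → ℕ} (_ : ∀ i, Lf ρ (x i) (M i)) (_ : ∀ i, IsLin (M i)) (_ : PF x r)
    (_ : Cov Ω x) (_ : Module.finrank F V = 8) (κ : V →ₗ[F] V) (s t : F)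
    (_ : ∀ v, κ (κ v) = s • κ v - t • v) (_ : ∀ a : F, a * a - s * a + t ≠ 0)
    (_ : ∀ v w, polar Q (κ v) w = polar Q v (κ w)) (_ : (2 : F) = 0 → ∀ v, polar Q v (κ v) = 0)
    (_ : ∀ i v, (M i).1 (κ v) = κ ((M i).1 v))
    (_ : ∀ U : Submodule F V, (∀ v ∈ U, Q v = 0) → (∀ v ∈ U, κ v ∈ U) → Module.finrank F U ≠ 4), False

/-- BOX D4p -/
def BoxD4p : Prop :=
  ∀ {F V : Type} [Field F] [Finite F] [AddCommGroup V] [Module F V] [FiniteDimensional F V]
    {Q : QuadraticForm F V} {G Ω : Type} [Group G] [Finite G] [MulAction G Ω] [Nonempty Ω]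
    {N : Subgroup G} {ρ : ↥(E Q) →* G} (_ : Good Q) (_ : Env G Ω N) (_ : Rep Q N ρ)
    (_ : IH (Nat.card (P Q))) {p : ℕ} [CharP F p] {ι : Type} [Finite ι] {x : ι → G}
    {M : ι → Gam Q} {r : ι → ℕ} (_ : ∀ i, Lf ρ (x i) (M i)) (_ : ∀ i, IsLin (M i)) (_ : PF x r)
    (_ : Cov Ω x) (_ : Module.finrank F V = 8) (κ : V →ₗ[F] V) (s t : F)
    (_ : ∀ v, κ (κ v) = s • κ v - t • v) (_ : ∀ a : F, a * a - s * a + t ≠ 0)
    (_ : ∀ v w, polar Q (κ v) w = polar Q v (κ w)) (_ : (2 : F) = 0 → ∀ v, polar Q v (κ v) = 0)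
    (_ : ∀ i v, (M i).1 (κ v) = κ ((M i).1 v))
    (U : Submodule F V) (_ : ∀ v ∈ U, Q v = 0) (_ : ∀ v ∈ U, κ v ∈ U)
    (_ : Module.finrank F U = 4)
    (_ : ∀ i, r i = 2 → (∃ a b : F, ∀ v, (M i).1 v = a • v + b • κ v) ∨
      ((2 : F) = 0 ∧ ((∀ v ∈ U, (M i).1 v ∈ U) ∨ ∀ v ∈ U, (M i).1 v ∈ U → v = 0))), False

/-- BOX E0 (norm form of a linear lift, `n` even). -/
def BoxE0 : Prop :=
  ∀ {F V : Type} [Field F] [Finite F] [AddCommGroup V] [Module F V] [FiniteDimensional F V]
    {Q : QuadraticForm F V} (_ : Good Q) {p : ℕ} [CharP F p] (M : Gam Q) (_ : IsLin M) {r : ℕ}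
    (_ : r.Prime) (_ : IsScal (M ^ r)),
    (∃ (T : V ≃ₗ[F] V) (a : F), T ∈ O Q ∧ T ^ r = 1 ∧ a ≠ 0 ∧ ∀ v, M.1 v = a • T v) ∨
    (r = 2 ∧ p ≠ 2 ∧ ∃ c : F, c ≠ 0 ∧ (∀ v, M.1 (M.1 v) = c • v) ∧
      ((∀ v, Q (M.1 v) = -c * Q v) ∨ ((∀ v, Q (M.1 v) = c * Q v) ∧ ¬ IsSquare c)))

/-- the final situation: commuting isometries `T i` of prime orders `r i` -/
def Fin8 (p : ℕ) (C : ∀ {F V G Ω : Type} [Field F] [AddCommGroup V] [Module F V] [Group G] [MulAction G Ω]
    (Q : QuadraticForm F V) (ι : Type) (x : ι → G) (r : ι → ℕ) (T : ι → V ≃ₗ[F] V), Prop) : Prop :=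
  ∀ {F V : Type} [Field F] [Finite F] [AddCommGroup V] [Module F V] [FiniteDimensional F V]
    {Q : QuadraticForm F V} {G Ω : Type} [Group G] [Finite G] [MulAction G Ω] [Nonempty Ω]
    {N : Subgroup G} {ρ : ↥(E Q) →* G} (_ : Good Q) (_ : Env G Ω N) (_ : Rep Q N ρ)
    (_ : IH (Nat.card (P Q))) [CharP F p] {ι : Type} [Finite ι] {x : ι → G}
    {M : ι → Gam Q} {r : ι → ℕ} (_ : ∀ i, Lf ρ (x i) (M i)) (_ : PF x r)
    (_ : Cov Ω x) (_ : 8 ≤ Module.finrank F V) (_ : Even (Module.finrank F V))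
    (T : ι → V ≃ₗ[F] V) (_ : ∀ i, T i ∈ O Q) (_ : ∀ i v, (M i).1 v = T i v)
    (_ : ∀ i, T i ^ r i = 1) (_ : ∀ i j, T i * T j = T j * T i), C (Ω := Ω) Q ι x r T

/-- BOX H -/
def BoxH : Prop := ∀ p : ℕ, Fin8 p (fun {F V _ _ _ _ _ _ _} Q ι _ r T =>
  ∃ D : Submodule F V, D ≠ ⊥ ∧ D ≠ ⊤ ∧ Nondeg (Q.comp D.subtype) ∧
    BicInv (fun i : {i : ι // r i ≠ p} => T i) D)

/-- BOX E5 -/
def BoxE5 : Prop := ∀ p : ℕ, Fin8 p (fun {F V _ _ _ _ _ _ _} Q ι _ r T =>
  (∃ D : Submodule F V, D ≠ ⊥ ∧ D ≠ ⊤ ∧ Nondeg (Q.comp D.subtype) ∧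
    BicInv (fun i : {i : ι // r i ≠ p} => T i) D) → (∀ i, r i ≠ p) → False)

/-- BOX E6 -/
def BoxE6 : Prop := ∀ p : ℕ, Fin8 p (fun {F V _ _ _ _ _ _ _} Q ι _ r T =>
  (∃ D : Submodule F V, D ≠ ⊥ ∧ D ≠ ⊤ ∧ Nondeg (Q.comp D.subtype) ∧
    BicInv (fun i : {i : ι // r i ≠ p} => T i) D) → p ≠ 2 → ∀ i₀, r i₀ = p → False)

/-- BOX E7 -/
def BoxE7 : Prop := Fin8 2 (fun {F V _ _ _ _ _ _ _} Q ι _ r T =>
  (∃ D : Submodule F V, D ≠ ⊥ ∧ D ≠ ⊤ ∧ Nondeg (Q.comp D.subtype) ∧
    BicInv (fun i : {i : ι // r i ≠ 2} => T i) D) → ∀ i₀, r i₀ = 2 → False)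

end Cfsg.Agent.H721.RC
end

-- part: H384/RC/Asm
section
set_option linter.all false
open scoped Cfsg.Agent.FastGrp

/-!
# S3510 part B: assembly (helper384)
-/

set_option autoImplicit false
open MulAction

namespace Cfsg.Agent.H384.RC

open Cfsg.Agent.H106.RC

/-- a nontrivial element of finite order has a power of prime order -/
theorem exists_pow_prime {G : Type*} [Group G] [Finite G] {z : G} (hz : z ≠ 1) :
    ∃ (r : ℕ) (k : ℕ), r.Prime ∧ (z ^ k) ^ r = 1 ∧ z ^ k ≠ 1 := by
  have h1 : orderOf z ≠ 1 := fun h => hz (orderOf_eq_one_iff.1 h)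
  obtain ⟨r, hr, k, hk⟩ := Nat.exists_prime_and_dvd h1
  refine ⟨r, k, hr, ?_, ?_⟩
  · rw [← pow_mul, mul_comm, ← hk, pow_orderOf_eq_one]
  · intro h
    have h2 := orderOf_dvd_of_pow_eq_one h
    have h3 := orderOf_pos z
    rw [hk] at h2 h3
    have h4 : 0 < k := Nat.pos_of_ne_zero (by rintro rfl; simp at h3)
    have h5 := Nat.le_of_dvd h4 h2
    have := hr.two_le
    nlinarith

/-- in a cyclic group two elements of order dividing the prime `r`, the first nontrivial: the second
is a power of the first -/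
theorem pow_eq_of_zpowers {G : Type*} [Group G] [Finite G] {g a b : G} {r : ℕ} (hr : r.Prime)
    (ha : a ∈ Subgroup.zpowers g) (hb : b ∈ Subgroup.zpowers g) (ha1 : a ≠ 1) (har : a ^ r = 1)
    (hbr : b ^ r = 1) : b ∈ Subgroup.zpowers a := by
  classical
  haveI := Fact.mk hr
  have hoa : orderOf a = r := orderOf_eq_prime har ha1
  -- elements of exponent `r` in the cyclic group `⟨g⟩`
  haveI : Fintype (Subgroup.zpowers g) := Fintype.ofFinite _
  have h1 := IsCyclic.card_pow_eq_one_le (α := Subgroup.zpowers g) hr.pos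
  let f : Subgroup.zpowers a → {z : Subgroup.zpowers g // z ^ r = 1} := fun z =>
    ⟨⟨z, by
      have : Subgroup.zpowers a ≤ Subgroup.zpowers g := by
        rw [Subgroup.zpowers_le]; exact ha
      exact this z.2⟩, by
      apply Subtype.ext
      obtain ⟨k, hk⟩ := Subgroup.mem_zpowers_iff.1 z.2
      show (z : G) ^ r = 1
      rw [← hk, ← zpow_natCast, ← zpow_mul, mul_comm, zpow_mul, zpow_natCast, har, one_zpow]⟩
  have hf : Function.Injective f := by
    intro z w h
    apply Subtype.ext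
    have := congrArg (fun t => ((t : {z : Subgroup.zpowers g // z ^ r = 1}).1 : G)) h
    exact this
  have hcard : Nat.card {z : Subgroup.zpowers g // z ^ r = 1} ≤ Nat.card (Subgroup.zpowers a) := by
    rw [Nat.card_zpowers, hoa, Nat.card_eq_fintype_card, Fintype.card_subtype]
    exact h1
  have hsurj : Function.Surjective f := by
    have hbij := (Nat.bijective_iff_injective_and_card f).2 ⟨hf, le_antisymm
      (Nat.card_le_card_of_injective f hf) hcard⟩
    exact hbij.2
  obtain ⟨z, hz⟩ := hsurj ⟨⟨b, hb⟩, Subtype.ext hbr⟩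
  have : (z : G) = b := by
    have := congrArg (fun t => ((t : {z : Subgroup.zpowers g // z ^ r = 1}).1 : G)) hz
    exact this
  rw [← this]
  exact z.2

/-- assembly: `L` is a subgroup of index at most two -/
theorem rc_of_killed {S : Type*} [Group S] [Finite S] (L : Subgroup (MulAut S))
    (hL2 : ∀ a b : MulAut S, a ∉ L → b ∉ L → a * b ∈ L) (hL : ∀ g ∈ L, RCe S g)
    (hK : ∀ t : MulAut S, t ∉ L → t * t = 1 → Killed t) : RC S := by
  classical
  intro g
  by_cases hgL : g ∈ L
  · exact hL g hgL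
  haveI : Finite (MulAut S) := Finite.of_injective (fun f : MulAut S => (f : S → S)) (by
    intro a b h
    exact DFunLike.coe_injective h)
  intro H hH
  by_contra hcon
  push Not at hcon
  -- the prime parts
  have hdiv : ∀ r : ℕ, r ∣ orderOf g → r.Prime → ∃ x : MulAut S, x ∈ Subgroup.zpowers g ∧
      x ^ r = 1 ∧ x ≠ 1 := by
    intro r hr hrp
    obtain ⟨k, hk⟩ := hr
    refine ⟨g ^ k, Subgroup.pow_mem _ (Subgroup.mem_zpowers g) k, ?_, ?_⟩
    · rw [← pow_mul, mul_comm, ← hk, pow_orderOf_eq_one]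
    · intro h
      have h2 := orderOf_dvd_of_pow_eq_one h
      have h3 := orderOf_pos g
      rw [hk] at h2 h3
      have h4 : 0 < k := Nat.pos_of_ne_zero (by rintro rfl; simp at h3)
      have h5 := Nat.le_of_dvd h4 h2
      have := hrp.two_le
      nlinarith
  let P := {r : ℕ // r ∣ orderOf g ∧ r.Prime}
  haveI : Finite P := by
    apply Set.Finite.to_subtype
    apply (Set.finite_le_nat (orderOf g)).subset
    intro r hr
    exact Nat.le_of_dvd (orderOf_pos g) hr.1
  let x : P → MulAut S := fun r => (hdiv r.1 r.2.1 r.2.2).choose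
  have hxg : ∀ r : P, x r ∈ Subgroup.zpowers g := fun r => (hdiv r.1 r.2.1 r.2.2).choose_spec.1
  have hxr : ∀ r : P, x r ^ (r : ℕ) = 1 := fun r => (hdiv r.1 r.2.1 r.2.2).choose_spec.2.1
  have hx1 : ∀ r : P, x r ≠ 1 := fun r => (hdiv r.1 r.2.1 r.2.2).choose_spec.2.2
  have hxc : ∀ z ∈ Subgroup.zpowers g, ∀ w ∈ Subgroup.zpowers g, z * w = w * z := by
    intro z hz w hw
    obtain ⟨i, rfl⟩ := Subgroup.mem_zpowers_iff.1 hz
    obtain ⟨j, rfl⟩ := Subgroup.mem_zpowers_iff.1 hw
    rw [← zpow_add, ← zpow_add, add_comm]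
  have hcov : ∀ s : S, ∃ r : P, MulAut.conj s * x r * (MulAut.conj s)⁻¹ ∈ H := by
    intro s
    obtain ⟨z, hz, hzH, hz1⟩ := hcon s
    obtain ⟨r, k, hr, h1, h2⟩ := exists_pow_prime hz1
    have hzk : z ^ k ∈ Subgroup.zpowers g := Subgroup.pow_mem _ hz k
    have hrd : r ∣ orderOf g := by
      haveI := Fact.mk hr
      rw [← orderOf_eq_prime h1 h2]
      exact orderOf_dvd_of_mem_zpowers hzk
    refine ⟨⟨r, hrd, hr⟩, ?_⟩
    obtain ⟨j, hj⟩ := Subgroup.mem_zpowers_iff.1
      (pow_eq_of_zpowers hr hzk (hxg ⟨r, hrd, hr⟩) h2 h1 (hxr ⟨r, hrd, hr⟩))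
    rw [← hj]
    have h3 : MulAut.conj s * z ^ k * (MulAut.conj s)⁻¹ ∈ H := by
      rw [← conj_pow]
      exact H.pow_mem hzH k
    rw [← conj_zpow]
    exact H.zpow_mem h3 j
  -- odd order elements are in `L`
  have hodd : ∀ (z : MulAut S) (k : ℕ), Odd k → z ^ k = 1 → z ∈ L := by
    rintro z k ⟨j, rfl⟩ h
    by_contra hz
    have h1 : (z * z) ^ j ∈ L := L.pow_mem (hL2 z z hz hz) j
    have h2 : z = ((z * z) ^ j)⁻¹ := by
      rw [eq_inv_iff_mul_eq_one, ← pow_two, ← pow_mul, ← pow_succ']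
      exact h
    rw [h2] at hz
    exact hz (L.inv_mem h1)
  by_cases h2 : 2 ∣ orderOf g
  swap
  · apply hgL
    exact hodd g (orderOf g) (by
      rw [← Nat.not_even_iff_odd, even_iff_two_dvd]; exact h2) (pow_orderOf_eq_one g)
  let p2 : P := ⟨2, h2, Nat.prime_two⟩
  by_cases ht : x p2 ∈ L
  · -- everything is in `L`
    have hxL : ∀ r : P, x r ∈ L := by
      intro r
      by_cases hr : (r : ℕ) = 2
      · have : r = p2 := Subtype.ext hr
        rw [this]; exact ht
      · exact hodd _ _ (r.2.2.odd_of_ne_two hr) (hxr r)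
    obtain ⟨g', hg'c, hg'⟩ := exists_gen x (fun r : P => (r : ℕ)) (fun r => r.2.2)
      Subtype.val_injective hxr (fun i j => hxc _ (hxg i) _ (hxg j))
    have hg'L : g' ∈ L := by
      have : Subgroup.closure (Set.range x) ≤ L := by
        rw [Subgroup.closure_le]
        rintro _ ⟨r, rfl⟩
        exact hxL r
      exact this hg'c
    obtain ⟨s, hs⟩ := hL g' hg'L H hH
    obtain ⟨r, hr⟩ := hcov s
    exact hx1 r (hs _ (hg' r) hr)
  · have hKt := hK (x p2) ht (by rw [← pow_two]; exact hxr p2)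
    apply hH
    -- odd primes
    let κ := {r : P // (r : ℕ) ≠ 2}
    refine hKt κ (fun r => x r.1) (fun r => (r.1 : ℕ)) (fun r => r.1.2.2) (fun r => r.2)
      (fun a b h => Subtype.ext (Subtype.ext h)) (fun r => hxr r.1) (fun r => hx1 r.1)
      (fun i j => hxc _ (hxg _) _ (hxg _)) (fun i => hxc _ (hxg _) _ (hxg _)) H ?_
    intro s
    obtain ⟨r, hr⟩ := hcov s
    by_cases hr2 : (r : ℕ) = 2
    · left
      have : r = p2 := Subtype.ext hr2
      rw [this] at hr
      exact hr
    · exact Or.inr ⟨⟨r, hr2⟩, hr⟩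

end Cfsg.Agent.H384.RC
end
end
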